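import Cfsg.Agent.Lib.Helper41.BG11Kit
import Cfsg.Agent.Lib.Helper41.BG11Aux
import Cfsg.Agent.Lib.Helper15.BG11Aux
import Cfsg.Agent.Lib.Helper15.BG12Defs3
import Cfsg.Agent.Lib.Helper31.PGrp
import Cfsg.Agent.Lib.Helper2.BG11AB
import Cfsg.Agent.Lib.Helper34.Lin2b
import Cfsg.Agent.S0058

/-!
# B&G 12.4, piece BG11-P4C (helper54, for helper41): in the bad case with `M_α = 1`,
`p ∈ σ(M)`.
-/

set_option autoImplicit false

open Cfsg Cfsg.Agent.Lib.Helper32 Cfsg.Agent.Lib.Helper32.BG10 Cfsg.Agent.Lib.Helper3.BG12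
open Cfsg.Agent.Lib.Helper41.BG11

namespace Cfsg.Agent.Lib.Helper54.BG11

open Cfsg.Agent.Lib.Helper15.BG12 Cfsg.Agent.Lib.Helper15.BG11 Cfsg.Agent.Lib.Helper2.BG12x
  Cfsg.Agent.Lib.Helper2.BG11

open scoped commutatorElement

universe u

variable {G : Type u} [Group G] [Finite G]

/-- `Ω₁(Z(S)) ≠ 1` for a nontrivial `p`-group `S` -/
theorem p4c_omegaZ_ne_bot {p : ℕ} [Fact p.Prime] {S : Subgroup G} (hSp : IsPGroup p S)
    (hS1 : S ≠ ⊥) : omegaZ p S ≠ ⊥ := by
  have hSnt : Nontrivial ↥S := (Subgroup.nontrivial_iff_ne_bot S).mpr hS1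
  have hcnt : Nontrivial (Subgroup.center ↥S) := hSp.center_nontrivial
  have hcp : IsPGroup p (Subgroup.center ↥S) := hSp.to_subgroup _
  have hdvd : p ∣ Nat.card (Subgroup.center ↥S) := by
    rcases hcp.card_eq_or_dvd with h1 | h1
    · exact absurd h1 (Finite.one_lt_card_iff_nontrivial.mpr hcnt).ne'
    · exact h1
  obtain ⟨c, hc⟩ := exists_prime_orderOf_dvd_card' p hdvd
  intro hbot
  have hcz : ((c : ↥S) : G) ∈ omegaZ p S := by
    refine mem_omegaZ.mpr ⟨(c : ↥S).2, fun s hs => ?_, ?_⟩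
    · have h1 := Subgroup.mem_center_iff.mp c.2 ⟨s, hs⟩
      exact congrArg Subtype.val h1
    · have h1 : c ^ p = 1 := by rw [← hc]; exact pow_orderOf_eq_one c
      have h2 := congrArg (fun t : Subgroup.center ↥S => (((t : ↥S)) : G)) h1
      simpa using h2
  rw [hbot, Subgroup.mem_bot] at hcz
  have hc1 : c = 1 := by
    apply Subtype.ext
    apply Subtype.ext
    exact hcz
  rw [hc1, orderOf_one] at hc
  exact (Fact.out : p.Prime).one_lt.ne hc

/-- a group acting on a nontrivial `p`-group `A` as a `p`-group has nontrivial fixed points -/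
theorem p4c_fix_ne_bot {p : ℕ} [Fact p.Prime] {A X : Subgroup G} (hA : IsPGroup p A)
    (hA1 : A ≠ ⊥) (hXA : X ≤ Subgroup.normalizer (A : Set G))
    (hX : ∀ x ∈ X, ∃ k : ℕ, x ^ (p ^ k) ∈ Subgroup.centralizer (A : Set G)) :
    A ⊓ Subgroup.centralizer (X : Set G) ≠ ⊥ := by
  classical
  let ψ : ↥(Subgroup.normalizer (A : Set G)) →* MulAut ↥A := A.normalizerMonoidHom
  let Γ : Subgroup (MulAut ↥A) := (X.subgroupOf (Subgroup.normalizer (A : Set G))).map ψ
  have hψ : ∀ (x : ↥(Subgroup.normalizer (A : Set G))) (a : ↥A),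
      ((ψ x a : ↥A) : G) = (x : G) * a * (x : G)⁻¹ := fun x a => rfl
  have hΓ : IsPGroup p Γ := by
    rintro ⟨γ, x, hx, rfl⟩
    obtain ⟨k, hk⟩ := hX (x : G) hx
    refine ⟨k, Subtype.ext ?_⟩
    show (ψ x) ^ (p ^ k) = 1
    rw [← map_pow]
    apply MulEquiv.ext
    intro a
    apply Subtype.ext
    rw [hψ]
    have h1 := Subgroup.mem_centralizer_iff.mp hk a a.2
    show ((x ^ (p ^ k) : ↥(Subgroup.normalizer (A : Set G))) : G) * a *
      ((x ^ (p ^ k) : ↥(Subgroup.normalizer (A : Set G))) : G)⁻¹ = a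
    rw [Subgroup.coe_pow, ← h1]
    group
  have hAnt : Nontrivial ↥A := (Subgroup.nontrivial_iff_ne_bot A).mpr hA1
  have hdvd : p ∣ Nat.card ↥A := by
    rcases hA.card_eq_or_dvd with h1 | h1
    · exact absurd h1 (Finite.one_lt_card_iff_nontrivial.mpr hAnt).ne'
    · exact h1
  have h1 : (1 : ↥A) ∈ MulAction.fixedPoints ↥Γ ↥A := by
    intro γ
    exact map_one (γ : MulAut ↥A)
  obtain ⟨b, hb, hb1⟩ := hΓ.exists_fixed_point_of_prime_dvd_card_of_fixed_point ↥A hdvd h1
  intro hbot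
  have hbm : (b : G) ∈ A ⊓ Subgroup.centralizer (X : Set G) := by
    refine ⟨b.2, ?_⟩
    show (b : G) ∈ Subgroup.centralizer (X : Set G)
    rw [Subgroup.mem_centralizer_iff]
    intro x hx
    have h2 := hb ⟨ψ ⟨x, hXA hx⟩, ⟨x, hXA hx⟩, hx, rfl⟩
    have h3 : x * (b : G) * x⁻¹ = b := congrArg Subtype.val h2
    calc x * b = x * b * x⁻¹ * x := by group
      _ = b * x := by rw [h3]
  rw [hbot, Subgroup.mem_bot] at hbm
  exact hb1 (Subtype.ext hbm.symm)

omit [Finite G] in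
theorem p4c_omega {p : ℕ} {A : Subgroup G} (hmax : MaxEA p A) :
    ∀ x ∈ Subgroup.centralizer (A : Set G), x ^ p = 1 → x ∈ A := by
  intro x hx hxp
  have hB : IsElementaryAbelian p (A ⊔ Subgroup.zpowers x) := by
    apply Cfsg.Agent.Lib.Helper31.elemAb_sup hmax.1 (Cfsg.Agent.Lib.Helper31.elemAb_zpowers hxp)
    intro a ha b hb
    have hb' : b ∈ Subgroup.centralizer (A : Set G) := (Subgroup.zpowers_le.mpr hx) hb
    exact Subgroup.mem_centralizer_iff.mp hb' a ha
  have hEq := hmax.2 _ hB le_sup_left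
  rw [← hEq]
  exact Subgroup.mem_sup_right (Subgroup.mem_zpowers x)

omit [Finite G] in
theorem p4c_bad_false (hG : IsMinSimpleOddOrder G) {M : Subgroup G} (hM : IsCoatom M) {p : ℕ}
    (hp : p.Prime) {A : Subgroup G} (hAM : A ≤ M) (hbad : Bad M p A) {A₀ : Subgroup G}
    (hA₀ : A₀ ≤ A) (hc : Nat.card A₀ = p) (hn : M ≤ Subgroup.normalizer (A₀ : Set G)) :
    False := by
  have h1 : A₀ ≠ ⊥ := ne_bot_of_card_prime hp hc
  have h2 : A₀ ≠ ⊤ := by
    rintro rfl
    exact hM.1 (top_le_iff.mp (hA₀.trans hAM))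
  have hN : Subgroup.normalizer (A₀ : Set G) = M :=
    (hM.le_iff_eq (minSimple_normalizer_ne_top hG h1 h2)).mp hn
  refine hbad A₀ hA₀ hc ⟨hN.le, fun L hL hNL => ?_⟩
  rw [hN] at hNL
  exact (hM.le_iff_eq hL.1).mp hNL

theorem p4c_nil (hG : IsMinSimpleOddOrder G) {M : Subgroup G} (hM : IsCoatom M)
    (hα : alphaCore M = ⊥) : Group.IsNilpotent ↥⁅M, M⁆ := by
  have h := (h2_of hG M hM).2.2.2.2
  have hN : piCore (alpha M) ↥M = ⊥ :=
    (Subgroup.map_eq_bot_iff_of_injective _ M.subtype_injective).mp hα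
  have hinj : Function.Injective (QuotientGroup.mk' (piCore (alpha M) ↥M)) := by
    rw [← MonoidHom.ker_eq_bot_iff, QuotientGroup.ker_mk', hN]
  have e1 : ↥(commutator ↥M) ≃*
      ↥((commutator ↥M).map (QuotientGroup.mk' (piCore (alpha M) ↥M))) :=
    Subgroup.equivMapOfInjective _ _ hinj
  have e2 : ↥(commutator ↥M) ≃* ↥((commutator ↥M).map M.subtype) :=
    Subgroup.equivMapOfInjective _ _ M.subtype_injective
  have h1 : Group.IsNilpotent ↥(commutator ↥M) := Group.nilpotent_of_mulEquiv e1.symm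
  have h2 : Group.IsNilpotent ↥((commutator ↥M).map M.subtype) := Group.nilpotent_of_mulEquiv e2
  rw [Subgroup.map_subtype_commutator] at h2
  exact h2

theorem p4c_core (hG : IsMinSimpleOddOrder G) {M : Subgroup G} (hM : IsCoatom M) {p : ℕ}
    (hp : p.Prime) {A : Subgroup G} (hAM : A ≤ M) (hmax : MaxEA p A) (hAc : Nat.card A = p ^ 2)
    (hbad : Bad M p A) (hσ : p ∉ sigma M) {T : Subgroup G} (hTM : T ≤ M)
    (hMT : M ≤ Subgroup.normalizer (T : Set G)) (hT : IsPGroup p T) (hAT : A ≤ T) : False := by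
  have : Fact p.Prime := ⟨hp⟩
  have hAp : IsPGroup p A := IsPGroup.of_card hAc
  have hA1 : A ≠ ⊥ := by
    rintro rfl
    rw [Subgroup.card_bot] at hAc
    have := hp.one_lt
    nlinarith
  have hΩ := p4c_omega hmax
  have hAcomm : ∀ a ∈ A, ∀ b ∈ A, a * b = b * a :=
    Cfsg.Agent.Lib.Helper31.isMulComm_iff.mp hmax.1.1
  -- step a: `M ≤ N(A)`
  have hMA : M ≤ Subgroup.normalizer (A : Set G) := by
    have hT1 : T ≠ ⊥ := fun h => hA1 (le_bot_iff.mp (h ▸ hAT))
    have hZ1 : omegaZ p T ≠ ⊥ := p4c_omegaZ_ne_bot hT hT1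
    have hZA : omegaZ p T ≤ A := by
      intro z hz
      obtain ⟨hzT, hzc, hzp⟩ := mem_omegaZ.mp hz
      refine hΩ z ?_ hzp
      rw [Subgroup.mem_centralizer_iff]
      intro a ha
      exact hzc a (hAT ha)
    have hMZ : M ≤ Subgroup.normalizer (omegaZ p T : Set G) :=
      hMT.trans (normalizer_le_normalizer_omegaZ p T)
    by_cases hZeq : omegaZ p T = A
    · rw [← hZeq]; exact hMZ
    · exact (p4c_bad_false hG hM hp hAM hbad hZA
        (card_eq_prime_of_lt hp hAc hZA hZ1 hZeq) hMZ).elim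
  -- step b: `M' ≤ C(A)`
  let φ : ↥M →* MulAut ↥A := A.normalizerMonoidHom.comp (Subgroup.inclusion hMA)
  have hφ : ∀ (x : ↥M) (a : ↥A), ((φ x a : ↥A) : G) = (x : G) * a * (x : G)⁻¹ := fun x a => rfl
  letI : CommGroup ↥A :=
    { (inferInstance : Group ↥A) with
      mul_comm := fun a b => Subtype.ext (hAcomm a a.2 b b.2) }
  have hLin := Cfsg.Agent.Lib.Helper34.mulAut_commutator_pow p (V := ↥A)
    (fun x => Subtype.ext (hmax.1.2 x x.2)) hAc.le (minSimple_solvable hG hM.1)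
    (minSimple_odd_sub hG M) φ
  set X : Subgroup G := (commutator ↥M).map M.subtype with hXdef
  have hXM : X ≤ M := Subgroup.map_subtype_le _
  have hMX : M ≤ Subgroup.normalizer (X : Set G) := le_normalizer_map_subtype M _
  have hXC : X ≤ Subgroup.centralizer (A : Set G) := by
    have hfix : A ⊓ Subgroup.centralizer (X : Set G) ≠ ⊥ := by
      apply p4c_fix_ne_bot hAp hA1 (hXM.trans hMA)
      rintro x ⟨g, hg, rfl⟩
      refine ⟨1, ?_⟩
      rw [pow_one]
      have h1 := hLin g hg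
      rw [← map_pow] at h1
      rw [Subgroup.mem_centralizer_iff]
      intro a ha
      have h2 : ((φ (g ^ p) ⟨a, ha⟩ : ↥A) : G) = a := by rw [h1]; rfl
      rw [hφ] at h2
      have h3 : ((g ^ p : ↥M) : G) = (M.subtype g) ^ p := by simp
      rw [h3] at h2
      calc a * (M.subtype g) ^ p = (M.subtype g) ^ p * a * ((M.subtype g) ^ p)⁻¹ *
            (M.subtype g) ^ p := by rw [h2]
        _ = (M.subtype g) ^ p * a := by group
    have hML : M ≤ Subgroup.normalizer
        ((A ⊓ Subgroup.centralizer (X : Set G) : Subgroup G) : Set G) :=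
      aux_normalizer_inf hMA
        (hMX.trans (Cfsg.Agent.Lib.Helper41.BG11.normalizer_le_normalizer_centralizer X))
    by_cases hL : A ⊓ Subgroup.centralizer (X : Set G) = A
    · intro x hx
      rw [Subgroup.mem_centralizer_iff]
      intro a ha
      have ha' : a ∈ Subgroup.centralizer (X : Set G) := (inf_eq_left.mp hL) ha
      exact (Subgroup.mem_centralizer_iff.mp ha' x hx).symm
    · exact (p4c_bad_false hG hM hp hAM hbad inf_le_left
        (card_eq_prime_of_lt hp hAc inf_le_left hfix hL) hML).elim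
  -- step c: `P ≤ C(A)` for a Sylow `p`-subgroup `P ≥ A` of `M`
  obtain ⟨P, hP, hAP⟩ := exists_sylSet_ge hAp hAM
  have hPp : IsPGroup p P := isPGroup_of_mem_sylSet hP
  have hPM : P ≤ M := hP.1
  have hPC : P ≤ Subgroup.centralizer (A : Set G) := by
    have hfix : A ⊓ Subgroup.centralizer (P : Set G) ≠ ⊥ := by
      apply p4c_fix_ne_bot hAp hA1 (hPM.trans hMA)
      intro x hx
      obtain ⟨k, hk⟩ := hPp ⟨x, hx⟩
      refine ⟨k, ?_⟩
      have h1 : x ^ (p ^ k) = 1 := by simpa using congrArg Subtype.val hk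
      rw [h1]; exact Subgroup.one_mem _
    have hML : M ≤ Subgroup.normalizer
        ((A ⊓ Subgroup.centralizer (P : Set G) : Subgroup G) : Set G) := by
      intro m hm
      apply mem_normalizer_of_conj_mem
      rintro a ⟨haA, haC⟩
      refine ⟨conj_mem_of_mem_normalizer (hMA hm) haA, ?_⟩
      show m * a * m⁻¹ ∈ Subgroup.centralizer (P : Set G)
      rw [Subgroup.mem_centralizer_iff]
      intro x hx
      have hc : m⁻¹ * x * m * x⁻¹ ∈ X := by
        have hc' : ⁅(⟨m⁻¹, M.inv_mem hm⟩ : ↥M), (⟨x, hPM hx⟩ : ↥M)⁆ ∈ commutator ↥M :=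
          Subgroup.commutator_mem_commutator (Subgroup.mem_top _) (Subgroup.mem_top _)
        refine ⟨_, hc', ?_⟩
        simp [commutatorElement_def]
      have h1 := Subgroup.mem_centralizer_iff.mp (hXC hc) a haA
      have h2 := Subgroup.mem_centralizer_iff.mp haC x hx
      have h3 : (m⁻¹ * x * m) * a = a * (m⁻¹ * x * m) := by
        have e : m⁻¹ * x * m = (m⁻¹ * x * m * x⁻¹) * x := by group
        rw [e, mul_assoc, h2, ← mul_assoc, ← h1, mul_assoc]
      calc x * (m * a * m⁻¹) = m * ((m⁻¹ * x * m) * a) * m⁻¹ := by group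
        _ = m * (a * (m⁻¹ * x * m)) * m⁻¹ := by rw [h3]
        _ = m * a * m⁻¹ * x := by group
    by_cases hL : A ⊓ Subgroup.centralizer (P : Set G) = A
    · intro x hx
      rw [Subgroup.mem_centralizer_iff]
      intro a ha
      have ha' : a ∈ Subgroup.centralizer (P : Set G) := (inf_eq_left.mp hL) ha
      exact (Subgroup.mem_centralizer_iff.mp ha' x hx).symm
    · exact (p4c_bad_false hG hM hp hAM hbad inf_le_left
        (card_eq_prime_of_lt hp hAc inf_le_left hfix hL) hML).elim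
  -- step d: `N(P) ≤ N(A) = M`
  have hNA : Subgroup.normalizer (A : Set G) = M :=
    (hM.le_iff_eq (minSimple_normalizer_ne_top hG hA1
      (fun h => hM.1 (top_le_iff.mp (h ▸ hAM))))).mp hMA
  have hNP : Subgroup.normalizer (P : Set G) ≤ M := by
    rw [← hNA]
    intro g hg
    apply mem_normalizer_of_conj_mem
    intro a ha
    have h1 : g * a * g⁻¹ ∈ P := conj_mem_of_mem_normalizer hg (hAP ha)
    refine hΩ _ (hPC h1) ?_
    rw [conj_pow, hmax.1.2 a ha]
    group
  have hP1 : P ≠ ⊥ := fun h => hA1 (le_bot_iff.mp (h ▸ hAP))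
  exact hσ (mem_sigma_of_normalizer_le hP hP1 hNP)

theorem p4c (hG : IsMinSimpleOddOrder G) (hC3 : PC3 G) (hS5 : PS5 G) (hS5I : PS5I G)
    {M : Subgroup G} (hM : IsCoatom M) {p : ℕ} (hp : p.Prime) {A : Subgroup G} (hAM : A ≤ M)
    (hmax : MaxEA p A) (hAc : Nat.card A = p ^ 2) (hbad : Bad M p A) (hα : alphaCore M = ⊥) :
    p ∈ sigma M := by
  by_contra hσ
  haveI : Fact p.Prime := ⟨hp⟩
  have hAp : IsPGroup p A := IsPGroup.of_card hAc
  have hMS : M ≤ Subgroup.normalizer (sigmaCore M : Set G) := le_normalizer_piCoreOf (sigma M) M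
  have hSM : sigmaCore M ≤ M := aux_sigmaCore_le M
  -- (1) `M_σ ≤ C(A)`
  have hSC : sigmaCore M ≤ Subgroup.centralizer (A : Set G) := by
    haveI : IsMulCommutative ↥A := hmax.1.1
    have hAnc : ¬ IsCyclic ↥A := not_cyclic_of_exp hp hmax.1.2 hAc
    have hcop : (Nat.card A).Coprime (Nat.card (sigmaCore M)) := by
      rw [hAc]
      apply Nat.Coprime.pow_left
      rw [Nat.Prime.coprime_iff_not_dvd hp]
      intro hdvd
      exact hσ (Cfsg.Agent.Lib.Helper32.BG12.mem_sigma_of_dvd_sigmaCore hp hdvd)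
    have hgen := Cfsg.Agent.S0058.result A (sigmaCore M) hAnc (hAM.trans hMS) hcop
    rw [← hgen]
    apply iSup₂_le
    rintro a ⟨haA, ha1⟩
    have hA₀ : Subgroup.zpowers a ≤ A := Subgroup.zpowers_le.mpr haA
    have hA₀c : Nat.card (Subgroup.zpowers a) = p := card_zpowers_of_pow (hmax.1.2 a haA) ha1
    have h01 : Subgroup.zpowers a ≠ ⊥ := ne_bot_of_card_prime hp hA₀c
    have h02 : Subgroup.zpowers a ≠ ⊤ := fun h => hM.1 (top_le_iff.mp (h ▸ hA₀.trans hAM))
    obtain ⟨L, hL, hNL, hLM⟩ : ∃ L : Subgroup G, IsCoatom L ∧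
        Subgroup.normalizer ((Subgroup.zpowers a : Subgroup G) : Set G) ≤ L ∧ L ≠ M := by
      obtain ⟨L₀, hL₀, hNL₀⟩ := exists_coatom_ge (minSimple_normalizer_ne_top hG h01 h02)
      by_cases hL₀M : L₀ = M
      · have hb := hbad _ hA₀ hA₀c
        rw [not_and] at hb
        have hb2 := hb (hL₀M ▸ hNL₀)
        push Not at hb2
        obtain ⟨L, hL, hNL, hne⟩ := hb2
        exact ⟨L, hL, hNL, hne⟩
      · exact ⟨L₀, hL₀, hNL₀, hL₀M⟩
    have hc3 := hC3 M L p A (Subgroup.zpowers a) (sigmaCore M) hM hL hLM hp hAM hmax.1 hAc hA₀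
      hA₀c hNL hSM hMS (fun q hq hqd =>
        ⟨Cfsg.Agent.Lib.Helper32.BG12.mem_sigma_of_dvd_sigmaCore hq hqd, fun h =>
          hσ (h ▸ Cfsg.Agent.Lib.Helper32.BG12.mem_sigma_of_dvd_sigmaCore hq hqd)⟩)
    refine le_trans ?_ hc3
    refine le_inf inf_le_left ?_
    refine le_trans inf_le_right ?_
    rw [← centralizer_zpowers_eq]
    exact (centralizer_le_normalizer' _).trans hNL
  -- (2) `A` centralizes the normal `q`-subgroups of `M`, `q ≠ p`
  have h2 : ∀ (q : ℕ), q.Prime → q ≠ p → ∀ Y : Subgroup G, Y ≤ M →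
      M ≤ Subgroup.normalizer (Y : Set G) → IsPGroup q Y →
      Y ≤ Subgroup.centralizer (A : Set G) := by
    intro q hq hqp Y hYM hMY hYq
    haveI : Fact q.Prime := ⟨hq⟩
    by_cases hqσ : q ∈ sigma M
    · exact (Cfsg.Agent.Lib.Helper32.BG12.pgroup_le_sigmaCore hG hM hqσ hYq hYM).trans hSC
    · exact hS5 M p A hM hp hσ hAM hmax hAc hSC q hq hqp hqσ Y hYM hMY hYq
  -- (3) `M'` is nilpotent
  have hnil : Group.IsNilpotent ↥⁅M, M⁆ := p4c_nil hG hM hα
  obtain ⟨T, hTM, hMT, hT, hAT⟩ := hS5I M A p hp hnil hAM hAp h2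
  exact p4c_core hG hM hp hAM hmax hAc hbad hσ hTM hMT hT hAT

end Cfsg.Agent.Lib.Helper54.BG11
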