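import Mathlib
import Cfsg.Agent.Lib.Helper18.LSDefs

/-!
# S2333, piece LS-FIELD2 (helper54, for helper18): in a finite field of characteristic 2,
`t ↦ t ^ 2 + t` is not onto and squaring is onto
-/

set_option autoImplicit false

namespace Cfsg.Agent.Lib.Helper18.LS

open Matrix

universe u

variable {F : Type u} [Field F] {n : ℕ}

theorem field_two [Fintype F] [CharP F 2] :
    (∃ c : F, ∀ t : F, t ^ 2 + t ≠ c) ∧ (∀ s : F, ∃ μ : F, μ ^ 2 = s) := by
  have : Fact (Nat.Prime 2) := ⟨Nat.prime_two⟩
  constructor
  · have hni : ¬ Function.Injective (fun t : F => t ^ 2 + t) := by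
      intro hinj
      have h : (fun t : F => t ^ 2 + t) 0 = (fun t : F => t ^ 2 + t) 1 := by
        show (0 : F) ^ 2 + 0 = 1 ^ 2 + 1
        rw [one_pow, CharTwo.add_self_eq_zero]
        simp
      exact zero_ne_one (hinj h)
    have hns : ¬ Function.Surjective (fun t : F => t ^ 2 + t) :=
      fun hs => hni (Finite.injective_iff_surjective.mpr hs)
    unfold Function.Surjective at hns
    push Not at hns
    exact hns
  · have hinj : Function.Injective (fun t : F => t ^ 2) := by
      intro x y hxy
      exact frobenius_inj F 2 hxy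
    have hs : Function.Surjective (fun t : F => t ^ 2) :=
      Finite.injective_iff_surjective.mp hinj
    exact hs

end Cfsg.Agent.Lib.Helper18.LS
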