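import Mathlib
import Cfsg.Agent.Lib.Helper18.LSDefs

/-!
# S2333, piece LS-PAIRA (helper54, for helper18): a pair `u, v` with `bl u v = 1` spanning an
anisotropic plane, or a hyperbolic pair
-/

set_option autoImplicit false

namespace Cfsg.Agent.Lib.Helper18.LS

open Matrix

universe u

variable {F : Type u} [Field F] {n : ℕ}

theorem paira_bl_single (M : Matrix (Fin n) (Fin n) F) (i j : Fin n) :
    bl M (Pi.single i 1) (Pi.single j 1) = (M + Mᵀ) i j := by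
  unfold bl
  rw [single_one_dotProduct, mulVec_single_one]
  rfl

/-- from an isotropic vector `e₁` and a vector `w` with `bl e₁ w ≠ 0` to a hyperbolic pair -/
theorem paira_hyp [CharP F 2] (M : Matrix (Fin n) (Fin n) F) (e₁ w : Fin n → F)
    (h1 : qf M e₁ = 0) (hw : bl M e₁ w ≠ 0) :
    ∃ e₂ : Fin n → F, bl M e₁ e₂ = 1 ∧ qf M e₂ = 0 := by
  obtain ⟨w', hw'⟩ : ∃ w' : Fin n → F, w' = (bl M e₁ w)⁻¹ • w := ⟨_, rfl⟩
  have hb : bl M e₁ w' = 1 := by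
    rw [hw', bl_smul_right, inv_mul_cancel₀ hw]
  refine ⟨w' + qf M w' • e₁, ?_, ?_⟩
  · rw [bl_add_right, bl_smul_right, bl_self, mul_zero, add_zero, hb]
  · rw [qf_add, qf_smul, h1, mul_zero, add_zero, bl_smul_right, bl_comm, hb, mul_one]
    exact CharTwo.add_self_eq_zero _

theorem exists_pair [CharP F 2] (M : Matrix (Fin n) (Fin n) F) (hM : M + Mᵀ ≠ 0) :
    ∃ u v : Fin n → F, bl M u v = 1 ∧
      ((∀ a c : F, qf M (a • u + c • v) = 0 → a = 0 ∧ c = 0) ∨ (qf M u = 0 ∧ qf M v = 0)) := by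
  obtain ⟨i, j, hij⟩ : ∃ i j, (M + Mᵀ) i j ≠ 0 := by
    by_contra hcon
    push Not at hcon
    apply hM
    ext i j
    exact hcon i j
  obtain ⟨u₀, hu₀⟩ : ∃ u₀ : Fin n → F, u₀ = Pi.single i 1 := ⟨_, rfl⟩
  obtain ⟨v₀, hv₀⟩ : ∃ v₀ : Fin n → F, v₀ = ((M + Mᵀ) i j)⁻¹ • Pi.single j 1 := ⟨_, rfl⟩
  have huv : bl M u₀ v₀ = 1 := by
    rw [hu₀, hv₀, bl_smul_right, paira_bl_single, inv_mul_cancel₀ hij]
  by_cases h : ∀ a c : F, qf M (a • u₀ + c • v₀) = 0 → a = 0 ∧ c = 0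
  · exact ⟨u₀, v₀, huv, Or.inl h⟩
  · push Not at h
    obtain ⟨a, c, hq, hac⟩ := h
    have hbv : bl M (a • u₀ + c • v₀) v₀ = a := by
      rw [bl_add_left, bl_smul_left, bl_smul_left, huv, bl_self, mul_one, mul_zero, add_zero]
    have hbu : bl M (a • u₀ + c • v₀) u₀ = c := by
      rw [bl_add_left, bl_smul_left, bl_smul_left, bl_self, bl_comm M v₀ u₀, huv, mul_zero,
        mul_one, zero_add]
    by_cases ha : a = 0
    · have hc : c ≠ 0 := hac ha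
      obtain ⟨e₂, he₂, hq₂⟩ := paira_hyp M (a • u₀ + c • v₀) u₀ hq (by rw [hbu]; exact hc)
      exact ⟨a • u₀ + c • v₀, e₂, he₂, Or.inr ⟨hq, hq₂⟩⟩
    · obtain ⟨e₂, he₂, hq₂⟩ := paira_hyp M (a • u₀ + c • v₀) v₀ hq (by rw [hbv]; exact ha)
      exact ⟨a • u₀ + c • v₀, e₂, he₂, Or.inr ⟨hq, hq₂⟩⟩

end Cfsg.Agent.Lib.Helper18.LS
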