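import Mathlib
import Cfsg.Agent.Lib.Helper18.LSDefs

/-!
# S2333, piece LS-SHEARGL (helper54, for helper18): the shears are invertible
-/

set_option autoImplicit false

namespace Cfsg.Agent.Lib.Helper18.LS

open Matrix

universe u

variable {F : Type u} [Field F] {n : ℕ}

theorem sheargl_mul (a b c d : Fin n → F) (h : b ⬝ᵥ c = 0) :
    vecMulVec a b * vecMulVec c d = 0 := by
  rw [vecMulVec_mul_vecMulVec, h, zero_smul]
  ext i j
  simp [vecMulVec]

theorem shear_gl (u v ℓ m : Fin n → F) (hℓ : ℓ ∈ ann u v) (hm : m ∈ ann u v) :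
    ∃ g : GL (Fin n) F, (g : Matrix (Fin n) (Fin n) F) = shearM u v ℓ m := by
  obtain ⟨hℓu, hℓv⟩ := hℓ
  obtain ⟨hmu, hmv⟩ := hm
  obtain ⟨X, hX⟩ : ∃ X : Matrix (Fin n) (Fin n) F, X = vecMulVec u ℓ + vecMulVec v m :=
    ⟨_, rfl⟩
  have key : X * X = 0 := by
    rw [hX, add_mul, mul_add, mul_add, sheargl_mul u ℓ u ℓ hℓu, sheargl_mul u ℓ v m hℓv,
      sheargl_mul v m u ℓ hmu, sheargl_mul v m v m hmv]
    simp
  have hs : shearM u v ℓ m = 1 + X := by
    unfold shearM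
    rw [hX, add_assoc]
  have h1 : (1 + X) * (1 - X) = 1 := by
    have e : (1 + X) * (1 - X) = 1 - X * X := by noncomm_ring
    rw [e, key, sub_zero]
  have h2 : (1 - X) * (1 + X) = 1 := by
    have e : (1 - X) * (1 + X) = 1 - X * X := by noncomm_ring
    rw [e, key, sub_zero]
  exact ⟨⟨1 + X, 1 - X, h1, h2⟩, hs.symm⟩

end Cfsg.Agent.Lib.Helper18.LS
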