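import Mathlib
import Cfsg.Agent.Lib.Helper19.DkN
import Cfsg.Agent.S0265

set_option autoImplicit false

namespace Cfsg.Agent.Lib.Helper54

open Matrix Cfsg.Agent.S0809 Cfsg.Agent.Lib.Helper19.Dk

section PgA

variable {F : Type*} [Field F]

/-- `GL₂`. -/
abbrev G2 (F : Type*) [Field F] : Type _ := GL (Fin 2) F

/-- `PGL₂`. -/
abbrev PG2 (F : Type*) [Field F] : Type _ := Matrix.ProjGenLinGroup (Fin 2) F

/-- the map `SL₂ → PGL₂` -/
abbrev pgφ (F : Type*) [Field F] : S2 F →* PG2 F :=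
  ProjGenLinGroup.mk.comp SpecialLinearGroup.toGL

/-- the image of `SL₂` in `PGL₂` -/
abbrev pgL (F : Type*) [Field F] : Subgroup (PG2 F) := (pgφ F).range

/-- the preimage in `SL₂` of a subgroup of `PGL₂` -/
def pgT (M : Subgroup (PG2 F)) : Subgroup (S2 F) := M.comap (pgφ F)

theorem mem_pgT (M : Subgroup (PG2 F)) (g : S2 F) : g ∈ pgT M ↔ pgφ F g ∈ M := Iff.rfl

theorem pgT_eq_Lof (M : Subgroup (PG2 F)) :
    pgT M = Lof (M.comap ProjectiveSpecialLinearGroup.toPGL) := rfl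

theorem center_le_pgT (M : Subgroup (PG2 F)) : Subgroup.center (S2 F) ≤ pgT M := by
  rw [pgT_eq_Lof]
  exact center_le_Lof _

theorem pgL_eq : pgL F = (ProjectiveSpecialLinearGroup.toPGL (n := Fin 2) (R := F)).range := by
  ext g
  constructor
  · rintro ⟨h, rfl⟩
    exact ⟨prj F h, rfl⟩
  · rintro ⟨h, rfl⟩
    obtain ⟨k, rfl⟩ := prj_surj h
    exact ⟨k, rfl⟩

/-- conjugation by an element of `GL₂` on `SL₂` -/
def gconj (γ : G2 F) : S2 F ≃* S2 F where
  toFun g := ⟨(γ : Matrix (Fin 2) (Fin 2) F) * g * ((γ⁻¹ : G2 F) : Matrix (Fin 2) (Fin 2) F), by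
    rw [det_mul, det_mul, g.det_coe, mul_one, ← det_mul, ← Units.val_mul, mul_inv_cancel]
    simp⟩
  invFun g := ⟨((γ⁻¹ : G2 F) : Matrix (Fin 2) (Fin 2) F) * g * (γ : Matrix (Fin 2) (Fin 2) F), by
    rw [det_mul, det_mul, g.det_coe, mul_one, ← det_mul, ← Units.val_mul, inv_mul_cancel]
    simp⟩
  left_inv g := by
    apply Subtype.ext
    show ((γ⁻¹ : G2 F) : Matrix (Fin 2) (Fin 2) F) * ((γ : Matrix (Fin 2) (Fin 2) F) * g *
      ((γ⁻¹ : G2 F) : Matrix (Fin 2) (Fin 2) F)) * (γ : Matrix (Fin 2) (Fin 2) F) = g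
    have h1 : ((γ⁻¹ : G2 F) : Matrix (Fin 2) (Fin 2) F) * (γ : Matrix (Fin 2) (Fin 2) F) = 1 := by
      rw [← Units.val_mul, inv_mul_cancel]; rfl
    rw [← mul_assoc, ← mul_assoc, h1, one_mul, mul_assoc, h1, mul_one]
  right_inv g := by
    apply Subtype.ext
    show (γ : Matrix (Fin 2) (Fin 2) F) * (((γ⁻¹ : G2 F) : Matrix (Fin 2) (Fin 2) F) * g *
      (γ : Matrix (Fin 2) (Fin 2) F)) * ((γ⁻¹ : G2 F) : Matrix (Fin 2) (Fin 2) F) = g
    have h1 : (γ : Matrix (Fin 2) (Fin 2) F) * ((γ⁻¹ : G2 F) : Matrix (Fin 2) (Fin 2) F) = 1 := by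
      rw [← Units.val_mul, mul_inv_cancel]; rfl
    rw [← mul_assoc, ← mul_assoc, h1, one_mul, mul_assoc, h1, mul_one]
  map_mul' g h := by
    apply Subtype.ext
    show (γ : Matrix (Fin 2) (Fin 2) F) * ((g : Matrix (Fin 2) (Fin 2) F) * h) *
        ((γ⁻¹ : G2 F) : Matrix (Fin 2) (Fin 2) F)
      = ((γ : Matrix (Fin 2) (Fin 2) F) * g * ((γ⁻¹ : G2 F) : Matrix (Fin 2) (Fin 2) F)) *
        ((γ : Matrix (Fin 2) (Fin 2) F) * h * ((γ⁻¹ : G2 F) : Matrix (Fin 2) (Fin 2) F))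
    have h1 : ((γ⁻¹ : G2 F) : Matrix (Fin 2) (Fin 2) F) * (γ : Matrix (Fin 2) (Fin 2) F) = 1 := by
      rw [← Units.val_mul, inv_mul_cancel]; rfl
    calc (γ : Matrix (Fin 2) (Fin 2) F) * ((g : Matrix (Fin 2) (Fin 2) F) * h) *
        ((γ⁻¹ : G2 F) : Matrix (Fin 2) (Fin 2) F)
        = (γ : Matrix (Fin 2) (Fin 2) F) * g * 1 * h * ((γ⁻¹ : G2 F) : Matrix (Fin 2) (Fin 2) F) := by
          simp only [mul_one, mul_assoc]
      _ = _ := by rw [← h1]; simp only [mul_assoc]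

theorem gconj_coe (γ : G2 F) (g : S2 F) : ((gconj γ g : S2 F) : Matrix (Fin 2) (Fin 2) F)
    = (γ : Matrix (Fin 2) (Fin 2) F) * g * ((γ⁻¹ : G2 F) : Matrix (Fin 2) (Fin 2) F) := rfl

theorem toGL_gconj (γ : G2 F) (g : S2 F) :
    SpecialLinearGroup.toGL (gconj γ g) = γ * SpecialLinearGroup.toGL g * γ⁻¹ := by
  apply Units.ext
  rfl

theorem pgφ_gconj (γ : G2 F) (g : S2 F) :
    pgφ F (gconj γ g) = ProjGenLinGroup.mk γ * pgφ F g * (ProjGenLinGroup.mk γ)⁻¹ := by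
  show ProjGenLinGroup.mk (SpecialLinearGroup.toGL (gconj γ g)) = _
  rw [toGL_gconj, map_mul, map_mul, map_inv]
  rfl

theorem gconj_symm_apply (γ : G2 F) (g : S2 F) : (gconj γ).symm g = gconj γ⁻¹ g := by
  apply Subtype.ext
  show ((γ⁻¹ : G2 F) : Matrix (Fin 2) (Fin 2) F) * g * (γ : Matrix (Fin 2) (Fin 2) F) =
    ((γ⁻¹ : G2 F) : Matrix (Fin 2) (Fin 2) F) * g * (((γ⁻¹)⁻¹ : G2 F) : Matrix (Fin 2) (Fin 2) F)
  rw [inv_inv]

theorem gconj_mul_apply (γ γ' : G2 F) (g : S2 F) : gconj (γ * γ') g = gconj γ (gconj γ' g) := by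
  apply Subtype.ext
  rw [gconj_coe, gconj_coe, gconj_coe, _root_.mul_inv_rev, Units.val_mul, Units.val_mul]
  simp only [mul_assoc]

theorem gconj_toGL (h g : S2 F) : gconj (SpecialLinearGroup.toGL h) g = h * g * h⁻¹ := by
  apply Subtype.ext
  rw [gconj_coe]
  rfl

theorem tr_gconj (γ : G2 F) (g : S2 F) : tr (gconj γ g) = tr g := by
  have e : ∀ x : S2 F, tr x = (x : Matrix (Fin 2) (Fin 2) F).trace := by
    intro x
    rw [Matrix.trace_fin_two]; rfl
  rw [e, e, gconj_coe, Matrix.trace_mul_comm, ← mul_assoc, ← Units.val_mul, inv_mul_cancel]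
  simp

theorem isSc_gconj (γ : G2 F) (g : S2 F) : IsSc (gconj γ g) ↔ IsSc g := by
  rw [isSc_iff_center, isSc_iff_center, Subgroup.mem_center_iff, Subgroup.mem_center_iff]
  constructor
  · intro h k
    have := h (gconj γ k)
    rw [← map_mul, ← map_mul] at this
    exact (gconj γ).injective this
  · intro h k
    obtain ⟨k', rfl⟩ := (gconj γ).surjective k
    rw [← map_mul, ← map_mul, h k']

end PgA

section Card

variable {F : Type*} [Field F] [Fintype F]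

instance pg_finite : Finite (PG2 F) := Finite.of_surjective _ ProjGenLinGroup.mk_surjective

theorem pg_card : Nat.card (PG2 F) = Fintype.card F * (Fintype.card F ^ 2 - 1) := by
  rw [Cfsg.Agent.S0265.result 2, card_S2]

theorem pg_two_ne (hodd : Odd (Fintype.card F)) : (2 : F) ≠ 0 := by
  intro h
  obtain ⟨p, hp⟩ := CharP.exists F
  haveI := hp
  haveI : Fact p.Prime := ⟨CharP.char_is_prime F p⟩
  have := q_even p h
  exact (Nat.not_even_iff_odd.2 hodd) this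

theorem pg_card_L (hodd : Odd (Fintype.card F)) :
    2 * Nat.card (pgL F) = Fintype.card F * (Fintype.card F ^ 2 - 1) := by
  have h1 : Nat.card (pgL F) = Nat.card (P2 F) := by
    rw [pgL_eq]
    exact (Nat.card_congr
      (MonoidHom.ofInjective ProjectiveSpecialLinearGroup.toPGL_injective).toEquiv).symm
  rw [h1, ← card_P2]
  congr 1
  obtain ⟨k, hk⟩ := hodd
  rw [hk]
  have : 2 * k + 1 - 1 = 2 * k := by omega
  rw [this]
  exact (Nat.gcd_eq_left (Dvd.intro k rfl)).symm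

theorem pg_index_L (hodd : Odd (Fintype.card F)) : (pgL F).index = 2 := by
  have h1 := Subgroup.card_mul_index (pgL F)
  rw [pg_card] at h1
  have h2 := pg_card_L hodd
  have hpos : 0 < Nat.card (pgL F) := Nat.card_pos
  have : Nat.card (pgL F) * (pgL F).index = Nat.card (pgL F) * 2 := by rw [h1, ← h2]; ring
  exact Nat.eq_of_mul_eq_mul_left hpos this

theorem pg_sup (M : Subgroup (PG2 F)) (hM : IsCoatom M) (hML : ¬ pgL F ≤ M) :
    M ⊔ pgL F = ⊤ := by
  by_contra h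
  have h1 : M ≤ M ⊔ pgL F := le_sup_left
  rcases eq_or_lt_of_le h1 with h2 | h2
  · apply hML
    rw [h2]
    exact le_sup_right
  · exact h (hM.2 _ h2)

theorem pg_card_M (hodd : Odd (Fintype.card F)) (M : Subgroup (PG2 F)) (hM : IsCoatom M)
    (hML : ¬ pgL F ≤ M) : Nat.card M = Nat.card (pgT M) := by
  haveI := Subgroup.normal_of_index_eq_two (pg_index_L (F := F) hodd)
  have h1 : (pgL F).relIndex M = 2 := by
    rw [← Subgroup.relIndex_sup_right, pg_sup M hM hML, Subgroup.relIndex_top_right,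
      pg_index_L hodd]
  have h2 := Subgroup.card_mul_index ((pgL F).subgroupOf M)
  rw [show ((pgL F).subgroupOf M).index = 2 from h1] at h2
  have h3 : Nat.card ((pgL F).subgroupOf M)
      = Nat.card (M.comap (ProjectiveSpecialLinearGroup.toPGL (n := Fin 2) (R := F))) := by
    symm
    apply Nat.card_congr
    refine Equiv.ofBijective (fun h => (⟨⟨ProjectiveSpecialLinearGroup.toPGL h.1, h.2⟩, ?_⟩ :
      (pgL F).subgroupOf M)) ⟨?_, ?_⟩
    · rw [Subgroup.mem_subgroupOf, pgL_eq]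
      exact ⟨h.1, rfl⟩
    · intro a b hab
      have h5 : ProjectiveSpecialLinearGroup.toPGL a.1 = ProjectiveSpecialLinearGroup.toPGL b.1 :=
        congrArg (fun z : (pgL F).subgroupOf M => ((z : M) : PG2 F)) hab
      exact Subtype.ext (ProjectiveSpecialLinearGroup.toPGL_injective h5)
    · rintro ⟨⟨m, hm⟩, hmL⟩
      rw [Subgroup.mem_subgroupOf, pgL_eq] at hmL
      obtain ⟨h, hh⟩ := hmL
      refine ⟨⟨h, ?_⟩, ?_⟩
      · rw [Subgroup.mem_comap, hh]; exact hm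
      · apply Subtype.ext
        apply Subtype.ext
        exact hh
  rw [pgT_eq_Lof, card_Lof, center_card_two (pg_two_ne hodd), ← h3]
  omega

theorem pg_exists_not_L (hodd : Odd (Fintype.card F)) (M : Subgroup (PG2 F)) (hM : IsCoatom M)
    (hML : ¬ pgL F ≤ M) : ∃ m ∈ M, m ∉ pgL F := by
  by_contra hcon
  push Not at hcon
  have h1 : M ≤ pgL F := hcon
  have h2 := pg_sup M hM hML
  rw [sup_eq_right.2 h1] at h2
  have h3 := pg_index_L (F := F) hodd
  rw [h2, Subgroup.index_top] at h3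
  omega

/-- the conjugate of `M` by the image of `γ₀` -/
def pgConj (M : Subgroup (PG2 F)) (γ₀ : G2 F) : Subgroup (PG2 F) :=
  M.map (MulAut.conj (ProjGenLinGroup.mk γ₀)).toMonoidHom

omit [Fintype F] in
theorem mem_pgConj (M : Subgroup (PG2 F)) (γ₀ γ : G2 F) :
    ProjGenLinGroup.mk γ ∈ pgConj M γ₀ ↔ ProjGenLinGroup.mk (γ₀⁻¹ * γ * γ₀) ∈ M := by
  unfold pgConj
  rw [Subgroup.mem_map_equiv, MulAut.conj_symm_apply, map_mul, map_mul, map_inv]

theorem pg_conj (hodd : Odd (Fintype.card F)) (M : Subgroup (PG2 F)) (γ₀ : G2 F)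
    (hM : IsCoatom M) (hML : ¬ pgL F ≤ M) :
    IsCoatom (pgConj M γ₀) ∧ ¬ pgL F ≤ pgConj M γ₀ ∧ Nonempty (M ≃* pgConj M γ₀) ∧
      pgT (pgConj M γ₀) = (pgT M).map (gconj γ₀).toMonoidHom := by
  haveI := Subgroup.normal_of_index_eq_two (pg_index_L (F := F) hodd)
  unfold pgConj
  set c : PG2 F ≃* PG2 F := MulAut.conj (ProjGenLinGroup.mk γ₀) with hc
  refine ⟨?_, ?_, ⟨c.subgroupMap M⟩, ?_⟩
  · have := (MulEquiv.mapSubgroup c).isCoatom_iff M
    exact this.2 hM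
  · intro h
    apply hML
    intro l hl
    have h1 : c l ∈ pgL F := by
      rw [hc, MulAut.conj_apply]
      exact ‹(pgL F).Normal›.conj_mem l hl _
    obtain ⟨m, hm, hml⟩ := h h1
    have : m = l := c.injective hml
    rw [← this]; exact hm
  · ext g
    rw [mem_pgT, Subgroup.mem_map_equiv, Subgroup.mem_map_equiv, mem_pgT, gconj_symm_apply,
      pgφ_gconj]
    have : c.symm (pgφ F g) = ProjGenLinGroup.mk γ₀⁻¹ * pgφ F g * (ProjGenLinGroup.mk γ₀⁻¹)⁻¹ := by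
      rw [hc, MulAut.conj_symm_apply, map_inv, inv_inv]
    rw [this]

theorem pg_normal_small (h4 : 4 ≤ Fintype.card F) (K : Subgroup (S2 F))
    (hK : ∀ g : S2 F, ∀ k ∈ K, g * k * g⁻¹ ∈ K) :
    K ≤ Subgroup.center (S2 F) ∨ ∀ g : S2 F, g ∈ K ⊔ Subgroup.center (S2 F) := by
  haveI := simple_P2 (K := F) h4
  have hn : K.Normal := ⟨fun k hk g => hK g k hk⟩
  have hn' : (K.map (prj F)).Normal := hn.map (prj F) prj_surj
  rcases hn'.eq_bot_or_eq_top with h | h
  · left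
    rw [(Subgroup.map_eq_bot_iff K)] at h
    rw [← ker_prj]
    exact h
  · right
    intro g
    have h1 : prj F g ∈ K.map (prj F) := by rw [h]; trivial
    obtain ⟨k, hk, hkg⟩ := h1
    have h2 : k⁻¹ * g ∈ Subgroup.center (S2 F) := by
      rw [← ker_prj, MonoidHom.mem_ker, map_mul, map_inv, hkg, inv_mul_cancel]
    have : g = k * (k⁻¹ * g) := by group
    rw [this]
    exact Subgroup.mul_mem_sup hk h2

theorem pg_normalizer (hodd : Odd (Fintype.card F)) (h4 : 4 ≤ Fintype.card F)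
    (M : Subgroup (PG2 F)) (hM : IsCoatom M) (hML : ¬ pgL F ≤ M)
    (hnc : ∃ g ∈ pgT M, ¬ IsSc g) (γ : G2 F) (hγ : ∀ g ∈ pgT M, gconj γ g ∈ pgT M) :
    ProjGenLinGroup.mk γ ∈ M := by
  haveI hLn := Subgroup.normal_of_index_eq_two (pg_index_L (F := F) hodd)
  set H : Subgroup (PG2 F) := M ⊓ pgL F with hH
  have hMN : M ≤ Subgroup.normalizer (H : Set (PG2 F)) := by
    intro m hm
    rw [mem_normalizer_fin]
    intro t ht
    exact ⟨M.mul_mem (M.mul_mem hm ht.1) (M.inv_mem hm), hLn.conj_mem t ht.2 m⟩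
  have hγN : ProjGenLinGroup.mk γ ∈ Subgroup.normalizer (H : Set (PG2 F)) := by
    rw [mem_normalizer_fin]
    rintro t ⟨htM, g, rfl⟩
    have hg : g ∈ pgT M := htM
    rw [← pgφ_gconj]
    exact ⟨hγ g hg, gconj γ g, rfl⟩
  rcases eq_or_lt_of_le hMN with h | h
  · rw [h]; exact hγN
  · exfalso
    have hN := hM.2 _ h
    have hK : ∀ g : S2 F, ∀ k ∈ pgT M, g * k * g⁻¹ ∈ pgT M := by
      intro g k hk
      have h1 : pgφ F g ∈ Subgroup.normalizer (H : Set (PG2 F)) := by rw [hN]; trivial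
      rw [mem_normalizer_fin] at h1
      have h2 := h1 (pgφ F k) ⟨hk, k, rfl⟩
      rw [mem_pgT, map_mul, map_mul, map_inv]
      exact h2.1
    rcases pg_normal_small h4 (pgT M) hK with h5 | h5
    · obtain ⟨g, hg, hsc⟩ := hnc
      exact hsc ((isSc_iff_center g).2 (h5 hg))
    · apply hML
      rintro _ ⟨g, rfl⟩
      have := h5 g
      rw [sup_eq_left.2 (center_le_pgT M)] at this
      exact this

theorem pg_two_group (hodd : Odd (Fintype.card F)) (h3 : 3 < Fintype.card F)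
    (M : Subgroup (PG2 F)) (hM : IsCoatom M) (h2 : IsPGroup 2 M) : 8 ∣ Nat.card M := by
  haveI : Fact (Nat.Prime 2) := ⟨Nat.prime_two⟩
  obtain ⟨P, hP⟩ := h2.exists_le_sylow
  have h8 : 8 ∣ Nat.card (PG2 F) := by
    rw [pg_card]
    obtain ⟨k, hk⟩ := hodd
    rw [hk]
    have e : (2 * k + 1) ^ 2 - 1 = 4 * (k * (k + 1)) := by
      have : (2 * k + 1) ^ 2 = 4 * (k * (k + 1)) + 1 := by ring
      omega
    rw [e]
    obtain ⟨j, hj⟩ := Nat.even_mul_succ_self k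
    rw [hj]
    exact ⟨(2 * k + 1) * j, by ring⟩
  rcases eq_or_lt_of_le hP with h | h
  · rw [h, P.card_eq_multiplicity]
    have h0 : Nat.card (PG2 F) ≠ 0 := Nat.card_pos.ne'
    have h5 : 3 ≤ (Nat.card (PG2 F)).factorization 2 :=
      (Nat.prime_two.pow_dvd_iff_le_factorization h0).1 (by norm_num; exact h8)
    exact (show (8 : ℕ) = 2 ^ 3 by norm_num) ▸ pow_dvd_pow 2 h5
  · exfalso
    have hT := hM.2 _ h
    have hp : IsPGroup 2 (PG2 F) := by
      have h5 : IsPGroup 2 (⊤ : Subgroup (PG2 F)) := hT ▸ P.2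
      exact h5.of_equiv Subgroup.topEquiv
    obtain ⟨n, hn⟩ := IsPGroup.iff_card.1 hp
    rw [pg_card] at hn
    have h6 : Fintype.card F ∣ 2 ^ n := ⟨_, hn.symm⟩
    obtain ⟨j, -, hj⟩ := (Nat.dvd_prime_pow Nat.prime_two).1 h6
    rcases Nat.eq_zero_or_pos j with h0 | h0
    · rw [h0] at hj; omega
    · rw [hj] at hodd
      exact (Nat.not_even_iff_odd.2 hodd) ((Nat.even_pow' h0.ne').2 even_two)

/-- the conclusion of the classification of maximal subgroups of `PGL₂(q)` -/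
def PgConcl (F : Type*) [Field F] [Fintype F] (K : Type*) [Group K] : Prop :=
    Nat.card K = Fintype.card F * (Fintype.card F - 1) ∨
    (Fintype.card F ≠ 5 ∧ Nonempty (K ≃* DihedralGroup (Fintype.card F - 1))) ∨
    Nonempty (K ≃* DihedralGroup (Fintype.card F + 1)) ∨
    ((Fintype.card F).Prime ∧ (Fintype.card F % 8 = 3 ∨ Fintype.card F % 8 = 5) ∧
      Nonempty (K ≃* Equiv.Perm (Fin 4))) ∨
    (∃ (F₀ : Type) (_ : Field F₀) (_ : Fintype F₀) (r : ℕ), r.Prime ∧ Odd r ∧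
        Fintype.card F = Fintype.card F₀ ^ r ∧
        Nonempty (K ≃* Matrix.ProjGenLinGroup (Fin 2) F₀))

theorem PgConcl.congr {K K' : Type*} [Group K] [Group K'] (e : K ≃* K') (h : PgConcl F K') :
    PgConcl F K := by
  rcases h with h | ⟨h5, ⟨f⟩⟩ | ⟨⟨f⟩⟩ | ⟨hp, h8, ⟨f⟩⟩ | ⟨F₀, i1, i2, r, hr, hodd, hq, ⟨f⟩⟩
  · left; rw [Nat.card_congr e.toEquiv]; exact h
  · right; left; exact ⟨h5, ⟨e.trans f⟩⟩
  · right; right; left; exact ⟨e.trans f⟩
  · right; right; right; left; exact ⟨hp, h8, ⟨e.trans f⟩⟩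
  · right; right; right; right; exact ⟨F₀, i1, i2, r, hr, hodd, hq, ⟨e.trans f⟩⟩

end Card

end Cfsg.Agent.Lib.Helper54
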