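import Mathlib
import Cfsg.Agent.Lib.Helper54.PgA

set_option autoImplicit false

namespace Cfsg.Agent.Lib.Helper54

open Matrix Cfsg.Agent.S0809 Cfsg.Agent.Lib.Helper19.Dk

section PgB

variable {F : Type*} [Field F]

theorem gconj_one (g : S2 F) : gconj (1 : G2 F) g = g := by
  apply Subtype.ext
  rw [gconj_coe]
  simp

theorem gconj_eq_iff (γ : G2 F) (x y : S2 F) : gconj γ x = y ↔
    (γ : Matrix (Fin 2) (Fin 2) F) * x = (y : Matrix (Fin 2) (Fin 2) F) * γ := by
  have h1 : ((γ⁻¹ : G2 F) : Matrix (Fin 2) (Fin 2) F) * (γ : Matrix (Fin 2) (Fin 2) F) = 1 := by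
    rw [← Units.val_mul, inv_mul_cancel]; rfl
  have h2 : (γ : Matrix (Fin 2) (Fin 2) F) * ((γ⁻¹ : G2 F) : Matrix (Fin 2) (Fin 2) F) = 1 := by
    rw [← Units.val_mul, mul_inv_cancel]; rfl
  constructor
  · intro h
    rw [← h, gconj_coe, mul_assoc, h1, mul_one]
  · intro h
    apply Subtype.ext
    rw [gconj_coe, h, mul_assoc, h2, mul_one]

/-- the stabilizer of `x` under conjugation -/
def pgChat (x : S2 F) : Subgroup (G2 F) where
  carrier := {γ | gconj γ x = x}
  one_mem' := gconj_one x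
  mul_mem' := by
    intro a b ha hb
    show gconj (a * b) x = x
    rw [gconj_mul_apply, show gconj b x = x from hb]
    exact ha
  inv_mem' := by
    intro a ha
    show gconj a⁻¹ x = x
    rw [← gconj_symm_apply, MulEquiv.symm_apply_eq]
    exact (show gconj a x = x from ha).symm

/-- the elements centralizing or inverting `x` -/
def pgDhat (x : S2 F) : Subgroup (G2 F) where
  carrier := {γ | gconj γ x = x ∨ gconj γ x = x⁻¹}
  one_mem' := Or.inl (gconj_one x)
  mul_mem' := by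
    intro a b ha hb
    show gconj (a * b) x = x ∨ gconj (a * b) x = x⁻¹
    rw [gconj_mul_apply]
    rcases (show gconj b x = x ∨ gconj b x = x⁻¹ from hb) with hb | hb
    · rw [hb]; exact ha
    · rw [hb, map_inv]
      rcases (show gconj a x = x ∨ gconj a x = x⁻¹ from ha) with ha | ha
      · right; rw [ha]
      · left; rw [ha, inv_inv]
  inv_mem' := by
    intro a ha
    show gconj a⁻¹ x = x ∨ gconj a⁻¹ x = x⁻¹
    rw [← gconj_symm_apply]
    rcases (show gconj a x = x ∨ gconj a x = x⁻¹ from ha) with ha | ha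
    · left; rw [MulEquiv.symm_apply_eq]; exact ha.symm
    · right; rw [MulEquiv.symm_apply_eq, map_inv, ha, inv_inv]

theorem mem_pgChat (x : S2 F) (γ : G2 F) : γ ∈ pgChat x ↔ gconj γ x = x := Iff.rfl

theorem mem_pgDhat (x : S2 F) (γ : G2 F) : γ ∈ pgDhat x ↔ gconj γ x = x ∨ gconj γ x = x⁻¹ :=
  Iff.rfl

theorem gconj_center (z : G2 F) (hz : z ∈ Subgroup.center (G2 F)) (x : S2 F) : gconj z x = x := by
  apply SpecialLinearGroup.toGL_injective
  rw [toGL_gconj]
  have := Subgroup.mem_center_iff.1 hz (SpecialLinearGroup.toGL x)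
  rw [← this, mul_inv_cancel_right]

theorem center_le_pgChat (x : S2 F) : Subgroup.center (G2 F) ≤ pgChat x :=
  fun z hz => gconj_center z hz x

theorem pgChat_le_pgDhat (x : S2 F) : pgChat x ≤ pgDhat x := fun _ h => Or.inl h

/-- the image of the centralizer -/
def pgC (x : S2 F) : Subgroup (PG2 F) := (pgChat x).map ProjGenLinGroup.mk

/-- the image of the "normalizer" -/
def pgD (x : S2 F) : Subgroup (PG2 F) := (pgDhat x).map ProjGenLinGroup.mk

theorem mem_map_mk (K : Subgroup (G2 F)) (hK : Subgroup.center (G2 F) ≤ K) (γ : G2 F) :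
    ProjGenLinGroup.mk γ ∈ K.map ProjGenLinGroup.mk ↔ γ ∈ K := by
  constructor
  · rintro ⟨γ', hγ', h⟩
    obtain ⟨z, hz, rfl⟩ := ProjGenLinGroup.mk_eq_mk_iff'.1 h
    exact K.mul_mem hγ' (hK hz)
  · intro h
    exact ⟨γ, h, rfl⟩

theorem mem_pgC (x : S2 F) (γ : G2 F) : ProjGenLinGroup.mk γ ∈ pgC x ↔ gconj γ x = x :=
  mem_map_mk _ (center_le_pgChat x) γ

theorem mem_pgD (x : S2 F) (γ : G2 F) :
    ProjGenLinGroup.mk γ ∈ pgD x ↔ gconj γ x = x ∨ gconj γ x = x⁻¹ :=
  mem_map_mk _ ((center_le_pgChat x).trans (pgChat_le_pgDhat x)) γ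

theorem pgC_le_pgD (x : S2 F) : pgC x ≤ pgD x := Subgroup.map_mono (pgChat_le_pgDhat x)

theorem pg_le_D (M : Subgroup (PG2 F)) (x : S2 F) (hx : tr x ^ 2 ≠ 4)
    (hcomm : ∀ γ : G2 F, ProjGenLinGroup.mk γ ∈ M → gconj γ x * x = x * gconj γ x) :
    M ≤ pgD x := by
  intro m hm
  obtain ⟨γ, rfl⟩ := ProjGenLinGroup.mk_surjective m
  rw [mem_pgD]
  exact eq_or_inv x (gconj γ x) hx (hcomm γ hm) (tr_gconj γ x)

theorem pg_inv_sq (x : S2 F) (hx : ¬ IsSc x) (γ : G2 F) (h : gconj γ x = x⁻¹) :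
    ProjGenLinGroup.mk γ * ProjGenLinGroup.mk γ = 1 := by
  rw [gconj_eq_iff] at h
  set A : Matrix (Fin 2) (Fin 2) F := (γ : Matrix (Fin 2) (Fin 2) F) with hA
  have e00 := congrFun (congrFun h 0) 0
  have e01 := congrFun (congrFun h 0) 1
  have e10 := congrFun (congrFun h 1) 0
  have e11 := congrFun (congrFun h 1) 1
  simp only [Matrix.mul_apply, Fin.sum_univ_two] at e00 e01 e10 e11
  have i00 : ((x⁻¹ : S2 F) : Matrix (Fin 2) (Fin 2) F) 0 0 = x 1 1 := inv00 x
  have i01 : ((x⁻¹ : S2 F) : Matrix (Fin 2) (Fin 2) F) 0 1 = - x 0 1 := inv01 x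
  have i10 : ((x⁻¹ : S2 F) : Matrix (Fin 2) (Fin 2) F) 1 0 = - x 1 0 := inv10 x
  have i11 : ((x⁻¹ : S2 F) : Matrix (Fin 2) (Fin 2) F) 1 1 = x 0 0 := inv11 x
  rw [i00, i01] at e00 e01
  rw [i10, i11] at e10 e11
  have htr : A 0 0 + A 1 1 = 0 := by
    rcases (not_isSc_iff x).1 hx with h1 | h1 | h1
    · have : x 0 1 * (A 0 0 + A 1 1) = 0 := by linear_combination e01
      exact (mul_eq_zero.1 this).resolve_left h1
    · have : x 1 0 * (A 0 0 + A 1 1) = 0 := by linear_combination e10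
      exact (mul_eq_zero.1 this).resolve_left h1
    · by_cases h01 : x 0 1 = 0
      · by_cases h10 : x 1 0 = 0
        · rw [h01, h10] at e00 e11
          have a0 : A 0 0 * (x 0 0 - x 1 1) = 0 := by linear_combination e00
          have a1 : A 1 1 * (x 0 0 - x 1 1) = 0 := by linear_combination -e11
          rw [(mul_eq_zero.1 a0).resolve_right h1, (mul_eq_zero.1 a1).resolve_right h1, add_zero]
        · have : x 1 0 * (A 0 0 + A 1 1) = 0 := by linear_combination e10
          exact (mul_eq_zero.1 this).resolve_left h10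
      · have : x 0 1 * (A 0 0 + A 1 1) = 0 := by linear_combination e01
        exact (mul_eq_zero.1 this).resolve_left h01
  have hAA : A * A = (A 0 0 * A 0 0 + A 0 1 * A 1 0) • (1 : Matrix (Fin 2) (Fin 2) F) := by
    have h11 : A 1 1 = - A 0 0 := by linear_combination htr
    ext i j
    fin_cases i <;> fin_cases j <;>
      simp [Matrix.mul_apply, Fin.sum_univ_two, h11] <;> ring
  rw [← map_mul, ProjGenLinGroup.mk_eq_one, Subgroup.mem_center_iff]
  intro g
  apply Units.ext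
  simp only [Units.val_mul]
  rw [← hA, hAA]
  simp

end PgB

section PgB2

variable {F : Type*} [Field F] [Fintype F]

theorem pg_dih_of_cyc (x : S2 F) (hx : tr x ^ 2 ≠ 4) (n : ℕ) (hC : IsCyclic (pgC x))
    (hn : Nat.card (pgC x) = n) : Nonempty (pgD x ≃* DihedralGroup n) := by
  set C : Subgroup (pgD x) := (pgC x).subgroupOf (pgD x) with hCdef
  have e : C ≃* pgC x := Subgroup.subgroupOfEquivOfLe (pgC_le_pgD x)
  have hCc : IsCyclic C := isCyclic_of_surjective e.symm e.symm.surjective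
  have hCn : Nat.card C = n := by rw [Nat.card_congr e.toEquiv, hn]
  obtain ⟨w, -, hw⟩ := exists_inverting x hx
  have hw' : gconj (SpecialLinearGroup.toGL w) x = x⁻¹ := by rw [gconj_toGL]; exact hw
  have hne := ne_inv_of_ss x hx
  have hidx : C.index = 2 := by
    rw [Subgroup.index_eq_two_iff]
    refine ⟨⟨ProjGenLinGroup.mk (SpecialLinearGroup.toGL w), (mem_pgD x _).2 (Or.inr hw')⟩, ?_⟩
    rintro ⟨b, hb⟩
    obtain ⟨γ, rfl⟩ := ProjGenLinGroup.mk_surjective b
    have hγ := (mem_pgD x γ).1 hb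
    rw [hCdef, Subgroup.mem_subgroupOf, Subgroup.mem_subgroupOf]
    show Xor (ProjGenLinGroup.mk γ * ProjGenLinGroup.mk (SpecialLinearGroup.toGL w) ∈ pgC x)
      (ProjGenLinGroup.mk γ ∈ pgC x)
    rw [← map_mul, mem_pgC, mem_pgC, gconj_mul_apply, hw', map_inv]
    rcases hγ with h | h
    · right
      rw [h]
      exact ⟨rfl, fun h' => hne h'.symm⟩
    · left
      rw [h]
      exact ⟨inv_inv x, fun h' => hne h'.symm⟩
  have hK : Nat.card (pgD x) = 2 * n := by
    rw [← Subgroup.card_mul_index C, hidx, hCn, mul_comm]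
  apply recog_dih n C hCc hCn hK
  rintro ⟨g, hg⟩ hgC
  obtain ⟨γ, rfl⟩ := ProjGenLinGroup.mk_surjective g
  rw [hCdef, Subgroup.mem_subgroupOf] at hgC
  rcases (mem_pgD x γ).1 hg with h | h
  · exact absurd ((mem_pgC x γ).2 h) hgC
  · apply Subtype.ext
    exact pg_inv_sq x (not_isSc_of_tr x hx) γ h

/-- `diag(u, 1)` -/
def pgdiag : Fˣ →* G2 F where
  toFun u := ⟨!![(u : F), 0; 0, 1], !![((u⁻¹ : Fˣ) : F), 0; 0, 1],
    by simp [Matrix.one_fin_two], by simp [Matrix.one_fin_two]⟩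
  map_one' := by
    apply Units.ext
    simp [Matrix.one_fin_two]
  map_mul' u v := by
    apply Units.ext
    simp

omit [Fintype F] in
theorem pgdiag_coe (u : Fˣ) :
    ((pgdiag u : G2 F) : Matrix (Fin 2) (Fin 2) F) = !![(u : F), 0; 0, 1] := rfl

omit [Fintype F] in
theorem pg_det_ne (γ : G2 F) :
    (γ : Matrix (Fin 2) (Fin 2) F) 0 0 * (γ : Matrix (Fin 2) (Fin 2) F) 1 1
      - (γ : Matrix (Fin 2) (Fin 2) F) 0 1 * (γ : Matrix (Fin 2) (Fin 2) F) 1 0 ≠ 0 := by
  have hdet : γ.1.det ≠ 0 := (GeneralLinearGroup.det γ).ne_zero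
  rw [Matrix.det_fin_two] at hdet
  exact hdet

theorem pg_cyc_split (s : F) (hs : s ≠ 0) (hs2 : s ^ 2 ≠ 1) :
    IsCyclic (pgC (dd s hs)) ∧ Nat.card (pgC (dd s hs)) = Fintype.card F - 1 := by
  set ψ : Fˣ →* PG2 F := ProjGenLinGroup.mk.comp pgdiag with hψ
  have d00 : ((dd s hs : S2 F) : Matrix (Fin 2) (Fin 2) F) 0 0 = s := rfl
  have d01 : ((dd s hs : S2 F) : Matrix (Fin 2) (Fin 2) F) 0 1 = 0 := rfl
  have d10 : ((dd s hs : S2 F) : Matrix (Fin 2) (Fin 2) F) 1 0 = 0 := rfl
  have d11 : ((dd s hs : S2 F) : Matrix (Fin 2) (Fin 2) F) 1 1 = s⁻¹ := rfl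
  have hss : s⁻¹ - s ≠ 0 := by
    intro h
    apply hs2
    field_simp at h
    linear_combination -h
  have hinj : Function.Injective ψ := by
    intro u v huv
    obtain ⟨c, hc⟩ := ProjGenLinGroup.mk_eq_mk_iff.1 huv
    have h11 := congrArg (fun M : G2 F => (M : Matrix (Fin 2) (Fin 2) F) 1 1) hc
    have h00 := congrArg (fun M : G2 F => (M : Matrix (Fin 2) (Fin 2) F) 0 0) hc
    simp [pgdiag_coe, GeneralLinearGroup.coe_scalar, Matrix.mul_apply, Matrix.diagonal_apply]
      at h11 h00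
    apply Units.ext
    rw [h11] at h00
    simpa using h00
  have hrange : pgC (dd s hs) = ψ.range := by
    ext m
    obtain ⟨γ, rfl⟩ := ProjGenLinGroup.mk_surjective m
    rw [mem_pgC, gconj_eq_iff]
    constructor
    · intro h
      have e01 := congrFun (congrFun h 0) 1
      have e10 := congrFun (congrFun h 1) 0
      simp only [Matrix.mul_apply, Fin.sum_univ_two, d00, d01, d10, d11] at e01 e10
      have h01 : (γ : Matrix (Fin 2) (Fin 2) F) 0 1 = 0 := by
        have : (γ : Matrix (Fin 2) (Fin 2) F) 0 1 * (s⁻¹ - s) = 0 := by linear_combination e01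
        exact (mul_eq_zero.1 this).resolve_right hss
      have h10 : (γ : Matrix (Fin 2) (Fin 2) F) 1 0 = 0 := by
        have : (γ : Matrix (Fin 2) (Fin 2) F) 1 0 * (s⁻¹ - s) = 0 := by linear_combination -e10
        exact (mul_eq_zero.1 this).resolve_right hss
      have hd := pg_det_ne γ
      rw [h01, h10] at hd
      have h00 : (γ : Matrix (Fin 2) (Fin 2) F) 0 0 ≠ 0 := by
        intro h0; rw [h0] at hd; simp at hd
      have h11 : (γ : Matrix (Fin 2) (Fin 2) F) 1 1 ≠ 0 := by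
        intro h0; rw [h0] at hd; simp at hd
      refine ⟨Units.mk0 ((γ : Matrix (Fin 2) (Fin 2) F) 0 0 / (γ : Matrix (Fin 2) (Fin 2) F) 1 1)
        (div_ne_zero h00 h11), ?_⟩
      show ProjGenLinGroup.mk (pgdiag _) = ProjGenLinGroup.mk γ
      rw [ProjGenLinGroup.mk_eq_mk_iff]
      refine ⟨Units.mk0 _ h11, ?_⟩
      apply Units.ext
      ext i j
      fin_cases i <;> fin_cases j <;>
        simp [pgdiag_coe, GeneralLinearGroup.coe_scalar, Matrix.mul_apply, Matrix.diagonal_apply,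
          h01, h10]
      field_simp
    · rintro ⟨u, hu⟩
      obtain ⟨c, hc⟩ := ProjGenLinGroup.mk_eq_mk_iff.1 hu
      rw [← hc]
      ext i j
      fin_cases i <;> fin_cases j <;>
        simp [pgdiag_coe, GeneralLinearGroup.coe_scalar, Matrix.mul_apply, Matrix.diagonal_apply,
          d00, d01, d10, d11] <;> ring
  rw [hrange]
  refine ⟨isCyclic_of_surjective ψ.rangeRestrict ψ.rangeRestrict_surjective, ?_⟩
  rw [← Nat.card_congr (MonoidHom.ofInjective hinj).toEquiv, Nat.card_units,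
    Nat.card_eq_fintype_card]

omit [Fintype F] in
theorem pg_rep (X A : Matrix (Fin 2) (Fin 2) F) (h10 : X 1 0 ≠ 0) (hA : A * X = X * A) :
    ∃ a b : F, A 0 0 = a + b * X 0 0 ∧ A 0 1 = b * X 0 1 ∧ A 1 0 = b * X 1 0 ∧
      A 1 1 = a + b * X 1 1 := by
  have e00 := congrFun (congrFun hA 0) 0
  have e10 := congrFun (congrFun hA 1) 0
  simp only [Matrix.mul_apply, Fin.sum_univ_two] at e00 e10
  refine ⟨A 0 0 - A 1 0 / X 1 0 * X 0 0, A 1 0 / X 1 0, by ring, ?_, ?_, ?_⟩
  · field_simp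
    linear_combination e00
  · field_simp
  · field_simp
    linear_combination e10

/-- the eigenvalue map -/
noncomputable def pgev {E : Type*} [Field E] [Algebra F E] (X : Matrix (Fin 2) (Fin 2) F)
    (lam : E) (A : Matrix (Fin 2) (Fin 2) F) : E :=
  algebraMap F E (A 0 0 - A 1 0 / X 1 0 * X 0 0) + algebraMap F E (A 1 0 / X 1 0) * lam

omit [Fintype F] in
theorem pgev_eq {E : Type*} [Field E] [Algebra F E] (X : Matrix (Fin 2) (Fin 2) F)
    (h10 : X 1 0 ≠ 0) (lam : E) (A : Matrix (Fin 2) (Fin 2) F) (a b : F)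
    (h00 : A 0 0 = a + b * X 0 0) (h1 : A 1 0 = b * X 1 0) :
    pgev X lam A = algebraMap F E a + algebraMap F E b * lam := by
  unfold pgev
  have e1 : A 1 0 / X 1 0 = b := by rw [h1]; field_simp
  rw [e1, h00]
  congr 2
  ring

omit [Fintype F] in
theorem pgev_mul {E : Type*} [Field E] [Algebra F E] (X : Matrix (Fin 2) (Fin 2) F)
    (h10 : X 1 0 ≠ 0) (lam : E)
    (hlam : lam ^ 2 - algebraMap F E (X 0 0 + X 1 1) * lam
      + algebraMap F E (X 0 0 * X 1 1 - X 0 1 * X 1 0) = 0)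
    (A B : Matrix (Fin 2) (Fin 2) F) (hA : A * X = X * A) (hB : B * X = X * B) :
    pgev X lam (A * B) = pgev X lam A * pgev X lam B := by
  obtain ⟨a, b, a00, a01, a10, a11⟩ := pg_rep X A h10 hA
  obtain ⟨c, d, b00, b01, b10, b11⟩ := pg_rep X B h10 hB
  have m00 : (A * B) 0 0 = (a * c - b * d * (X 0 0 * X 1 1 - X 0 1 * X 1 0))
      + (a * d + b * c + b * d * (X 0 0 + X 1 1)) * X 0 0 := by
    simp only [Matrix.mul_apply, Fin.sum_univ_two]
    rw [a00, a01, b00, b10]; ring
  have m10 : (A * B) 1 0 = (a * d + b * c + b * d * (X 0 0 + X 1 1)) * X 1 0 := by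
    simp only [Matrix.mul_apply, Fin.sum_univ_two]
    rw [a10, a11, b00, b10]; ring
  rw [pgev_eq X h10 lam (A * B) _ _ m00 m10, pgev_eq X h10 lam A a b a00 a10,
    pgev_eq X h10 lam B c d b00 b10]
  simp only [map_sub, map_mul, map_add]
  simp only [map_sub, map_mul, map_add] at hlam
  linear_combination (-(algebraMap F E b * algebraMap F E d)) * hlam

theorem pg_card_center : Nat.card (Subgroup.center (G2 F)) = Fintype.card F - 1 := by
  rw [GeneralLinearGroup.center_eq_range_scalar]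
  have hinj : Function.Injective (GeneralLinearGroup.scalar (Fin 2) : Fˣ →* G2 F) := by
    intro u v huv
    have := congrArg (fun M : G2 F => (M : Matrix (Fin 2) (Fin 2) F) 0 0) huv
    simp [GeneralLinearGroup.coe_scalar] at this
    exact Units.ext this
  rw [← Nat.card_congr (MonoidHom.ofInjective hinj).toEquiv, Nat.card_units,
    Nat.card_eq_fintype_card]

theorem pg_card_map (K : Subgroup (G2 F)) (hK : Subgroup.center (G2 F) ≤ K) :
    Nat.card K = (Fintype.card F - 1) * Nat.card (K.map ProjGenLinGroup.mk) := by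
  rw [← pg_card_center]
  have h := QuotientGroup.card_preimage_mk (Subgroup.center (G2 F))
    ((K.map ProjGenLinGroup.mk : Subgroup (PG2 F)) : Set (PG2 F))
  refine Eq.trans ?_ h
  apply Nat.card_congr
  apply Equiv.subtypeEquivRight
  intro γ
  exact (mem_map_mk K hK γ).symm

end PgB2

end Cfsg.Agent.Lib.Helper54
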