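import Mathlib
import Cfsg.Agent.Lib.Helper65.LS2
import Cfsg.Agent.Lib.Helper51.GammaOKer
import Cfsg.Agent.Lib.Helper54.OrthSpin

/-!
# Local balance for orthogonal groups: rational structure (helper54)

Base change of the orthogonal group of the restriction `Q10 σ Q hσ` of a `σ`-invariant quadratic
form `Q` to the fixed field of `σ`, and the standard field automorphisms of `PΩ(Q)`.
-/

set_option autoImplicit false
set_option linter.unusedSectionVars false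

namespace Cfsg.Agent.Lib.Helper54.Bal

open Module QuadraticMap Matrix
open Cfsg Cfsg.Agent.Lib.Helper51 Cfsg.Agent.Lib.Helper51.GammaO Cfsg.Agent.Lib.Helper52
open Cfsg.Agent.Lib.Helper65.LS2

variable {ι : Type} [Fintype ι] [DecidableEq ι] {F : Type*} [Field F]

section BaseChange

variable (σ : F ≃+* F)

/-- base change of invertible matrices from the fixed field of `σ` -/
noncomputable def bcGL : GL ι ↥(fixSub σ) →* GL ι F :=
  Matrix.GeneralLinearGroup.map (fixSub σ).subtype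

theorem bcGL_coe (s : GL ι ↥(fixSub σ)) :
    ((bcGL σ s : GL ι F) : Matrix ι ι F) =
      (s : Matrix ι ι ↥(fixSub σ)).map (fixSub σ).subtype := rfl

theorem bcGL_apply (s : GL ι ↥(fixSub σ)) (i j : ι) :
    ((bcGL σ s : GL ι F) : Matrix ι ι F) i j = ((s : Matrix ι ι ↥(fixSub σ)) i j : F) := rfl

theorem bcGL_mulVec (s : GL ι ↥(fixSub σ)) (w : ι → ↥(fixSub σ)) :
    ((bcGL σ s : GL ι F) : Matrix ι ι F) *ᵥ up σ w =
      up σ ((s : Matrix ι ι ↥(fixSub σ)) *ᵥ w) := by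
  funext i
  have h := RingHom.map_mulVec (fixSub σ).subtype (s : Matrix ι ι ↥(fixSub σ)) w i
  exact h.symm

theorem bcGL_injective : Function.Injective (bcGL (ι := ι) σ) := by
  intro s t h
  apply Units.ext
  ext i j
  have := congrArg (fun g : GL ι F => (g : Matrix ι ι F) i j) h
  exact this

theorem bcGL_sigma (s : GL ι ↥(fixSub σ)) :
    ((bcGL σ s : GL ι F) : Matrix ι ι F).map σ = ((bcGL σ s : GL ι F) : Matrix ι ι F) := by
  ext i j
  rw [Matrix.map_apply, bcGL_apply]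
  exact ((s : Matrix ι ι ↥(fixSub σ)) i j).2

/-- a `σ`-fixed invertible matrix comes from the fixed field -/
theorem exists_bcGL (g : GL ι F) (hg : (g : Matrix ι ι F).map σ = (g : Matrix ι ι F)) :
    ∃ g0 : GL ι ↥(fixSub σ), bcGL σ g0 = g := by
  have hgi : ((g⁻¹ : GL ι F) : Matrix ι ι F).map σ = ((g⁻¹ : GL ι F) : Matrix ι ι F) := by
    have h1 : Matrix.GeneralLinearGroup.map (σ : F →+* F) g = g := Units.ext hg
    have h2 := congrArg (fun x : GL ι F => x⁻¹) h1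
    simp only [← Matrix.GeneralLinearGroup.map_inv] at h2
    exact congrArg (fun x : GL ι F => (x : Matrix ι ι F)) h2
  have e1 : ∀ i j, σ ((g : Matrix ι ι F) i j) = (g : Matrix ι ι F) i j := fun i j => by
    have := congrFun (congrFun hg i) j
    exact this
  have e2 : ∀ i j, σ (((g⁻¹ : GL ι F) : Matrix ι ι F) i j) = ((g⁻¹ : GL ι F) : Matrix ι ι F) i j :=
    fun i j => by
      have := congrFun (congrFun hgi i) j
      exact this
  have hinj : Function.Injective (fun M : Matrix ι ι ↥(fixSub σ) => M.map (fixSub σ).subtype) :=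
    Matrix.map_injective (fixSub σ).subtype.injective
  refine ⟨⟨Matrix.of fun i j => ⟨(g : Matrix ι ι F) i j, e1 i j⟩,
    Matrix.of fun i j => ⟨((g⁻¹ : GL ι F) : Matrix ι ι F) i j, e2 i j⟩, ?_, ?_⟩, ?_⟩
  · apply hinj
    show (_ * _ : Matrix ι ι ↥(fixSub σ)).map (fixSub σ).subtype = (1 : Matrix ι ι ↥(fixSub σ)).map _
    rw [Matrix.map_mul, Matrix.map_one _ (map_zero _) (map_one _)]
    have : (g : Matrix ι ι F) * ((g⁻¹ : GL ι F) : Matrix ι ι F) = 1 := by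
      rw [← Units.val_mul, mul_inv_cancel, Units.val_one]
    exact this
  · apply hinj
    show (_ * _ : Matrix ι ι ↥(fixSub σ)).map (fixSub σ).subtype = (1 : Matrix ι ι ↥(fixSub σ)).map _
    rw [Matrix.map_mul, Matrix.map_one _ (map_zero _) (map_one _)]
    have : ((g⁻¹ : GL ι F) : Matrix ι ι F) * (g : Matrix ι ι F) = 1 := by
      rw [← Units.val_mul, inv_mul_cancel, Units.val_one]
    exact this
  · apply Units.ext
    ext i j
    rfl

end BaseChange

section Iso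

variable (σ : F ≃+* F) (Q : QuadraticForm F (ι → F))
  (hσ : ∀ v : ι → F, Q (fun i => σ (v i)) = σ (Q v))

theorem polar_comp_toLin' (M : Matrix ι ι F) (a b : ι → F) :
    polar ⇑(Q.comp (Matrix.toLin' M)) a b = polar ⇑Q (M *ᵥ a) (M *ᵥ b) := by
  unfold QuadraticMap.polar
  simp only [QuadraticMap.comp_apply, Matrix.toLin'_apply, Matrix.mulVec_add]

/-- rational isometries are isometries (characteristic not two) -/
theorem bcGL_mem (h2 : (2 : F) ≠ 0) (s : GL ι ↥(fixSub σ))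
    (hs : s ∈ isometryGroup ↥(fixSub σ) ⇑(Q10 σ Q hσ)) : bcGL σ s ∈ isometryGroup F ⇑Q := by
  rw [mem_isometryGroup_iff]
  intro v
  have key := Cfsg.Agent.Lib.Helper51.OTransport.eq_of_polar_basis h2
    (Q.comp (Matrix.toLin' ((bcGL σ s : GL ι F) : Matrix ι ι F))) Q (Pi.basisFun F ι) ?_ v
  · rw [QuadraticMap.comp_apply, Matrix.toLin'_apply] at key
    exact key
  · intro i j
    rw [Pi.basisFun_apply, Pi.basisFun_apply, polar_comp_toLin', ← up_single σ i, ← up_single σ j,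
      bcGL_mulVec, bcGL_mulVec, ← coe_polar_Q10 σ Q hσ, ← coe_polar_Q10 σ Q hσ]
    congr 1
    exact isometry_polar (Q10 σ Q hσ) ⟨s, hs⟩ _ _

theorem mem_of_bcGL_mem (s : GL ι ↥(fixSub σ)) (hs : bcGL σ s ∈ isometryGroup F ⇑Q) :
    s ∈ isometryGroup ↥(fixSub σ) ⇑(Q10 σ Q hσ) := by
  rw [mem_isometryGroup_iff] at hs ⊢
  intro w
  apply Subtype.ext
  rw [coe_Q10, coe_Q10, ← bcGL_mulVec]
  exact hs _

theorem map_commutator_le {G H : Type*} [Group G] [Group H] (f : G →* H) :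
    (commutator G).map f ≤ commutator H := by
  rw [commutator_def, commutator_def, Subgroup.map_commutator]
  exact Subgroup.commutator_mono le_top le_top

/-- base change of isometries -/
noncomputable def bcO (h2 : (2 : F) ≠ 0) :
    ↥(isometryGroup ↥(fixSub σ) ⇑(Q10 σ Q hσ)) →* ↥(isometryGroup F ⇑Q) :=
  ((bcGL σ).comp (isometryGroup ↥(fixSub σ) ⇑(Q10 σ Q hσ)).subtype).codRestrict
    (isometryGroup F ⇑Q) (fun s => bcGL_mem σ Q hσ h2 s.1 s.2)

theorem bcO_coe (h2 : (2 : F) ≠ 0) (s : ↥(isometryGroup ↥(fixSub σ) ⇑(Q10 σ Q hσ))) :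
    ((bcO σ Q hσ h2 s : ↥(isometryGroup F ⇑Q)) : GL ι F) = bcGL σ (s : GL ι ↥(fixSub σ)) := rfl

/-- base change of `Ω` -/
noncomputable def bcΩ (h2 : (2 : F) ≠ 0) :
    ↥(Omega ↥(fixSub σ) ⇑(Q10 σ Q hσ)) →* ↥(Omega F ⇑Q) :=
  ((bcO σ Q hσ h2).comp (Omega ↥(fixSub σ) ⇑(Q10 σ Q hσ)).subtype).codRestrict (Omega F ⇑Q)
    (fun s => map_commutator_le (bcO σ Q hσ h2) (Subgroup.mem_map_of_mem _ s.2))

theorem bcΩ_coe (h2 : (2 : F) ≠ 0) (s : ↥(Omega ↥(fixSub σ) ⇑(Q10 σ Q hσ))) :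
    (((bcΩ σ Q hσ h2 s : ↥(Omega F ⇑Q)) : ↥(isometryGroup F ⇑Q)) : GL ι F) =
      bcGL σ ((s : ↥(isometryGroup ↥(fixSub σ) ⇑(Q10 σ Q hσ))) : GL ι ↥(fixSub σ)) := rfl

/-- the image of `Ω` of the fixed field in `PΩ(Q)` -/
noncomputable def psi (h2 : (2 : F) ≠ 0) :
    ↥(Omega ↥(fixSub σ) ⇑(Q10 σ Q hσ)) →* POmega F ⇑Q :=
  (QuotientGroup.mk' (Subgroup.center ↥(Omega F ⇑Q))).comp (bcΩ σ Q hσ h2)

theorem psi_apply (h2 : (2 : F) ≠ 0) (s : ↥(Omega ↥(fixSub σ) ⇑(Q10 σ Q hσ))) :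
    psi σ Q hσ h2 s = QuotientGroup.mk (bcΩ σ Q hσ h2 s) := rfl

end Iso

section Field

variable (Q : QuadraticForm F (ι → F))

theorem inr_mem_GO (hinv : ∀ (τ : F ≃+* F) (v : ι → F), Q (fun i => τ (v i)) = τ (Q v))
    (τ : RingAut F) : (SemidirectProduct.inr τ : SGL ι F) ∈ GO ⇑Q := by
  refine ⟨1, fun v => ?_⟩
  have := hinv τ v
  simpa using this

/-- field automorphisms as semisimilarities -/
noncomputable def fr (hinv : ∀ (τ : F ≃+* F) (v : ι → F), Q (fun i => τ (v i)) = τ (Q v)) :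
    RingAut F →* ↥(GO ⇑Q) :=
  (SemidirectProduct.inr : RingAut F →* SGL ι F).codRestrict (GO ⇑Q) (inr_mem_GO Q hinv)

theorem fr_left (hinv : ∀ (τ : F ≃+* F) (v : ι → F), Q (fun i => τ (v i)) = τ (Q v))
    (τ : RingAut F) : (fr Q hinv τ).1.left = 1 := rfl

theorem fr_right (hinv : ∀ (τ : F ≃+* F) (v : ι → F), Q (fun i => τ (v i)) = τ (Q v))
    (τ : RingAut F) : (fr Q hinv τ).1.right = τ := rfl

/-- the standard field automorphisms of `PΩ(Q)` -/
noncomputable def Phi (hinv : ∀ (τ : F ≃+* F) (v : ι → F), Q (fun i => τ (v i)) = τ (Q v)) :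
    RingAut F →* MulAut (POmega F ⇑Q) := (Theta ⇑Q).comp (fr Q hinv)

theorem Phi_mk (hinv : ∀ (τ : F ≃+* F) (v : ι → F), Q (fun i => τ (v i)) = τ (Q v))
    (τ : RingAut F) (s : ↥(Omega F ⇑Q)) :
    Phi Q hinv τ (QuotientGroup.mk s) = QuotientGroup.mk (actOmega ⇑Q (fr Q hinv τ) s) := rfl

theorem actOmega_fr_mat (hinv : ∀ (τ : F ≃+* F) (v : ι → F), Q (fun i => τ (v i)) = τ (Q v))
    (τ : RingAut F) (s : ↥(Omega F ⇑Q)) :
    ((((actOmega ⇑Q (fr Q hinv τ) s : ↥(Omega F ⇑Q)) : ↥(isometryGroup F ⇑Q)) : GL ι F) :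
        Matrix ι ι F) =
      ((((s : ↥(isometryGroup F ⇑Q)) : GL ι F) : Matrix ι ι F)).map (τ : F ≃+* F) := by
  rw [actOmega_mat, fr_left, fr_right]
  simp

/-- the standard field automorphism of `σ` fixes the image of `Ω` of the fixed field -/
theorem Phi_psi (hinv : ∀ (τ : F ≃+* F) (v : ι → F), Q (fun i => τ (v i)) = τ (Q v))
    (h2 : (2 : F) ≠ 0) (σ : RingAut F)
    (t : ↥(Omega ↥(fixSub σ) ⇑(Q10 σ Q (hinv σ)))) :
    Phi Q hinv σ (psi σ Q (hinv σ) h2 t) = psi σ Q (hinv σ) h2 t := by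
  rw [psi_apply, Phi_mk]
  congr 1
  apply Subtype.ext
  apply Subtype.ext
  apply Units.ext
  rw [actOmega_fr_mat, bcΩ_coe]
  exact bcGL_sigma σ _

end Field

end Cfsg.Agent.Lib.Helper54.Bal
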