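import Mathlib
import Cfsg.Agent.Lib.Helper52.OutDefs
import Cfsg.Agent.Lib.Helper54.OrthDih

/-!
The index of `Inn(PΩ_{2m+1})` in `pgoAut` is `2` (odd characteristic, odd dimension).
-/

set_option autoImplicit false
set_option linter.unusedSectionVars false

namespace Cfsg.Agent.Lib.Helper54.OUO2

open Cfsg Matrix
open Cfsg.Agent.Lib.Helper51 Cfsg.Agent.Lib.Helper54 Cfsg.Agent.Lib.Helper52.OU

section Generic

variable {ι : Type} [Fintype ι] [DecidableEq ι] {F : Type*} [Field F] [Fintype F]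
variable (Q : QuadraticForm F (ι → F))

/-- In odd dimension, every similarity is a scalar times an isometry of determinant one. -/
theorem sim_eq_special (hQ : PolarSep Q) (hv : ∃ v, Q v ≠ 0) (m : ℕ)
    (hm : Fintype.card ι = 2 * m + 1) (g : ↥(Geo.quadSimilarityGroup (F := F) ⇑Q)) :
    ∃ s : ↥(isometryGroup F ⇑Q), detO Q s = 1 ∧ g * (isoSim Q s)⁻¹ ∈ (simAut ⇑Q).ker := by
  obtain ⟨c, hc⟩ : ∃ c : Fˣ, c = simMul Q hv g := ⟨_, rfl⟩
  obtain ⟨d, hd⟩ : ∃ d : Fˣ, d = Matrix.GeneralLinearGroup.det (g : GL ι F) := ⟨_, rfl⟩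
  have hd2 : d ^ 2 = c ^ (2 * m + 1) := by
    apply Units.ext
    rw [Units.val_pow_eq_pow_val, Units.val_pow_eq_pow_val, hd, hc,
      Matrix.GeneralLinearGroup.val_det_apply, ← hm]
    exact sim_det_sq Q hQ hv g
  obtain ⟨l, hl⟩ : ∃ l : Fˣ, l = d * (c ^ m)⁻¹ := ⟨_, rfl⟩
  have hl2 : l ^ 2 = c := by
    rw [hl, mul_pow, hd2, inv_pow, ← pow_mul, pow_succ, mul_comm m 2, mul_comm (c ^ (2 * m)) c,
      mul_assoc, mul_inv_cancel, mul_one]
  have hlodd : l ^ (2 * m + 1) = d := by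
    rw [pow_succ, pow_mul, hl2, hl, mul_comm d, ← mul_assoc, mul_inv_cancel, one_mul]
  obtain ⟨g0, hg0⟩ : ∃ g0 : ↥(Geo.quadSimilarityGroup (F := F) ⇑Q), g0 = (scalarSim Q l)⁻¹ * g :=
    ⟨_, rfl⟩
  have hmul : simMul Q hv g0 = 1 := by
    rw [hg0, map_mul, map_inv]
    have : simMul Q hv (scalarSim Q l) = l * l :=
      Units.ext (by rw [simMul_of_scalar Q hv _ (l : F) (coe_scalarSim Q l), Units.val_mul])
    rw [this, ← pow_two, hl2, ← hc, inv_mul_cancel]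
  have hiso : (g0 : GL ι F) ∈ isometryGroup F ⇑Q := by
    rw [mem_isometryGroup_iff]
    intro x
    rw [simMul_spec Q hv g0 x, hmul, Units.val_one, one_mul]
  refine ⟨⟨(g0 : GL ι F), hiso⟩, ?_, ?_⟩
  · show Matrix.GeneralLinearGroup.det (g0 : GL ι F) = 1
    have hdl : Matrix.GeneralLinearGroup.det ((scalarSim Q l : ↥(Geo.quadSimilarityGroup (F := F) ⇑Q)) : GL ι F)
        = l ^ (2 * m + 1) := by
      apply Units.ext
      rw [Matrix.GeneralLinearGroup.val_det_apply, coe_scalarSim, Matrix.det_smul, Matrix.det_one,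
        mul_one, hm, Units.val_pow_eq_pow_val]
    rw [hg0, Subgroup.coe_mul, Subgroup.coe_inv, map_mul, map_inv, hdl, hlodd, ← hd,
      inv_mul_cancel]
  · have h1 : isoSim Q ⟨(g0 : GL ι F), hiso⟩ = g0 := rfl
    have : g * (isoSim Q ⟨(g0 : GL ι F), hiso⟩)⁻¹ = scalarSim Q l := by
      rw [h1, hg0]
      group
    rw [this, MonoidHom.mem_ker]
    exact simAut_of_scalar Q _ (l : F) (coe_scalarSim Q l)

/-- The generic index computation in odd dimension. -/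
theorem relIndex_inn_pgo_odd (hF : ringChar F ≠ 2) (hQ : PolarSep Q) (hv : ∃ v, Q v ≠ 0) (m : ℕ)
    (hm : Fintype.card ι = 2 * m + 1)
    (hker : ∀ g : ↥(Geo.quadSimilarityGroup (F := F) ⇑Q), simAut ⇑Q g = 1 →
      ∃ α : F, ((g : GL ι F) : Matrix ι ι F) = α • 1)
    (hex : ∃ v w : ι → F, Q v ≠ 0 ∧ IsSquare (Q v) ∧ ¬ IsSquare (Q w)) :
    (Inn (POmega F ⇑Q)).relIndex (pgoAut F ⇑Q) = 2 := by
  obtain ⟨v, w, hv0, hsv, hsw⟩ := hex
  have hw0 : Q w ≠ 0 := by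
    intro h0
    apply hsw
    rw [h0]
    exact ⟨0, by simp⟩
  obtain ⟨hd0, hn0⟩ := exists_special_not_commutator Q hF v w hv0 hw0 hsv hsw
  have key : ∀ s : ↥(isometryGroup F ⇑Q), detO Q s = 1 →
      (isoSim Q s ∈ (omegaGL ⇑Q).subgroupOf (Geo.quadSimilarityGroup (F := F) ⇑Q) ⊔
        (simAut ⇑Q).ker ↔ s ∈ commutator ↥(isometryGroup F ⇑Q)) := by
    intro s hs
    constructor
    · intro hmem
      obtain ⟨y, hy, z, hz, hyz⟩ := Subgroup.mem_sup_of_normal_right.mp hmem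
      obtain ⟨t, rfl, ht⟩ := (mem_omega_sub_iff Q y).mp hy
      obtain ⟨α, hα⟩ := hker z (MonoidHom.mem_ker.mp hz)
      have hz' : z = isoSim Q (t⁻¹ * s) := by
        rw [isoSim_mul, isoSim_inv, ← hyz]
        group
      have hα2 : α ^ 2 = 1 := by
        obtain ⟨x, hx⟩ := hv
        have h1 := isometry_apply Q (t⁻¹ * s) x
        rw [← coe_isoSim, ← hz', hα, Matrix.smul_mulVec, Matrix.one_mulVec,
          QuadraticMap.map_smul, smul_eq_mul] at h1
        rw [pow_two]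
        exact mul_right_cancel₀ hx (by rw [h1, one_mul])
      have hdet : α ^ (2 * m + 1) = 1 := by
        have h1 : detO Q (t⁻¹ * s) = 1 := by
          rw [map_mul, map_inv, hs, detO_of_mem_commutator Q t ht, inv_one, one_mul]
        have h2 := congrArg Units.val h1
        change ((Matrix.GeneralLinearGroup.det ((t⁻¹ * s : ↥(isometryGroup F ⇑Q)) : GL ι F) : Fˣ) : F)
          = ((1 : Fˣ) : F) at h2
        rw [Matrix.GeneralLinearGroup.val_det_apply, ← coe_isoSim, ← hz', hα, Matrix.det_smul,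
          Matrix.det_one, mul_one, hm, Units.val_one] at h2
        exact h2
      have hα1 : α = 1 := by
        rw [pow_succ, pow_mul, hα2, one_pow, one_mul] at hdet
        exact hdet
      have hzc : t⁻¹ * s = 1 := by
        apply isometry_ext
        rw [← coe_isoSim, ← hz', hα, hα1, one_smul]
        rfl
      have : s = t * (t⁻¹ * s) := by group
      rw [this, hzc, mul_one]
      exact ht
    · intro hsc
      exact Subgroup.mem_sup_left ((mem_omega_sub_iff Q _).mpr ⟨s, rfl, hsc⟩)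
  have key2 : ∀ (b : ↥(Geo.quadSimilarityGroup (F := F) ⇑Q)) (s : ↥(isometryGroup F ⇑Q)),
      b * (isoSim Q s)⁻¹ ∈ (simAut ⇑Q).ker →
      (b ∈ (omegaGL ⇑Q).subgroupOf (Geo.quadSimilarityGroup (F := F) ⇑Q) ⊔ (simAut ⇑Q).ker ↔
        isoSim Q s ∈ (omegaGL ⇑Q).subgroupOf (Geo.quadSimilarityGroup (F := F) ⇑Q) ⊔
          (simAut ⇑Q).ker) := by
    intro b s hbs
    have hbs' : b * (isoSim Q s)⁻¹ ∈ (omegaGL ⇑Q).subgroupOf
        (Geo.quadSimilarityGroup (F := F) ⇑Q) ⊔ (simAut ⇑Q).ker := Subgroup.mem_sup_right hbs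
    constructor
    · intro hb
      have : isoSim Q s = (b * (isoSim Q s)⁻¹)⁻¹ * b := by group
      rw [this]
      exact mul_mem (inv_mem hbs') hb
    · intro hs
      have : b = (b * (isoSim Q s)⁻¹) * isoSim Q s := by group
      rw [this]
      exact mul_mem hbs' hs
  rw [inn_eq, pgoAut_eq, MonoidHom.range_eq_map, ← Subgroup.relIndex_comap, Subgroup.comap_map_eq,
    Subgroup.relIndex_top_right, Subgroup.index_eq_two_iff]
  refine ⟨isoSim Q (refl Q v hv0 * refl Q w hw0), fun b => ?_⟩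
  obtain ⟨s, hs, hbs⟩ := sim_eq_special Q hQ hv m hm b
  have hbs2 : b * isoSim Q (refl Q v hv0 * refl Q w hw0) *
      (isoSim Q (s * (refl Q v hv0 * refl Q w hw0)))⁻¹ ∈ (simAut ⇑Q).ker := by
    have : b * isoSim Q (refl Q v hv0 * refl Q w hw0) *
        (isoSim Q (s * (refl Q v hv0 * refl Q w hw0)))⁻¹ = b * (isoSim Q s)⁻¹ := by
      simp only [isoSim_mul]
      group
    rw [this]
    exact hbs
  rw [key2 b s hbs, key2 _ _ hbs2, key _ (by rw [map_mul, hs, hd0, mul_one]), key s hs]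
  by_cases hsc : s ∈ commutator ↥(isometryGroup F ⇑Q)
  · right
    refine ⟨hsc, fun h => hn0 ?_⟩
    have : refl Q v hv0 * refl Q w hw0 = s⁻¹ * (s * (refl Q v hv0 * refl Q w hw0)) := by group
    rw [this]
    exact mul_mem (inv_mem hsc) h
  · left
    exact ⟨mul_mem_commutator Q hF hQ s _ hs hd0 hsc hn0, hsc⟩

end Generic

section Odd

variable {F : Type*} [Field F] {m : ℕ}

theorem polarSep_odd (h2 : (2 : F) ≠ 0) : PolarSep (QOdd m F) := by
  intro x hx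
  funext k
  rcases k with ⟨⟩ | i | i
  · have := hx (Pi.single (Sum.inl ()) 1)
    rw [polar_QOdd] at this
    simpa [Pi.single_apply, h2] using this
  · have := hx (Pi.single (Sum.inr (Sum.inr i)) 1)
    rw [polar_QOdd] at this
    simpa [Pi.single_apply] using this
  · have := hx (Pi.single (Sum.inr (Sum.inl i)) 1)
    rw [polar_QOdd] at this
    simpa [Pi.single_apply] using this

theorem card_odd : Fintype.card (Unit ⊕ (Fin m ⊕ Fin m)) = 2 * m + 1 := by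
  simp only [Fintype.card_sum, Fintype.card_unit, Fintype.card_fin]
  ring

theorem odd_relIndex_aux [Fintype F] (hodd : Odd (Fintype.card F)) {m : ℕ} (hm : 3 ≤ m)
    (Q' : (Unit ⊕ (Fin m ⊕ Fin m) → F) → F) (hQ' : ⇑(QOdd m F) = Q')
    (hscal : ∀ (h : GL (Unit ⊕ (Fin m ⊕ Fin m)) F),
      Ind Q' 1 h (RingEquiv.refl F) →
      ∃ c : Fˣ, (h : Matrix (Unit ⊕ (Fin m ⊕ Fin m)) (Unit ⊕ (Fin m ⊕ Fin m)) F)
        = (c : F) • (1 : Matrix (Unit ⊕ (Fin m ⊕ Fin m)) (Unit ⊕ (Fin m ⊕ Fin m)) F)) :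
    (Cfsg.Inn (Cfsg.POmega F Q')).relIndex (Cfsg.pgoAut F Q') = 2 := by
  subst hQ'
  have hF := ringChar_ne_two_of_odd hodd
  have h2 : (2 : F) ≠ 0 := Ring.two_ne_zero hF
  have hm1 : 1 ≤ m := by omega
  refine relIndex_inn_pgo_odd (QOdd m F) hF (polarSep_odd h2)
    ⟨_, (hypOdd m F ⟨0, hm1⟩).Q_plus_ne⟩ m card_odd ?_ (hex_of_hypPair hF (hypOdd m F ⟨0, hm1⟩))
  intro z hz
  have hsemi : Cfsg.IsSemisimilarityPair (⇑(QOdd m F)) (z : GL _ F) (RingEquiv.refl F) := by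
    obtain ⟨c, hc⟩ := z.2
    exact ⟨c, fun x => hc x⟩
  have hind : Cfsg.IsInducedBySemilinearPOmega (⇑(QOdd m F)) (z : GL _ F) (RingEquiv.refl F) 1 :=
    (induced_iff _ z 1).mpr hz.symm
  have hI : Ind (⇑(QOdd m F)) 1 (z : GL _ F) (RingEquiv.refl F) := ⟨hsemi, hind⟩
  obtain ⟨c, hc⟩ := hscal (z : GL _ F) hI
  exact ⟨(c : F), hc⟩

/-- **OU-O2**: `[pgoAut : Inn] = 2` for `PΩ_{2m+1}(q)`, `q` odd. -/
theorem odd_relIndex [Fintype F] (hodd : Odd (Fintype.card F)) {m : ℕ} (hm : 3 ≤ m)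
    (hscal : ∀ (h : GL (Unit ⊕ (Fin m ⊕ Fin m)) F),
      Ind (Cfsg.quadFormOdd m F) 1 h (RingEquiv.refl F) →
      ∃ c : Fˣ, (h : Matrix (Unit ⊕ (Fin m ⊕ Fin m)) (Unit ⊕ (Fin m ⊕ Fin m)) F)
        = (c : F) • (1 : Matrix (Unit ⊕ (Fin m ⊕ Fin m)) (Unit ⊕ (Fin m ⊕ Fin m)) F)) :
    (Cfsg.Inn (Cfsg.POmega F (Cfsg.quadFormOdd m F))).relIndex
      (Cfsg.pgoAut F (Cfsg.quadFormOdd m F)) = 2 :=
  odd_relIndex_aux hodd hm _ (coe_QOdd m F) hscal

end Odd

end Cfsg.Agent.Lib.Helper54.OUO2
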