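import Cfsg.Agent.Lib.Helper15.BG12Defs3

/-!
Piece N1 of B&G Section 12 (S1420, architect helper15; delivered by helper54): nilpotent
`σ(M)'`-subgroups of a maximal subgroup `M` are abelian, modulo `H17`.
-/

set_option autoImplicit false

open Cfsg Cfsg.Agent.Lib.Helper32 Cfsg.Agent.Lib.Helper32.BG10 Cfsg.Agent.Lib.Helper3.BG12
  Cfsg.Agent.Lib.Helper15.BG12

namespace Cfsg.Agent.Lib.Helper54.BG12x

universe u

variable {G : Type u} [Group G] [Finite G]

/-- an `r`-subgroup of `M` with `r ∉ σ(M)` is commutative -/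
theorem pgroup_comm_of_h17 (hG : IsMinSimpleOddOrder G) (h17 : H17 G) {M : Subgroup G}
    (hM : IsCoatom M) {r : ℕ} [Fact r.Prime] (hr : r ∉ sigma M) {R : Subgroup G}
    (hR : IsPGroup r R) (hRM : R ≤ M) : ∀ a ∈ R, ∀ b ∈ R, a * b = b * a := by
  by_cases h1 : PRankLE r 1 ↥M
  · -- `R` is cyclic
    by_cases hr2 : r = 2
    · -- odd order: `R` is trivial
      have hodd : Odd (Nat.card ↥R) := minSimple_odd_sub hG R
      obtain ⟨k, hk⟩ := IsPGroup.iff_card.mp hR
      have hk0 : k = 0 := by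
        by_contra hk0
        rw [hk, hr2] at hodd
        exact (Nat.not_even_iff_odd.mpr hodd) ((Nat.even_pow' hk0).mpr even_two)
      rw [hk0, pow_zero] at hk
      have hbot : R = ⊥ := Subgroup.card_eq_one.mp hk
      intro a ha b hb
      rw [hbot, Subgroup.mem_bot] at ha hb
      rw [ha, hb]
    · have hcyc : IsCyclic ↥R := by
        by_contra hnc
        obtain ⟨A, -, hAe, hAc⟩ := Cfsg.Agent.S0126.result (R := ↥R) hr2 hR hnc
        have hle : A.map R.subtype ≤ M := by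
          rintro _ ⟨y, -, rfl⟩
          exact hRM y.2
        have hcard : Nat.card ↥(A.map R.subtype) = r ^ 2 := by
          rw [← Nat.card_congr (A.equivMapOfInjective R.subtype R.subtype_injective).toEquiv]
          exact hAc
        refine not_prankLE_of_le hle ?_ ?_ ?_ h1
        · rintro _ ⟨x, hx, rfl⟩ _ ⟨y, hy, rfl⟩
          have := hAe.1.is_comm.comm (⟨x, hx⟩ : ↥A) ⟨y, hy⟩
          have h' := congrArg (fun z : ↥A => ((z : ↥R) : G)) this
          exact h'
        · rintro _ ⟨x, hx, rfl⟩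
          have := hAe.2 x hx
          have h' := congrArg (fun z : ↥R => (z : G)) this
          simpa using h'
        · rw [hcard]
          have h2 := (Fact.out : r.Prime).one_lt
          nlinarith
      obtain ⟨g, hg⟩ := hcyc.exists_generator
      intro a ha b hb
      obtain ⟨m, hm⟩ := Subgroup.mem_zpowers_iff.mp (hg ⟨a, ha⟩)
      obtain ⟨n, hn⟩ := Subgroup.mem_zpowers_iff.mp (hg ⟨b, hb⟩)
      have h' : (⟨a, ha⟩ : ↥R) * ⟨b, hb⟩ = ⟨b, hb⟩ * ⟨a, ha⟩ := by
        rw [← hm, ← hn]; exact zpow_mul_comm g m n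
      exact congrArg (fun z : ↥R => (z : G)) h'
  · -- `r ∈ τ₂(M)`
    have h2 : PRankLE r 2 ↥M := by
      by_contra h
      exact hr (alpha_sub_sigma hG (ut_of hG) hM ⟨Fact.out, h⟩)
    have ht : r ∈ tau2 M := ⟨Fact.out, hr, h2, h1⟩
    obtain ⟨S, hS⟩ := sylSet_nonempty r M
    obtain ⟨A, hAS, hAe, hAc⟩ := Cfsg.Agent.Lib.Helper3.BG12S.exists_elemAb2_le_sylSet h1 hS
    have h := h17 M hM r ht A ⟨hAS.trans hS.1, hAe, hAc⟩
    obtain ⟨Q, hQ, hRQ⟩ := exists_sylSet_ge hR hRM
    obtain ⟨P, hP⟩ := exists_sylow_of_mem_sylSet hQ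
    have hPc := (h.2.1 P).1
    intro a ha b hb
    have ha' : a ∈ (P : Subgroup ↥M).map M.subtype := by rw [hP]; exact hRQ ha
    have hb' : b ∈ (P : Subgroup ↥M).map M.subtype := by rw [hP]; exact hRQ hb
    obtain ⟨a', ha'P, rfl⟩ := ha'
    obtain ⟨b', hb'P, rfl⟩ := hb'
    have h3 := hPc.is_comm.comm (⟨a', ha'P⟩ : ↥(P : Subgroup ↥M)) ⟨b', hb'P⟩
    have h4 := congrArg (fun z : ↥(P : Subgroup ↥M) => ((z : ↥M) : G)) h3
    exact h4

/-- **N1** (S1420, part 1; B&G 12.10(a)) -/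
theorem nilAb_of_h17 (hG : IsMinSimpleOddOrder G) (h17 : H17 G) : NilAb G := by
  intro M hM N hNM hnil hσ
  obtain ⟨e⟩ := ((Group.isNilpotent_of_finite_tfae (G := ↥N)).out 0 4).mp hnil
  refine ⟨⟨fun x y => ?_⟩⟩
  have key : e.symm x * e.symm y = e.symm y * e.symm x := by
    funext p
    funext P
    show e.symm x p P * e.symm y p P = e.symm y p P * e.symm x p P
    have hp : (p : ℕ).Prime := Nat.prime_of_mem_primeFactors p.2
    have hpd : (p : ℕ) ∣ Nat.card ↥N := Nat.dvd_of_mem_primeFactors p.2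
    have : Fact (p : ℕ).Prime := ⟨hp⟩
    have hR : IsPGroup (p : ℕ) ↥((P : Subgroup ↥N).map N.subtype) := P.isPGroup'.map N.subtype
    have hle : (P : Subgroup ↥N).map N.subtype ≤ M := by
      rintro _ ⟨y, -, rfl⟩
      exact hNM y.2
    have hc := pgroup_comm_of_h17 hG h17 hM (hσ p hp hpd) hR hle
    have h1 := hc ((e.symm x p P : ↥N) : G) ⟨_, (e.symm x p P).2, rfl⟩
      ((e.symm y p P : ↥N) : G) ⟨_, (e.symm y p P).2, rfl⟩
    apply Subtype.ext
    apply Subtype.ext
    exact h1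
  calc x * y = e (e.symm x * e.symm y) := by
        rw [map_mul, e.apply_symm_apply, e.apply_symm_apply]
    _ = e (e.symm y * e.symm x) := by rw [key]
    _ = y * x := by rw [map_mul, e.apply_symm_apply, e.apply_symm_apply]

end Cfsg.Agent.Lib.Helper54.BG12x
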