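import Mathlib
import Cfsg.Agent.Lib.Helper54.BalA

/-!
# Local balance for orthogonal groups: centre and fixed points (helper54)

The centre of `Ω(Q)` consists of the scalars, `PΩ(Q)` has trivial centre, and the fourth power of
a fixed point of a standard field automorphism comes from `Ω` of the fixed field.
-/

set_option autoImplicit false
set_option linter.unusedSectionVars false

namespace Cfsg.Agent.Lib.Helper54.Bal

open Module QuadraticMap Matrix
open Cfsg Cfsg.Agent.Lib.Helper51 Cfsg.Agent.Lib.Helper51.GammaO Cfsg.Agent.Lib.Helper52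
open Cfsg.Agent.Lib.Helper65.LS2 Cfsg.Agent.Lib.Helper54

section Gen

theorem conj_aut' {G : Type*} [Group G] (n : MulAut G) (k : G) :
    MulAut.conj (n k) = n * MulAut.conj k * n⁻¹ := by
  ext y
  simp [MulAut.conj_apply]

theorem ringChar_ne_two_of {K : Type*} [Field K] (h2 : (2 : K) ≠ 0) : ringChar K ≠ 2 := by
  intro h
  apply h2
  have := CharP.cast_eq_zero K (ringChar K)
  rw [h] at this
  exact_mod_cast this

theorem two_ne_zero_fixSub {F : Type*} [Field F] (σ : F ≃+* F) (h2 : (2 : F) ≠ 0) :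
    (2 : ↥(fixSub σ)) ≠ 0 := by
  intro h
  apply h2
  have h6 := congrArg (fixSub σ).subtype h
  rw [map_ofNat, map_zero] at h6
  exact h6

end Gen

variable {ι : Type} [Fintype ι] [DecidableEq ι] {F : Type*} [Field F]

section Center

variable (Q : QuadraticForm F (ι → F))

theorem polarSep_of_nondeg (hQ : (polarBilin Q).Nondegenerate) : PolarSep Q := by
  intro x hx
  apply hQ.2 x
  intro y
  have := hx y
  rw [QuadraticMap.polarBilin_apply_apply]
  exact this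

/-- scalar elements of `Ω` are central -/
theorem mem_center_of_scalar (s : ↥(Omega F ⇑Q)) (c : F)
    (hs : s.1.1.1 = c • (1 : Matrix ι ι F)) : s ∈ Subgroup.center ↥(Omega F ⇑Q) := by
  rw [Subgroup.mem_center_iff]
  intro g
  apply Subtype.ext
  apply Subtype.ext
  apply Units.ext
  show g.1.1.1 * s.1.1.1 = s.1.1.1 * g.1.1.1
  rw [hs]
  simp

/-- a scalar isometry has square one -/
theorem scalar_sq (hv : ∃ v, Q v ≠ 0) (g : GL ι F) (hg : g ∈ isometryGroup F ⇑Q) (c : F)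
    (hc : g.1 = c • (1 : Matrix ι ι F)) : c * c = 1 := by
  obtain ⟨v, hv⟩ := hv
  rw [mem_isometryGroup_iff] at hg
  have h := hg v
  rw [hc, Matrix.smul_mulVec, Matrix.one_mulVec, QuadraticMap.map_smul, smul_eq_mul] at h
  have h3 : (c * c - 1) * Q v = 0 := by rw [sub_mul, h, one_mul, sub_self]
  rcases mul_eq_zero.1 h3 with h4 | h4
  · exact sub_eq_zero.1 h4
  · exact absurd h4 hv

variable [Fintype F]

/-- central elements of `Ω` are scalar -/
theorem scalar_of_mem_center (hQ : (polarBilin Q).Nondegenerate) (hn : 7 ≤ Fintype.card ι)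
    (s : ↥(Omega F ⇑Q)) (hs : s ∈ Subgroup.center ↥(Omega F ⇑Q)) :
    ∃ c : F, c ≠ 0 ∧ s.1.1.1 = c • (1 : Matrix ι ι F) := by
  have h1 : Theta ⇑Q ⟨SemidirectProduct.inl ((s : ↥(isometryGroup F ⇑Q)) : GL ι F),
      inl_mem_GO ⇑Q _ (s : ↥(isometryGroup F ⇑Q)).2⟩ = 1 := by
    rw [Theta_inl]
    have : (QuotientGroup.mk s : POmega F ⇑Q) = 1 := (QuotientGroup.eq_one_iff s).2 hs
    rw [this, map_one]
  obtain ⟨-, c, hc, h⟩ := (ker_Theta Q hQ hn _).1 h1
  exact ⟨c, hc, h⟩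

/-- `PΩ(Q)` has trivial centre -/
theorem conj_inj (hQ : (polarBilin Q).Nondegenerate) (hn : 7 ≤ Fintype.card ι)
    (k : POmega F ⇑Q) (h : MulAut.conj k = 1) : k = 1 := by
  obtain ⟨s, rfl⟩ := QuotientGroup.mk_surjective k
  rw [← Theta_inl] at h
  obtain ⟨-, c, hc, h'⟩ := (ker_Theta Q hQ hn _).1 h
  exact (QuotientGroup.eq_one_iff s).2 (mem_center_of_scalar Q s c h')

/-- squares of isometries lie in `Ω` -/
theorem sq_mem_commutator (h2 : (2 : F) ≠ 0) (hQ : PolarSep Q) (g : ↥(isometryGroup F ⇑Q)) :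
    g * g ∈ commutator ↥(isometryGroup F ⇑Q) := by
  apply mem_commutator_of_det_spin Q (ringChar_ne_two_of h2) hQ
  · obtain ⟨vs, hvs, rfl⟩ := exists_reflList Q h2 hQ g
    rw [map_mul, detO_reflList, ← pow_add, ← two_mul, pow_mul]
    simp
  · rw [map_mul]
    exact Int.units_mul_self _

end Center

section Fix

variable [Fintype F] (Q : QuadraticForm F (ι → F))

/-- the fourth power of a fixed point of a standard field automorphism is rational -/
theorem fix_pow_four (hinv : ∀ (τ : F ≃+* F) (v : ι → F), Q (fun i => τ (v i)) = τ (Q v))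
    (h2 : (2 : F) ≠ 0) (hQ : (polarBilin Q).Nondegenerate) (hn : 7 ≤ Fintype.card ι)
    (σ : RingAut F) (hv : ∃ v, Q v ≠ 0)
    (k : POmega F ⇑Q) (hk : Phi Q hinv σ k = k) :
    ∃ t : ↥(Omega ↥(fixSub σ) ⇑(Q10 σ Q (hinv σ))), psi σ Q (hinv σ) h2 t = k ^ 4 := by
  classical
  letI : Fintype ↥(fixSub σ) := Fintype.ofFinite _
  obtain ⟨s, rfl⟩ := QuotientGroup.mk_surjective k
  rw [Phi_mk] at hk
  have hc : s⁻¹ * actOmega ⇑Q (fr Q hinv σ) s ∈ Subgroup.center ↥(Omega F ⇑Q) :=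
    QuotientGroup.eq.mp hk.symm
  obtain ⟨c, hc0, hcs⟩ := scalar_of_mem_center Q hQ hn _ hc
  have hcc : c * c = 1 :=
    scalar_sq Q hv _ (s⁻¹ * actOmega ⇑Q (fr Q hinv σ) s).1.2 c hcs
  have hS : s.1.1.1.map σ = c • s.1.1.1 := by
    have e1 : (s⁻¹ * actOmega ⇑Q (fr Q hinv σ) s).1.1.1 =
        (s⁻¹).1.1.1 * (actOmega ⇑Q (fr Q hinv σ) s).1.1.1 := rfl
    have e2 : s.1.1.1 * (s⁻¹).1.1.1 = 1 := by
      show (s * s⁻¹).1.1.1 = 1
      rw [mul_inv_cancel]
      rfl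
    rw [e1, actOmega_fr_mat] at hcs
    have e3 := congrArg (fun M => s.1.1.1 * M) hcs
    simp only [← Matrix.mul_assoc, e2, Matrix.one_mul] at e3
    rw [e3]
    simp
  have hS2 : (s * s).1.1.1.map σ = (s * s).1.1.1 := by
    show (s.1.1.1 * s.1.1.1).map σ = s.1.1.1 * s.1.1.1
    rw [Matrix.map_mul, hS, Matrix.smul_mul, Matrix.mul_smul, smul_smul, hcc, one_smul]
  obtain ⟨g0, hg0⟩ := exists_bcGL σ (s * s).1.1 hS2
  have hg0mem : g0 ∈ isometryGroup ↥(fixSub σ) ⇑(Q10 σ Q (hinv σ)) :=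
    mem_of_bcGL_mem σ Q (hinv σ) g0 (by rw [hg0]; exact (s * s).1.2)
  have hsq := sq_mem_commutator (Q10 σ Q (hinv σ)) (two_ne_zero_fixSub σ h2)
    (polarSep_of_nondeg _ (Q10_nondeg σ Q (hinv σ) hQ)) ⟨g0, hg0mem⟩
  refine ⟨⟨⟨g0, hg0mem⟩ * ⟨g0, hg0mem⟩, hsq⟩, ?_⟩
  rw [psi_apply, ← QuotientGroup.mk_pow]
  congr 1
  apply Subtype.ext
  apply Subtype.ext
  show bcGL σ (g0 * g0) = (s ^ 4).1.1
  rw [map_mul, hg0]
  have e4 : s ^ 4 = (s * s) * (s * s) := by
    rw [show (4 : ℕ) = 2 + 2 from rfl, pow_add, pow_two]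
  rw [e4]
  rfl

end Fix

end Cfsg.Agent.Lib.Helper54.Bal
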