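import Mathlib
import Cfsg.Agent.Lib.Helper54.BalB

/-!
# Local balance for orthogonal groups: automorphisms commuting with a field automorphism (helper54)

An automorphism of `PΩ(Q)` commuting with the standard field automorphism of `σ` is induced by a
semisimilarity whose matrix is fixed by `σ`.
-/

set_option autoImplicit false
set_option linter.unusedSectionVars false

namespace Cfsg.Agent.Lib.Helper54.Bal

open Module QuadraticMap Matrix
open Cfsg Cfsg.Agent.Lib.Helper51 Cfsg.Agent.Lib.Helper51.GammaO Cfsg.Agent.Lib.Helper52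
open Cfsg.Agent.Lib.Helper65.LS2 Cfsg.Agent.Lib.Helper54

variable {ι : Type} [Fintype ι] [DecidableEq ι] {F : Type*} [Field F]

theorem smul_one_map (c : F) (f : F ≃+* F) :
    (c • (1 : Matrix ι ι F)).map f = f c • (1 : Matrix ι ι F) := by
  ext i j
  by_cases h : i = j
  · subst h
    simp
  · simp [Matrix.one_apply_ne h]

/-- the Galois group of a finite field over the fixed field of `σ` is generated by `σ` -/
theorem mem_zpowers_of_fix' [Finite F] (σ τ : F ≃+* F) (h : ∀ a, σ a = a → τ a = a) :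
    τ ∈ Subgroup.zpowers σ := by
  haveI : Finite (F ≃+* F) :=
    Finite.of_injective (fun e : F ≃+* F => (e : F → F)) DFunLike.coe_injective
  let f : F ≃ₐ[FixedPoints.subfield (Subgroup.zpowers σ) F] F :=
    AlgEquiv.ofRingEquiv (f := τ) (fun x => h x (x.2 ⟨σ, Subgroup.mem_zpowers σ⟩))
  obtain ⟨g, hg⟩ := FixedPoints.toAlgAut_surjective (Subgroup.zpowers σ) F f
  have e : τ = g.1 := by
    ext a
    have := congrArg (fun f' : F ≃ₐ[FixedPoints.subfield (Subgroup.zpowers σ) F] F => f' a) hg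
    exact this.symm
  rw [e]
  exact g.2

section Rep

variable [Fintype F] (Q : QuadraticForm F (ι → F))

/-- scalar matrices as semisimilarities -/
theorem scalar_mem_GO (b : Fˣ) :
    (SemidirectProduct.inl (Matrix.GeneralLinearGroup.scalar ι b) : SGL ι F) ∈ GO ⇑Q := by
  refine ⟨b * b, fun v => ?_⟩
  show Q (sact _ v) = _
  unfold sact
  rw [SemidirectProduct.left_inl, SemidirectProduct.right_inl, Matrix.GeneralLinearGroup.coe_scalar]
  have e : (Matrix.scalar ι (b : F)) *ᵥ (fun i => (1 : RingAut F) (v i)) = (b : F) • v := by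
    funext i
    simp [Matrix.scalar, Matrix.mulVec_diagonal]
  rw [e, QuadraticMap.map_smul]
  simp

theorem Theta_scalar (hQ : (polarBilin Q).Nondegenerate) (hn : 7 ≤ Fintype.card ι) (b : Fˣ) :
    Theta ⇑Q ⟨SemidirectProduct.inl (Matrix.GeneralLinearGroup.scalar ι b), scalar_mem_GO Q b⟩
      = 1 := by
  rw [ker_Theta Q hQ hn]
  refine ⟨rfl, (b : F), b.ne_zero, ?_⟩
  show (Matrix.GeneralLinearGroup.scalar ι b).1 = _
  rw [Matrix.GeneralLinearGroup.coe_scalar]
  ext i j
  by_cases h : i = j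
  · subst h
    simp
  · simp [Matrix.one_apply_ne h, h]

/-- a semisimilarity with scalar matrix induces a standard field automorphism -/
theorem Theta_eq_Phi_of_scalar (hQ : (polarBilin Q).Nondegenerate) (hn : 7 ≤ Fintype.card ι)
    (hinv : ∀ (τ : F ≃+* F) (v : ι → F), Q (fun i => τ (v i)) = τ (Q v))
    (γ : ↥(GO ⇑Q)) (c : F) (hc : c ≠ 0) (hl : γ.1.left.1 = c • (1 : Matrix ι ι F)) :
    Theta ⇑Q γ = Phi Q hinv γ.1.right := by
  have h : Theta ⇑Q (γ * (fr Q hinv γ.1.right)⁻¹) = 1 := by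
    rw [ker_Theta Q hQ hn]
    refine ⟨?_, c, hc, ?_⟩
    · show (γ.1 * ((fr Q hinv γ.1.right).1)⁻¹).right = 1
      rw [SemidirectProduct.mul_right, SemidirectProduct.inv_right, fr_right, mul_inv_cancel]
    · show (γ.1 * ((fr Q hinv γ.1.right).1)⁻¹).left.1 = c • (1 : Matrix ι ι F)
      rw [SemidirectProduct.mul_left, SemidirectProduct.inv_left, fr_left, inv_one, map_one,
        map_one, mul_one, hl]
  rw [map_mul, map_inv, mul_inv_eq_one] at h
  exact h

/-- an automorphism commuting with the standard field automorphism of `σ` is induced by a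
semisimilarity whose matrix is fixed by `σ` -/
theorem exists_rational_rep (hQ : (polarBilin Q).Nondegenerate) (hn : 7 ≤ Fintype.card ι)
    (hγ : (Theta ⇑Q).range = ⊤)
    (hinv : ∀ (τ : F ≃+* F) (v : ι → F), Q (fun i => τ (v i)) = τ (Q v)) (σ : RingAut F)
    (n : MulAut (POmega F ⇑Q)) (hn' : n * Phi Q hinv σ = Phi Q hinv σ * n) :
    ∃ γ : ↥(GO ⇑Q), Theta ⇑Q γ = n ∧ γ.1.left.1.map σ = γ.1.left.1 ∧
      γ.1.right * σ = σ * γ.1.right := by
  classical
  obtain ⟨γ, rfl⟩ := MonoidHom.range_eq_top.mp hγ n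
  obtain ⟨δ, hδ⟩ : ∃ δ : ↥(GO ⇑Q), δ = (fr Q hinv σ * γ)⁻¹ * (γ * fr Q hinv σ) := ⟨_, rfl⟩
  have hΘ : Theta ⇑Q δ = 1 := by
    rw [hδ, map_mul, map_inv, map_mul, map_mul]
    have : Theta ⇑Q (fr Q hinv σ) = Phi Q hinv σ := rfl
    rw [this, hn']
    exact inv_mul_cancel _
  obtain ⟨hr, c, hc, hl⟩ := (ker_Theta Q hQ hn δ).1 hΘ
  have hAB : (fr Q hinv σ * γ) * δ = γ * fr Q hinv σ := by rw [hδ, mul_inv_cancel_left]
  have hAB' : (fr Q hinv σ).1 * γ.1 * δ.1 = γ.1 * (fr Q hinv σ).1 := congrArg Subtype.val hAB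
  have hright : σ * γ.1.right = γ.1.right * σ := by
    have h := congrArg SemidirectProduct.right hAB'
    rw [SemidirectProduct.mul_right, SemidirectProduct.mul_right, SemidirectProduct.mul_right, hr,
      mul_one, fr_right] at h
    exact h
  have hleft : γ.1.left.1.map σ * (σ * γ.1.right) c • (1 : Matrix ι ι F) = γ.1.left.1 := by
    have h := congrArg SemidirectProduct.left hAB'
    rw [SemidirectProduct.mul_left, SemidirectProduct.mul_left, SemidirectProduct.mul_left,
      SemidirectProduct.mul_right, fr_left, fr_right, one_mul, map_one, mul_one] at h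
    have h' := congrArg (fun g : GL ι F => g.1) h
    simp only [Units.val_mul, glMap_coe] at h'
    rw [hl, smul_one_map] at h'
    exact h'
  rw [Matrix.mul_smul, Matrix.mul_one] at hleft
  obtain ⟨d, hd⟩ : ∃ d : F, d = (σ * γ.1.right) c := ⟨_, rfl⟩
  rw [← hd] at hleft
  have hent : ∀ i j, d * σ (γ.1.left.1 i j) = γ.1.left.1 i j := by
    intro i j
    have := congrFun (congrFun hleft i) j
    rw [Matrix.smul_apply, Matrix.map_apply, smul_eq_mul] at this
    exact this
  haveI : Nonempty ι := Fintype.card_pos_iff.1 (by omega)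
  obtain ⟨i0, j0, ha⟩ : ∃ i0 j0, γ.1.left.1 i0 j0 ≠ 0 := by
    by_contra hcon
    push Not at hcon
    have h0 : γ.1.left.1 = 0 := by
      ext i j
      exact hcon i j
    have h1 : γ.1.left.1 * (γ.1.left⁻¹).1 = 1 := by
      rw [← Units.val_mul, mul_inv_cancel, Units.val_one]
    rw [h0, Matrix.zero_mul] at h1
    obtain ⟨i⟩ := ‹Nonempty ι›
    have := congrFun (congrFun h1 i) i
    simp at this
  obtain ⟨a, haeq⟩ : ∃ a, a = γ.1.left.1 i0 j0 := ⟨_, rfl⟩
  rw [← haeq] at ha
  have hda : d * σ a = a := by rw [haeq]; exact hent i0 j0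
  have hd0 : d ≠ 0 := by
    intro h
    apply ha
    rw [← hda, h, zero_mul]
  have hσa0 : σ a ≠ 0 := by
    intro h
    apply ha
    rw [← hda, h, mul_zero]
  obtain ⟨b, hb⟩ : ∃ b : Fˣ, (b : F) = a⁻¹ := ⟨Units.mk0 a⁻¹ (inv_ne_zero ha), rfl⟩
  have hσb : σ (b : F) = d * b := by
    rw [hb, map_inv₀]
    have : σ a = d⁻¹ * a := by
      rw [eq_inv_mul_iff_mul_eq₀ hd0]
      exact hda
    rw [this, mul_inv, inv_inv]
  refine ⟨⟨SemidirectProduct.inl (Matrix.GeneralLinearGroup.scalar ι b), scalar_mem_GO Q b⟩ * γ,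
    ?_, ?_, ?_⟩
  · rw [map_mul, Theta_scalar Q hQ hn, one_mul]
  · have hl' : ∀ i j, ((⟨SemidirectProduct.inl (Matrix.GeneralLinearGroup.scalar ι b),
        scalar_mem_GO Q b⟩ * γ : ↥(GO ⇑Q))).1.left.1 i j = (b : F) * γ.1.left.1 i j := by
      intro i j
      show ((SemidirectProduct.inl (Matrix.GeneralLinearGroup.scalar ι b) : SGL ι F) * γ.1).left.1 i j
        = _
      rw [SemidirectProduct.mul_left, SemidirectProduct.left_inl, SemidirectProduct.right_inl,
        map_one, MulAut.one_apply, Units.val_mul, Matrix.GeneralLinearGroup.coe_scalar]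
      simp [Matrix.scalar, Matrix.diagonal_mul]
    ext i j
    rw [Matrix.map_apply, hl', map_mul, hσb]
    have : σ (γ.1.left.1 i j) = d⁻¹ * γ.1.left.1 i j := by
      rw [eq_inv_mul_iff_mul_eq₀ hd0]
      exact hent i j
    rw [this]
    field_simp
  · show ((SemidirectProduct.inl (Matrix.GeneralLinearGroup.scalar ι b) : SGL ι F) * γ.1).right * σ
      = σ * ((SemidirectProduct.inl (Matrix.GeneralLinearGroup.scalar ι b) : SGL ι F) * γ.1).right
    rw [SemidirectProduct.mul_right, SemidirectProduct.right_inl, one_mul]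
    exact hright.symm

end Rep

end Cfsg.Agent.Lib.Helper54.Bal
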