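import Mathlib
import Cfsg.Agent.Lib.Helper54.BalC
import Cfsg.Agent.Lib.Helper52.SiegelSimple
import Cfsg.Agent.Lib.Helper43.OUU3

/-!
# Local balance for orthogonal groups: the core (helper54)

`balance_core`: let `σ` be a field automorphism of prime order `p`, and `M` a group of
automorphisms of `PΩ(Q)` of order prime to `p`, centralising `Phi σ` and normalised by the inner
automorphisms centralising `Phi σ`.  If `p` divides the order of the fixed points of `Phi σ`, then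
`M` is trivial.
-/

set_option autoImplicit false
set_option linter.unusedSectionVars false

namespace Cfsg.Agent.Lib.Helper54.Bal

open Module QuadraticMap Matrix
open Cfsg Cfsg.Agent.Lib.Helper51 Cfsg.Agent.Lib.Helper51.GammaO Cfsg.Agent.Lib.Helper52
open Cfsg.Agent.Lib.Helper65.LS2 Cfsg.Agent.Lib.Helper54

variable {ι : Type} [Fintype ι] [DecidableEq ι] {F : Type*} [Field F] [Fintype F]
variable (Q : QuadraticForm F (ι → F))

/-- an element of `Ω` of the fixed field with trivial image in `PΩ(Q)` is a scalar -/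
theorem scalar_of_psi_eq_one (hQ : (polarBilin Q).Nondegenerate) (hn : 7 ≤ Fintype.card ι)
    (σ : RingAut F) (hσ : ∀ v : ι → F, Q (fun i => σ (v i)) = σ (Q v)) (h2 : (2 : F) ≠ 0)
    (t : ↥(Omega ↥(fixSub σ) ⇑(Q10 σ Q hσ))) (h : psi σ Q hσ h2 t = 1) :
    ∃ c : ↥(fixSub σ), t.1.1.1 = c • (1 : Matrix ι ι ↥(fixSub σ)) := by
  rw [psi_apply] at h
  have hcen := (QuotientGroup.eq_one_iff _).1 h
  obtain ⟨c, hc0, hc⟩ := scalar_of_mem_center Q hQ hn _ hcen
  haveI : Nonempty ι := Fintype.card_pos_iff.1 (by omega)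
  obtain ⟨i0⟩ := ‹Nonempty ι›
  have e : ∀ i j, ((t.1.1.1 i j : ↥(fixSub σ)) : F) = (c • (1 : Matrix ι ι F)) i j := by
    intro i j
    rw [← hc]
    rfl
  have e0 : ((t.1.1.1 i0 i0 : ↥(fixSub σ)) : F) = c := by
    have := e i0 i0
    simpa using this
  refine ⟨t.1.1.1 i0 i0, ?_⟩
  ext i j
  rw [e]
  by_cases hij : i = j
  · subst hij
    simp [e0]
  · simp [Matrix.one_apply_ne hij]

set_option maxHeartbeats 2000000 in
/-- **The core of the local balance criterion.** -/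
theorem balance_core (h2 : (2 : F) ≠ 0)
    (hQ : (polarBilin Q).Nondegenerate) (hn : 7 ≤ Fintype.card ι)
    (hγ : (Theta ⇑Q).range = ⊤)
    (hinv : ∀ (τ : F ≃+* F) (v : ι → F), Q (fun i => τ (v i)) = τ (Q v))
    {p : ℕ} [Fact p.Prime] (σ : RingAut F) (hσ : orderOf σ = p)
    (hv : ∃ v, Q v ≠ 0)
    (hinvol : ∃ t : ↥(Omega ↥(fixSub σ) ⇑(Q10 σ Q (hinv σ))), t * t = 1 ∧
      ∀ c : ↥(fixSub σ), t.1.1.1 ≠ c • (1 : Matrix ι ι ↥(fixSub σ)))
    (hdesc : ∀ γ : ↥(GO ⇑Q), γ.1.left.1.map σ = γ.1.left.1 → γ.1.right * σ = σ * γ.1.right →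
      ∃ γ0 : ↥(GO ⇑(Q10 σ Q (hinv σ))),
        bcGL σ γ0.1.left = γ.1.left ∧
        (∀ a : ↥(fixSub σ), ((γ0.1.right a : ↥(fixSub σ)) : F) = γ.1.right (a : F)) ∧
        ∀ t : ↥(Omega ↥(fixSub σ) ⇑(Q10 σ Q (hinv σ))),
          Theta ⇑Q γ (psi σ Q (hinv σ) h2 t)
            = psi σ Q (hinv σ) h2 (actOmega ⇑(Q10 σ Q (hinv σ)) γ0 t))
    (M : Subgroup (MulAut (POmega F ⇑Q)))
    (h1 : ∀ n ∈ M, n * Phi Q hinv σ = Phi Q hinv σ * n)
    (h2' : ∀ n ∈ M, ∀ k : POmega F ⇑Q, Phi Q hinv σ k = k →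
      MulAut.conj k * n * (MulAut.conj k)⁻¹ ∈ M)
    (h3 : (Nat.card M).Coprime p)
    (h4 : ∃ k : POmega F ⇑Q, Phi Q hinv σ k = k ∧ orderOf k = p) :
    M = ⊥ := by
  classical
  have hp : p.Prime := Fact.out
  letI : Fintype ↥(fixSub σ) := Fintype.ofFinite _
  have hQ0 := Q10_nondeg σ Q (hinv σ) hQ
  -- an element of order `p` in the image of `psi`
  obtain ⟨sp, hsp⟩ : ∃ sp : ↥(Omega ↥(fixSub σ) ⇑(Q10 σ Q (hinv σ))),
      orderOf (psi σ Q (hinv σ) h2 sp) = p := by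
    by_cases hp2 : p = 2
    · subst hp2
      obtain ⟨t, ht2, htns⟩ := hinvol
      refine ⟨t, ?_⟩
      apply orderOf_eq_prime
      · rw [pow_two, ← map_mul, ht2, map_one]
      · intro h
        obtain ⟨c, hc⟩ := scalar_of_psi_eq_one Q hQ hn σ (hinv σ) h2 t h
        exact htns c hc
    · obtain ⟨k, hk, hord⟩ := h4
      obtain ⟨t, ht⟩ := fix_pow_four Q hinv h2 hQ hn σ hv k hk
      refine ⟨t, ?_⟩
      rw [ht, Nat.Coprime.orderOf_pow, hord]
      rw [hord]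
      have hodd := hp.odd_of_ne_two hp2
      exact Nat.Coprime.pow_right 2 (Nat.coprime_two_right.2 hodd)
  obtain ⟨ρ, hρ⟩ : ∃ ρ : ↥(Omega ↥(fixSub σ) ⇑(Q10 σ Q (hinv σ))) →* MulAut (POmega F ⇑Q),
      ∀ s, ρ s = MulAut.conj (psi σ Q (hinv σ) h2 s) :=
    ⟨(MulAut.conj).comp (psi σ Q (hinv σ) h2), fun s => rfl⟩
  obtain ⟨N₁, hN₁def⟩ : ∃ N₁ : Subgroup ↥(Omega ↥(fixSub σ) ⇑(Q10 σ Q (hinv σ))),
      N₁ = M.comap ρ := ⟨_, rfl⟩
  have hN₁mem : ∀ s, s ∈ N₁ ↔ ρ s ∈ M := fun s => by rw [hN₁def]; rfl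
  haveI hN₁ : N₁.Normal := ⟨fun s hs g => by
    rw [hN₁mem] at hs ⊢
    rw [map_mul, map_mul, map_inv, hρ g]
    exact h2' _ hs _ (Phi_psi Q hinv h2 σ g)⟩
  by_cases hmove : ∃ u : ι → ↥(fixSub σ), u ≠ 0 ∧ Q10 σ Q (hinv σ) u = 0 ∧
      ∃ n ∈ N₁, n.1.1.1 *ᵥ u ∉ Submodule.span ↥(fixSub σ) ({u} : Set (ι → ↥(fixSub σ)))
  · -- the normal subgroup is everything
    exfalso
    obtain ⟨u, hu0, hu, hmv⟩ := hmove
    have htop : N₁ = ⊤ :=
      normal_eq_top_of_moves (Q10 σ Q (hinv σ)) hQ0 hn N₁ u hu0 hu hmv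
    have hmem : sp ∈ N₁ := by
      rw [htop]
      trivial
    have hmem' : MulAut.conj (psi σ Q (hinv σ) h2 sp) ∈ M := by
      have h5 : ρ sp ∈ M := (hN₁mem _).1 hmem
      rwa [hρ] at h5
    have hne : MulAut.conj (psi σ Q (hinv σ) h2 sp) ≠ 1 := by
      intro h
      have h6 := conj_inj Q hQ hn _ h
      rw [h6, orderOf_one] at hsp
      exact hp.one_lt.ne hsp
    have hpow : MulAut.conj (psi σ Q (hinv σ) h2 sp) ^ p = 1 := by
      rw [← map_pow, ← hsp, pow_orderOf_eq_one, map_one]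
    have hordc : orderOf (MulAut.conj (psi σ Q (hinv σ) h2 sp)) = p := orderOf_eq_prime hpow hne
    have hdvd : p ∣ Nat.card M := by
      rw [← hordc]
      exact Subgroup.orderOf_dvd_natCard M hmem'
    exact (Nat.Prime.coprime_iff_not_dvd hp).1 h3.symm hdvd
  · -- the normal subgroup is central
    push Not at hmove
    have hN₁c : ∀ s ∈ N₁, s ∈ Subgroup.center ↥(Omega ↥(fixSub σ) ⇑(Q10 σ Q (hinv σ))) := by
      intro s hs
      obtain ⟨lam, hlam⟩ := Cfsg.Agent.Lib.Helper43.OUU3.mat_eq_smul_of_fix_singular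
        (Q10 σ Q (hinv σ)) hQ0 (by omega) s.1.1.1 (fun v hv0 hv => by
          obtain ⟨c, hc⟩ := Submodule.mem_span_singleton.1 (hmove v hv0 hv s hs)
          exact ⟨c, hc.symm⟩)
      apply mem_center_of_scalar (Q10 σ Q (hinv σ)) s lam
      apply matrix_ext_mulVec
      intro x
      rw [hlam, Matrix.smul_mulVec, Matrix.one_mulVec]
    rw [eq_bot_iff]
    intro n hn'
    rw [Subgroup.mem_bot]
    obtain ⟨γ, hγn, hG, hτ⟩ := exists_rational_rep Q hQ hn hγ hinv σ n (h1 n hn')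
    obtain ⟨γ0, hbc, hτ0, hact⟩ := hdesc γ hG hτ
    have hΘ0 : Theta ⇑(Q10 σ Q (hinv σ)) γ0 = 1 := by
      ext y
      induction y using QuotientGroup.induction_on with
      | H t =>
        rw [Theta_mk]
        show (QuotientGroup.mk (actOmega ⇑(Q10 σ Q (hinv σ)) γ0 t) :
          POmega ↥(fixSub σ) ⇑(Q10 σ Q (hinv σ))) = QuotientGroup.mk t
        have hmem : actOmega ⇑(Q10 σ Q (hinv σ)) γ0 t * t⁻¹ ∈ N₁ := by
          rw [hN₁mem]
          have e : ρ (actOmega ⇑(Q10 σ Q (hinv σ)) γ0 t * t⁻¹) =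
              n * (MulAut.conj (psi σ Q (hinv σ) h2 t) * n⁻¹ *
                (MulAut.conj (psi σ Q (hinv σ) h2 t))⁻¹) := by
            rw [map_mul, map_inv, hρ, hρ, ← hact, hγn, conj_aut']
            group
          rw [e]
          exact M.mul_mem hn' (h2' _ (M.inv_mem hn') _ (Phi_psi Q hinv h2 σ t))
        have hcen := hN₁c _ hmem
        apply QuotientGroup.eq_iff_div_mem.2
        rw [div_eq_mul_inv]
        exact hcen
    have hker := ker_Theta (Q10 σ Q (hinv σ)) hQ0 hn γ0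
    have hker1 := hker.1 hΘ0
    obtain ⟨hr0, c0, hc0, hl0⟩ := hker1
    have hτfix : ∀ a : F, σ a = a → γ.1.right a = a := by
      intro a ha
      have := hτ0 ⟨a, ha⟩
      rw [hr0] at this
      exact this.symm
    have hτz := mem_zpowers_of_fix' σ γ.1.right hτfix
    have hτp : γ.1.right ^ p = 1 := by
      obtain ⟨k, hk⟩ := Subgroup.mem_zpowers_iff.1 hτz
      rw [← hk, ← zpow_natCast, ← _root_.zpow_mul, mul_comm, _root_.zpow_mul, zpow_natCast, ← hσ,
        pow_orderOf_eq_one, _root_.one_zpow]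
    have hscal : γ.1.left.1 = (c0 : F) • (1 : Matrix ι ι F) := by
      rw [← hbc, bcGL_coe, hl0]
      ext i j
      by_cases h : i = j
      · subst h
        simp
      · simp [Matrix.one_apply_ne h]
    have hc0' : (c0 : F) ≠ 0 := by
      intro h
      apply hc0
      exact Subtype.ext h
    have hnΦ : n = Phi Q hinv γ.1.right := by
      rw [← hγn]
      exact Theta_eq_Phi_of_scalar Q hQ hn hinv γ (c0 : F) hc0' hscal
    have hnp : n ^ p = 1 := by rw [hnΦ, ← map_pow, hτp, map_one]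
    have hd1 : orderOf n ∣ p := orderOf_dvd_of_pow_eq_one hnp
    have hd2 : orderOf n ∣ Nat.card M := Subgroup.orderOf_dvd_natCard M hn'
    have hco : (orderOf n).Coprime p := Nat.Coprime.coprime_dvd_left hd2 h3
    exact orderOf_eq_one_iff.1 (Nat.Coprime.eq_one_of_dvd hco hd1)

end Cfsg.Agent.Lib.Helper54.Bal
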