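import Mathlib
import Cfsg.Agent.Lib.Helper54.BalE

/-!
# Local balance for orthogonal groups: the criterion for a general form (helper54)
-/

set_option autoImplicit false
set_option linter.unusedSectionVars false

namespace Cfsg.Agent.Lib.Helper54.Bal

open Module QuadraticMap Matrix
open Cfsg Cfsg.Agent.Lib.Helper51 Cfsg.Agent.Lib.Helper51.GammaO Cfsg.Agent.Lib.Helper52
open Cfsg.Agent.Lib.Helper65.LS2 Cfsg.Agent.Lib.Helper54

variable {ι : Type} [Fintype ι] [DecidableEq ι] {F : Type*} [Field F] [Fintype F]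
variable (Q : QuadraticForm F (ι → F))

/-- the standard field automorphism is the field automorphism of `σ` -/
theorem isField_Phi (hinv : ∀ (τ : F ≃+* F) (v : ι → F), Q (fun i => τ (v i)) = τ (Q v))
    (σ : RingAut F) : IsFieldAutPOmegaOf ⇑Q σ (Phi Q hinv σ) := by
  intro s s' hs
  rw [Phi_mk]
  congr 1
  apply Subtype.ext
  apply Subtype.ext
  apply Units.ext
  rw [actOmega_fr_mat, hs]

theorem Phi_eq_one (hQ : (polarBilin Q).Nondegenerate) (hn : 7 ≤ Fintype.card ι)
    (hinv : ∀ (τ : F ≃+* F) (v : ι → F), Q (fun i => τ (v i)) = τ (Q v))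
    (σ : RingAut F) (h : Phi Q hinv σ = 1) : σ = 1 :=
  ((ker_Theta Q hQ hn (fr Q hinv σ)).1 h).1

/-- a semisimilarity is a similarity times a field automorphism -/
theorem exists_decomp (hinv : ∀ (τ : F ≃+* F) (v : ι → F), Q (fun i => τ (v i)) = τ (Q v))
    (γ : ↥(GO ⇑Q)) :
    ∃ γl : ↥(GO ⇑Q), γl.1.right = 1 ∧ γ = γl * fr Q hinv γ.1.right := by
  have hmem : (⟨γ.1.left, 1⟩ : SGL ι F) ∈ GO ⇑Q := by
    obtain ⟨c, hc⟩ := γ.2
    refine ⟨c, fun v => ?_⟩
    have h := hc (fun i => (γ.1.right : F ≃+* F).symm (v i))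
    rw [hinv] at h
    simp only [RingEquiv.apply_symm_apply] at h
    exact h
  refine ⟨⟨_, hmem⟩, rfl, ?_⟩
  apply Subtype.ext
  apply SemidirectProduct.ext
  · show γ.1.left = (⟨γ.1.left, 1⟩ * (fr Q hinv γ.1.right).1 : SGL ι F).left
    rw [SemidirectProduct.mul_left, fr_left, map_one, mul_one]
  · show γ.1.right = (⟨γ.1.left, 1⟩ * (fr Q hinv γ.1.right).1 : SGL ι F).right
    rw [SemidirectProduct.mul_right, fr_right, one_mul]

theorem simInduced_of_right_one (γ : ↥(GO ⇑Q)) (h : γ.1.right = 1) :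
    IsSimilarityInducedAutPOmega ⇑Q (Theta ⇑Q γ) := by
  refine ⟨γ.1.left, ?_, ?_⟩
  · obtain ⟨c, hc⟩ := γ.2
    refine ⟨c, fun v => ?_⟩
    have := hc v
    rw [h] at this
    exact this
  · have := (Cfsg.Agent.Lib.Helper51.GammaO.induced_iff ⇑Q γ (Theta ⇑Q γ)).2 rfl
    rw [h] at this
    exact this

set_option maxHeartbeats 2000000 in
/-- **The local balance criterion** for `PΩ(Q)`, given Lang's theorem, an involution and the
descent of rational semisimilarities. -/
theorem balance_generic (q : (ι → F) → F) (hq : ⇑Q = q)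
    (h2 : (2 : F) ≠ 0) (hQ : (polarBilin Q).Nondegenerate) (hn : 7 ≤ Fintype.card ι)
    (hγ : gammaPOmega F q = ⊤)
    (hinv : ∀ (τ : F ≃+* F) (v : ι → F), Q (fun i => τ (v i)) = τ (Q v))
    (hv : ∃ v, Q v ≠ 0)
    (hinvol : ∀ σ : RingAut F, ∃ t : ↥(Omega ↥(fixSub σ) ⇑(Q10 σ Q (hinv σ))), t * t = 1 ∧
      ∀ c : ↥(fixSub σ), t.1.1.1 ≠ c • (1 : Matrix ι ι ↥(fixSub σ)))
    (hdesc : ∀ σ : RingAut F, ∀ γ : ↥(GO ⇑Q), γ.1.left.1.map σ = γ.1.left.1 →
      γ.1.right * σ = σ * γ.1.right →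
      ∃ γ0 : ↥(GO ⇑(Q10 σ Q (hinv σ))),
        bcGL σ γ0.1.left = γ.1.left ∧
        (∀ a : ↥(fixSub σ), ((γ0.1.right a : ↥(fixSub σ)) : F) = γ.1.right (a : F)) ∧
        ∀ t : ↥(Omega ↥(fixSub σ) ⇑(Q10 σ Q (hinv σ))),
          Theta ⇑Q γ (psi σ Q (hinv σ) h2 t)
            = psi σ Q (hinv σ) h2 (actOmega ⇑(Q10 σ Q (hinv σ)) γ0 t))
    (hlang : ∀ (x δ : MulAut (POmega F q)), IsFieldAutClassPOmega q x → ∀ {p : ℕ}, p.Prime →
      orderOf x = p → δ ∈ pgoAut F q → orderOf (δ * x) = p → IsConjUnder (pgoAut F q) x (δ * x))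
    (A : Subgroup (MulAut (POmega F q))) (hinn : ∀ k : POmega F q, MulAut.conj k ∈ A)
    {p : ℕ} [Fact p.Prime] (x : MulAut (POmega F q)) (hxA : x ∈ A) (hord : orderOf x = p)
    (hnot : ¬ IsSimilarityInducedAutPOmega q x) :
    pPrimeCore p ↥(A ⊓ Subgroup.centralizer {x}) ≠ ⊥ ↔
      (IsFieldAutClassPOmega q x ∧ Nat.Coprime p
        (Nat.card ↥(MonoidHom.eqLocus x.toMonoidHom (MonoidHom.id (POmega F q))))) := by
  classical
  subst hq
  have hp : p.Prime := Fact.out
  have hΘtop : (Theta ⇑Q).range = ⊤ := by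
    rw [← gamma_eq_range]
    exact hγ
  -- `x` is conjugate to a standard field automorphism of order `p`
  have hstep0 : ∃ (β : MulAut (POmega F ⇑Q)) (σ : RingAut F), orderOf σ = p ∧
      x = β * Phi Q hinv σ * β⁻¹ := by
    obtain ⟨γ, hγx⟩ := MonoidHom.range_eq_top.mp hΘtop x
    obtain ⟨γl, hγl1, hγdec⟩ := exists_decomp Q hinv γ
    obtain ⟨σ, hσdef⟩ : ∃ σ : RingAut F, σ = γ.1.right := ⟨_, rfl⟩
    rw [← hσdef] at hγdec
    have hx' : x = Theta ⇑Q γl * Phi Q hinv σ := by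
      rw [← hγx, hγdec, map_mul]
      rfl
    have hσne : σ ≠ 1 := by
      intro h
      apply hnot
      rw [← hγx]
      exact simInduced_of_right_one Q γ (by rw [← hσdef, h])
    have hσp : σ ^ p = 1 := by
      have h5 : Theta ⇑Q (γ ^ p) = 1 := by rw [map_pow, hγx, ← hord, pow_orderOf_eq_one]
      have h6 := ((ker_Theta Q hQ hn _).1 h5).1
      have h7 : (γ ^ p).1.right = γ.1.right ^ p :=
        map_pow ((SemidirectProduct.rightHom).comp (GO ⇑Q).subtype) γ p
      rw [hσdef, ← h7, h6]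
    have hσord : orderOf σ = p := orderOf_eq_prime hσp hσne
    have hΦne : Phi Q hinv σ ≠ 1 := fun h => hσne (Phi_eq_one Q hQ hn hinv σ h)
    have hΦp : Phi Q hinv σ ^ p = 1 := by rw [← map_pow, hσp, map_one]
    have hΦord : orderOf (Phi Q hinv σ) = p := orderOf_eq_prime hΦp hΦne
    have hΦfield : IsFieldAutClassPOmega ⇑Q (Phi Q hinv σ) :=
      ⟨1, Phi Q hinv σ, σ, hσne, isField_Phi Q hinv σ, by rw [inv_one, one_mul, mul_one]⟩
    have hδ : Theta ⇑Q γl ∈ pgoAut F ⇑Q :=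
      Subgroup.subset_closure (simInduced_of_right_one Q γl hγl1)
    obtain ⟨h, -, he⟩ := hlang (Phi Q hinv σ) (Theta ⇑Q γl) hΦfield hp hΦord hδ
      (by rw [← hx', hord])
    exact ⟨h, σ, hσord, by rw [hx', he]⟩
  obtain ⟨β, σ, hσord, hxB⟩ := hstep0
  have hσne : σ ≠ RingEquiv.refl F := by
    intro h
    have h1 : σ = 1 := h
    rw [h1, orderOf_one] at hσord
    exact hp.one_lt.ne hσord
  have hΦ : Phi Q hinv σ = β⁻¹ * x * β := by
    rw [hxB]
    group
  have hfield : IsFieldAutClassPOmega ⇑Q x := by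
    refine ⟨β⁻¹, Phi Q hinv σ, σ, hσne, isField_Phi Q hinv σ, ?_⟩
    rw [hΦ, inv_inv]
  have hfixiff : ∀ k : POmega F ⇑Q, x k = k ↔ Phi Q hinv σ (β⁻¹ k) = β⁻¹ k := by
    intro k
    rw [hΦ]
    simp only [MulAut.mul_apply]
    constructor
    · intro h
      rw [MulAut.apply_inv_self, h]
    · intro h
      rw [MulAut.apply_inv_self] at h
      have h2 := congrArg β h
      rwa [MulAut.apply_inv_self, MulAut.apply_inv_self] at h2
  have hcentr : ∀ k : POmega F ⇑Q, x k = k → MulAut.conj k ∈ Subgroup.centralizer {x} := by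
    intro k hk
    rw [Subgroup.mem_centralizer_iff]
    intro h hh
    rw [Set.mem_singleton_iff] at hh
    subst hh
    have h1 := conj_aut' h k
    rw [hk] at h1
    exact mul_inv_eq_iff_eq_mul.1 h1.symm
  haveI : Finite (POmega F ⇑Q) := inferInstance
  constructor
  · intro hne
    refine ⟨hfield, ?_⟩
    by_contra hcop
    have hdvd : p ∣ Nat.card ↥(MonoidHom.eqLocus x.toMonoidHom
        (MonoidHom.id (POmega F ⇑Q))) := by
      by_contra hnd
      exact hcop ((Nat.Prime.coprime_iff_not_dvd hp).2 hnd)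
    have hex : ∃ N : Subgroup ↥(A ⊓ Subgroup.centralizer {x}),
        N.Normal ∧ (Nat.card N).Coprime p ∧ N ≠ ⊥ := by
      by_contra hcon
      push Not at hcon
      apply hne
      unfold Cfsg.pPrimeCore
      rw [sSup_eq_bot]
      rintro N ⟨hN1, hN2⟩
      exact hcon N hN1 hN2
    obtain ⟨N, hNn, hNc, hNb⟩ := hex
    obtain ⟨k₁, hk₁⟩ := exists_prime_orderOf_dvd_card' p hdvd
    let f : ↥(A ⊓ Subgroup.centralizer {x}) →* MulAut (POmega F ⇑Q) :=
      { toFun := fun n => β⁻¹ * n.1 * β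
        map_one' := by
          show β⁻¹ * 1 * β = 1
          group
        map_mul' := fun a b => by
          show β⁻¹ * (a.1 * b.1) * β = (β⁻¹ * a.1 * β) * (β⁻¹ * b.1 * β)
          group }
    have hf : ∀ n, f n = β⁻¹ * n.1 * β := fun n => rfl
    have hfinj : Function.Injective f := by
      intro a b hab
      rw [hf, hf] at hab
      exact Subtype.ext (mul_left_cancel (mul_right_cancel hab))
    have hM : N.map f = ⊥ := by
      apply balance_core Q h2 hQ hn hΘtop hinv σ hσord hv (hinvol σ) (hdesc σ) (N.map f)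
      · intro n' hn'
        obtain ⟨n, hn, rfl⟩ := Subgroup.mem_map.1 hn'
        have hnx : n.1 * x = x * n.1 :=
          (Subgroup.mem_centralizer_iff.1 n.2.2 x (Set.mem_singleton x)).symm
        rw [hΦ, hf]
        calc β⁻¹ * n.1 * β * (β⁻¹ * x * β) = β⁻¹ * (n.1 * x) * β := by group
          _ = β⁻¹ * (x * n.1) * β := by rw [hnx]
          _ = _ := by group
      · intro n' hn' k hk
        obtain ⟨n, hn, rfl⟩ := Subgroup.mem_map.1 hn'
        have hxk : x (β k) = β k := by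
          rw [hfixiff, MulAut.inv_apply_self]
          exact hk
        have hgn : (⟨MulAut.conj (β k), ⟨hinn _, hcentr _ hxk⟩⟩ :
            ↥(A ⊓ Subgroup.centralizer {x})) * n *
            (⟨MulAut.conj (β k), ⟨hinn _, hcentr _ hxk⟩⟩ :
              ↥(A ⊓ Subgroup.centralizer {x}))⁻¹ ∈ N := hNn.conj_mem n hn _
        refine Subgroup.mem_map.2 ⟨_, hgn, ?_⟩
        have e : MulAut.conj (β k) = β * MulAut.conj k * β⁻¹ := conj_aut' β k
        show β⁻¹ * (MulAut.conj (β k) * n.1 * (MulAut.conj (β k))⁻¹) * β =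
          MulAut.conj k * (β⁻¹ * n.1 * β) * (MulAut.conj k)⁻¹
        rw [e]
        group
      · rw [← Nat.card_congr (N.equivMapOfInjective f hfinj).toEquiv]
        exact hNc
      · refine ⟨β⁻¹ k₁.1, (hfixiff k₁.1).1 k₁.2, ?_⟩
        rw [MulEquiv.orderOf_eq, Subgroup.orderOf_coe, hk₁]
    apply hNb
    rw [eq_bot_iff]
    intro n hn
    have h1 : f n ∈ N.map f := Subgroup.mem_map_of_mem f hn
    rw [hM, Subgroup.mem_bot] at h1
    rw [Subgroup.mem_bot]
    apply hfinj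
    rw [h1, map_one]
  · rintro ⟨-, hcop⟩
    let φ : ↥(MonoidHom.eqLocus x.toMonoidHom (MonoidHom.id (POmega F ⇑Q))) →*
        ↥(A ⊓ Subgroup.centralizer {x}) :=
      { toFun := fun k => ⟨MulAut.conj k.1, ⟨hinn _, hcentr _ k.2⟩⟩
        map_one' := Subtype.ext (map_one MulAut.conj)
        map_mul' := fun a b => Subtype.ext (map_mul MulAut.conj a.1 b.1) }
    have hφ : ∀ k, (φ k).1 = MulAut.conj k.1 := fun k => rfl
    have hφinj : Function.Injective φ := by
      intro a b hab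
      have h1 : MulAut.conj a.1 = MulAut.conj b.1 := by rw [← hφ, ← hφ, hab]
      have h2 : MulAut.conj (a.1 * b.1⁻¹) = 1 := by
        rw [map_mul, map_inv, h1, mul_inv_cancel]
      have h3 := conj_inj Q hQ hn _ h2
      exact Subtype.ext (mul_inv_eq_one.1 h3)
    have hNn : (φ.range).Normal := by
      refine ⟨fun n hn g => ?_⟩
      obtain ⟨k, rfl⟩ := hn
      have hgx : g.1 * x = x * g.1 :=
        (Subgroup.mem_centralizer_iff.1 g.2.2 x (Set.mem_singleton x)).symm
      have hk' : x (g.1 k.1) = g.1 k.1 := by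
        have h1 := congrArg (fun f : MulAut (POmega F ⇑Q) => f k.1) hgx
        simp only [MulAut.mul_apply] at h1
        rw [← h1]
        congr 1
        exact k.2
      refine ⟨⟨g.1 k.1, hk'⟩, ?_⟩
      apply Subtype.ext
      show MulAut.conj (g.1 k.1) = g.1 * MulAut.conj k.1 * g.1⁻¹
      exact conj_aut' g.1 k.1
    have hNc : (Nat.card φ.range).Coprime p := by
      rw [← Nat.card_congr (MonoidHom.ofInjective hφinj).toEquiv]
      exact hcop.symm
    have hNb : φ.range ≠ ⊥ := by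
      obtain ⟨t, -, htns⟩ := hinvol σ
      have hk₀ : x (β (psi σ Q (hinv σ) h2 t)) = β (psi σ Q (hinv σ) h2 t) := by
        rw [hfixiff, MulAut.inv_apply_self]
        exact Phi_psi Q hinv h2 σ t
      intro hbot
      have h1 : φ ⟨β (psi σ Q (hinv σ) h2 t), hk₀⟩ ∈ φ.range := ⟨_, rfl⟩
      rw [hbot, Subgroup.mem_bot] at h1
      have h2' : MulAut.conj (β (psi σ Q (hinv σ) h2 t)) = 1 := by
        rw [← hφ ⟨β (psi σ Q (hinv σ) h2 t), hk₀⟩, h1]
        rfl
      have h3 := conj_inj Q hQ hn _ h2'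
      have h4 : psi σ Q (hinv σ) h2 t = 1 :=
        β.injective (h3.trans (map_one β).symm)
      obtain ⟨c, hc⟩ := scalar_of_psi_eq_one Q hQ hn σ (hinv σ) h2 t h4
      exact htns c hc
    intro hbot
    have hle : φ.range ≤ Cfsg.pPrimeCore p ↥(A ⊓ Subgroup.centralizer {x}) :=
      le_sSup ⟨hNn, hNc⟩
    rw [hbot] at hle
    exact hNb (le_bot_iff.1 hle)

end Cfsg.Agent.Lib.Helper54.Bal
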