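import Mathlib
import Cfsg.Agent.Lib.Helper54.DkEven2

set_option autoImplicit false

namespace Cfsg.Agent.Lib.Helper54

open Matrix Cfsg.Agent.S0809 Cfsg.Agent.Lib.Helper19.Dk

section Even3

variable {F : Type*} [Field F]

/-- the subgroup of matrices with entries in a subfield -/
def dkeS (E : Subfield F) : Subgroup (S2 F) where
  carrier := {g | g 0 0 ∈ E ∧ g 0 1 ∈ E ∧ g 1 0 ∈ E ∧ g 1 1 ∈ E}
  one_mem' := by
    refine ⟨?_, ?_, ?_, ?_⟩
    · rw [one00]; exact E.one_mem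
    · rw [one01]; exact E.zero_mem
    · rw [one10]; exact E.zero_mem
    · rw [one11]; exact E.one_mem
  mul_mem' := by
    rintro a b ⟨a1, a2, a3, a4⟩ ⟨b1, b2, b3, b4⟩
    refine ⟨?_, ?_, ?_, ?_⟩
    · rw [mul00]; exact E.add_mem (E.mul_mem a1 b1) (E.mul_mem a2 b3)
    · rw [mul01]; exact E.add_mem (E.mul_mem a1 b2) (E.mul_mem a2 b4)
    · rw [mul10]; exact E.add_mem (E.mul_mem a3 b1) (E.mul_mem a4 b3)
    · rw [mul11]; exact E.add_mem (E.mul_mem a3 b2) (E.mul_mem a4 b4)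
  inv_mem' := by
    rintro a ⟨a1, a2, a3, a4⟩
    refine ⟨?_, ?_, ?_, ?_⟩
    · rw [inv00]; exact a4
    · rw [inv01]; exact E.neg_mem a2
    · rw [inv10]; exact E.neg_mem a3
    · rw [inv11]; exact a1

theorem dke_uu_mem_iff (E : Subfield F) (y : F) : uu y ∈ dkeS E ↔ y ∈ E := by
  constructor
  · intro h; exact h.2.1
  · intro h; exact ⟨E.one_mem, h, E.zero_mem, E.one_mem⟩

theorem dke_coatom_map (L : Subgroup (S2 F))
    (hco : ∀ N : Subgroup (S2 F), L ≤ N → N = L ∨ N = ⊤) (θ : S2 F ≃* S2 F) :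
    ∀ N : Subgroup (S2 F), L.map θ.toMonoidHom ≤ N → N = L.map θ.toMonoidHom ∨ N = ⊤ := by
  intro N hN
  have hsurj : Function.Surjective θ.toMonoidHom := θ.surjective
  have h1 : L ≤ N.comap θ.toMonoidHom := Subgroup.map_le_iff_le_comap.1 hN
  rcases hco _ h1 with h | h
  · left
    rw [← h, Subgroup.map_comap_eq_self_of_surjective hsurj]
  · right
    rw [← Subgroup.map_comap_eq_self_of_surjective hsurj N, h]
    exact Subgroup.map_top_of_surjective _ hsurj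

/-- an intermediate field for a composite degree -/
theorem dke_mid [Fintype F] [CharP F 2] (Kf : Subfield F) (q' m a : ℕ) (hKf : Nat.card Kf = q')
    (hq : Fintype.card F = q' ^ m) (ham : a ∣ m) (ha2 : 2 ≤ a) (hlt : a < m) :
    ∃ E : Subfield F, Kf ≤ E ∧ (∃ y ∈ E, y ∉ Kf) ∧ (∃ w, w ∉ E) := by
  classical
  haveI : Fact (Nat.Prime 2) := ⟨Nat.prime_two⟩
  haveI : Fintype Kf := Fintype.ofFinite _
  haveI : CharP Kf 2 := RingHom.charP Kf.subtype (fun a b hab => Subtype.ext hab) 2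
  obtain ⟨c, -, hc⟩ := FiniteField.card Kf 2
  have hKfc : Fintype.card Kf = q' := by rw [← Nat.card_eq_fintype_card, hKf]
  have hq'c : q' = 2 ^ (c : ℕ) := by rw [← hKfc, hc]
  have hq'2 : 2 ≤ q' := by
    rw [hq'c]
    calc 2 = 2 ^ 1 := by norm_num
      _ ≤ 2 ^ (c : ℕ) := Nat.pow_le_pow_right (by norm_num) c.pos
  have hQ : 2 ^ ((c : ℕ) * a) = q' ^ a := by rw [pow_mul, ← hq'c]
  obtain ⟨E, hE0⟩ : ∃ E : Subfield F,
      E = (iterateFrobenius F 2 ((c : ℕ) * a)).eqLocusField (RingHom.id F) := ⟨_, rfl⟩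
  have hE : ∀ y : F, y ∈ E ↔ y ^ (q' ^ a) = y := by
    intro y
    rw [hE0, RingHom.mem_eqLocusField, iterateFrobenius_def, hQ]
    rfl
  obtain ⟨ζ, hζ⟩ := IsCyclic.exists_ofOrder_eq_natCard (α := Fˣ)
  have hord : orderOf ζ = q' ^ m - 1 := by
    rw [hζ, Nat.card_units, Nat.card_eq_fintype_card, hq]
  have hQlt : q' ^ a < q' ^ m := Nat.pow_lt_pow_right (by omega) hlt
  have hq'lt : q' < q' ^ a := by
    calc q' = q' ^ 1 := (pow_one _).symm
      _ < q' ^ a := Nat.pow_lt_pow_right (by omega) (by omega)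
  have hdvd : q' ^ a - 1 ∣ q' ^ m - 1 := Nat.pow_sub_one_dvd_pow_sub_one q' ham
  obtain ⟨d, hd⟩ := hdvd
  have hd0 : 0 < d := by
    rcases Nat.eq_zero_or_pos d with h | h
    · rw [h, mul_zero] at hd; omega
    · exact h
  refine ⟨E, ?_, ⟨((ζ ^ d : Fˣ) : F), ?_, ?_⟩, ⟨(ζ : F), ?_⟩⟩
  · intro y hy
    rw [hE]
    have h1 : (⟨y, hy⟩ : Kf) ^ (Fintype.card Kf ^ a) = ⟨y, hy⟩ := FiniteField.pow_card_pow a _
    rw [hKfc] at h1
    have h2 := congrArg (Subtype.val) h1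
    simpa using h2
  · rw [hE]
    have h1 : (ζ ^ d) ^ (q' ^ a - 1) = 1 := by
      rw [← pow_mul, mul_comm, ← hd, ← hord]; exact pow_orderOf_eq_one ζ
    have h2 : (ζ ^ d) ^ (q' ^ a) = ζ ^ d := by
      have e : q' ^ a = (q' ^ a - 1) + 1 := by omega
      rw [e, pow_succ, h1, one_mul]
    rw [← Units.val_pow_eq_pow_val, h2]
  · intro hy
    have hy0 : (⟨((ζ ^ d : Fˣ) : F), hy⟩ : Kf) ≠ 0 := by
      intro h; exact (ζ ^ d).ne_zero (congrArg Subtype.val h)
    have h1 := FiniteField.pow_card_sub_one_eq_one _ hy0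
    rw [hKfc] at h1
    have h2 : ((ζ ^ d : Fˣ) : F) ^ (q' - 1) = 1 := by simpa using congrArg Subtype.val h1
    have h3 : (ζ ^ d) ^ (q' - 1) = 1 := by
      apply Units.ext; rw [Units.val_pow_eq_pow_val, h2]; rfl
    rw [← pow_mul] at h3
    have h4 : orderOf ζ ∣ d * (q' - 1) := orderOf_dvd_iff_pow_eq_one.2 h3
    rw [hord, hd, mul_comm] at h4
    have h5 : q' ^ a - 1 ∣ q' - 1 := Nat.dvd_of_mul_dvd_mul_left hd0 h4
    have h6 := Nat.le_of_dvd (by omega) h5
    omega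
  · intro hw
    rw [hE] at hw
    have h1 : ζ ^ (q' ^ a) = ζ := by
      apply Units.ext; rw [Units.val_pow_eq_pow_val]; exact hw
    have h2 : ζ ^ (q' ^ a - 1) = 1 := by
      have e : q' ^ a = (q' ^ a - 1) + 1 := by omega
      rw [e, pow_succ] at h1
      exact mul_right_cancel (b := ζ) (by rw [h1, one_mul])
    have h3 : orderOf ζ ∣ q' ^ a - 1 := orderOf_dvd_iff_pow_eq_one.2 h2
    rw [hord] at h3
    have h4 := Nat.le_of_dvd (by omega) h3
    omega

theorem dke_prime_deg [Fintype F] [CharP F 2] (L' : Subgroup (S2 F))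
    (hco' : ∀ N : Subgroup (S2 F), L' ≤ N → N = L' ∨ N = ⊤)
    (Kf : Subfield F) (hent : ∀ g ∈ L', ∀ i j, g i j ∈ Kf) (huu : ∀ y, uu y ∈ L' → y ∈ Kf)
    (q' m : ℕ) (hKf : Nat.card Kf = q') (hq : Fintype.card F = q' ^ m) (hm : 2 ≤ m) :
    m.Prime := by
  by_contra hnp
  obtain ⟨a, ham, ha2, hlt⟩ := Nat.exists_dvd_of_not_prime2 hm hnp
  obtain ⟨E, hKE, ⟨y, hyE, hyK⟩, ⟨w, hw⟩⟩ := dke_mid Kf q' m a hKf hq ham ha2 hlt
  have hle : L' ≤ dkeS E := fun g hg =>
    ⟨hKE (hent g hg 0 0), hKE (hent g hg 0 1), hKE (hent g hg 1 0), hKE (hent g hg 1 1)⟩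
  rcases hco' _ hle with h | h
  · apply hyK
    apply huu
    rw [← h]
    exact (dke_uu_mem_iff E y).2 hyE
  · apply hw
    have h1 : uu w ∈ dkeS E := by rw [h]; exact Subgroup.mem_top _
    exact (dke_uu_mem_iff E w).1 h1

/-- the subfield outcome -/
theorem dke_field [Fintype F] (h2 : (2 : F) = 0) [CharP F 2] (L : Subgroup (S2 F))
    (hco : ∀ N : Subgroup (S2 F), L ≤ N → N = L ∨ N = ⊤) (hLtop : L ≠ ⊤)
    (hZ : Subgroup.center (S2 F) ≤ L)
    (x₀ : S2 F) (hx₀ : x₀ ∈ L) (hsc : ¬ IsSc x₀) (h4 : tr x₀ ^ 2 = 4) (q' k : ℕ) (hq3 : 3 ≤ q')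
    (hcA : cA L x₀ = Nat.card (Subgroup.center (S2 F)) * q')
    (hcN : cN L x₀ = Nat.card (Subgroup.center (S2 F)) * k * q')
    (hcard : Nat.card L = Nat.card (Subgroup.center (S2 F)) * k * q' * (1 + q'))
    (hk : k = q' - 1 ∨ 2 * k = q' - 1) :
    ∃ (F₀ : Type) (_ : Field F₀) (_ : Fintype F₀) (r : ℕ), r.Prime ∧ Fintype.card F₀ ≠ 2 ∧
        Fintype.card F = Fintype.card F₀ ^ r ∧
        Nonempty (L ≃* Matrix.ProjectiveSpecialLinearGroup (Fin 2) F₀) := by
  classical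
  haveI : Fact (Nat.Prime 2) := ⟨Nat.prime_two⟩
  have hz := center_card_one h2
  have hk1 : 1 ≤ k := by rcases hk with hk | hk <;> omega
  obtain ⟨θ, hNF, hcard'⟩ := exists_nf L hZ x₀ hx₀ hsc h4 q' k (by omega) hk1 hcA hcN hcard
  obtain ⟨Kf, hKf⟩ := exists_subfield 2 hNF
  haveI : Fintype Kf := Fintype.ofFinite _
  haveI : CharP Kf 2 := RingHom.charP Kf.subtype (fun a b hab => Subtype.ext hab) 2
  obtain ⟨n, -, hn⟩ := FiniteField.card Kf 2
  have hKfcard : Fintype.card Kf = q' := by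
    rw [← Nat.card_eq_fintype_card, ← hNF.hB]
    exact Nat.card_congr (Equiv.subtypeEquivRight hKf)
  haveI : Fintype (GaloisField 2 n) := Fintype.ofFinite _
  have hGc : Fintype.card (GaloisField 2 n) = Fintype.card Kf := by
    rw [← Nat.card_eq_fintype_card, GaloisField.card 2 n n.ne_zero, hn]
  let e : GaloisField 2 n ≃+* Kf := FiniteField.ringEquivOfCardEq hGc
  let ι : GaloisField 2 n →+* F := Kf.subtype.comp e.toRingHom
  have hι : ∀ y : F, y ∈ BB (L.map θ.toMonoidHom) ↔ ∃ a, ι a = y := by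
    intro y
    rw [← hKf]
    constructor
    · intro hy
      refine ⟨e.symm ⟨y, hy⟩, ?_⟩
      show ((e (e.symm ⟨y, hy⟩) : Kf) : F) = y
      rw [RingEquiv.apply_symm_apply]
    · rintro ⟨a, rfl⟩
      exact (e a).2
  have hKcard : Fintype.card (GaloisField 2 n) = q' := hGc.trans hKfcard
  letI : Algebra (GaloisField 2 n) F := ι.toAlgebra
  have hqm : Fintype.card F = q' ^ Module.finrank (GaloisField 2 n) F := by
    rw [← hKcard]; exact Module.card_eq_pow_finrank (K := GaloisField 2 n) (V := F)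
  have hsub : ∀ g : S2 (GaloisField 2 n), SpecialLinearGroup.map ι g ∈ L.map θ.toMonoidHom := by
    intro g
    apply sl_sub 2 hNF
    intro i j
    rw [hι]
    exact ⟨g i j, (slmap_entry ι g i j).symm⟩
  have hq_even : Even q' := by
    rw [← hKfcard, hn]; exact (Nat.even_pow' n.ne_zero).2 even_two
  have hkq : k = q' - 1 := by
    obtain ⟨j, hj⟩ := hq_even
    rcases hk with hk | hk <;> omega
  obtain ⟨j, hj⟩ : ∃ j, q' = j + 3 := ⟨q' - 3, by omega⟩
  have e4 : (j + 3) ^ 2 - 1 = (j + 2) * (j + 4) := by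
    have : (j + 3) ^ 2 = (j + 2) * (j + 4) + 1 := by ring
    omega
  have e5 : j + 3 - 1 = j + 2 := by omega
  have hcL' : Nat.card (L.map θ.toMonoidHom)
      = Fintype.card (GaloisField 2 n) * (Fintype.card (GaloisField 2 n) ^ 2 - 1) := by
    rw [hcard', hz, hKcard, hkq, hj, e4, e5]; ring
  have hiso := iso_psl ι (L.map θ.toMonoidHom) hsub hcL'
  have hle : (SpecialLinearGroup.map (n := Fin 2) ι).range ≤ L.map θ.toMonoidHom := by
    rintro _ ⟨g, rfl⟩; exact hsub g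
  have hrc : Nat.card (SpecialLinearGroup.map (n := Fin 2) ι).range
      = Nat.card (S2 (GaloisField 2 n)) :=
    (Nat.card_congr (MonoidHom.ofInjective (slmap_inj ι)).toEquiv).symm
  have heq : (SpecialLinearGroup.map (n := Fin 2) ι).range = L.map θ.toMonoidHom :=
    Subgroup.eq_of_le_of_card_ge hle (by rw [hrc, card_S2, hcL'])
  have hent : ∀ g ∈ L.map θ.toMonoidHom, ∀ i j, g i j ∈ Kf := by
    intro g hg i j
    rw [← heq] at hg
    obtain ⟨g₀, rfl⟩ := hg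
    rw [slmap_entry]
    exact (e (g₀ i j)).2
  have huu : ∀ y, uu y ∈ L.map θ.toMonoidHom → y ∈ Kf := fun y hy => (hKf y).2 hy
  have hco' := dke_coatom_map L hco θ
  obtain ⟨m, hm⟩ : ∃ m, m = Module.finrank (GaloisField 2 n) F := ⟨_, rfl⟩
  rw [← hm] at hqm
  have hm2 : 2 ≤ m := by
    by_contra hlt
    have h01 : m = 0 ∨ m = 1 := by omega
    rcases h01 with h0 | h1
    · rw [h0, pow_zero] at hqm
      have := Fintype.one_lt_card (α := F)
      omega
    · rw [h1, pow_one] at hqm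
      apply hLtop
      apply Subgroup.eq_top_of_card_eq
      rw [hcard, hz, card_S2, hqm, hkq, hj, e4, e5]; ring
  have hprime : m.Prime :=
    dke_prime_deg (L.map θ.toMonoidHom) hco' Kf hent huu q' m
      (by rw [Nat.card_eq_fintype_card, hKfcard]) hqm hm2
  refine ⟨GaloisField 2 n, inferInstance, inferInstance, m, hprime, ?_, ?_, ?_⟩
  · rw [hKcard]; omega
  · rw [hKcard]; exact hqm
  · obtain ⟨f⟩ := hiso
    exact ⟨((Subgroup.equivMapOfInjective L θ.toMonoidHom θ.injective).trans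
      (Subgroup.equivMapOfInjective _ (prj F) (prj_injective h2))).trans f⟩

end Even3

end Cfsg.Agent.Lib.Helper54
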