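import Mathlib
import Cfsg.Agent.Lib.Helper54.DkMaxPerm

set_option autoImplicit false

namespace Cfsg.Agent.Lib.Helper54

theorem dkm_a5_cc : ¬ ∀ x y z w : alternatingGroup (Fin 5),
    (x * y * x⁻¹ * y⁻¹) * (z * w * z⁻¹ * w⁻¹) = (z * w * z⁻¹ * w⁻¹) * (x * y * x⁻¹ * y⁻¹) := by
  intro h
  have h1 := congrArg Subtype.val (h ⟨c[0, 1, 2], Equiv.Perm.mem_alternatingGroup.2 (by decide)⟩
    ⟨c[0, 1, 3], Equiv.Perm.mem_alternatingGroup.2 (by decide)⟩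
    ⟨c[0, 1, 2], Equiv.Perm.mem_alternatingGroup.2 (by decide)⟩
    ⟨c[0, 1, 4], Equiv.Perm.mem_alternatingGroup.2 (by decide)⟩)
  exact absurd h1 (by decide)

end Cfsg.Agent.Lib.Helper54
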