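import Mathlib
import Cfsg.Agent.Lib.Helper4.FCDefs
import Cfsg.Agent.S0055

/-!
# Project FC (S4146), piece V1A
-/

namespace Cfsg.Agent.Lib.Helper4.FC

universe u

open scoped commutatorElement

/-- a subgroup of `s`-power index and a Sylow `s`-subgroup factorise the group -/
theorem v1a_helper54_factor {G : Type u} [Group G] [Finite G] {s : ℕ} [Fact s.Prime] (i : ℕ)
    (S : Sylow s G) (H : Subgroup G) (hH : H.index = s ^ i) (g : G) :
    ∃ y ∈ S, ∃ c ∈ H, g = y * c := by
  have h1 : H.relIndex (S : Subgroup G) = H.index := by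
    have hdvd1 : (S : Subgroup G).index ∣ (H ⊓ (S : Subgroup G)).index :=
      Subgroup.index_dvd_of_le inf_le_right
    have hdvd2 : H.index ∣ (H ⊓ (S : Subgroup G)).index := Subgroup.index_dvd_of_le inf_le_left
    have hcop : (H.index).Coprime ((S : Subgroup G).index) := by
      rw [hH]
      exact Nat.Coprime.pow_left _
        ((Fact.out : s.Prime).coprime_iff_not_dvd.2 S.not_dvd_index)
    have hle := Subgroup.index_inf_le (H := H) (K := (S : Subgroup G))
    have hne : (H ⊓ (S : Subgroup G)).index ≠ 0 := Subgroup.index_ne_zero_of_finite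
    have heq : (H ⊓ (S : Subgroup G)).index = H.index * (S : Subgroup G).index :=
      le_antisymm hle (Nat.le_of_dvd (Nat.pos_of_ne_zero hne)
        (hcop.mul_dvd_of_dvd_of_dvd hdvd2 hdvd1))
    have h2 := Subgroup.relIndex_mul_index (H := H ⊓ (S : Subgroup G)) (K := (S : Subgroup G))
      inf_le_right
    rw [heq, Subgroup.inf_relIndex_right] at h2
    have hne' : (S : Subgroup G).index ≠ 0 := Subgroup.index_ne_zero_of_finite
    exact Nat.eq_of_mul_eq_mul_right (Nat.pos_of_ne_zero hne') h2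
  let f : (S : Subgroup G) ⧸ (H.subgroupOf (S : Subgroup G)) → G ⧸ H :=
    Quotient.map' (fun y => (y : G)) (by
      intro a b hab
      rw [QuotientGroup.leftRel_apply] at hab ⊢
      exact hab)
  have hfinj : Function.Injective f := by
    intro a b
    induction a using Quotient.inductionOn' with
    | _ a =>
      induction b using Quotient.inductionOn' with
      | _ b =>
        intro hab
        simp only [f, Quotient.map'_mk''] at hab
        rw [Quotient.eq''] at hab ⊢
        rw [QuotientGroup.leftRel_apply] at hab ⊢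
        exact hab
  have hcard : Nat.card ((S : Subgroup G) ⧸ (H.subgroupOf (S : Subgroup G))) =
      Nat.card (G ⧸ H) := h1
  have hbij := (Nat.bijective_iff_injective_and_card f).2 ⟨hfinj, hcard⟩
  obtain ⟨q, hq⟩ := hbij.2 (QuotientGroup.mk g)
  induction q using Quotient.inductionOn' with
  | _ y =>
    simp only [f, Quotient.map'_mk''] at hq
    have hq' : ((y : G) : G ⧸ H) = (g : G ⧸ H) := hq
    rw [QuotientGroup.eq] at hq'
    exact ⟨(y : G), y.2, (y : G)⁻¹ * g, hq', by group⟩

theorem fc_v1a : V1aStmt.{u} := by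
  intro G _ _ t s m i A ht hs hst hm hmi hA hAt hAab hAcs hAex
  have : Fact s.Prime := ⟨hs⟩
  have : Fact t.Prime := ⟨ht⟩
  have := hA
  obtain ⟨S⟩ := (inferInstance : Nonempty (Sylow s G))
  -- factorization for x ∈ A
  have hfac : ∀ x ∈ A, ∀ g : G, ∃ y ∈ S, ∃ c ∈ Cen x, g = y * c := by
    intro x hx g
    rcases hAcs x hx with h | h
    · refine ⟨1, one_mem _, g, ?_, by simp⟩
      have h' : Cen x = ⊤ := Subgroup.index_eq_one.1 h
      rw [h']
      trivial
    · exact v1a_helper54_factor i S (Cen x) (by rw [← hmi]; exact h) g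
  -- elements of `A` centralized by `S` are central
  have hcent : ∀ x ∈ A, x ∈ Subgroup.centralizer ((S : Subgroup G) : Set G) →
      x ∈ Subgroup.center G := by
    intro x hx hxS
    rw [Subgroup.mem_center_iff]
    intro g
    obtain ⟨y, hy, c, hc, rfl⟩ := hfac x hx g
    have h1 : y * x = x * y := (Subgroup.mem_centralizer_iff.1 hxS) y hy
    have h2 : x * c = c * x := (Subgroup.mem_centralizer_iff.1 hc) x rfl
    calc y * c * x = y * (c * x) := by group
      _ = y * (x * c) := by rw [h2]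
      _ = (y * x) * c := by group
      _ = x * y * c := by rw [h1]
      _ = x * (y * c) := by group
  have hcs1 : ∀ x : G, x ∈ Subgroup.center G → cs x = 1 := by
    intro x hx
    have h' : Cen x = ⊤ := by
      rw [Subgroup.centralizer_eq_top_iff_subset]
      intro y hy
      rw [Set.mem_singleton_iff] at hy
      rw [hy]
      exact hx
    show (Cen x).index = 1
    rw [h']
    exact Subgroup.index_top
  have hcs1' : ∀ x : G, cs x = 1 → x ∈ Subgroup.center G := by
    intro x hx
    have h' : Cen x = ⊤ := Subgroup.index_eq_one.1 hx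
    rw [Subgroup.centralizer_eq_top_iff_subset] at h'
    exact h' rfl
  -- `⁅A, ⊤⁆ ≤ ⁅A, S⁆`
  have hcomm : ⁅A, (⊤ : Subgroup G)⁆ ≤ ⁅A, (S : Subgroup G)⁆ := by
    rw [Subgroup.commutator_le]
    intro x hx g _
    obtain ⟨y, hy, c, hc, rfl⟩ := hfac x hx g
    have h2 : x * c = c * x := (Subgroup.mem_centralizer_iff.1 hc) x rfl
    have h3 : c * x⁻¹ = x⁻¹ * c := by
      calc c * x⁻¹ = x⁻¹ * (x * c) * x⁻¹ := by group
        _ = x⁻¹ * (c * x) * x⁻¹ := by rw [h2]
        _ = x⁻¹ * c := by group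
    have h4 : ⁅x, y * c⁆ = ⁅x, y⁆ := by
      rw [commutatorElement_def, commutatorElement_def]
      calc x * (y * c) * x⁻¹ * (y * c)⁻¹ = x * y * (c * x⁻¹) * c⁻¹ * y⁻¹ := by group
        _ = x * y * (x⁻¹ * c) * c⁻¹ * y⁻¹ := by rw [h3]
        _ = x * y * x⁻¹ * y⁻¹ := by group
    rw [h4]
    exact Subgroup.commutator_mem_commutator hx hy
  have hV1eq : ⁅A, (S : Subgroup G)⁆ = ⁅A, (⊤ : Subgroup G)⁆ :=
    le_antisymm (Subgroup.commutator_mono le_rfl le_top) hcomm
  -- coprime action
  have : IsMulCommutative A := ⟨⟨fun a b => Subtype.ext (hAab a a.2 b b.2)⟩⟩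
  have hnorm : (S : Subgroup G) ≤ Subgroup.normalizer (A : Set G) := by
    intro y _
    rw [Subgroup.mem_normalizer_iff]
    intro v
    constructor
    · intro hv
      exact hA.conj_mem v hv y
    · intro hv
      have h := hA.conj_mem _ hv y⁻¹
      have h' : y⁻¹ * (y * v * y⁻¹) * y⁻¹⁻¹ = v := by group
      rw [h'] at h
      exact h
  have hcop : (Nat.card (S : Subgroup G)).Coprime (Nat.card A) := by
    obtain ⟨a, ha⟩ := IsPGroup.iff_card.1 S.2
    obtain ⟨b, hb⟩ := IsPGroup.iff_card.1 hAt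
    rw [ha, hb]
    exact Nat.Coprime.pow _ _ ((Nat.coprime_primes hs ht).2 hst)
  obtain ⟨hbot, hsup⟩ := Cfsg.Agent.S0055.result (S : Subgroup G) A hnorm hcop
  rw [hV1eq] at hbot hsup
  have hV1A : ⁅A, (⊤ : Subgroup G)⁆ ≤ A := Subgroup.commutator_le_left A ⊤
  refine ⟨⁅A, (⊤ : Subgroup G)⁆, inferInstance, hV1A, ?_, ?_, ?_⟩
  · intro hbot'
    obtain ⟨x, hx, hxm⟩ := hAex
    rw [hbot', sup_bot_eq] at hsup
    have hx' : x ∈ A ⊓ Subgroup.centralizer ((S : Subgroup G) : Set G) := by
      rw [hsup]; exact hx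
    have := hcs1 x (hcent x hx hx'.2)
    omega
  · intro v hv hv1
    rcases hAcs v (hV1A hv) with h | h
    · exfalso
      apply hv1
      have hvc := hcs1' v h
      have hv' : v ∈ (A ⊓ Subgroup.centralizer ((S : Subgroup G) : Set G)) ⊓
          ⁅A, (⊤ : Subgroup G)⁆ := by
        refine ⟨⟨hV1A hv, Subgroup.mem_centralizer_iff.2 ?_⟩, hv⟩
        intro y _
        exact (Subgroup.mem_center_iff.1 hvc) y
      rw [hbot] at hv'
      exact Subgroup.mem_bot.1 hv'
    · exact h
  · intro x hx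
    have hx' : x ∈ ((A ⊓ Subgroup.centralizer ((S : Subgroup G) : Set G)) ⊔
        ⁅A, (⊤ : Subgroup G)⁆ : Subgroup G) := by
      rw [hsup]; exact hx
    rw [← SetLike.mem_coe, Subgroup.mul_normal] at hx'
    obtain ⟨z, hz, v, hv, rfl⟩ := Set.mem_mul.1 hx'
    exact ⟨z, hcent z hz.1 hz.2, v, hv, rfl⟩

end Cfsg.Agent.Lib.Helper4.FC
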