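import Mathlib
import Cfsg.Agent.Lib.Helper4.FCDefs

/-!
# Project FC (S4146), piece Z2A
-/

namespace Cfsg.Agent.Lib.Helper4.FC

universe u

/-- in the context `Z2Ctx`, the centralizer of a noncentral fixed point is the fixed subgroup -/
theorem z2a_helper54_cen_le {K : Type u} [Group K] [Finite K] (φ : MulAut K) (u : K)
    (hctx : Z2Ctx K φ) (hu : φ u = u) (hnc : u ∉ Subgroup.center K) : Cen u ≤ FixSub φ := by
  obtain ⟨-, -, hfix, hcs⟩ := hctx
  have hle : FixSub φ ≤ Cen u := by
    intro y hy
    have hy' : φ y = y := hy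
    rw [Subgroup.mem_centralizer_iff]
    intro h hh
    rw [Set.mem_singleton_iff] at hh
    subst hh
    exact hfix _ _ hu hy'
  have hidx : (Cen u).index = (FixSub φ).index := hcs u hnc
  have h2 := Subgroup.relIndex_mul_index hle
  rw [← hidx] at h2
  have hne : (Cen u).index ≠ 0 := Subgroup.index_ne_zero_of_finite
  have h3 : (FixSub φ).relIndex (Cen u) = 1 := by
    have h4 : (FixSub φ).relIndex (Cen u) * (Cen u).index = 1 * (Cen u).index := by
      rw [h2, one_mul]
    exact Nat.eq_of_mul_eq_mul_right (Nat.pos_of_ne_zero hne) h4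
  exact Subgroup.relIndex_eq_one.1 h3

theorem fc_z2a : Z2AStmt.{u} := by
  intro K _ _ φ u x hctx hu hnc hx
  have hle := z2a_helper54_cen_le φ u hctx hu hnc
  have hxc : x ∈ Cen u := by
    rw [Subgroup.mem_centralizer_iff]
    intro h hh
    rw [Set.mem_singleton_iff] at hh
    subst hh
    exact hx.symm
  exact hle hxc

end Cfsg.Agent.Lib.Helper4.FC
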