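import Mathlib
import Cfsg.Agent.Lib.Helper4.FCDefs

/-!
# Project FC (S4146), piece Z2B
-/

namespace Cfsg.Agent.Lib.Helper4.FC

universe u

theorem fc_z2b : Z2BStmt.{u} := by
  intro K _ _ φ hctx
  by_contra hcon
  push Not at hcon
  obtain ⟨-, ⟨a, b, hab⟩, hfix, hcs⟩ := hctx
  -- a noncentral element
  have ha : a ∉ Subgroup.center K := by
    intro hac
    exact hab ((Subgroup.mem_center_iff.1 hac) b).symm
  -- fixed points are central
  have hFZ : FixSub φ ≤ Cen a := by
    intro y hy
    have hy' : φ y = y := hy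
    have hyc : y ∈ Subgroup.center K := hcon y hy'
    rw [Subgroup.mem_centralizer_iff]
    intro h hh
    exact (Subgroup.mem_center_iff.1 hyc) h
  have hidx : (Cen a).index = (FixSub φ).index := hcs a ha
  have h2 := Subgroup.relIndex_mul_index hFZ
  rw [← hidx] at h2
  have hne : (Cen a).index ≠ 0 := Subgroup.index_ne_zero_of_finite
  have h3 : (FixSub φ).relIndex (Cen a) = 1 := by
    have h4 : (FixSub φ).relIndex (Cen a) * (Cen a).index = 1 * (Cen a).index := by
      rw [h2, one_mul]
    exact Nat.eq_of_mul_eq_mul_right (Nat.pos_of_ne_zero hne) h4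
  have hle : Cen a ≤ FixSub φ := Subgroup.relIndex_eq_one.1 h3
  have haa : a ∈ Cen a := by
    rw [Subgroup.mem_centralizer_iff]
    intro h hh
    rw [Set.mem_singleton_iff] at hh
    subst hh
    rfl
  have hfa : φ a = a := hle haa
  exact ha (hcon a hfa)

end Cfsg.Agent.Lib.Helper4.FC
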