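import Mathlib
import Cfsg.Agent.Lib.Helper54.N13b

set_option autoImplicit false

namespace Cfsg.Agent.Lib.Helper54

open Matrix Cfsg.Agent.S0809 Cfsg.Agent.Lib.Helper19.Dk

section N13c

variable {F : Type*} [Field F] [Fintype F]

theorem n13_dih (hq : Fintype.card F = 13) (L : Subgroup (S2 F))
    (hZ : Subgroup.center (S2 F) ≤ L)
    (hn : Subgroup.normalizer (L : Set (S2 F)) ≠ ⊤)
    (x : S2 F) (hxL : x ∈ L) (hx : tr x ^ 2 ≠ 4) (hcard : Nat.card L = 2 * cA L x) :
    Nat.card (Subgroup.normalizer (L : Set (S2 F))) = 24 ∨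
    Nat.card (Subgroup.normalizer (L : Set (S2 F))) = 28 ∨
    Nat.card (Subgroup.normalizer (L : Set (S2 F))) = 156 := by
  have h2 := n13_two hq
  have hz := center_card_two h2
  have hLN : L ≤ Subgroup.normalizer (L : Set (S2 F)) := Subgroup.le_normalizer
  have ho := n13_orders hq _ (hZ.trans hLN) hn
  have hsc := not_isSc_of_tr x hx
  have hall : L ≤ dkeN x := by
    intro g hg
    rw [dke_mem_N]
    exact eq_or_inv x (g * x * g⁻¹) hx (dke_idx2 L x hxL hcard g hg) (tr_conj g x)
  have hNc := n13_card_N x hx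
  have hC := n13_card_cent hq x hx
  have hcd : cA L x ∣ Nat.card (Subgroup.centralizer ({x} : Set (S2 F))) := by
    unfold cA
    exact Subgroup.card_dvd_of_le inf_le_right
  have hgt : 2 < cA L x := by
    have h := card_Z_lt L hZ x hxL hsc
    rw [hz] at h; exact h
  have hev : 2 ∣ cA L x := by
    have h := Subgroup.card_dvd_of_le (center_le_cenL L hZ x)
    rw [hz] at h; exact h
  have hdL := Subgroup.card_dvd_of_le hLN
  have hcases : cA L x = Nat.card (Subgroup.centralizer ({x} : Set (S2 F))) ∨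
      cA L x = 6 ∨ cA L x = 4 := by
    generalize cA L x = c at hcd hgt hev
    rcases hC with h | h
    · rw [h] at hcd ⊢
      have hle := Nat.le_of_dvd (by norm_num) hcd
      interval_cases c <;> omega
    · rw [h] at hcd ⊢
      have hle := Nat.le_of_dvd (by norm_num) hcd
      interval_cases c <;> omega
  rcases hcases with h | h | h
  · have hcL : Nat.card L = 24 ∨ Nat.card L = 28 ∨ Nat.card L = 156 := by
      rw [hcard, h]
      rcases hC with h' | h' <;> rw [h'] <;> simp
    have h3 := n13_arith _ _ hcL hdL ho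
    rw [h3]; exact hcL
  · have hC12 : Nat.card (Subgroup.centralizer ({x} : Set (S2 F))) = 12 := by
      rcases hC with h' | h'
      · exact h'
      · rw [h', h] at hcd; omega
    have hD : Nat.card (dkeN x) = 24 := by rw [hNc, hC12]
    have hL12 : Nat.card L = 12 := by rw [hcard, h]
    have hidx : (L.subgroupOf (dkeN x)).index = 2 := by
      have h1 := Subgroup.card_mul_index (L.subgroupOf (dkeN x))
      rw [Nat.card_congr (Subgroup.subgroupOfEquivOfLe hall).toEquiv, hL12, hD] at h1
      omega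
    have hnorm := Subgroup.normal_of_index_eq_two hidx
    have hDN : dkeN x ≤ Subgroup.normalizer (L : Set (S2 F)) := by
      intro g hg
      rw [mem_normalizer_fin]
      intro t ht
      have h5 := hnorm.conj_mem ⟨t, hall ht⟩ (by rw [Subgroup.mem_subgroupOf]; exact ht) ⟨g, hg⟩
      rw [Subgroup.mem_subgroupOf] at h5
      exact h5
    have hd := Subgroup.card_dvd_of_le hDN
    rw [hD] at hd
    have h3 := n13_arith _ 24 (Or.inl rfl) hd ho
    left; exact h3
  · have hL8 : Nat.card L = 8 := by rw [hcard, h]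
    have h4c : Nat.card (cenL L x) = 4 := h
    have hx4 : x ^ 4 = 1 := by
      have h1 : orderOf x ∣ Nat.card (cenL L x) :=
        Subgroup.orderOf_dvd_natCard _ (mem_cenL.2 ⟨hxL, rfl⟩)
      rw [h4c] at h1
      exact orderOf_dvd_iff_pow_eq_one.1 h1
    have hxx : x * x = S0809.negOne := by
      have h1 : (x * x) * (x * x) = 1 := by
        have e : (x * x) * (x * x) = x ^ 4 := by simp [pow_succ, mul_assoc]
        rw [e, hx4]
      rcases sq_eq_one h2 (x * x) h1 with h3 | h3
      · exfalso
        rcases sq_eq_one h2 x h3 with h4 | h4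
        · exact hsc (h4 ▸ isSc_one)
        · exact hsc (h4 ▸ isSc_negOne)
      · exact h3
    obtain ⟨y, hyL, hyc⟩ : ∃ y ∈ L, ¬ (y * x = x * y) := by
      by_contra hcon
      push Not at hcon
      have hle : L ≤ cenL L x := fun g hg => mem_cenL.2 ⟨hg, hcon g hg⟩
      have h5 := Subgroup.card_le_of_le hle
      omega
    have hyinv : y * x * y⁻¹ = x⁻¹ := by
      rcases (dke_mem_N x y).1 (hall hyL) with h3 | h3
      · exact absurd ((conj_eq_iff y x x).1 h3) hyc
      · exact h3
    have hyy : y * y = S0809.negOne := by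
      rcases isSc_eq _ (sq_isSc_of_inv x y hx hyinv) with h3 | h3
      · exfalso
        rcases sq_eq_one h2 y h3 with h4 | h4
        · apply hyc; rw [h4]; group
        · apply hyc; rw [h4]; exact negOne_mul x
      · exact h3
    have hxinv : x⁻¹ = S0809.negOne * x := by
      apply inv_eq_of_mul_eq_one_right
      rw [← mul_assoc, ← negOne_mul x, mul_assoc, hxx, negOne_sq]
    have hyx : y * x = S0809.negOne * (x * y) := by
      have h3 := (conj_eq_iff y x x⁻¹).1 hyinv
      rw [h3, hxinv, mul_assoc]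
    obtain ⟨h, hh1, hh2⟩ := n13_q8 x y hxx hyy hyx h2
    have hord : orderOf x = 4 := by
      have : Fact (Nat.Prime 2) := ⟨Nat.prime_two⟩
      have h3 := orderOf_eq_prime_pow (x := x) (p := 2) (n := 1) (by
        intro h3
        have h3' : x * x = 1 := by simpa [pow_two] using h3
        rw [hxx] at h3'
        exact negOne_ne_one' h2 h3') (by simpa using hx4)
      simpa using h3
    have hzp : Subgroup.zpowers x = cenL L x := by
      apply Subgroup.eq_of_le_of_card_ge
      · rw [Subgroup.zpowers_le]; exact mem_cenL.2 ⟨hxL, rfl⟩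
      · rw [Nat.card_zpowers, hord, h4c]
    have hxyL : x * y ∈ L := L.mul_mem hxL hyL
    have hcomm_case : ∀ t ∈ L, t * x = x * t → h * t * h⁻¹ ∈ L := by
      intro t ht htc
      have h3 : t ∈ Subgroup.zpowers x := by rw [hzp]; exact mem_cenL.2 ⟨ht, htc⟩
      obtain ⟨k, rfl⟩ := Subgroup.mem_zpowers_iff.1 h3
      rw [← conj_zpow, hh1]
      exact L.zpow_mem hyL k
    have hhN : h ∈ Subgroup.normalizer (L : Set (S2 F)) := by
      rw [mem_normalizer_fin]
      intro t ht
      rcases (dke_mem_N x t).1 (hall ht) with h3 | h3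
      · exact hcomm_case t ht ((conj_eq_iff t x x).1 h3)
      · have h4 : (t * y⁻¹) * x = x * (t * y⁻¹) := by
          have e1 : y⁻¹ * x * y = x⁻¹ := by
            have h5 : x = y⁻¹ * x⁻¹ * y := by rw [← hyinv]; group
            calc y⁻¹ * x * y = (y⁻¹ * x⁻¹ * y)⁻¹ := by group
              _ = x⁻¹ := by rw [← h5]
          rw [← conj_eq_iff]
          have e2 : t * y⁻¹ * x * (t * y⁻¹)⁻¹ = t * (y⁻¹ * x * y) * t⁻¹ := by group
          rw [e2, e1]
          have e3 : t * x⁻¹ * t⁻¹ = (t * x * t⁻¹)⁻¹ := by group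
          rw [e3, h3, inv_inv]
        have h5 := hcomm_case (t * y⁻¹) (L.mul_mem ht (L.inv_mem hyL)) h4
        have e4 : h * t * h⁻¹ = (h * (t * y⁻¹) * h⁻¹) * (h * y * h⁻¹) := by group
        rw [e4, hh2]
        exact L.mul_mem h5 hxyL
    have hhL : h ∉ L := by
      intro hhL
      rcases (dke_mem_N x h).1 (hall hhL) with h3 | h3
      · rw [hh1] at h3
        apply hyc; rw [h3]
      · rw [hh1] at h3
        apply hyc; rw [h3]; group
    have h8 : 8 ∣ Nat.card (Subgroup.normalizer (L : Set (S2 F))) := by rw [← hL8]; exact hdL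
    have hne8 : Nat.card (Subgroup.normalizer (L : Set (S2 F))) ≠ 8 := by
      intro h9
      have h10 : L = Subgroup.normalizer (L : Set (S2 F)) :=
        Subgroup.eq_of_le_of_card_ge hLN (by omega)
      rw [← h10] at hhN
      exact hhL hhN
    left
    generalize Nat.card (Subgroup.normalizer (L : Set (S2 F))) = n at ho h8 hne8
    rcases ho with h9 | h9 | h9
    · have hle := Nat.le_of_dvd (by norm_num) h9
      interval_cases n <;> omega
    · exfalso; have h10 := Nat.dvd_trans h8 h9; omega
    · exfalso; have h10 := Nat.dvd_trans h8 h9; omega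

theorem n13_norm (hq : Fintype.card F = 13) (L : Subgroup (S2 F))
    (hZ : Subgroup.center (S2 F) ≤ L) (hn : ¬ L.Normal) :
    Nat.card (Subgroup.normalizer (L : Set (S2 F))) = 24 ∨
    Nat.card (Subgroup.normalizer (L : Set (S2 F))) = 28 ∨
    Nat.card (Subgroup.normalizer (L : Set (S2 F))) = 156 := by
  have h2 := n13_two hq
  have hnt : Subgroup.normalizer (L : Set (S2 F)) ≠ ⊤ :=
    fun h => hn (Subgroup.normalizer_eq_top_iff.1 h)
  have hLN : L ≤ Subgroup.normalizer (L : Set (S2 F)) := Subgroup.le_normalizer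
  have ho := n13_orders hq _ (hZ.trans hLN) hnt
  have key : ∀ a : ℕ, (a = 24 ∨ a = 28 ∨ a = 156) →
      a ∣ Nat.card (Subgroup.normalizer (L : Set (S2 F))) →
      (Nat.card (Subgroup.normalizer (L : Set (S2 F))) = 24 ∨
        Nat.card (Subgroup.normalizer (L : Set (S2 F))) = 28 ∨
        Nat.card (Subgroup.normalizer (L : Set (S2 F))) = 156) := by
    intro a ha hd
    have h3 := n13_arith _ a ha hd ho
    rw [h3]; exact ha
  have key_cyc : ∀ x ∈ L, tr x ^ 2 ≠ 4 → (∀ g ∈ L, g * x = x * g) →
      (Nat.card (Subgroup.normalizer (L : Set (S2 F))) = 24 ∨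
        Nat.card (Subgroup.normalizer (L : Set (S2 F))) = 28 ∨
        Nat.card (Subgroup.normalizer (L : Set (S2 F))) = 156) := by
    intro x hxL hx hc
    have hd := Subgroup.card_dvd_of_le (n13_cyc L x hx hc)
    rw [n13_card_N x hx] at hd
    rcases n13_card_cent hq x hx with h | h
    · rw [h] at hd; exact key 24 (Or.inl rfl) hd
    · rw [h] at hd; exact key 28 (Or.inr (Or.inl rfl)) hd
  rcases n13_cases hq L hZ with h | h | h | h | h | h
  · exfalso; apply hn; rw [h]; infer_instance
  · obtain ⟨x, hxL, hx, hc⟩ := h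
    exact key_cyc x hxL hx hc
  · obtain ⟨x, hxL, hx, hc⟩ := h
    exact n13_dih hq L hZ hnt x hxL hx hc
  · obtain ⟨g, hg⟩ := h
    by_cases hU : ∃ x₀ ∈ L, ¬ IsSc x₀ ∧ tr x₀ ^ 2 = 4
    · obtain ⟨x₀, hx₀L, hsc, htr⟩ := hU
      exact key 156 (Or.inr (Or.inr rfl)) (n13_bor hq L hZ g hg x₀ hx₀L hsc htr)
    · have hno : ∀ x₀ ∈ L, tr x₀ ^ 2 = 4 → IsSc x₀ := by
        intro x₀ hx₀ h4
        by_contra hsc
        exact hU ⟨x₀, hx₀, hsc, h4⟩
      have hab := n13_abel L g hg hno
      obtain ⟨y, hyL, hy⟩ : ∃ y ∈ L, ¬ IsSc y := by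
        by_contra hcon
        push Not at hcon
        apply hn
        have h3 : L = Subgroup.center (S2 F) :=
          le_antisymm (fun z hz => (isSc_iff_center z).1 (hcon z hz)) hZ
        rw [h3]; infer_instance
      have hy4 : tr y ^ 2 ≠ 4 := fun h4 => hy (hno y hyL h4)
      exact key_cyc y hyL hy4 (fun g' hg' => hab g' hg' y hyL)
  · exact key 24 (Or.inl rfl) (by rw [← h]; exact Subgroup.card_dvd_of_le hLN)
  · exfalso; apply hn; rw [h]; infer_instance

end N13c

end Cfsg.Agent.Lib.Helper54
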