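import Mathlib
import Cfsg.Agent.Lib.Helper54.N13c

set_option autoImplicit false

namespace Cfsg.Agent.Lib.Helper54

open Matrix Cfsg.Agent.S0809 Cfsg.Agent.Lib.Helper19.Dk

section N13d

variable {F : Type*} [Field F] [Fintype F]

theorem n13_main_S2 (hq : Fintype.card F = 13) (H : Subgroup (S2 F)) (hH : ¬ H.Normal) :
    IsCoatom (Subgroup.normalizer (H : Set (S2 F))) := by
  have h2 := n13_two hq
  set L : Subgroup (S2 F) := Lof (H.map (prj F)) with hL
  have hZ : Subgroup.center (S2 F) ≤ L := center_le_Lof _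
  have hHL : H ≤ L := fun h hh => (mem_Lof _ _).2 (Subgroup.mem_map_of_mem _ hh)
  have hmemL : ∀ t, t ∈ L ↔ ∃ h ∈ H, t = h ∨ t = h * S0809.negOne := by
    intro t
    rw [hL, mem_Lof, Subgroup.mem_map]
    constructor
    · rintro ⟨h, hh, he⟩
      refine ⟨h, hh, ?_⟩
      have h1 : prj F (h⁻¹ * t) = 1 := by rw [map_mul, map_inv, he]; group
      rw [prj_eq_one_iff] at h1
      rcases isSc_eq _ h1 with h3 | h3
      · left
        exact (inv_mul_eq_one.1 h3).symm
      · right; rw [← h3]; group
    · rintro ⟨h, hh, h4 | h4⟩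
      · exact ⟨h, hh, by rw [h4]⟩
      · refine ⟨h, hh, ?_⟩
        rw [h4, map_mul]
        have h3 : prj F S0809.negOne = 1 := (prj_eq_one_iff _).2 isSc_negOne
        rw [h3, mul_one]
  have hnorm : Subgroup.normalizer (H : Set (S2 F)) = Subgroup.normalizer (L : Set (S2 F)) := by
    ext g
    rw [mem_normalizer_fin, mem_normalizer_fin]
    constructor
    · intro hg t ht
      obtain ⟨h, hh, h4 | h4⟩ := (hmemL t).1 ht
      · rw [h4]; exact hHL (hg h hh)
      · rw [h4, hmemL]
        refine ⟨g * h * g⁻¹, hg h hh, Or.inr ?_⟩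
        have e : g * (h * S0809.negOne) * g⁻¹ = g * h * (S0809.negOne * g⁻¹) := by group
        rw [e, negOne_mul g⁻¹]; group
    · intro hg h hh
      obtain ⟨h', hh', h3 | h3⟩ := (hmemL _).1 (hg h (hHL hh))
      · rw [h3]; exact hh'
      · by_cases hneg : S0809.negOne ∈ H
        · rw [h3]; exact H.mul_mem hh' hneg
        · exfalso
          have hodd : Odd (Nat.card H) := by
            by_contra hev
            rw [Nat.not_odd_iff_even] at hev
            have : Fact (Nat.Prime 2) := ⟨Nat.prime_two⟩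
            have : Fintype H := Fintype.ofFinite H
            obtain ⟨u, hu⟩ := exists_prime_orderOf_dvd_card (G := H) 2
              (by rw [← Nat.card_eq_fintype_card]; exact hev.two_dvd)
            have hu2 : (u : S2 F) * (u : S2 F) = 1 := by
              have h4 := pow_orderOf_eq_one u
              rw [hu] at h4
              have h5 := congrArg Subtype.val h4
              simpa [pow_two] using h5
            rcases sq_eq_one h2 _ hu2 with h4 | h4
            · have h5 : u = 1 := Subtype.ext h4
              rw [h5, orderOf_one] at hu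
              omega
            · exact hneg (h4 ▸ u.2)
          have hpow : ∀ z ∈ H, z ^ Nat.card H = 1 := by
            intro z hz
            have h4 := pow_card_eq_one' (G := H) (x := ⟨z, hz⟩)
            exact congrArg Subtype.val h4
          have e1 : (g * h * g⁻¹) ^ Nat.card H = 1 := by
            rw [conj_pow, hpow h hh]; group
          rw [h3] at e1
          have hcomm : Commute h' S0809.negOne := (negOne_mul h').symm
          rw [hcomm.mul_pow, hpow h' hh', one_mul, negOne_pow_odd _ hodd] at e1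
          exact negOne_ne_one' h2 e1
  rw [hnorm]
  have hLn : ¬ L.Normal := by
    intro hLn
    apply hH
    rw [← Subgroup.normalizer_eq_top_iff, hnorm, Subgroup.normalizer_eq_top_iff]
    exact hLn
  exact n13_max hq _ (hZ.trans Subgroup.le_normalizer) (n13_norm hq L hZ hLn)

theorem n13_main_P2 (hq : Fintype.card F = 13) (H : Subgroup (P2 F)) (hH : ¬ H.Normal) :
    IsCoatom (Subgroup.normalizer (H : Set (P2 F))) := by
  set L := Lof H with hL
  have hZ : Subgroup.center (S2 F) ≤ L := center_le_Lof H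
  have hnorm : Subgroup.normalizer (L : Set (S2 F)) =
      Lof (Subgroup.normalizer (H : Set (P2 F))) := by
    ext g
    rw [mem_normalizer_fin, mem_Lof, mem_normalizer_fin]
    constructor
    · intro hg t ht
      obtain ⟨t', ht', he⟩ := exists_lift H ⟨t, ht⟩
      have h3 := hg t' ht'
      rw [hL, mem_Lof, map_mul, map_mul, map_inv, he] at h3
      exact h3
    · intro hg t ht
      rw [hL, mem_Lof, map_mul, map_mul, map_inv]
      exact hg _ ht
  have hLn : ¬ L.Normal := by
    intro hLn
    apply hH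
    have h1 : Subgroup.normalizer (L : Set (S2 F)) = ⊤ := Subgroup.normalizer_eq_top_iff.2 hLn
    rw [hnorm] at h1
    rw [← Subgroup.normalizer_eq_top_iff, ← map_Lof (Subgroup.normalizer (H : Set (P2 F))), h1,
      ← MonoidHom.range_eq_map]
    exact MonoidHom.range_eq_top.2 prj_surj
  have hco := n13_max hq _ (hZ.trans Subgroup.le_normalizer) (n13_norm hq L hZ hLn)
  rw [hnorm] at hco
  refine ⟨?_, ?_⟩
  · intro h
    apply hco.1
    rw [h]; rfl
  · intro M hM
    have h1 : Lof (Subgroup.normalizer (H : Set (P2 F))) < Lof M := by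
      refine lt_of_le_of_ne (Subgroup.comap_mono hM.le) ?_
      intro heq
      have h3 := congrArg (fun K => K.map (prj F)) heq
      simp only [map_Lof] at h3
      exact hM.ne h3
    have h2 := hco.2 _ h1
    rw [← map_Lof M, h2, ← MonoidHom.range_eq_map]
    exact MonoidHom.range_eq_top.2 prj_surj

end N13d

section Prod

theorem n13_prod {K S : Type*} [Group K] [CommGroup S] [Finite K] [Finite S]
    (hKS : (Nat.card K).Coprime (Nat.card S))
    (hK : ∀ H₁ : Subgroup K, ¬ H₁.Normal → IsCoatom (Subgroup.normalizer (H₁ : Set K)))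
    (H : Subgroup (K × S)) (hH : ¬ H.Normal) :
    IsCoatom (Subgroup.normalizer (H : Set (K × S))) := by
  have hsplit : ∀ k s, (k, s) ∈ H → (k, 1) ∈ H ∧ (1, s) ∈ H := by
    intro k s hks
    have hb := Int.gcd_eq_gcd_ab (Nat.card K) (Nat.card S)
    have hg : Int.gcd (Nat.card K : ℤ) (Nat.card S) = 1 := by
      rw [Int.gcd_natCast_natCast]; exact hKS
    rw [hg] at hb
    set u := Int.gcdA (Nat.card K) (Nat.card S)
    set v := Int.gcdB (Nat.card K) (Nat.card S)
    have e : (Nat.card S : ℤ) * v = 1 - (Nat.card K : ℤ) * u := by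
      have : ((1 : ℕ) : ℤ) = 1 := Nat.cast_one
      rw [this] at hb
      linarith
    have hk : k ^ ((Nat.card S : ℤ) * v) = k := by
      rw [e, _root_.zpow_sub, zpow_one, _root_.zpow_mul, zpow_natCast, pow_card_eq_one', _root_.one_zpow, inv_one,
        mul_one]
    have hs : s ^ ((Nat.card S : ℤ) * v) = 1 := by
      rw [_root_.zpow_mul, zpow_natCast, pow_card_eq_one', _root_.one_zpow]
    have h1 : (k, s) ^ ((Nat.card S : ℤ) * v) = (k, 1) := by
      rw [Prod.pow_mk, hk, hs]
    have h2 : (k, (1 : S)) ∈ H := by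
      rw [← h1]; exact H.zpow_mem hks _
    refine ⟨h2, ?_⟩
    have h3 : ((1 : K), s) = (k, 1)⁻¹ * (k, s) := by
      ext <;> simp
    rw [h3]; exact H.mul_mem (H.inv_mem h2) hks
  set H₁ : Subgroup K := H.map (MonoidHom.fst K S) with hH₁
  have hmem₁ : ∀ k, k ∈ H₁ ↔ (k, (1 : S)) ∈ H := by
    intro k
    rw [hH₁, Subgroup.mem_map]
    constructor
    · rintro ⟨⟨k', s'⟩, hks, rfl⟩
      exact (hsplit k' s' hks).1
    · intro h
      exact ⟨(k, 1), h, rfl⟩
  have hN : ∀ k s, (k, s) ∈ Subgroup.normalizer (H : Set (K × S)) ↔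
      k ∈ Subgroup.normalizer (H₁ : Set K) := by
    intro k s
    rw [mem_normalizer_fin, mem_normalizer_fin]
    constructor
    · intro hg k' hk'
      rw [hmem₁] at hk' ⊢
      have h3 := hg _ hk'
      have e : (k, s) * (k', (1 : S)) * (k, s)⁻¹ = (k * k' * k⁻¹, 1) := by
        ext <;> simp
      rw [e] at h3
      exact h3
    · rintro hg ⟨k', s'⟩ ht
      obtain ⟨h3, h4⟩ := hsplit k' s' ht
      have h5 := hg k' ((hmem₁ k').2 h3)
      rw [hmem₁] at h5
      have e : (k, s) * (k', s') * (k, s)⁻¹ = (k * k' * k⁻¹, 1) * (1, s') := by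
        ext <;> simp
      rw [e]
      exact H.mul_mem h5 h4
  have hH₁n : ¬ H₁.Normal := by
    intro hn
    apply hH
    rw [← Subgroup.normalizer_eq_top_iff, Subgroup.eq_top_iff']
    rintro ⟨k, s⟩
    rw [hN, Subgroup.normalizer_eq_top_iff.2 hn]
    exact Subgroup.mem_top k
  have hco := hK H₁ hH₁n
  refine ⟨?_, ?_⟩
  · intro h
    apply hco.1
    rw [Subgroup.eq_top_iff']
    intro k
    rw [← hN k 1, h]
    exact Subgroup.mem_top _
  · intro M hM
    set M₁ : Subgroup K := M.comap (MonoidHom.inl K S) with hM₁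
    have hmemM₁ : ∀ k, k ∈ M₁ ↔ (k, (1 : S)) ∈ M := fun k => Iff.rfl
    have h1s : ∀ s : S, ((1 : K), s) ∈ M := by
      intro s
      apply hM.le
      rw [hN]
      exact Subgroup.one_mem _
    have hMiff : ∀ k s, (k, s) ∈ M ↔ k ∈ M₁ := by
      intro k s
      rw [hmemM₁]
      constructor
      · intro h
        have e : (k, (1 : S)) = (k, s) * (1, s)⁻¹ := by ext <;> simp
        rw [e]; exact M.mul_mem h (M.inv_mem (h1s s))
      · intro h
        have e : (k, s) = (k, (1 : S)) * (1, s) := by ext <;> simp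
        rw [e]; exact M.mul_mem h (h1s s)
    have hle : Subgroup.normalizer (H₁ : Set K) ≤ M₁ := by
      intro k hk
      rw [hmemM₁]
      apply hM.le
      rw [hN]; exact hk
    have hne : Subgroup.normalizer (H₁ : Set K) ≠ M₁ := by
      intro heq
      apply hM.not_ge
      rintro ⟨k, s⟩ hks
      rw [hN, heq]
      exact (hMiff k s).1 hks
    have htop := hco.2 M₁ (lt_of_le_of_ne hle hne)
    rw [Subgroup.eq_top_iff']
    rintro ⟨k, s⟩
    rw [hMiff, htop]
    exact Subgroup.mem_top k

theorem n13_transfer {K K₀ : Type*} [Group K] [Group K₀] (e : K ≃* K₀)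
    (h₀ : ∀ H₀ : Subgroup K₀, ¬ H₀.Normal → IsCoatom (Subgroup.normalizer (H₀ : Set K₀)))
    (H : Subgroup K) (hH : ¬ H.Normal) : IsCoatom (Subgroup.normalizer (H : Set K)) := by
  have hn : ¬ (H.map e.toMonoidHom).Normal := by
    intro hn
    apply hH
    have h1 : H = (H.map e.toMonoidHom).comap e.toMonoidHom := by
      rw [Subgroup.comap_map_eq_self_of_injective e.injective]
    rw [h1]
    exact hn.comap _
  have h1 := h₀ _ hn
  rw [← Subgroup.map_equiv_normalizer_eq] at h1
  exact (OrderIso.isCoatom_iff e.mapSubgroup _).1 h1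

end Prod

end Cfsg.Agent.Lib.Helper54
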