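import Mathlib
import Cfsg.Agent.Lib.Helper54.DkEven2

set_option autoImplicit false

namespace Cfsg.Agent.Lib.Helper54

open Matrix Cfsg.Agent.S0809 Cfsg.Agent.Lib.Helper19.Dk

section O3a

variable {F : Type*} [Field F] [Fintype F]

theorem o3_neg_sq (h2 : (2 : F) ≠ 0) (hns : ¬ IsSquare (-1 : F)) (u : F) (hu : u ≠ 0)
    (hnu : ¬ IsSquare u) : IsSquare (-u) := by
  have hchar : ringChar F ≠ 2 := by
    intro h
    apply h2
    have h3 := CharP.cast_eq_zero F (ringChar F)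
    rw [h] at h3
    exact_mod_cast h3
  have h1 : (-1 : F) ^ (Fintype.card F / 2) = -1 := by
    rcases FiniteField.pow_dichotomy hchar (a := (-1 : F)) (by simp) with h | h
    · exact absurd ((FiniteField.isSquare_iff hchar (by simp)).2 h) hns
    · exact h
  have h3 : u ^ (Fintype.card F / 2) = -1 := by
    rcases FiniteField.pow_dichotomy hchar hu with h | h
    · exact absurd ((FiniteField.isSquare_iff hchar hu).2 h) hnu
    · exact h
  rw [FiniteField.isSquare_iff hchar (neg_ne_zero.2 hu)]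
  rw [neg_eq_neg_one_mul, mul_pow, h1, h3]; ring

omit [Fintype F] in
theorem o3_sq_div (u v r : F) (hu : u ≠ 0) (h : u * v = r * r) (hsq : IsSquare u) :
    IsSquare v := by
  obtain ⟨t, ht⟩ := hsq
  have ht0 : t ≠ 0 := by rintro rfl; apply hu; rw [ht]; ring
  refine ⟨r * t⁻¹, ?_⟩
  have h3 : v * (t * t) = r * r := by rw [← ht, mul_comm]; exact h
  field_simp
  linear_combination h3

theorem o3_exist (h2 : (2 : F) ≠ 0) (hns : ¬ IsSquare (-1 : F)) (h5 : 5 ≤ Fintype.card F)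
    (σ : F) (hν : ¬ IsSquare (σ ^ 2 - 1)) :
    ∃ a d b w : F, d ≠ 0 ∧ a ^ 2 - 1 = d ^ 2 ∧ (b = a ∨ b = -a) ∧
      w ^ 2 = d ^ 2 * (σ ^ 2 - 1) - (b + a * σ) ^ 2 := by
  classical
  have hν0 : σ ^ 2 - 1 ≠ 0 := by
    intro h; apply hν; rw [h]; exact ⟨0, by ring⟩
  have hP0 : ∀ g : F, g ^ 2 + 2 * σ * g + 1 ≠ 0 := by
    intro g h
    apply hν
    exact ⟨g + σ, by linear_combination -h⟩
  obtain ⟨r₀, hr₀⟩ := o3_neg_sq h2 hns _ hν0 hν
  have hP1 : IsSquare ((1 : F) ^ 2 + 2 * σ * 1 + 1) ↔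
      IsSquare ((-1 : F) ^ 2 + 2 * σ * (-1) + 1) := by
    have hmul : ((1 : F) ^ 2 + 2 * σ * 1 + 1) * ((-1 : F) ^ 2 + 2 * σ * (-1) + 1)
        = (2 * r₀) * (2 * r₀) := by
      linear_combination 4 * hr₀
    constructor
    · exact o3_sq_div _ _ _ (hP0 1) hmul
    · exact o3_sq_div _ _ _ (hP0 (-1)) (by rw [mul_comm]; exact hmul)
  obtain ⟨u₀, w₀, huw⟩ := exists_sq_sum h2 1 1 (σ ^ 2 - 1) one_ne_zero one_ne_zero
  have hw₀ : w₀ ≠ 0 := by
    rintro rfl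
    apply hν
    exact ⟨u₀, by linear_combination -huw⟩
  have hgm0 : u₀ - σ ≠ 0 := by
    intro h
    apply hns
    refine ⟨w₀, ?_⟩
    have hu : u₀ = σ := by linear_combination h
    rw [hu] at huw
    linear_combination -huw
  have hgmP : ¬ IsSquare ((u₀ - σ) ^ 2 + 2 * σ * (u₀ - σ) + 1) := by
    rintro ⟨r, hr⟩
    apply hns
    refine ⟨r * w₀⁻¹, ?_⟩
    have h3 : (u₀ - σ) ^ 2 + 2 * σ * (u₀ - σ) + 1 = -(w₀ * w₀) := by linear_combination huw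
    rw [h3] at hr
    field_simp
    linear_combination hr
  obtain ⟨lam, hl0, hl1, hl2⟩ : ∃ lam : F, lam ≠ 0 ∧ lam ≠ σ + 1 ∧ lam ≠ σ - 1 := by
    by_contra hcon
    push Not at hcon
    have hsub : (Finset.univ : Finset F) ⊆ {0, σ + 1, σ - 1} := by
      intro x _
      simp only [Finset.mem_insert, Finset.mem_singleton]
      by_cases h0 : x = 0
      · exact Or.inl h0
      · by_cases h1 : x = σ + 1
        · exact Or.inr (Or.inl h1)
        · exact Or.inr (Or.inr (hcon x h0 h1))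
    have hc := Finset.card_le_card hsub
    have h3 : ({0, σ + 1, σ - 1} : Finset F).card ≤ 3 := Finset.card_le_three
    rw [Finset.card_univ] at hc
    omega
  have hgp0 : (lam + (σ ^ 2 - 1) / lam) / 2 - σ ≠ 0 := by
    intro h
    have h' : (lam - σ - 1) * (lam - σ + 1) = 0 := by
      field_simp at h
      linear_combination h
    rcases mul_eq_zero.1 h' with h'' | h''
    · exact hl1 (by linear_combination h'')
    · exact hl2 (by linear_combination h'')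
  have hgpP : IsSquare (((lam + (σ ^ 2 - 1) / lam) / 2 - σ) ^ 2
      + 2 * σ * ((lam + (σ ^ 2 - 1) / lam) / 2 - σ) + 1) := by
    refine ⟨((σ ^ 2 - 1) / lam - lam) / 2, ?_⟩
    field_simp
    ring
  obtain ⟨g, hg0, hg⟩ : ∃ g : F, g ≠ 0 ∧ (IsSquare (g ^ 2 + 2 * σ * g + 1) ↔
      ¬ IsSquare ((1 : F) ^ 2 + 2 * σ * 1 + 1)) := by
    by_cases h1 : IsSquare ((1 : F) ^ 2 + 2 * σ * 1 + 1)
    · exact ⟨u₀ - σ, hgm0, ⟨fun h => absurd h hgmP, fun h => absurd h1 h⟩⟩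
    · exact ⟨_, hgp0, ⟨fun _ => h1, fun _ => hgpP⟩⟩
  by_cases hsq : IsSquare g
  · obtain ⟨s, hs⟩ := hsq
    have hs0 : s ≠ 0 := by rintro rfl; apply hg0; rw [hs]; ring
    have hs1 : s * s ≠ 1 := by
      intro h
      rw [hs, h] at hg
      exact iff_not_self hg
    have hns2 : ¬ IsSquare (((1 : F) ^ 2 + 2 * σ * 1 + 1) * (g ^ 2 + 2 * σ * g + 1)) := by
      rintro ⟨r, hr⟩
      have e1 : IsSquare ((1 : F) ^ 2 + 2 * σ * 1 + 1) → IsSquare (g ^ 2 + 2 * σ * g + 1) :=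
        o3_sq_div _ _ _ (hP0 1) hr
      have e2 : IsSquare (g ^ 2 + 2 * σ * g + 1) → IsSquare ((1 : F) ^ 2 + 2 * σ * 1 + 1) :=
        o3_sq_div _ _ _ (hP0 g) (by rw [mul_comm]; exact hr)
      by_cases h1 : IsSquare ((1 : F) ^ 2 + 2 * σ * 1 + 1)
      · exact (hg.1 (e1 h1)) h1
      · exact h1 (e2 (hg.2 h1))
    obtain ⟨w₁, hw₁⟩ := o3_neg_sq h2 hns _ (mul_ne_zero (hP0 1) (hP0 g)) hns2
    refine ⟨(s + s⁻¹) / 2, (s - s⁻¹) / 2, (s + s⁻¹) / 2, w₁ * (2 * s)⁻¹, ?_, ?_, Or.inl rfl, ?_⟩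
    · intro h
      apply hs1
      field_simp at h
      linear_combination h
    · field_simp; ring
    · rw [hs] at hw₁
      field_simp
      linear_combination -hw₁
  · obtain ⟨s, hs⟩ := o3_neg_sq h2 hns g hg0 hsq
    have hgs : g = -(s * s) := by linear_combination -hs
    have hs0 : s ≠ 0 := by
      intro h0
      apply hg0
      rw [hgs, h0]; ring
    have hs1 : s * s ≠ 1 := by
      intro h
      have hg1 : g = -1 := by rw [hgs, h]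
      rw [hg1] at hg
      exact iff_not_self (hP1.trans hg)
    have hns2 : ¬ IsSquare (((-1 : F) ^ 2 + 2 * σ * (-1) + 1) * (g ^ 2 + 2 * σ * g + 1)) := by
      rintro ⟨r, hr⟩
      have e1 : IsSquare ((-1 : F) ^ 2 + 2 * σ * (-1) + 1) → IsSquare (g ^ 2 + 2 * σ * g + 1) :=
        o3_sq_div _ _ _ (hP0 (-1)) hr
      have e2 : IsSquare (g ^ 2 + 2 * σ * g + 1) → IsSquare ((-1 : F) ^ 2 + 2 * σ * (-1) + 1) :=
        o3_sq_div _ _ _ (hP0 g) (by rw [mul_comm]; exact hr)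
      by_cases h1 : IsSquare ((1 : F) ^ 2 + 2 * σ * 1 + 1)
      · exact (hg.1 (e1 (hP1.1 h1))) h1
      · exact h1 (hP1.2 (e2 (hg.2 h1)))
    obtain ⟨w₁, hw₁⟩ := o3_neg_sq h2 hns _ (mul_ne_zero (hP0 (-1)) (hP0 g)) hns2
    refine ⟨(s + s⁻¹) / 2, (s - s⁻¹) / 2, -((s + s⁻¹) / 2), w₁ * (2 * s)⁻¹, ?_, ?_,
      Or.inr rfl, ?_⟩
    · intro h
      apply hs1
      field_simp at h
      linear_combination h
    · field_simp; ring
    · rw [hgs] at hw₁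
      field_simp
      linear_combination -hw₁

omit [Fintype F] in
theorem o3_build (h2 : (2 : F) ≠ 0) (Y : S2 F) (hY : Y 1 1 = - Y 0 0) (σ ρ : F)
    (hσ : 2 * σ = Y 0 1 - Y 1 0) (hρ : 2 * ρ = Y 0 1 + Y 1 0)
    (a d b w : F) (hν0 : σ ^ 2 - 1 ≠ 0) (had : a ^ 2 - 1 = d ^ 2)
    (hw : w ^ 2 = d ^ 2 * (σ ^ 2 - 1) - (b + a * σ) ^ 2) :
    ∃ Z : S2 F, Z 1 1 = - Z 0 0 ∧ tr (Jm * Z) = 2 * a ∧ tr (Z * Y) = 2 * b := by
  have hd := det2 Y
  rw [hY] at hd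
  have h4 : (4 : F) ≠ 0 := by
    have : (4 : F) = 2 * 2 := by norm_num
    rw [this]; exact mul_ne_zero h2 h2
  have hνρ : Y 0 0 ^ 2 + ρ ^ 2 = σ ^ 2 - 1 := by
    apply mul_left_cancel₀ h4
    linear_combination (-4) * hd + (2 * ρ + Y 0 1 + Y 1 0) * hρ - (2 * σ + Y 0 1 - Y 1 0) * hσ
  obtain ⟨ι, hι⟩ : ∃ ι : F, (σ ^ 2 - 1) * ι = 1 := ⟨_, mul_inv_cancel₀ hν0⟩
  obtain ⟨β, hβ⟩ : ∃ β : F, β = b + a * σ := ⟨_, rfl⟩
  rw [← hβ] at hw
  obtain ⟨k, hk⟩ : ∃ k : F, k = (β * Y 0 0 - w * ρ) * ι := ⟨_, rfl⟩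
  obtain ⟨n, hn⟩ : ∃ n : F, n = (β * ρ + w * Y 0 0) * ι := ⟨_, rfl⟩
  have h1 : k * Y 0 0 + n * ρ = β := by
    rw [hk, hn]
    linear_combination (β * ι) * hνρ + β * hι
  have h2' : k ^ 2 + n ^ 2 = d ^ 2 := by
    rw [hk, hn]
    linear_combination (ι ^ 2 * (β ^ 2 + w ^ 2)) * hνρ + (ι ^ 2 * (σ ^ 2 - 1)) * hw
      + (d ^ 2 * ((σ ^ 2 - 1) * ι + 1)) * hι
  refine ⟨mk2 k (n + a) (n - a) (-k) (by linear_combination -h2' + had), ?_, ?_, ?_⟩
  · simp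
  · unfold tr
    simp only [mul00, mul11, Jm, mk2_00, mk2_01, mk2_10, mk2_11]
    ring
  · unfold tr
    simp only [mul00, mul11, mk2_00, mk2_01, mk2_10, mk2_11, hY]
    linear_combination 2 * h1 - n * hρ + a * hσ + 2 * hβ

end O3a

end Cfsg.Agent.Lib.Helper54
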