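import Mathlib
import Cfsg.Agent.Lib.Helper54.O3a

set_option autoImplicit false

namespace Cfsg.Agent.Lib.Helper54

open Matrix Cfsg.Agent.S0809 Cfsg.Agent.Lib.Helper19.Dk

section O3b

variable {F : Type*} [Field F] [Fintype F]

/-- centralizer of a split semisimple element -/
theorem o3_card_cent_split (h2 : (2 : F) ≠ 0) (x : S2 F) (δ : F) (hδ0 : δ ≠ 0)
    (hδ : tr x ^ 2 - 4 = δ * δ) :
    Nat.card (Subgroup.centralizer ({x} : Set (S2 F))) = Fintype.card F - 1 := by
  classical
  have e : (x : Matrix (Fin 2) (Fin 2) F).trace = tr x := by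
    rw [Matrix.trace_fin_two]; rfl
  have ht : (x : Matrix (Fin 2) (Fin 2) F).trace ^ 2 ≠ 4 := by
    rw [e]
    intro h
    apply hδ0
    have h3 : δ * δ = 0 := by rw [← hδ, h]; ring
    exact mul_self_eq_zero.1 h3
  have hx : ∀ c : F, (x : Matrix (Fin 2) (Fin 2) F) ≠ c • 1 := by
    intro c hc
    apply ht
    have hdet := x.det_coe
    rw [hc] at hdet ⊢
    simp only [Matrix.det_fin_two, Matrix.trace_fin_two, Matrix.smul_apply, Matrix.one_apply_eq,
      smul_eq_mul, mul_one, ne_eq, zero_ne_one, not_false_eq_true, Matrix.one_apply_ne, mul_zero,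
      sub_zero, one_ne_zero] at hdet ⊢
    linear_combination 4 * hdet
  rw [card_centralizer_eq_conic x hx, e,
    Nat.card_congr ((conicSq h2 (tr x)).trans (conicSplit h2 (tr x ^ 2 - 4) δ hδ hδ0)),
    Nat.card_eq_fintype_card, Fintype.card_units]

omit [Fintype F] in
theorem o3_odd_of_pow (M : S2 F) (m : ℕ) (hm : Odd m) (h : IsSc (M ^ m)) :
    Odd (orderOf (prj F M)) := by
  have h1 : (prj F M) ^ m = 1 := by
    rw [← map_pow, prj_eq_one_iff]; exact h
  exact Odd.of_dvd_nat hm (orderOf_dvd_of_pow_eq_one h1)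

omit [Fintype F] in
theorem o3_odd_unip (p : ℕ) [Fact p.Prime] [CharP F p] (hp : p ≠ 2) (M : S2 F)
    (h : tr M ^ 2 = 4) : Odd (orderOf (prj F M)) := by
  have hodd : Odd p := (Fact.out : p.Prime).odd_of_ne_two hp
  have h4 : (tr M - 2) * (tr M + 2) = 0 := by linear_combination h
  rcases mul_eq_zero.1 h4 with h' | h'
  · apply o3_odd_of_pow M p hodd
    rw [pow_char_of_tr p M (by linear_combination h')]
    exact isSc_one
  · have h5 : (S0809.negOne * M) ^ p = 1 :=
      pow_char_of_tr p _ (by rw [tr_negOne_mul]; linear_combination -h')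
    apply o3_odd_of_pow M p hodd
    have hc : Commute (S0809.negOne : S2 F) M := negOne_mul M
    rw [hc.mul_pow, negOne_pow_odd p hodd] at h5
    have h6 : M ^ p = S0809.negOne := by
      have h7 := congrArg (fun t => S0809.negOne * t) h5
      simp only [← mul_assoc, negOne_sq, one_mul, mul_one] at h7
      exact h7
    rw [h6]; exact isSc_negOne

theorem o3_odd_split (h2 : (2 : F) ≠ 0) (hq : Fintype.card F % 4 = 3) (M : S2 F) (δ : F)
    (hδ0 : δ ≠ 0) (hδ : tr M ^ 2 - 4 = δ * δ) : Odd (orderOf (prj F M)) := by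
  have hc := o3_card_cent_split h2 M δ hδ0 hδ
  have hM : M ∈ Subgroup.centralizer ({M} : Set (S2 F)) := by
    rw [Subgroup.mem_centralizer_iff]
    intro y hy
    rw [Set.mem_singleton_iff] at hy
    rw [hy]
  have h1 : orderOf M ∣ Fintype.card F - 1 := by
    rw [← hc]; exact Subgroup.orderOf_dvd_natCard _ hM
  have h3 : M ^ (Fintype.card F - 1) = 1 := orderOf_dvd_iff_pow_eq_one.1 h1
  obtain ⟨m, hm⟩ : ∃ m, Fintype.card F = 4 * m + 3 := ⟨Fintype.card F / 4, by omega⟩
  have e : Fintype.card F - 1 = 2 * (2 * m + 1) := by omega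
  rw [e, pow_mul', pow_two] at h3
  apply o3_odd_of_pow M (2 * m + 1) ⟨m, rfl⟩
  rcases sq_eq_one h2 _ h3 with h | h
  · rw [h]; exact isSc_one
  · rw [h]; exact isSc_negOne

theorem o3_even_card (h2 : (2 : F) = 0) : Even (Fintype.card F) := by
  have hchar : ringChar F = 2 :=
    CharP.ringChar_of_prime_eq_zero Nat.prime_two (by exact_mod_cast h2)
  have h3 := FiniteField.even_card_iff_char_two.1 hchar
  exact Nat.even_iff.2 h3

theorem o3_odd_even (h2 : (2 : F) = 0) (M : S2 F) (h : tr M ≠ 0) :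
    Odd (orderOf (prj F M)) := by
  have hev := o3_even_card (F := F) h2
  have ht : tr M ^ 2 ≠ 4 := by
    intro h4
    apply h
    have h3 : tr M ^ 2 = 0 := by rw [h4]; linear_combination (2 : F) * h2
    exact pow_eq_zero_iff (two_ne_zero) |>.1 h3
  have hM : M ∈ Subgroup.centralizer ({M} : Set (S2 F)) := by
    rw [Subgroup.mem_centralizer_iff]
    intro y hy
    rw [Set.mem_singleton_iff] at hy
    rw [hy]
  have h1 : orderOf M ∣ Nat.card (Subgroup.centralizer ({M} : Set (S2 F))) :=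
    Subgroup.orderOf_dvd_natCard _ hM
  have hq2 : 2 ≤ Fintype.card F := Fintype.one_lt_card
  have hoddC : Odd (Nat.card (Subgroup.centralizer ({M} : Set (S2 F)))) := by
    obtain ⟨c, hc⟩ := hev
    rcases dke_card_cent h2 M ht with h3 | h3
    · rw [h3]; exact ⟨c - 1, by omega⟩
    · rw [h3]; exact ⟨c, by omega⟩
  have h5 : Odd (orderOf M) := Odd.of_dvd_nat hoddC h1
  exact Odd.of_dvd_nat h5 (orderOf_map_dvd (prj F) M)

omit [Fintype F] in
theorem o3_tr_negOne : tr (S0809.negOne : S2 F) = -2 := by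
  unfold tr
  simp only [S0809.negOne, mk2_00, mk2_11]
  ring

omit [Fintype F] in
theorem o3_tr_JmY (Y : S2 F) : tr (Jm * Y) = Y 0 1 - Y 1 0 := by
  unfold tr
  simp only [mul00, mul11, Jm, mk2_00, mk2_01, mk2_10, mk2_11]
  ring

omit [Fintype F] in
/-- equality in `PSL₂` of lifts -/
theorem o3_prj_eq (Z X : S2 F) (h : prj F Z = prj F X) : Z = X ∨ Z = S0809.negOne * X := by
  have h1 : prj F (Z * X⁻¹) = 1 := by rw [map_mul, map_inv, h]; group
  rw [prj_eq_one_iff] at h1
  rcases isSc_eq _ h1 with h3 | h3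
  · left
    exact mul_inv_eq_one.1 h3
  · right
    rw [← h3]; group

theorem o3_core_odd (h2 : (2 : F) ≠ 0) (h5 : 5 ≤ Fintype.card F) (Y : S2 F)
    (hY : Y 1 1 = - Y 0 0) :
    Odd (orderOf (prj F (Jm * Y))) ∨
    ∃ Z : S2 F, Z 1 1 = - Z 0 0 ∧ prj F Z ≠ prj F Jm ∧ prj F Z ≠ prj F Y ∧
      Odd (orderOf (prj F (Jm * Z))) ∧ Odd (orderOf (prj F (Z * Y))) := by
  obtain ⟨p, hp⟩ := CharP.exists F
  obtain ⟨n, hprime, hqn⟩ := FiniteField.card F p
  have : Fact p.Prime := ⟨hprime⟩
  have hp2 : p ≠ 2 := by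
    rintro rfl
    apply h2
    exact_mod_cast CharP.cast_eq_zero F 2
  have h4' : (4 : F) ≠ 0 := by
    have : (4 : F) = 2 * 2 := by norm_num
    rw [this]; exact mul_ne_zero h2 h2
  have hYY : Y * Y = S0809.negOne := sq_of_tr_zero Y hY
  have hJJ : (Jm : S2 F) * Jm = S0809.negOne := Jm_sq
  have hτ := o3_tr_JmY Y
  have htrJJ : tr ((Jm : S2 F) * Jm) = -2 := by rw [hJJ]; exact o3_tr_negOne
  have htrYY : tr (Y * Y) = -2 := by rw [hYY]; exact o3_tr_negOne
  have htrnJ : ∀ A : S2 F, tr (Jm * (S0809.negOne * A)) = - tr (Jm * A) := by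
    intro A
    rw [← mul_assoc, ← negOne_mul, mul_assoc, tr_negOne_mul]
  have htrnY : ∀ A : S2 F, tr (S0809.negOne * A * Y) = - tr (A * Y) := by
    intro A
    rw [mul_assoc, tr_negOne_mul]
  by_cases h4 : tr (Jm * Y) ^ 2 = 4
  · left; exact o3_odd_unip p hp2 _ h4
  have hodd : Fintype.card F % 2 = 1 := by
    have hchar : ringChar F ≠ 2 := by
      rw [ringChar.eq F p]; exact hp2
    exact FiniteField.odd_card_of_char_ne_two hchar
  rcases (by omega : Fintype.card F % 4 = 1 ∨ Fintype.card F % 4 = 3) with hq | hq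
  · -- q ≡ 1 mod 4
    right
    obtain ⟨i, hi⟩ : IsSquare (-1 : F) := FiniteField.isSquare_neg_one_iff.2 (by omega)
    have hd := det2 Y
    rw [hY] at hd
    have hD : 2 * Y 0 0 * i + Y 0 1 + Y 1 0 ≠ 0 := by
      intro h0
      apply h4
      rw [hτ]
      linear_combination (-2 * Y 0 0 * i + Y 0 1 + Y 1 0) * h0 - 4 * Y 0 0 ^ 2 * hi + 4 * hd
    obtain ⟨m, hm⟩ : ∃ m : F, m * (2 * Y 0 0 * i + Y 0 1 + Y 1 0) = 2 - 2 * Y 1 0 - 2 * Y 0 0 * i :=
      ⟨(2 - 2 * Y 1 0 - 2 * Y 0 0 * i) / (2 * Y 0 0 * i + Y 0 1 + Y 1 0), by field_simp⟩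
    have hZ1 : tr (Jm * mk2 (i * (m + 1)) (m + 2) m (-(i * (m + 1)))
        (by linear_combination (m + 1) ^ 2 * hi)) = 2 := by
      rw [o3_tr_JmY]; simp only [mk2_01, mk2_10]; ring
    have hZ2 : tr (mk2 (i * (m + 1)) (m + 2) m (-(i * (m + 1)))
        (by linear_combination (m + 1) ^ 2 * hi) * Y) = 2 := by
      unfold tr
      simp only [mul00, mul11, mk2_00, mk2_01, mk2_10, mk2_11, hY]
      linear_combination hm
    refine ⟨mk2 (i * (m + 1)) (m + 2) m (-(i * (m + 1)))
      (by linear_combination (m + 1) ^ 2 * hi), by simp, ?_, ?_, ?_, ?_⟩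
    · intro hcon
      rcases o3_prj_eq _ _ hcon with h | h
      · rw [h, htrJJ] at hZ1
        apply h4'
        linear_combination -hZ1
      · rw [h, htrnY, hτ] at hZ2
        apply h4
        rw [hτ]
        linear_combination -(Y 0 1 - Y 1 0 - 2) * hZ2
    · intro hcon
      rcases o3_prj_eq _ _ hcon with h | h
      · rw [h, htrYY] at hZ2
        apply h4'
        linear_combination -hZ2
      · rw [h, htrnJ, hτ] at hZ1
        apply h4
        rw [hτ]
        linear_combination -(Y 0 1 - Y 1 0 - 2) * hZ1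
    · exact o3_odd_unip p hp2 _ (by rw [hZ1]; norm_num)
    · exact o3_odd_unip p hp2 _ (by rw [hZ2]; norm_num)
  · -- q ≡ 3 mod 4
    have hns : ¬ IsSquare (-1 : F) := fun h => FiniteField.isSquare_neg_one_iff.1 h hq
    by_cases hsq : IsSquare (tr (Jm * Y) ^ 2 - 4)
    · left
      obtain ⟨δ, hδ⟩ := hsq
      have hδ0 : δ ≠ 0 := by
        rintro rfl
        apply h4
        linear_combination hδ
      exact o3_odd_split h2 hq _ δ hδ0 hδ
    · right
      obtain ⟨σ, hσ⟩ : ∃ σ : F, 2 * σ = Y 0 1 - Y 1 0 := ⟨(Y 0 1 - Y 1 0) / 2, by field_simp⟩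
      obtain ⟨ρ, hρ⟩ : ∃ ρ : F, 2 * ρ = Y 0 1 + Y 1 0 := ⟨(Y 0 1 + Y 1 0) / 2, by field_simp⟩
      have hν : ¬ IsSquare (σ ^ 2 - 1) := by
        rintro ⟨r, hr⟩
        apply hsq
        refine ⟨2 * r, ?_⟩
        rw [hτ, ← hσ]
        linear_combination 4 * hr
      have hν0 : σ ^ 2 - 1 ≠ 0 := by
        intro h; apply hν; rw [h]; exact ⟨0, by ring⟩
      obtain ⟨a, d, b, w, hd0, had, hb, hw⟩ := o3_exist h2 hns h5 σ hν
      obtain ⟨Z, hZ, hZ1, hZ2⟩ := o3_build h2 Y hY σ ρ hσ hρ a d b w hν0 had hw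
      have hb2 : b ^ 2 = a ^ 2 := by
        rcases hb with h | h <;> rw [h] <;> ring
      have ha1 : a ^ 2 ≠ 1 := by
        intro h
        apply hd0
        have h3 : d ^ 2 = 0 := by rw [← had, h]; ring
        exact pow_eq_zero_iff (two_ne_zero) |>.1 h3
      refine ⟨Z, hZ, ?_, ?_, ?_, ?_⟩
      · intro hcon
        apply ha1
        rcases o3_prj_eq _ _ hcon with h | h
        · rw [h, htrJJ] at hZ1
          have h3 : a = -1 := by
            apply mul_left_cancel₀ h2
            linear_combination -hZ1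
          rw [h3]; ring
        · rw [h, htrnJ, htrJJ] at hZ1
          have h3 : a = 1 := by
            apply mul_left_cancel₀ h2
            linear_combination -hZ1
          rw [h3]; ring
      · intro hcon
        apply ha1
        rw [← hb2]
        rcases o3_prj_eq _ _ hcon with h | h
        · rw [h, htrYY] at hZ2
          have h3 : b = -1 := by
            apply mul_left_cancel₀ h2
            linear_combination -hZ2
          rw [h3]; ring
        · rw [h, htrnY, htrYY] at hZ2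
          have h3 : b = 1 := by
            apply mul_left_cancel₀ h2
            linear_combination -hZ2
          rw [h3]; ring
      · refine o3_odd_split h2 hq _ (2 * d) (mul_ne_zero h2 hd0) ?_
        rw [hZ1]
        linear_combination 4 * had
      · refine o3_odd_split h2 hq _ (2 * d) (mul_ne_zero h2 hd0) ?_
        rw [hZ2]
        linear_combination 4 * had + 4 * hb2

end O3b

end Cfsg.Agent.Lib.Helper54
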