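import Mathlib
import Cfsg.Agent.Lib.Helper54.O3b

set_option autoImplicit false

namespace Cfsg.Agent.Lib.Helper54

open Matrix Cfsg.Agent.S0809 Cfsg.Agent.Lib.Helper19.Dk

section O3c

variable {F : Type*} [Field F] [Fintype F]

theorem o3_order_conj {G : Type*} [Group G] (c a : G) : orderOf (c * a * c⁻¹) = orderOf a := by
  have h := MulEquiv.orderOf_eq (MulAut.conj c) a
  rwa [MulAut.conj_apply] at h

omit [Fintype F] in
theorem o3_lift_odd (h2 : (2 : F) ≠ 0) (x : P2 F) (hx : orderOf x = 2) :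
    ∃ X : S2 F, prj F X = x ∧ X * X = S0809.negOne := by
  obtain ⟨X, rfl⟩ := prj_surj x
  refine ⟨X, rfl, ?_⟩
  have h1 : prj F (X * X) = 1 := by
    have h0 := pow_orderOf_eq_one (prj F X)
    rw [hx] at h0
    rw [map_mul, ← pow_two]; exact h0
  rw [prj_eq_one_iff] at h1
  rcases isSc_eq _ h1 with h | h
  · exfalso
    have h3 : prj F X = 1 := by
      rcases sq_eq_one h2 X h with h' | h'
      · rw [h']; exact map_one _
      · rw [h']; exact (prj_eq_one_iff _).2 isSc_negOne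
    rw [h3, orderOf_one] at hx
    omega
  · exact h

omit [Fintype F] in
theorem o3_order_odd (h2 : (2 : F) ≠ 0) (X : S2 F) (hX : X * X = S0809.negOne) :
    orderOf (prj F X) = 2 := by
  have : Fact (Nat.Prime 2) := ⟨Nat.prime_two⟩
  apply orderOf_eq_prime
  · rw [pow_two, ← map_mul, hX]; exact (prj_eq_one_iff _).2 isSc_negOne
  · intro h
    rw [prj_eq_one_iff] at h
    rcases isSc_eq _ h with h' | h'
    · rw [h', mul_one] at hX; exact negOne_ne_one' h2 hX.symm
    · rw [h', negOne_sq] at hX; exact negOne_ne_one' h2 hX.symm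

theorem o3_conj_odd (h2 : (2 : F) ≠ 0) (X Z : S2 F) (hX : X * X = S0809.negOne)
    (hZ : Z * Z = S0809.negOne) : IsConj (prj F X) (prj F Z) := by
  obtain ⟨P, hP⟩ := conj_of_tr_zero h2 X Z (tr_zero_of_sq X hX) (tr_zero_of_sq Z hZ)
  rw [isConj_iff]
  exact ⟨prj F P, by rw [hP, map_mul, map_mul, map_inv]⟩

theorem o3_main_odd (h2 : (2 : F) ≠ 0) (h5 : 5 ≤ Fintype.card F) (X Y : S2 F)
    (hX : X * X = S0809.negOne) (hY : Y * Y = S0809.negOne) :
    Odd (orderOf (prj F X * prj F Y)) ∨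
    ∃ Z : S2 F, Z * Z = S0809.negOne ∧ prj F Z ≠ prj F X ∧ prj F Z ≠ prj F Y ∧
      Odd (orderOf (prj F X * prj F Z)) ∧ Odd (orderOf (prj F Z * prj F Y)) := by
  obtain ⟨P, hP⟩ := exists_conj_J h2 X (tr_zero_of_sq X hX)
  have hXe : X = P * Jm * P⁻¹ := eq_mul_inv_of_mul_eq hP
  obtain ⟨Y', hY'⟩ : ∃ Y' : S2 F, Y' = P⁻¹ * Y * P := ⟨_, rfl⟩
  have hY'2 : Y' * Y' = S0809.negOne := by
    have e : Y' * Y' = P⁻¹ * (Y * Y) * P := by rw [hY']; group
    rw [e, hY, mul_assoc, negOne_mul P, inv_mul_cancel_left]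
  have hYe : Y = P * Y' * P⁻¹ := by rw [hY']; group
  have eJ : prj F Jm = (prj F P)⁻¹ * prj F X * prj F P := by
    rw [hXe]; simp only [map_mul, map_inv]; group
  have eY : prj F Y' = (prj F P)⁻¹ * prj F Y * prj F P := by
    rw [hY']; simp only [map_mul, map_inv]
  rcases o3_core_odd h2 h5 Y' (tr_zero_of_sq Y' hY'2) with h | ⟨Z', hZ', hZJ, hZY, ho1, ho2⟩
  · left
    have e : prj F X * prj F Y = prj F P * prj F (Jm * Y') * (prj F P)⁻¹ := by
      rw [hXe, hYe]; simp only [map_mul, map_inv]; group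
    rw [e, o3_order_conj]; exact h
  · right
    have eZ : prj F Z' = (prj F P)⁻¹ * prj F (P * Z' * P⁻¹) * prj F P := by
      simp only [map_mul, map_inv]; group
    refine ⟨P * Z' * P⁻¹, ?_, ?_, ?_, ?_, ?_⟩
    · have hZ'2 := sq_of_tr_zero Z' hZ'
      have e : P * Z' * P⁻¹ * (P * Z' * P⁻¹) = P * (Z' * Z') * P⁻¹ := by group
      rw [e, hZ'2, ← negOne_mul P, mul_inv_cancel_right]
    · intro hcon
      apply hZJ
      rw [eZ, eJ, hcon]
    · intro hcon
      apply hZY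
      rw [eZ, eY, hcon]
    · have e : prj F X * prj F (P * Z' * P⁻¹) = prj F P * prj F (Jm * Z') * (prj F P)⁻¹ := by
        rw [hXe]; simp only [map_mul, map_inv]; group
      rw [e, o3_order_conj]; exact ho1
    · have e : prj F (P * Z' * P⁻¹) * prj F Y = prj F P * prj F (Z' * Y') * (prj F P)⁻¹ := by
        rw [hYe]; simp only [map_mul, map_inv]; group
      rw [e, o3_order_conj]; exact ho2

theorem o3_lift_even (h2 : (2 : F) = 0) (x : P2 F) (hx : orderOf x = 2) :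
    ∃ X : S2 F, prj F X = x ∧ tr X = 0 ∧ ¬ IsSc X := by
  have hev := o3_even_card (F := F) h2
  have := dke_charP hev
  have : Fact (Nat.Prime 2) := ⟨Nat.prime_two⟩
  obtain ⟨X, rfl⟩ := prj_surj x
  have hns : ¬ IsSc X := by
    intro h
    rw [(prj_eq_one_iff X).2 h, orderOf_one] at hx
    omega
  refine ⟨X, rfl, ?_, hns⟩
  have h1 : prj F (X * X) = 1 := by
    have h0 := pow_orderOf_eq_one (prj F X)
    rw [hx] at h0
    rw [map_mul, ← pow_two]; exact h0
  rw [prj_eq_one_iff] at h1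
  have h3 : X ^ 2 = 1 := by
    rw [pow_two]
    rcases isSc_eq _ h1 with h | h
    · exact h
    · rw [h, negOne_eq_one h2]
  rw [tr_of_pow_char 2 X h3, h2]

theorem o3_order_even (h2 : (2 : F) = 0) (X : S2 F) (hX : tr X = 0) (hXs : ¬ IsSc X) :
    orderOf (prj F X) = 2 := by
  have hev := o3_even_card (F := F) h2
  have := dke_charP hev
  have : Fact (Nat.Prime 2) := ⟨Nat.prime_two⟩
  apply orderOf_eq_prime
  · rw [← map_pow, pow_char_of_tr 2 X (by rw [hX, h2]), map_one]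
  · intro h
    exact hXs ((prj_eq_one_iff X).1 h)

theorem o3_conj_even (h2 : (2 : F) = 0) (X Z : S2 F) (hX : tr X = 0) (hXs : ¬ IsSc X)
    (hZ : tr Z = 0) (hZs : ¬ IsSc Z) : IsConj (prj F X) (prj F Z) := by
  obtain ⟨g, b, hb, hg⟩ := exists_conj_uu X (by rw [hX, h2]) hXs
  obtain ⟨g', b', hb', hg'⟩ := exists_conj_uu Z (by rw [hZ, h2]) hZs
  have hchar : ringChar F = 2 :=
    CharP.ringChar_of_prime_eq_zero Nat.prime_two (by exact_mod_cast h2)
  obtain ⟨s, hs⟩ := FiniteField.isSquare_of_char_two hchar (b' / b)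
  have hs0 : s ≠ 0 := by
    rintro rfl
    rw [mul_zero] at hs
    exact (div_ne_zero hb' hb) hs
  have hD : dd s hs0 * uu b * (dd s hs0)⁻¹ = uu b' := by
    rw [conj_uu (dd s hs0) (by simp [dd]) b]
    congr 1
    have e : (dd s hs0) 0 0 = s := by simp [dd]
    rw [e]
    field_simp at hs
    linear_combination -hs
  rw [isConj_iff]
  refine ⟨prj F (g'⁻¹ * dd s hs0 * g), ?_⟩
  rw [← map_inv, ← map_mul, ← map_mul]
  congr 1
  have e1 : Z = g'⁻¹ * uu b' * g' := by rw [← hg']; group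
  rw [e1, ← hD, ← hg]; group

theorem o3_main_even (h2 : (2 : F) = 0) (X Y : S2 F) (hX : tr X = 0) (hXs : ¬ IsSc X)
    (hY : tr Y = 0) (hYs : ¬ IsSc Y) :
    Odd (orderOf (prj F X * prj F Y)) ∨
    ∃ Z : S2 F, tr Z = 0 ∧ ¬ IsSc Z ∧ prj F Z ≠ prj F X ∧ prj F Z ≠ prj F Y ∧
      Odd (orderOf (prj F X * prj F Z)) ∧ Odd (orderOf (prj F Z * prj F Y)) := by
  have hev := o3_even_card (F := F) h2
  have := dke_charP hev
  have : Fact (Nat.Prime 2) := ⟨Nat.prime_two⟩
  obtain ⟨g, b, hb, hg⟩ := exists_conj_uu X (by rw [hX, h2]) hXs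
  obtain ⟨Y', hY'⟩ : ∃ Y' : S2 F, Y' = g * Y * g⁻¹ := ⟨_, rfl⟩
  have hXe : X = g⁻¹ * uu b * g := by rw [← hg]; group
  have hYe : Y = g⁻¹ * Y' * g := by rw [hY']; group
  have htrY' : tr Y' = 0 := by rw [hY', tr_conj]; exact hY
  have hXX : X * X = 1 := by rw [← pow_two]; exact pow_char_of_tr 2 X (by rw [hX, h2])
  have hYY : Y * Y = 1 := by rw [← pow_two]; exact pow_char_of_tr 2 Y (by rw [hY, h2])
  have htr1 : tr (1 : S2 F) = 0 := by rw [tr_one, h2]
  have hXY : tr (X * Y) = b * Y' 1 0 := by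
    have e : X * Y = g⁻¹ * (uu b * Y') * g⁻¹⁻¹ := by rw [hXe, hYe]; group
    rw [e, tr_conj]
    unfold tr at htrY' ⊢
    simp only [mul00, mul11, uu_00, uu_01, uu_10, uu_11]
    linear_combination htrY'
  by_cases h10 : Y' 1 0 = 0
  · right
    have hY'01 : Y' 0 1 ≠ 0 := by
      intro h01
      apply hYs
      have h3 : IsSc Y' := by
        refine ⟨h01, h10, ?_⟩
        unfold tr at htrY'
        linear_combination htrY' - Y' 1 1 * h2
      have h4 := (isSc_conj g⁻¹ Y').2 h3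
      rw [inv_inv] at h4
      rw [hYe]; exact h4
    have hXZ : tr (X * (g⁻¹ * ll 1 * g)) = b := by
      have e : X * (g⁻¹ * ll 1 * g) = g⁻¹ * (uu b * ll 1) * g⁻¹⁻¹ := by rw [hXe]; group
      rw [e, tr_conj]
      unfold tr
      simp only [mul00, mul11, uu_00, uu_01, uu_10, uu_11, ll_00, ll_01, ll_10, ll_11]
      linear_combination h2
    have hZY : tr (g⁻¹ * ll 1 * g * Y) = Y' 0 1 := by
      have e : g⁻¹ * ll 1 * g * Y = g⁻¹ * (ll 1 * Y') * g⁻¹⁻¹ := by rw [hYe]; group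
      rw [e, tr_conj]
      unfold tr at htrY' ⊢
      simp only [mul00, mul11, ll_00, ll_01, ll_10, ll_11]
      linear_combination htrY'
    refine ⟨g⁻¹ * ll 1 * g, ?_, ?_, ?_, ?_, ?_, ?_⟩
    · have e : g⁻¹ * ll (1 : F) * g = g⁻¹ * ll 1 * g⁻¹⁻¹ := by group
      rw [e, tr_conj]
      unfold tr
      simp only [ll_00, ll_11]
      linear_combination h2
    · intro h
      have e : g⁻¹ * ll (1 : F) * g = g⁻¹ * ll 1 * g⁻¹⁻¹ := by group
      rw [e, isSc_conj] at h
      have h3 := h.2.1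
      simp only [ll_10] at h3
      exact one_ne_zero h3
    · intro hcon
      have h3 := prj_injective h2 hcon
      rw [h3, hXX, htr1] at hXZ
      exact hb hXZ.symm
    · intro hcon
      have h3 := prj_injective h2 hcon
      rw [h3, hYY, htr1] at hZY
      exact hY'01 hZY.symm
    · rw [← map_mul]
      exact o3_odd_even h2 _ (by rw [hXZ]; exact hb)
    · rw [← map_mul]
      exact o3_odd_even h2 _ (by rw [hZY]; exact hY'01)
  · left
    rw [← map_mul]
    exact o3_odd_even h2 _ (by rw [hXY]; exact mul_ne_zero hb h10)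

end O3c

end Cfsg.Agent.Lib.Helper54
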