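import Mathlib
import Cfsg.Agent.Lib.Helper54.O3c

set_option autoImplicit false

namespace Cfsg.Agent.Lib.Helper54

open Matrix Cfsg.Agent.S0809 Cfsg.Agent.Lib.Helper19.Dk

section O3d

theorem o3_graph {V : Type*} (G : SimpleGraph V) (h1 : ∃ u v : V, u ≠ v ∧ ¬ G.Adj u v)
    (h2 : ∀ u v : V, u ≠ v → G.Adj u v ∨ ∃ w, G.Adj u w ∧ G.Adj w v) :
    G.Connected ∧ G.diam = 2 := by
  obtain ⟨u₀, v₀, hne, hnadj⟩ := h1
  have : Nontrivial V := ⟨⟨u₀, v₀, hne⟩⟩
  have hle : G.ediam ≤ 2 := by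
    apply SimpleGraph.ediam_le_of_edist_le
    intro u v
    by_cases huv : u = v
    · subst huv; simp
    · rcases h2 u v huv with h | ⟨w, h, h'⟩
      · have h3 := (SimpleGraph.Walk.cons h SimpleGraph.Walk.nil).edist_le
        refine h3.trans ?_
        simp
      · have h3 := (SimpleGraph.Walk.cons h (SimpleGraph.Walk.cons h' SimpleGraph.Walk.nil)).edist_le
        refine h3.trans ?_
        simp
  have hne_top : G.ediam ≠ ⊤ := ne_top_of_le_ne_top (by simp) hle
  have h0 : G.ediam ≠ 0 := SimpleGraph.ediam_ne_zero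
  have h1' : G.ediam ≠ 1 := by
    intro h
    rw [SimpleGraph.ediam_eq_one] at h
    rw [h] at hnadj
    exact hnadj ((SimpleGraph.top_adj _ _).2 hne)
  have h2' : G.ediam = 2 := by
    obtain ⟨n, hn⟩ := ENat.ne_top_iff_exists.1 hne_top
    rw [← hn] at hle h0 h1' ⊢
    have h3 : n ≤ 2 := by exact_mod_cast hle
    have h4 : n ≠ 0 := by exact_mod_cast h0
    have h5 : n ≠ 1 := by exact_mod_cast h1'
    have h6 : n = 2 := by omega
    rw [h6]; rfl
  refine ⟨SimpleGraph.connected_of_ediam_ne_top hne_top, ?_⟩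
  unfold SimpleGraph.diam
  rw [h2']; rfl

variable {F : Type*} [Field F] [Fintype F]

theorem o3_key (hF : 4 ≤ Fintype.card F) :
    (∃ x y : P2 F, orderOf x = 2 ∧ orderOf y = 2 ∧ x ≠ y ∧ ¬ Odd (orderOf (x * y)) ∧
      ¬ Odd (orderOf (y * x))) ∧
    (∀ x y : P2 F, orderOf x = 2 → orderOf y = 2 → IsConj x y) ∧
    (∀ x y : P2 F, orderOf x = 2 → orderOf y = 2 → x ≠ y →
      Odd (orderOf (x * y)) ∨ ∃ z : P2 F, orderOf z = 2 ∧ z ≠ x ∧ z ≠ y ∧
        Odd (orderOf (x * z)) ∧ Odd (orderOf (z * y))) := by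
  have hn2 : ¬ Odd 2 := by decide
  by_cases h2 : (2 : F) = 0
  · refine ⟨?_, ?_, ?_⟩
    · obtain ⟨c, hc0, hc1⟩ : ∃ c : F, c ≠ 0 ∧ c ≠ 1 := by
        classical
        by_contra hcon
        push Not at hcon
        have hsub : (Finset.univ : Finset F) ⊆ {0, 1} := by
          intro x _
          simp only [Finset.mem_insert, Finset.mem_singleton]
          by_cases h0 : x = 0
          · exact Or.inl h0
          · exact Or.inr (hcon x h0)
        have hc := Finset.card_le_card hsub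
        have h3 : ({0, 1} : Finset F).card ≤ 2 := Finset.card_le_two
        rw [Finset.card_univ] at hc
        omega
      have hu : ∀ b : F, b ≠ 0 → orderOf (prj F (uu b)) = 2 := fun b hb =>
        o3_order_even h2 (uu b) (by rw [tr_uu, h2]) (not_isSc_uu b hb)
      have h1c : (1 : F) + c ≠ 0 := by
        intro h
        apply hc1
        linear_combination h - h2
      refine ⟨prj F (uu 1), prj F (uu c), hu 1 one_ne_zero, hu c hc0, ?_, ?_, ?_⟩
      · intro h
        exact hc1 (uu_injective (prj_injective h2 h)).symm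
      · rw [← map_mul, uu_mul, hu _ h1c]; exact hn2
      · rw [← map_mul, uu_mul, add_comm, hu _ h1c]; exact hn2
    · intro x y hx hy
      obtain ⟨X, rfl, hX, hXs⟩ := o3_lift_even h2 x hx
      obtain ⟨Y, rfl, hY, hYs⟩ := o3_lift_even h2 y hy
      exact o3_conj_even h2 X Y hX hXs hY hYs
    · intro x y hx hy _
      obtain ⟨X, rfl, hX, hXs⟩ := o3_lift_even h2 x hx
      obtain ⟨Y, rfl, hY, hYs⟩ := o3_lift_even h2 y hy
      rcases o3_main_even h2 X Y hX hXs hY hYs with h | ⟨Z, hZ, hZs, h1, h3, h4, h5⟩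
      · exact Or.inl h
      · exact Or.inr ⟨prj F Z, o3_order_even h2 Z hZ hZs, h1, h3, h4, h5⟩
  · have hodd : Fintype.card F % 2 = 1 := by
      have hchar : ringChar F ≠ 2 := by
        intro h
        apply h2
        have h3 := CharP.cast_eq_zero F (ringChar F)
        rw [h] at h3
        exact_mod_cast h3
      exact FiniteField.odd_card_of_char_ne_two hchar
    have h5 : 5 ≤ Fintype.card F := by omega
    refine ⟨?_, ?_, ?_⟩
    · obtain ⟨u, v, huv⟩ := exists_sq_sum h2 1 1 (-1) one_ne_zero one_ne_zero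
      obtain ⟨R, hR00, hR01, hR10, hR11⟩ : ∃ R : S2 F, R 0 0 = u ∧ R 0 1 = v ∧ R 1 0 = v ∧
          R 1 1 = -u := ⟨mk2 u v v (-u) (by linear_combination -huv), rfl, rfl, rfl, rfl⟩
      have hRR : R * R = S0809.negOne := sq_of_tr_zero R (by rw [hR11, hR00])
      have hJR : (Jm * R) * (Jm * R) = S0809.negOne := by
        apply sq_of_tr_zero
        simp only [mul00, mul11, Jm, mk2_00, mk2_01, mk2_10, mk2_11, hR01, hR10]
        ring
      have hRJ : (R * Jm) * (R * Jm) = S0809.negOne := by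
        apply sq_of_tr_zero
        simp only [mul00, mul11, Jm, mk2_00, mk2_01, mk2_10, mk2_11, hR01, hR10, hR00, hR11]
        ring
      refine ⟨prj F Jm, prj F R, o3_order_odd h2 _ Jm_sq, o3_order_odd h2 _ hRR, ?_, ?_, ?_⟩
      · intro h
        rcases o3_prj_eq _ _ h with h' | h'
        · have e01 := congrArg (fun g : S2 F => g 0 1) h'
          have e10 := congrArg (fun g : S2 F => g 1 0) h'
          simp only [Jm, mk2_01, mk2_10, hR01, hR10] at e01 e10
          apply h2
          linear_combination e10 - e01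
        · have e01 := congrArg (fun g : S2 F => g 0 1) h'
          have e10 := congrArg (fun g : S2 F => g 1 0) h'
          simp only [Jm, mk2_01, mk2_10, mul01, mul10, S0809.negOne, mk2_00, mk2_11,
            hR01, hR10, hR00, hR11] at e01 e10
          apply h2
          linear_combination e10 - e01
      · rw [← map_mul, o3_order_odd h2 _ hJR]; exact hn2
      · rw [← map_mul, o3_order_odd h2 _ hRJ]; exact hn2
    · intro x y hx hy
      obtain ⟨X, rfl, hX⟩ := o3_lift_odd h2 x hx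
      obtain ⟨Y, rfl, hY⟩ := o3_lift_odd h2 y hy
      exact o3_conj_odd h2 X Y hX hY
    · intro x y hx hy _
      obtain ⟨X, rfl, hX⟩ := o3_lift_odd h2 x hx
      obtain ⟨Y, rfl, hY⟩ := o3_lift_odd h2 y hy
      rcases o3_main_odd h2 h5 X Y hX hY with h | ⟨Z, hZ, h1, h3, h4, h5'⟩
      · exact Or.inl h
      · exact Or.inr ⟨prj F Z, o3_order_odd h2 Z hZ, h1, h3, h4, h5'⟩

theorem o3_final (hF : 4 ≤ Fintype.card F) (t : P2 F) (ht : orderOf t = 2) :
    (SimpleGraph.fromRel fun x y : {x : P2 F // IsConj t x} =>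
        Odd (orderOf (x.1 * y.1))).Connected ∧
      (SimpleGraph.fromRel fun x y : {x : P2 F // IsConj t x} =>
        Odd (orderOf (x.1 * y.1))).diam = 2 := by
  obtain ⟨⟨x₀, y₀, hx₀, hy₀, hne₀, hxy₀, hyx₀⟩, hconj, hmain⟩ := o3_key (F := F) hF
  have hord : ∀ x : P2 F, IsConj t x → orderOf x = 2 := by
    intro x hx
    obtain ⟨c, hc⟩ := isConj_iff.1 hx
    rw [← hc, o3_order_conj]; exact ht
  apply o3_graph
  · refine ⟨⟨x₀, hconj t x₀ ht hx₀⟩, ⟨y₀, hconj t y₀ ht hy₀⟩, ?_, ?_⟩
    · intro h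
      exact hne₀ (congrArg Subtype.val h)
    · rw [SimpleGraph.fromRel_adj]
      rintro ⟨-, h | h⟩
      · exact hxy₀ h
      · exact hyx₀ h
  · rintro ⟨x, hx⟩ ⟨y, hy⟩ hne
    have hxy : x ≠ y := fun h => hne (Subtype.ext h)
    rcases hmain x y (hord x hx) (hord y hy) hxy with h | ⟨z, hz, hzx, hzy, h1, h3⟩
    · left
      rw [SimpleGraph.fromRel_adj]
      exact ⟨hne, Or.inl h⟩
    · right
      refine ⟨⟨z, hconj t z ht hz⟩, ?_, ?_⟩
      · rw [SimpleGraph.fromRel_adj]
        exact ⟨fun h => hzx (congrArg Subtype.val h).symm, Or.inl h1⟩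
      · rw [SimpleGraph.fromRel_adj]
        exact ⟨fun h => hzy (congrArg Subtype.val h), Or.inl h3⟩

end O3d

end Cfsg.Agent.Lib.Helper54
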