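import Mathlib
import Cfsg.Agent.Lib.Helper54.PgB
import Cfsg.Agent.Lib.Helper54.N13b

set_option autoImplicit false

namespace Cfsg.Agent.Lib.Helper54

open Matrix Cfsg.Agent.S0809 Cfsg.Agent.Lib.Helper19.Dk

section PgC

variable {F : Type*} [Field F] [Fintype F]

omit [Fintype F] in
theorem pg_x10_ne (x : S2 F) (hns : ¬ IsSquare (tr x ^ 2 - 4)) : x 1 0 ≠ 0 := by
  intro h
  apply hns
  have hd := det2 x
  refine ⟨x 0 0 - x 1 1, ?_⟩
  unfold tr
  linear_combination 4 * hd + 4 * x 0 1 * h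

omit [Fintype F] in
theorem pg_no_root (x : S2 F) (hns : ¬ IsSquare (tr x ^ 2 - 4)) (t : F) :
    t ^ 2 - tr x * t + 1 ≠ 0 := by
  intro h
  apply hns
  exact ⟨2 * t - tr x, by linear_combination (-4 : F) * h⟩

omit [Fintype F] in
theorem mem_pgChat' (x : S2 F) (γ : G2 F) : γ ∈ pgChat x ↔
    (γ : Matrix (Fin 2) (Fin 2) F) * (x : Matrix (Fin 2) (Fin 2) F)
      = (x : Matrix (Fin 2) (Fin 2) F) * (γ : Matrix (Fin 2) (Fin 2) F) := by
  rw [mem_pgChat, gconj_eq_iff]

theorem pg_chat_cyc (x : S2 F) (hns : ¬ IsSquare (tr x ^ 2 - 4)) : IsCyclic (pgChat x) := by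
  classical
  have h10 := pg_x10_ne x hns
  let K := AlgebraicClosure F
  obtain ⟨lam, hlam⟩ := IsAlgClosed.exists_root
    (Polynomial.C (1 : K) * Polynomial.X ^ 2 + Polynomial.C (-(algebraMap F K (tr x))) * Polynomial.X
      + Polynomial.C (1 : K)) (by rw [Polynomial.degree_quadratic one_ne_zero]; norm_num)
  have hlam' : lam ^ 2 - algebraMap F K (tr x) * lam + 1 = 0 := by
    rw [Polynomial.IsRoot.def] at hlam
    simp only [Polynomial.eval_add, Polynomial.eval_mul, Polynomial.eval_C, Polynomial.eval_pow,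
      Polynomial.eval_X] at hlam
    linear_combination hlam
  set X : Matrix (Fin 2) (Fin 2) F := (x : Matrix (Fin 2) (Fin 2) F) with hX
  have hX10 : X 1 0 ≠ 0 := h10
  have hdet : X 0 0 * X 1 1 - X 0 1 * X 1 0 = 1 := det2 x
  have htr : X 0 0 + X 1 1 = tr x := rfl
  have hlam2 : lam ^ 2 - algebraMap F K (X 0 0 + X 1 1) * lam
      + algebraMap F K (X 0 0 * X 1 1 - X 0 1 * X 1 0) = 0 := by
    rw [hdet, htr, map_one]; exact hlam'
  have hmem : ∀ γ : pgChat x, ((γ : G2 F) : Matrix (Fin 2) (Fin 2) F) * X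
      = X * ((γ : G2 F) : Matrix (Fin 2) (Fin 2) F) := fun γ => (mem_pgChat' x γ).1 γ.2
  let f : pgChat x →* K :=
    { toFun := fun γ => pgev X lam ((γ : G2 F) : Matrix (Fin 2) (Fin 2) F)
      map_one' := by
        show pgev X lam (1 : Matrix (Fin 2) (Fin 2) F) = 1
        unfold pgev
        simp
      map_mul' := fun γ γ' => pgev_mul X hX10 lam hlam2 _ _ (hmem γ) (hmem γ') }
  have hinj : Function.Injective f := by
    rw [injective_iff_map_eq_one]
    intro γ hγ
    obtain ⟨a, b, a00, a01, a10, a11⟩ := pg_rep X _ hX10 (hmem γ)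
    have h1 : pgev X lam ((γ : G2 F) : Matrix (Fin 2) (Fin 2) F) = 1 := hγ
    rw [pgev_eq X hX10 lam _ a b a00 a10] at h1
    have hb : b = 0 := by
      by_contra hb
      have hb' : algebraMap F K b ≠ 0 := fun h0 =>
        hb ((map_eq_zero_iff _ (algebraMap F K).injective).1 h0)
      have hl : lam = algebraMap F K ((1 - a) / b) := by
        rw [map_div₀, map_sub, map_one, eq_div_iff hb']
        linear_combination h1
      apply pg_no_root x hns ((1 - a) / b)
      apply (algebraMap F K).injective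
      rw [map_add, map_sub, map_pow, map_mul, map_one, map_zero, ← hl]
      exact hlam'
    rw [hb] at h1 a00 a01 a10 a11
    have ha : a = 1 := by
      apply (algebraMap F K).injective
      rw [map_one]
      simpa using h1
    apply Subtype.ext
    apply Units.ext
    show ((γ : G2 F) : Matrix (Fin 2) (Fin 2) F) = 1
    ext i j
    fin_cases i <;> fin_cases j
    · show ((γ : G2 F) : Matrix (Fin 2) (Fin 2) F) 0 0 = 1
      rw [a00, ha]; simp
    · show ((γ : G2 F) : Matrix (Fin 2) (Fin 2) F) 0 1 = 0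
      rw [a01]; simp
    · show ((γ : G2 F) : Matrix (Fin 2) (Fin 2) F) 1 0 = 0
      rw [a10]; simp
    · show ((γ : G2 F) : Matrix (Fin 2) (Fin 2) F) 1 1 = 1
      rw [a11, ha]; simp
  exact isCyclic_of_injective_ringHom f hinj

theorem pg_chat_card (x : S2 F) (hns : ¬ IsSquare (tr x ^ 2 - 4)) :
    Nat.card (pgChat x) = Fintype.card F ^ 2 - 1 := by
  classical
  have h10 := pg_x10_ne x hns
  set X : Matrix (Fin 2) (Fin 2) F := (x : Matrix (Fin 2) (Fin 2) F) with hX
  have hX10 : X 1 0 ≠ 0 := h10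
  have hdet : X 0 0 * X 1 1 - X 0 1 * X 1 0 = 1 := det2 x
  have hdetne : ∀ p : F × F, p ≠ 0 →
      (p.1 • (1 : Matrix (Fin 2) (Fin 2) F) + p.2 • X).det ≠ 0 := by
    intro p hp hd
    rw [Matrix.det_fin_two] at hd
    simp only [Matrix.add_apply, Matrix.smul_apply, smul_eq_mul] at hd
    simp at hd
    have hd' : p.1 ^ 2 + p.1 * p.2 * tr x + p.2 ^ 2 = 0 := by
      have htr : tr x = X 0 0 + X 1 1 := rfl
      rw [htr]; linear_combination hd - p.2 ^ 2 * hdet
    by_cases hb : p.2 = 0
    · rw [hb] at hd'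
      have : p.1 = 0 := by simpa using hd'
      exact hp (Prod.ext this hb)
    · apply pg_no_root x hns (-(p.1 / p.2))
      field_simp
      linear_combination hd'
  have hmemΦ : ∀ p : {p : F × F // p ≠ 0},
      GeneralLinearGroup.mkOfDetNeZero (p.1.1 • (1 : Matrix (Fin 2) (Fin 2) F) + p.1.2 • X)
        (hdetne p.1 p.2) ∈ pgChat x := by
    intro p
    rw [mem_pgChat']
    show (p.1.1 • (1 : Matrix (Fin 2) (Fin 2) F) + p.1.2 • X) * X
      = X * (p.1.1 • (1 : Matrix (Fin 2) (Fin 2) F) + p.1.2 • X)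
    rw [add_mul, mul_add, smul_mul_assoc, one_mul, mul_smul_comm, mul_one, smul_mul_assoc,
      mul_smul_comm]
  let Φ : {p : F × F // p ≠ 0} → pgChat x := fun p => ⟨_, hmemΦ p⟩
  have hΦ : ∀ (p : {p : F × F // p ≠ 0}) (i j : Fin 2),
      (((Φ p : pgChat x) : G2 F) : Matrix (Fin 2) (Fin 2) F) i j
        = (p.1.1 • (1 : Matrix (Fin 2) (Fin 2) F) + p.1.2 • X) i j := fun p i j => rfl
  have hbij : Function.Bijective Φ := by
    constructor
    · intro p p' h
      have e10 := hΦ p 1 0
      have e00 := hΦ p 0 0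
      rw [h, hΦ p' 1 0] at e10
      rw [h, hΦ p' 0 0] at e00
      simp only [Matrix.add_apply, Matrix.smul_apply, smul_eq_mul] at e10 e00
      simp at e10 e00
      have hb : p.1.2 = p'.1.2 := by
        rcases e10 with h | h
        · exact h.symm
        · exact absurd h hX10
      rw [hb] at e00
      have ha : p.1.1 = p'.1.1 := by linear_combination -e00
      exact Subtype.ext (Prod.ext ha hb)
    · intro γ
      have hγ := (mem_pgChat' x γ).1 γ.2
      obtain ⟨a, b, a00, a01, a10, a11⟩ := pg_rep X _ hX10 hγ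
      have hne : ((a, b) : F × F) ≠ 0 := by
        intro h0
        have ha : a = 0 := congrArg Prod.fst h0
        have hb : b = 0 := congrArg Prod.snd h0
        have hd := pg_det_ne (γ : G2 F)
        rw [a00, a01, a10, a11, ha, hb] at hd
        simp at hd
      refine ⟨⟨(a, b), hne⟩, ?_⟩
      apply Subtype.ext
      apply Units.ext
      show (a • (1 : Matrix (Fin 2) (Fin 2) F) + b • X)
        = ((γ : G2 F) : Matrix (Fin 2) (Fin 2) F)
      ext i j
      fin_cases i <;> fin_cases j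
      · show (a • (1 : Matrix (Fin 2) (Fin 2) F) + b • X) 0 0
          = ((γ : G2 F) : Matrix (Fin 2) (Fin 2) F) 0 0
        rw [a00]; simp
      · show (a • (1 : Matrix (Fin 2) (Fin 2) F) + b • X) 0 1
          = ((γ : G2 F) : Matrix (Fin 2) (Fin 2) F) 0 1
        rw [a01]; simp
      · show (a • (1 : Matrix (Fin 2) (Fin 2) F) + b • X) 1 0
          = ((γ : G2 F) : Matrix (Fin 2) (Fin 2) F) 1 0
        rw [a10]; simp
      · show (a • (1 : Matrix (Fin 2) (Fin 2) F) + b • X) 1 1
          = ((γ : G2 F) : Matrix (Fin 2) (Fin 2) F) 1 1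
        rw [a11]; simp
  rw [← Nat.card_congr (Equiv.ofBijective Φ hbij), Nat.card_eq_fintype_card,
    Fintype.card_subtype_compl, Fintype.card_subtype_eq, Fintype.card_prod]
  ring_nf

theorem pg_cyc_nonsplit (x : S2 F) (hns : ¬ IsSquare (tr x ^ 2 - 4)) :
    IsCyclic (pgC x) ∧ Nat.card (pgC x) = Fintype.card F + 1 := by
  haveI := pg_chat_cyc x hns
  refine ⟨?_, ?_⟩
  · exact isCyclic_of_surjective ((ProjGenLinGroup.mk : G2 F →* PG2 F).subgroupMap (pgChat x))
      (MonoidHom.subgroupMap_surjective _ _)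
  · have h1 := pg_card_map (pgChat x) (center_le_pgChat x)
    rw [pg_chat_card x hns] at h1
    have hq : 2 ≤ Fintype.card F := Fintype.one_lt_card
    have h2 : Fintype.card F ^ 2 - 1 = (Fintype.card F - 1) * (Fintype.card F + 1) := by
      obtain ⟨k, hk⟩ : ∃ k, Fintype.card F = k + 1 := ⟨Fintype.card F - 1, by omega⟩
      rw [hk]
      simp only [Nat.add_sub_cancel]
      have : (k + 1) ^ 2 = k * (k + 1 + 1) + 1 := by ring
      rw [this, Nat.add_sub_cancel]
    rw [h2] at h1
    exact (Nat.eq_of_mul_eq_mul_left (by omega) h1).symm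

end PgC

end Cfsg.Agent.Lib.Helper54
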