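import Mathlib
import Cfsg.Agent.Lib.Helper54.PgC

set_option autoImplicit false

namespace Cfsg.Agent.Lib.Helper54

open Matrix Cfsg.Agent.S0809 Cfsg.Agent.Lib.Helper19.Dk

section PgD

variable {F : Type*} [Field F] [Fintype F]

omit [Fintype F] in
theorem pg_diag (h2 : (2 : F) ≠ 0) (x : S2 F) (δ : F) (hδ : tr x ^ 2 - 4 = δ * δ)
    (hδ0 : δ ≠ 0) :
    ∃ (γ : G2 F) (s : F) (hs : s ≠ 0), gconj γ x = dd s hs ∧ s ^ 2 ≠ 1 := by
  have hxs : ¬ IsSc x := by
    apply not_isSc_of_tr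
    intro h
    apply hδ0
    have : δ * δ = 0 := by rw [← hδ, h]; ring
    exact mul_self_eq_zero.1 this
  obtain ⟨g, hg⟩ := Cfsg.Agent.S0804.exists_conj_10 x hxs
  obtain ⟨x', hx'⟩ : ∃ x' : S2 F, x' = g * x * g⁻¹ := ⟨_, rfl⟩
  rw [← hx'] at hg
  have htr : x' 0 0 + x' 1 1 = tr x := by
    have := tr_conj g x
    rw [← hx'] at this
    exact this
  obtain ⟨s, hsdef⟩ : ∃ s : F, s = (tr x + δ) / 2 := ⟨_, rfl⟩
  obtain ⟨t, htdef⟩ : ∃ t : F, t = tr x - s := ⟨_, rfl⟩
  have hs1 : s ^ 2 - tr x * s + 1 = 0 := by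
    rw [hsdef]; field_simp; linear_combination -hδ
  have hst : s * t = 1 := by rw [htdef]; linear_combination -hs1
  have hs0 : s ≠ 0 := left_ne_zero_of_mul_eq_one hst
  have hsinv : s⁻¹ = t := (eq_inv_of_mul_eq_one_right hst).symm
  have ht1 : t ^ 2 - tr x * t + 1 = 0 := by rw [htdef]; linear_combination hs1
  have hts : t - s = -δ := by rw [htdef, hsdef]; field_simp; ring
  have hd := det2 x'
  obtain ⟨P, hP⟩ : ∃ P : Matrix (Fin 2) (Fin 2) F,
      P = !![x' 1 0, s - x' 0 0; x' 1 0, t - x' 0 0] := ⟨_, rfl⟩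
  have hPdet : P.det ≠ 0 := by
    rw [hP, Matrix.det_fin_two_of]
    have : x' 1 0 * (t - x' 0 0) - (s - x' 0 0) * x' 1 0 = x' 1 0 * (t - s) := by ring
    rw [this, hts]
    exact mul_ne_zero hg (neg_ne_zero.2 hδ0)
  refine ⟨GeneralLinearGroup.mkOfDetNeZero P hPdet * SpecialLinearGroup.toGL g, s, hs0, ?_, ?_⟩
  · rw [gconj_mul_apply, gconj_toGL, ← hx', gconj_eq_iff]
    show P * (x' : Matrix (Fin 2) (Fin 2) F) = ((dd s hs0 : S2 F) : Matrix (Fin 2) (Fin 2) F) * P
    have d00 : ((dd s hs0 : S2 F) : Matrix (Fin 2) (Fin 2) F) 0 0 = s := rfl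
    have d01 : ((dd s hs0 : S2 F) : Matrix (Fin 2) (Fin 2) F) 0 1 = 0 := rfl
    have d10 : ((dd s hs0 : S2 F) : Matrix (Fin 2) (Fin 2) F) 1 0 = 0 := rfl
    have d11 : ((dd s hs0 : S2 F) : Matrix (Fin 2) (Fin 2) F) 1 1 = t := hsinv
    have p00 : P 0 0 = x' 1 0 := by rw [hP]; rfl
    have p01 : P 0 1 = s - x' 0 0 := by rw [hP]; rfl
    have p10 : P 1 0 = x' 1 0 := by rw [hP]; rfl
    have p11 : P 1 1 = t - x' 0 0 := by rw [hP]; rfl
    ext i j
    fin_cases i <;> fin_cases j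
    · show (P * (x' : Matrix (Fin 2) (Fin 2) F)) 0 0
        = (((dd s hs0 : S2 F) : Matrix (Fin 2) (Fin 2) F) * P) 0 0
      simp only [Matrix.mul_apply, Fin.sum_univ_two, d00, d01, p00, p01, p10]
      ring
    · show (P * (x' : Matrix (Fin 2) (Fin 2) F)) 0 1
        = (((dd s hs0 : S2 F) : Matrix (Fin 2) (Fin 2) F) * P) 0 1
      simp only [Matrix.mul_apply, Fin.sum_univ_two, d00, d01, p00, p01, p11]
      linear_combination -hd - hs1 + s * htr
    · show (P * (x' : Matrix (Fin 2) (Fin 2) F)) 1 0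
        = (((dd s hs0 : S2 F) : Matrix (Fin 2) (Fin 2) F) * P) 1 0
      simp only [Matrix.mul_apply, Fin.sum_univ_two, d10, d11, p00, p10, p11]
      ring
    · show (P * (x' : Matrix (Fin 2) (Fin 2) F)) 1 1
        = (((dd s hs0 : S2 F) : Matrix (Fin 2) (Fin 2) F) * P) 1 1
      simp only [Matrix.mul_apply, Fin.sum_univ_two, d10, d11, p01, p10, p11]
      linear_combination -hd - ht1 + t * htr
  · intro h
    have h1 : s * (s - t) = 0 := by linear_combination h - hst
    rcases mul_eq_zero.1 h1 with h | h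
    · exact hs0 h
    · apply hδ0
      linear_combination h + hts

theorem pg_q8_excl (hodd : Odd (Fintype.card F)) (h3 : 3 < Fintype.card F)
    (M : Subgroup (PG2 F)) (hM : IsCoatom M) (hML : ¬ pgL F ≤ M)
    (x y : S2 F) (hx : x ∈ pgT M) (hy : y ∈ pgT M) (hxx : x * x = S0809.negOne) (hyy : y * y = S0809.negOne)
    (hyx : y * x = S0809.negOne * (x * y)) (h8 : Nat.card (pgT M) = 8) : False := by
  classical
  have h2 := pg_two_ne hodd
  have hne1 : (S0809.negOne : S2 F) ≠ 1 := negOne_ne_one' h2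
  obtain ⟨h, hh1, hh2⟩ := n13_q8 x y hxx hyy hyx h2
  have hxs : ¬ IsSc x := by
    intro hs
    exact hne1 (hxx ▸ isSc_mul_self x hs)
  have hZ := center_le_pgT M
  have hyA : y ∉ cenL (pgT M) x := by
    intro hmem
    have hc := (mem_cenL.1 hmem).2
    rw [hyx] at hc
    exact hne1 (mul_right_cancel (hc.trans (one_mul _).symm))
  have hAle : cenL (pgT M) x ≤ pgT M := inf_le_left
  have hxA : x ∈ cenL (pgT M) x := mem_cenL.2 ⟨hx, rfl⟩
  have hcA : Nat.card (cenL (pgT M) x) = 4 := by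
    have h1 : Nat.card (cenL (pgT M) x) ∣ 8 := by rw [← h8]; exact Subgroup.card_dvd_of_le hAle
    have h2' := card_Z_lt (pgT M) hZ x hx hxs
    rw [center_card_two h2] at h2'
    have h3' : Nat.card (cenL (pgT M) x) ≠ 8 := by
      intro h
      have : cenL (pgT M) x = pgT M := Subgroup.eq_of_le_of_card_ge hAle (by rw [h8]; exact h.ge)
      exact hyA (by rw [this]; exact hy)
    have h4 : Nat.card (cenL (pgT M) x) ≤ 8 := Nat.le_of_dvd (by norm_num) h1
    have h5 : 2 < Nat.card (cenL (pgT M) x) := h2'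
    interval_cases hv : Nat.card (cenL (pgT M) x) <;> omega
  have hidx : ((cenL (pgT M) x).subgroupOf (pgT M)).index = 2 := by
    have h1 := Subgroup.card_mul_index ((cenL (pgT M) x).subgroupOf (pgT M))
    rw [Nat.card_congr (Subgroup.subgroupOfEquivOfLe hAle).toEquiv, h8, hcA] at h1
    omega
  have hx4 : orderOf x = 4 := by
    have := orderOf_eq_prime_pow (p := 2) (n := 1) (x := x)
      (by rw [pow_one, pow_two, hxx]; exact hne1)
      (by
        have : x ^ 2 ^ (1 + 1) = (x * x) * (x * x) := by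
          rw [show (2 : ℕ) ^ (1 + 1) = 2 + 2 from rfl, pow_add, pow_two]
        rw [this, hxx, negOne_sq])
    simpa using this
  have hAz : Subgroup.zpowers x = cenL (pgT M) x := by
    apply Subgroup.eq_of_le_of_card_ge
    · rw [Subgroup.zpowers_le]; exact hxA
    · rw [Nat.card_zpowers, hx4, hcA]
  have hconjA : ∀ g ∈ cenL (pgT M) x, h * g * h⁻¹ ∈ pgT M := by
    intro g hg
    rw [← hAz] at hg
    obtain ⟨k, rfl⟩ := Subgroup.mem_zpowers_iff.1 hg
    have e : h * x ^ k * h⁻¹ = y ^ k := by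
      have := map_zpow (MulAut.conj h) x k
      rw [MulAut.conj_apply, MulAut.conj_apply, hh1] at this
      exact this
    rw [e]
    exact (pgT M).zpow_mem hy k
  have hnorm : ∀ g ∈ pgT M, h * g * h⁻¹ ∈ pgT M := by
    intro g hg
    by_cases hgA : g ∈ cenL (pgT M) x
    · exact hconjA g hgA
    · have hyg : y * g ∈ cenL (pgT M) x := by
        have := (Subgroup.mul_mem_iff_of_index_two hidx (a := ⟨y, hy⟩) (b := ⟨g, hg⟩))
        rw [Subgroup.mem_subgroupOf, Subgroup.mem_subgroupOf, Subgroup.mem_subgroupOf] at this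
        exact this.2 ⟨fun h' => absurd h' hyA, fun h' => absurd h' hgA⟩
      have e : h * g * h⁻¹ = (h * y * h⁻¹)⁻¹ * (h * (y * g) * h⁻¹) := by group
      rw [e, hh2]
      exact (pgT M).mul_mem ((pgT M).inv_mem ((pgT M).mul_mem hx hy)) (hconjA _ hyg)
  have hhM : h ∈ pgT M := by
    have := pg_normalizer hodd (by omega) M hM hML ⟨x, hx, hxs⟩ (SpecialLinearGroup.toGL h)
      (fun g hg => by rw [gconj_toGL]; exact hnorm g hg)
    exact this
  have hnormal := Subgroup.normal_of_index_eq_two hidx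
  have hmem := hnormal.conj_mem ⟨x, hx⟩ (by rw [Subgroup.mem_subgroupOf]; exact hxA) ⟨h, hhM⟩
  rw [Subgroup.mem_subgroupOf] at hmem
  apply hyA
  have e : ((⟨h, hhM⟩ * ⟨x, hx⟩ * ⟨h, hhM⟩⁻¹ : pgT M) : S2 F) = y := hh1
  rw [← e]
  exact hmem

theorem pg_torus_aux (h3 : 3 < Fintype.card F)
    (M : Subgroup (PG2 F)) (hM : IsCoatom M)
    (x : S2 F) (hss : tr x ^ 2 ≠ 4)
    (hcomm : ∀ γ : G2 F, ProjGenLinGroup.mk γ ∈ M → gconj γ x * x = x * gconj γ x)
    (n : ℕ) (hC : IsCyclic (pgC x)) (hn : Nat.card (pgC x) = n) (hle' : n ≤ Fintype.card F + 1) :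
    M = pgD x ∧ Nonempty (M ≃* DihedralGroup n) := by
  have hle := pg_le_D M x hss hcomm
  obtain ⟨e⟩ := pg_dih_of_cyc x hss n hC hn
  have hcardD : Nat.card (pgD x) = 2 * n := by
    rw [Nat.card_congr e.toEquiv, DihedralGroup.nat_card]
  have hne : pgD x ≠ ⊤ := by
    intro h
    have h1 : Nat.card (pgD x) = Nat.card (PG2 F) := by rw [h]; exact Subgroup.card_top
    rw [hcardD, pg_card] at h1
    obtain ⟨q, hq⟩ : ∃ q, Fintype.card F = q := ⟨_, rfl⟩
    rw [hq] at h1 h3 hle'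
    have h4 : q + 3 ≤ q ^ 2 - 1 := by
      have : 4 * q ≤ q ^ 2 := by nlinarith
      omega
    have h5 := Nat.mul_le_mul_left q h4
    nlinarith
  have hMD : M = pgD x := ((hM.le_iff.1 hle).resolve_left hne).symm
  exact ⟨hMD, ⟨(MulEquiv.subgroupCongr hMD).trans e⟩⟩

theorem pg_torus (hodd : Odd (Fintype.card F)) (h3 : 3 < Fintype.card F)
    (M : Subgroup (PG2 F)) (hM : IsCoatom M) (hML : ¬ pgL F ≤ M)
    (x : S2 F) (hx : x ∈ pgT M) (hss : tr x ^ 2 ≠ 4)
    (hcomm : ∀ γ : G2 F, ProjGenLinGroup.mk γ ∈ M → gconj γ x * x = x * gconj γ x) :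
    PgConcl F M := by
  have h2 := pg_two_ne hodd
  by_cases hsq : IsSquare (tr x ^ 2 - 4)
  · obtain ⟨δ, hδ⟩ := hsq
    have hδ0 : δ ≠ 0 := by
      rintro rfl
      apply hss
      linear_combination hδ
    obtain ⟨γ₀, s, hs, hconj, hs2⟩ := pg_diag h2 x δ hδ hδ0
    obtain ⟨hM', hML', ⟨e⟩, hT'⟩ := pg_conj hodd M γ₀ hM hML
    have hx' : dd s hs ∈ pgT (pgConj M γ₀) := by
      rw [hT', ← hconj]
      exact Subgroup.mem_map_of_mem _ hx
    have hss' : tr (dd s hs) ^ 2 ≠ 4 := by rw [← hconj, tr_gconj]; exact hss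
    have hcomm' : ∀ γ : G2 F, ProjGenLinGroup.mk γ ∈ pgConj M γ₀ →
        gconj γ (dd s hs) * dd s hs = dd s hs * gconj γ (dd s hs) := by
      intro γ hγ
      rw [mem_pgConj] at hγ
      have h1 := congrArg (gconj γ₀) (hcomm _ hγ)
      rw [map_mul, map_mul, ← gconj_mul_apply, hconj] at h1
      have e1 : γ₀ * (γ₀⁻¹ * γ * γ₀) = γ * γ₀ := by group
      rw [e1, gconj_mul_apply, hconj] at h1
      exact h1
    obtain ⟨hC, hn⟩ := pg_cyc_split s hs hs2
    obtain ⟨hMD, ⟨e'⟩⟩ := pg_torus_aux h3 (pgConj M γ₀) hM' (dd s hs) hss' hcomm' _ hC hn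
      (by omega)
    by_cases hq5 : Fintype.card F = 5
    · exfalso
      have hs4 : s ^ 4 = 1 := by
        have := FiniteField.pow_card_sub_one_eq_one s hs
        rw [hq5] at this
        exact this
      have hsm : s * s = -1 := by
        have h1 : (s ^ 2 - 1) * (s ^ 2 + 1) = 0 := by linear_combination hs4
        rcases mul_eq_zero.1 h1 with h | h
        · exact absurd (by linear_combination h) hs2
        · linear_combination h
      have hsinv : s⁻¹ = -s := by
        have : s * (-s) = 1 := by linear_combination -hsm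
        exact (eq_inv_of_mul_eq_one_right this).symm
      have hxx : dd s hs * dd s hs = S0809.negOne := by
        apply ext2 <;> simp only [mul00, mul01, mul10, mul11, dd, S0809.negOne, mk2_00, mk2_01, mk2_10,
          mk2_11, hsinv]
        · linear_combination hsm
        · ring
        · ring
        · linear_combination hsm
      have hJinv : gconj (SpecialLinearGroup.toGL (Jm : S2 F)) (dd s hs) = (dd s hs)⁻¹ := by
        rw [gconj_toGL, conj_eq_iff]
        apply ext2 <;> simp only [mul00, mul01, mul10, mul11, inv00, inv01, inv10, inv11, dd, Jm,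
          mk2_00, mk2_01, mk2_10, mk2_11] <;> ring
      have hJ : (Jm : S2 F) ∈ pgT (pgConj M γ₀) := by
        rw [mem_pgT, hMD]
        exact (mem_pgD _ _).2 (Or.inr hJinv)
      have hJx : (Jm : S2 F) * dd s hs = S0809.negOne * (dd s hs * Jm) := by
        apply ext2 <;> simp only [mul00, mul01, mul10, mul11, dd, S0809.negOne, Jm, mk2_00, mk2_01,
          mk2_10, mk2_11, hsinv] <;> ring
      have h8 : Nat.card (pgT (pgConj M γ₀)) = 8 := by
        rw [← pg_card_M hodd _ hM' hML', Nat.card_congr e'.toEquiv, DihedralGroup.nat_card, hq5]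
      exact pg_q8_excl hodd h3 _ hM' hML' (dd s hs) Jm hx' hJ hxx Jm_sq hJx h8
    · right; left
      exact ⟨hq5, ⟨e.trans e'⟩⟩
  · obtain ⟨hC, hn⟩ := pg_cyc_nonsplit x hsq
    obtain ⟨-, ⟨e'⟩⟩ := pg_torus_aux h3 M hM x hss hcomm _ hC hn le_rfl
    right; right; left
    exact ⟨e'⟩

end PgD

end Cfsg.Agent.Lib.Helper54
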