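import Mathlib
import Cfsg.Agent.Lib.Helper54.PgD

set_option autoImplicit false

namespace Cfsg.Agent.Lib.Helper54

open Matrix Cfsg.Agent.S0809 Cfsg.Agent.Lib.Helper19.Dk

section PgE

variable {F : Type*} [Field F] [Fintype F]

omit [Fintype F] in
theorem pgT_gconj (M : Subgroup (PG2 F)) (γ : G2 F) (hγ : ProjGenLinGroup.mk γ ∈ M) (g : S2 F)
    (hg : g ∈ pgT M) : gconj γ g ∈ pgT M := by
  rw [mem_pgT, pgφ_gconj]
  exact M.mul_mem (M.mul_mem hγ hg) (M.inv_mem hγ)

theorem pg_case1 (hodd : Odd (Fintype.card F)) (h3 : 3 < Fintype.card F)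
    (M : Subgroup (PG2 F)) (hM : IsCoatom M) (hML : ¬ pgL F ≤ M)
    (h : pgT M = Subgroup.center (S2 F)) : False := by
  have h2 := pg_two_ne hodd
  have hc : Nat.card M = 2 := by rw [pg_card_M hodd M hM hML, h, center_card_two h2]
  haveI : Fact (Nat.Prime 2) := ⟨Nat.prime_two⟩
  have := pg_two_group hodd h3 M hM (IsPGroup.of_card (n := 1) (by rw [hc, pow_one]))
  rw [hc] at this
  omega

theorem pg_case2 (hodd : Odd (Fintype.card F)) (h3 : 3 < Fintype.card F)
    (M : Subgroup (PG2 F)) (hM : IsCoatom M) (hML : ¬ pgL F ≤ M)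
    (x : S2 F) (hx : x ∈ pgT M) (hss : tr x ^ 2 ≠ 4)
    (hall : ∀ g ∈ pgT M, g * x = x * g) : PgConcl F M :=
  pg_torus hodd h3 M hM hML x hx hss (fun γ hγ => hall _ (pgT_gconj M γ hγ x hx))

theorem pg_c3_split (h2 : (2 : F) ≠ 0) (L : Subgroup (S2 F))
    (hZ : Subgroup.center (S2 F) ≤ L) (x : S2 F) (hx : x ∈ L) (hss : tr x ^ 2 ≠ 4)
    (hcard : Nat.card L = 2 * cA L x) :
    (Nat.card L = 8 ∧ ∃ y ∈ L, x * x = S0809.negOne ∧ y * y = S0809.negOne ∧
      y * x = S0809.negOne * (x * y)) ∨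
    (∀ θ : S2 F ≃* S2 F, (∀ g ∈ L, θ g ∈ L) → θ x * x = x * θ x) := by
  classical
  have hne1 : (S0809.negOne : S2 F) ≠ 1 := negOne_ne_one' h2
  have hxs : ¬ IsSc x := not_isSc_of_tr x hss
  have hAle : cenL L x ≤ L := inf_le_left
  have hxA : x ∈ cenL L x := mem_cenL.2 ⟨hx, rfl⟩
  have hZA : Subgroup.center (S2 F) ≤ cenL L x := center_le_cenL L hZ x
  have hcApos : 0 < cA L x := Nat.card_pos
  have hidx : ((cenL L x).subgroupOf L).index = 2 := by
    have h1 := Subgroup.card_mul_index ((cenL L x).subgroupOf L)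
    rw [Nat.card_congr (Subgroup.subgroupOfEquivOfLe hAle).toEquiv, hcard] at h1
    have h2' : Nat.card (cenL L x) * ((cenL L x).subgroupOf L).index
        = Nat.card (cenL L x) * 2 := by
      rw [h1]; unfold cA; ring
    exact Nat.eq_of_mul_eq_mul_left hcApos h2'
  have hnormal := Subgroup.normal_of_index_eq_two hidx
  -- elements outside A square to -1
  have hout : ∀ ℓ ∈ L, ℓ ∉ cenL L x → ℓ * ℓ = S0809.negOne ∧ ℓ * x * ℓ⁻¹ = x⁻¹ := by
    intro ℓ hℓ hℓA
    have h5 := hnormal.conj_mem ⟨x, hx⟩ (by rw [Subgroup.mem_subgroupOf]; exact hxA) ⟨ℓ, hℓ⟩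
    rw [Subgroup.mem_subgroupOf] at h5
    have h6 : ℓ * x * ℓ⁻¹ ∈ cenL L x := h5
    have h7 := (mem_cenL.1 h6).2
    have hinv : ℓ * x * ℓ⁻¹ = x⁻¹ := by
      rcases eq_or_inv x (ℓ * x * ℓ⁻¹) hss h7 (tr_conj ℓ x) with h | h
      · exfalso
        apply hℓA
        exact mem_cenL.2 ⟨hℓ, (conj_eq_iff ℓ x x).1 h⟩
      · exact h
    refine ⟨?_, hinv⟩
    have hsc := sq_isSc_of_inv x ℓ hss hinv
    rcases isSc_eq _ hsc with h | h
    · exfalso
      apply hℓA
      rcases sq_eq_one h2 ℓ h with h' | h'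
      · rw [h']; exact Subgroup.one_mem _
      · rw [h']; exact hZA ((isSc_iff_center _).1 isSc_negOne)
    · exact h
  have h2lt := card_Z_lt L hZ x hx hxs
  rw [center_card_two h2] at h2lt
  have hdvd : 2 ∣ cA L x := by
    have := Subgroup.card_dvd_of_le hZA
    rw [center_card_two h2] at this
    exact this
  by_cases h4 : cA L x = 4
  · left
    refine ⟨by rw [hcard, h4], ?_⟩
    have hx4 : x ^ 4 = 1 := by
      have := pow_card_eq_one' (G := cenL L x) (x := ⟨x, hxA⟩)
      rw [show Nat.card (cenL L x) = 4 from h4] at this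
      exact congrArg Subtype.val this
    have hxx : x * x = S0809.negOne := by
      have h1 : (x * x) * (x * x) = 1 := by
        rw [← hx4, show (4 : ℕ) = 2 + 2 from rfl, pow_add, pow_two]
      rcases sq_eq_one h2 (x * x) h1 with h | h
      · exfalso
        rcases sq_eq_one h2 x h with h' | h'
        · exact hxs (h' ▸ (isSc_iff_center _).2 (Subgroup.one_mem _))
        · exact hxs (h' ▸ isSc_negOne)
      · exact h
    obtain ⟨y, hy, hyA⟩ : ∃ y ∈ L, y ∉ cenL L x := by
      by_contra hcon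
      push Not at hcon
      have : cenL L x = L := le_antisymm hAle hcon
      have h8 : Nat.card L = cA L x := by unfold cA; rw [this]
      omega
    obtain ⟨hyy, hyinv⟩ := hout y hy hyA
    refine ⟨y, hy, hxx, hyy, ?_⟩
    have hxinv : x⁻¹ = S0809.negOne * x := by
      rw [inv_eq_iff_mul_eq_one, negOne_mul, ← mul_assoc, hxx, negOne_sq]
    have := (conj_eq_iff y x x⁻¹).1 hyinv
    rw [this, hxinv, mul_assoc]
  · right
    intro θ hθ
    have h6 : 6 ≤ cA L x := by
      obtain ⟨c, hc⟩ := hdvd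
      omega
    haveI := centralizer_isCyclic x hss
    haveI hcyc : IsCyclic (cenL L x) :=
      isCyclic_of_injective (Subgroup.inclusion (inf_le_right : cenL L x ≤ Subgroup.centralizer {x}))
        (Subgroup.inclusion_injective _)
    obtain ⟨a₀, ha₀⟩ := hcyc.exists_generator
    have hord : orderOf (a₀ : S2 F) = cA L x := by
      rw [Subgroup.orderOf_coe]
      exact orderOf_eq_card_of_forall_mem_zpowers ha₀
    have hθa : θ (a₀ : S2 F) ∈ cenL L x := by
      by_contra hcon
      obtain ⟨hsq, -⟩ := hout _ (hθ _ (hAle a₀.2)) hcon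
      have h4' : orderOf (θ (a₀ : S2 F)) = 4 := by
        have := orderOf_eq_prime_pow (p := 2) (n := 1) (x := θ (a₀ : S2 F))
          (by rw [pow_one, pow_two, hsq]; exact hne1)
          (by
            have : θ (a₀ : S2 F) ^ 2 ^ (1 + 1)
                = (θ (a₀ : S2 F) * θ (a₀ : S2 F)) * (θ (a₀ : S2 F) * θ (a₀ : S2 F)) := by
              rw [show (2 : ℕ) ^ (1 + 1) = 2 + 2 from rfl, pow_add, pow_two]
            rw [this, hsq, negOne_sq])
        simpa using this
      rw [MulEquiv.orderOf_eq, hord] at h4'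
      exact h4 h4'
    obtain ⟨k, hk⟩ := Subgroup.mem_zpowers_iff.1 (ha₀ ⟨x, hxA⟩)
    have hk' : (a₀ : S2 F) ^ k = x := by
      have := congrArg Subtype.val hk
      simpa using this
    have hθx : θ x ∈ cenL L x := by
      have e : θ x = θ (a₀ : S2 F) ^ k := (congrArg θ hk').symm.trans (map_zpow θ _ k)
      rw [e]
      exact (cenL L x).zpow_mem hθa k
    exact (mem_cenL.1 hθx).2

theorem pg_case3 (hodd : Odd (Fintype.card F)) (h3 : 3 < Fintype.card F)
    (M : Subgroup (PG2 F)) (hM : IsCoatom M) (hML : ¬ pgL F ≤ M)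
    (x : S2 F) (hx : x ∈ pgT M) (hss : tr x ^ 2 ≠ 4)
    (hcard : Nat.card (pgT M) = 2 * cA (pgT M) x) : PgConcl F M := by
  rcases pg_c3_split (pg_two_ne hodd) (pgT M) (center_le_pgT M) x hx hss hcard with
    ⟨h8, y, hy, hxx, hyy, hyx⟩ | h
  · exact (pg_q8_excl hodd h3 M hM hML x y hx hy hxx hyy hyx h8).elim
  · exact pg_torus hodd h3 M hM hML x hx hss
      (fun γ hγ => h (gconj γ) (fun g hg => pgT_gconj M γ hγ g hg))

/-- upper triangular matrices in `GL₂` -/
def pgBor (F : Type*) [Field F] : Subgroup (G2 F) where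
  carrier := {γ | (γ : Matrix (Fin 2) (Fin 2) F) 1 0 = 0}
  one_mem' := by
    show ((1 : G2 F) : Matrix (Fin 2) (Fin 2) F) 1 0 = 0
    simp
  mul_mem' := by
    intro a b ha hb
    show ((a * b : G2 F) : Matrix (Fin 2) (Fin 2) F) 1 0 = 0
    rw [Units.val_mul, Matrix.mul_apply, Fin.sum_univ_two,
      show (a : Matrix (Fin 2) (Fin 2) F) 1 0 = 0 from ha,
      show (b : Matrix (Fin 2) (Fin 2) F) 1 0 = 0 from hb]
    ring
  inv_mem' := by
    intro a ha
    show ((a⁻¹ : G2 F) : Matrix (Fin 2) (Fin 2) F) 1 0 = 0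
    have h1 : ((a⁻¹ : G2 F) : Matrix (Fin 2) (Fin 2) F) * (a : Matrix (Fin 2) (Fin 2) F) = 1 := by
      rw [← Units.val_mul, inv_mul_cancel]; rfl
    have e10 := congrFun (congrFun h1 1) 0
    simp only [Matrix.mul_apply, Fin.sum_univ_two] at e10
    have ha' : (a : Matrix (Fin 2) (Fin 2) F) 1 0 = 0 := ha
    rw [ha'] at e10
    have hd := pg_det_ne a
    rw [ha'] at hd
    have h00 : (a : Matrix (Fin 2) (Fin 2) F) 0 0 ≠ 0 := by
      intro h0; rw [h0] at hd; simp at hd
    rw [Matrix.one_apply_ne (by decide), mul_zero, add_zero] at e10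
    rcases mul_eq_zero.1 e10 with h | h
    · exact h
    · exact absurd h h00

omit [Fintype F] in
theorem mem_pgBor (γ : G2 F) : γ ∈ pgBor F ↔ (γ : Matrix (Fin 2) (Fin 2) F) 1 0 = 0 := Iff.rfl

omit [Fintype F] in
theorem center_le_pgBor : Subgroup.center (G2 F) ≤ pgBor F := by
  intro z hz
  rw [GeneralLinearGroup.center_eq_range_scalar] at hz
  obtain ⟨u, rfl⟩ := hz
  rw [mem_pgBor]
  simp [GeneralLinearGroup.coe_scalar]

omit [Fintype F] in
theorem pg_bor_comm (g x : S2 F) (hg : g 1 0 = 0) (hx : x 1 0 = 0) :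
    tr (g * x * g⁻¹ * x⁻¹) = 2 := by
  have hdg : g 0 0 * g 1 1 = 1 := by
    have := det2 g
    rw [hg] at this
    linear_combination this
  have hdx : x 0 0 * x 1 1 = 1 := by
    have := det2 x
    rw [hx] at this
    linear_combination this
  unfold tr
  simp only [mul00, mul01, mul10, mul11, inv00, inv01, inv10, inv11, hg, hx]
  linear_combination 2 * x 0 0 * x 1 1 * hdg + 2 * hdx

theorem pg_bor (hodd : Odd (Fintype.card F)) (h3 : 3 < Fintype.card F)
    (M : Subgroup (PG2 F)) (hM : IsCoatom M) (hML : ¬ pgL F ≤ M) (hB : pgT M ≤ Bor F) :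
    PgConcl F M := by
  have h2 := pg_two_ne hodd
  by_cases hu : ∃ u ∈ pgT M, ¬ IsSc u ∧ tr u ^ 2 = 4
  · left
    obtain ⟨u, hu, hus, hut⟩ := hu
    have hu10 : u 1 0 = 0 := hB hu
    have key : ∀ v : S2 F, v 1 0 = 0 → tr v ^ 2 = 4 → v 0 0 = v 1 1 := by
      intro v hv ht
      have hd := det2 v
      rw [hv] at hd
      unfold tr at ht
      have : (v 0 0 - v 1 1) ^ 2 = 0 := by linear_combination ht - 4 * hd
      have := pow_eq_zero_iff (two_ne_zero) |>.1 this
      linear_combination this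
    have hu00 := key u hu10 hut
    have hu01 : u 0 1 ≠ 0 := by
      intro h
      exact hus ⟨h, hu10, hu00⟩
    have hle : M ≤ (pgBor F).map ProjGenLinGroup.mk := by
      intro m hm
      obtain ⟨γ, rfl⟩ := ProjGenLinGroup.mk_surjective m
      rw [mem_map_mk _ center_le_pgBor, mem_pgBor]
      have hu' := pgT_gconj M γ hm u hu
      have hu'10 : (gconj γ u) 1 0 = 0 := hB hu'
      have hu'00 := key _ hu'10 (by rw [tr_gconj]; exact hut)
      have htr : (gconj γ u) 0 0 + (gconj γ u) 1 1 = u 0 0 + u 1 1 := tr_gconj γ u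
      have hu'11 : (gconj γ u) 1 1 = u 1 1 := by
        have : (2 : F) * ((gconj γ u) 1 1 - u 1 1) = 0 := by
          rw [hu'00, hu00] at htr
          linear_combination htr
        rcases mul_eq_zero.1 this with h | h
        · exact absurd h h2
        · linear_combination h
      have hE := (gconj_eq_iff γ u (gconj γ u)).1 rfl
      have e11 := congrFun (congrFun hE 1) 1
      simp only [Matrix.mul_apply, Fin.sum_univ_two] at e11
      have a1 : ((gconj γ u : S2 F) : Matrix (Fin 2) (Fin 2) F) 1 0 = 0 := hu'10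
      have a2 : ((gconj γ u : S2 F) : Matrix (Fin 2) (Fin 2) F) 1 1 = u 1 1 := hu'11
      rw [a1, a2] at e11
      have : (γ : Matrix (Fin 2) (Fin 2) F) 1 0 * u 0 1 = 0 := by linear_combination e11
      exact (mul_eq_zero.1 this).resolve_right hu01
    have hne : (pgBor F).map ProjGenLinGroup.mk ≠ (⊤ : Subgroup (PG2 F)) := by
      intro h
      have h1 : ProjGenLinGroup.mk (SpecialLinearGroup.toGL (ll (1 : F)))
          ∈ (pgBor F).map ProjGenLinGroup.mk := by rw [h]; exact Subgroup.mem_top _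
      rw [mem_map_mk _ center_le_pgBor, mem_pgBor] at h1
      have h2' : (ll (1 : F)) 1 0 = 0 := h1
      rw [ll_10] at h2'
      exact one_ne_zero h2'
    have hMB : (pgBor F).map ProjGenLinGroup.mk = M := (hM.le_iff.1 hle).resolve_left hne
    have hBle : Bor F ≤ pgT M := by
      intro g hg
      rw [mem_pgT, ← hMB]
      show ProjGenLinGroup.mk (SpecialLinearGroup.toGL g) ∈ (pgBor F).map ProjGenLinGroup.mk
      rw [mem_map_mk _ center_le_pgBor, mem_pgBor]
      exact hg
    rw [pg_card_M hodd M hM hML, le_antisymm hB hBle, card_Bor]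
  · push Not at hu
    by_cases hZ : pgT M = Subgroup.center (S2 F)
    · exact (pg_case1 hodd h3 M hM hML hZ).elim
    · obtain ⟨x, hx, hxs⟩ : ∃ x ∈ pgT M, ¬ IsSc x := by
        by_contra hcon
        push Not at hcon
        apply hZ
        apply le_antisymm _ (center_le_pgT M)
        intro g hg
        exact (isSc_iff_center g).1 (hcon g hg)
      have hss := hu x hx hxs
      apply pg_case2 hodd h3 M hM hML x hx hss
      intro g hg
      by_contra hne
      have hc : g * x * g⁻¹ * x⁻¹ ∈ pgT M :=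
        (pgT M).mul_mem ((pgT M).mul_mem ((pgT M).mul_mem hg hx) ((pgT M).inv_mem hg))
          ((pgT M).inv_mem hx)
      have htr := pg_bor_comm g x (hB hg) (hB hx)
      have hcs : ¬ IsSc (g * x * g⁻¹ * x⁻¹) := by
        intro hs
        rcases isSc_eq _ hs with h | h
        · apply hne
          rw [mul_inv_eq_one] at h
          exact (conj_eq_iff g x x).1 h
        · rw [h] at htr
          unfold tr at htr
          simp [S0809.negOne] at htr
          apply h2
          have h4 : (2 : F) * 2 = 0 := by linear_combination -htr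
          exact mul_self_eq_zero.1 h4
      exact hu _ hc hcs (by rw [htr]; norm_num)

theorem pg_case4 (hodd : Odd (Fintype.card F)) (h3 : 3 < Fintype.card F)
    (M : Subgroup (PG2 F)) (hM : IsCoatom M) (hML : ¬ pgL F ≤ M)
    (g : S2 F) (hg : ∀ ℓ ∈ pgT M, (g * ℓ * g⁻¹) 1 0 = 0) : PgConcl F M := by
  obtain ⟨hM', hML', ⟨e⟩, hT'⟩ := pg_conj hodd M (SpecialLinearGroup.toGL g) hM hML
  apply PgConcl.congr e
  apply pg_bor hodd h3 _ hM' hML'
  rw [hT']
  rintro _ ⟨ℓ, hℓ, rfl⟩
  rw [mem_Bor]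
  show (gconj (SpecialLinearGroup.toGL g) ℓ) 1 0 = 0
  rw [gconj_toGL]
  exact hg ℓ hℓ

end PgE

end Cfsg.Agent.Lib.Helper54
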