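import Mathlib
import Cfsg.Agent.Lib.Helper54.PgE
import Cfsg.Agent.Lib.Helper19.DkV
import Cfsg.Agent.S0805

set_option autoImplicit false

namespace Cfsg.Agent.Lib.Helper54

open Matrix Cfsg.Agent.S0809 Cfsg.Agent.Lib.Helper19.Dk

section PgF

variable {F : Type*} [Field F] [Fintype F]

theorem pg_small (p : ℕ) [Fact p.Prime] [CharP F p] (hodd : Odd (Fintype.card F))
    (M : Subgroup (PG2 F)) (a b : PG2 F) (ha : a ∈ M) (hb : b ∈ M)
    (hsq : a * a * (b * b) ≠ b * b * (a * a))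
    (hc : a * b * a⁻¹ * b⁻¹ ≠ 1) (hc2 : (a * b * a⁻¹ * b⁻¹) * (a * b * a⁻¹ * b⁻¹) = 1) :
    (Nat.card M = 24 → p = 3 ∨ Nonempty (M ≃* Equiv.Perm (Fin 4))) ∧
    (Nat.card M = 48 → False) ∧ (Nat.card M = 120 → p = 5) := by
  classical
  obtain ⟨n, hp, hn⟩ := FiniteField.card F p
  haveI : Fintype (GaloisField p (2 * (n : ℕ))) := Fintype.ofFinite _
  have hEcard : Fintype.card (GaloisField p (2 * (n : ℕ))) = Fintype.card F ^ 2 := by
    rw [← Nat.card_eq_fintype_card, GaloisField.card p (2 * (n : ℕ)) (by positivity), hn,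
      ← pow_mul, mul_comm]
  obtain ⟨φ⟩ := Cfsg.Agent.S0805.exists_hom (F := GaloisField p (2 * (n : ℕ))) (K := F) 2
    (by norm_num) hEcard.symm
  have h2F := pg_two_ne hodd
  have h2E : (2 : GaloisField p (2 * (n : ℕ))) ≠ 0 := by
    intro h
    apply h2F
    apply φ.injective
    rw [map_zero, map_ofNat]
    exact h
  obtain ⟨c, hcq⟩ := hodd
  have hsq' : ∀ d : F, d ≠ 0 → ∃ r : GaloisField p (2 * (n : ℕ)), r * r = φ d := by
    intro d hd
    have hchar : ringChar (GaloisField p (2 * (n : ℕ))) ≠ 2 := by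
      intro h
      have h1 := FiniteField.even_card_of_char_two h
      rw [hEcard, hcq] at h1
      have : (2 * c + 1) ^ 2 = 2 * (2 * c ^ 2 + 2 * c) + 1 := by ring
      omega
    have hφd : φ d ≠ 0 := by
      intro h
      exact hd (φ.injective (by rw [h, map_zero]))
    have := (FiniteField.isSquare_iff hchar hφd).2 ?_
    · obtain ⟨r, hr⟩ := this; exact ⟨r, hr.symm⟩
    · have h1 : d ^ (Fintype.card F - 1) = 1 := FiniteField.pow_card_sub_one_eq_one d hd
      have ht : Fintype.card (GaloisField p (2 * (n : ℕ))) / 2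
          = (Fintype.card F - 1) * (c + 1) := by
        rw [hEcard, hcq]
        have e1 : (2 * c + 1) ^ 2 = 2 * (2 * c * (c + 1)) + 1 := by ring
        have e2 : 2 * c + 1 - 1 = 2 * c := by omega
        rw [e1, e2]
        omega
      rw [ht, pow_mul, ← map_pow, h1, map_one, one_pow]
  have hψinj := Cfsg.Agent.S0805.pglmap_inj φ
  have hrange := Cfsg.Agent.S0805.rangeB φ hsq'
  obtain ⟨ψ, hψ⟩ : ∃ ψ : PG2 F →* PG2 (GaloisField p (2 * (n : ℕ))),
      ψ = ProjGenLinGroup.map (n := Fin 2) φ := ⟨_, rfl⟩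
  rw [← hψ] at hψinj hrange
  obtain ⟨τ, hτ⟩ : ∃ τ : P2 (GaloisField p (2 * (n : ℕ))) →* PG2 (GaloisField p (2 * (n : ℕ))),
      τ = ProjectiveSpecialLinearGroup.toPGL := ⟨_, rfl⟩
  have hτinj : Function.Injective τ := by
    rw [hτ]; exact ProjectiveSpecialLinearGroup.toPGL_injective
  rw [← hτ] at hrange
  have hle : M.map ψ ≤ τ.range := by
    rintro _ ⟨m, -, rfl⟩
    exact hrange ⟨m, rfl⟩
  -- the subgroup of PSL₂(E)
  have e1 : ((M.map ψ).comap τ) ≃* M :=
    ((Subgroup.equivMapOfInjective _ τ hτinj).trans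
      (MulEquiv.subgroupCongr (Subgroup.map_comap_eq_self hle))).trans
      (Subgroup.equivMapOfInjective M ψ hψinj).symm
  obtain ⟨a', ha'⟩ : ∃ a' : P2 (GaloisField p (2 * (n : ℕ))), τ a' = ψ a := hrange ⟨a, rfl⟩
  obtain ⟨b', hb'⟩ : ∃ b' : P2 (GaloisField p (2 * (n : ℕ))), τ b' = ψ b := hrange ⟨b, rfl⟩
  have ha'H : a' ∈ (M.map ψ).comap τ := by
    rw [Subgroup.mem_comap, ha']; exact Subgroup.mem_map_of_mem _ ha
  have hb'H : b' ∈ (M.map ψ).comap τ := by
    rw [Subgroup.mem_comap, hb']; exact Subgroup.mem_map_of_mem _ hb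
  have hsqE : a' * a' * (b' * b') ≠ b' * b' * (a' * a') := by
    intro h
    apply hsq
    apply hψinj
    have := congrArg τ h
    simp only [map_mul, ha', hb'] at this
    simp only [map_mul]
    exact this
  have hcomm : τ (a' * b' * a'⁻¹ * b'⁻¹) = ψ (a * b * a⁻¹ * b⁻¹) := by
    simp only [map_mul, map_inv, ha', hb']
  have hcE : a' * b' * a'⁻¹ * b'⁻¹ ≠ 1 := by
    intro h
    apply hc
    apply hψinj
    rw [← hcomm, h, map_one, map_one]
  have hc2E : (a' * b' * a'⁻¹ * b'⁻¹) * (a' * b' * a'⁻¹ * b'⁻¹) = 1 := by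
    apply hτinj
    rw [map_mul, hcomm, ← map_mul, hc2, map_one, map_one]
  haveI : CharP (GaloisField p (2 * (n : ℕ))) p := inferInstance
  obtain ⟨r1, r2, r3⟩ := small_P2 p h2E ((M.map ψ).comap τ) a' b' ha'H hb'H hsqE hcE hc2E
  have hcard : Nat.card ((M.map ψ).comap τ) = Nat.card M := Nat.card_congr e1.toEquiv
  rw [hcard] at r1 r2 r3
  refine ⟨fun h => ?_, r2, r3⟩
  rcases r1 h with h' | ⟨⟨f⟩⟩
  · exact Or.inl h'
  · exact Or.inr ⟨e1.symm.trans f⟩

end PgF

end Cfsg.Agent.Lib.Helper54
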