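import Mathlib
import Cfsg.Agent.Lib.Helper54.PgF

set_option autoImplicit false

namespace Cfsg.Agent.Lib.Helper54

open Matrix Cfsg.Agent.S0809 Cfsg.Agent.Lib.Helper19.Dk

section Perms

/-- `(012)` in `A₄` -/
def pgA4a : alternatingGroup (Fin 4) :=
  ⟨Equiv.swap 0 1 * Equiv.swap 1 2, Equiv.Perm.mem_alternatingGroup.2 (by decide)⟩

/-- `(013)` in `A₄` -/
def pgA4b : alternatingGroup (Fin 4) :=
  ⟨Equiv.swap 0 1 * Equiv.swap 1 3, Equiv.Perm.mem_alternatingGroup.2 (by decide)⟩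

theorem pgA4_facts : pgA4a * pgA4a * (pgA4b * pgA4b) ≠ pgA4b * pgA4b * (pgA4a * pgA4a) ∧
    pgA4a * pgA4b * pgA4a⁻¹ * pgA4b⁻¹ ≠ 1 ∧
    (pgA4a * pgA4b * pgA4a⁻¹ * pgA4b⁻¹) * (pgA4a * pgA4b * pgA4a⁻¹ * pgA4b⁻¹) = 1 := by
  decide

/-- `(012)` in `S₄` -/
def pgS4a : Equiv.Perm (Fin 4) := Equiv.swap 0 1 * Equiv.swap 1 2

/-- `(013)` in `S₄` -/
def pgS4b : Equiv.Perm (Fin 4) := Equiv.swap 0 1 * Equiv.swap 1 3

theorem pgS4_facts : pgS4a * pgS4a * (pgS4b * pgS4b) ≠ pgS4b * pgS4b * (pgS4a * pgS4a) ∧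
    pgS4a * pgS4b * pgS4a⁻¹ * pgS4b⁻¹ ≠ 1 ∧
    (pgS4a * pgS4b * pgS4a⁻¹ * pgS4b⁻¹) * (pgS4a * pgS4b * pgS4a⁻¹ * pgS4b⁻¹) = 1 := by
  decide

/-- `(012)` in `A₅` -/
def pgA5a : alternatingGroup (Fin 5) :=
  ⟨Equiv.swap 0 1 * Equiv.swap 1 2, Equiv.Perm.mem_alternatingGroup.2 (by decide)⟩

/-- `(013)` in `A₅` -/
def pgA5b : alternatingGroup (Fin 5) :=
  ⟨Equiv.swap 0 1 * Equiv.swap 1 3, Equiv.Perm.mem_alternatingGroup.2 (by decide)⟩

theorem pgA5_facts : pgA5a * pgA5a * (pgA5b * pgA5b) ≠ pgA5b * pgA5b * (pgA5a * pgA5a) ∧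
    pgA5a * pgA5b * pgA5a⁻¹ * pgA5b⁻¹ ≠ 1 ∧
    (pgA5a * pgA5b * pgA5a⁻¹ * pgA5b⁻¹) * (pgA5a * pgA5b * pgA5a⁻¹ * pgA5b⁻¹) = 1 := by
  decide

theorem pg_s4_sq_or : ∀ σ : Equiv.Perm (Fin 4), (∃ ρ : Equiv.Perm (Fin 4), σ = ρ * ρ) ∨
    (∃ ρ : Equiv.Perm (Fin 4), σ = s4c * (ρ * ρ)) := by
  decide

end Perms

section PgG

variable {F : Type*} [Field F] [Fintype F]

theorem pg_small' (p : ℕ) [Fact p.Prime] [CharP F p] (hodd : Odd (Fintype.card F))
    (M : Subgroup (PG2 F)) {X : Type*} [Group X]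
    (φ : ↥(M.comap ProjectiveSpecialLinearGroup.toPGL) ≃* X) (x₁ x₂ : X)
    (h1 : x₁ * x₁ * (x₂ * x₂) ≠ x₂ * x₂ * (x₁ * x₁)) (h2 : x₁ * x₂ * x₁⁻¹ * x₂⁻¹ ≠ 1)
    (h3 : (x₁ * x₂ * x₁⁻¹ * x₂⁻¹) * (x₁ * x₂ * x₁⁻¹ * x₂⁻¹) = 1) :
    (Nat.card M = 24 → p = 3 ∨ Nonempty (M ≃* Equiv.Perm (Fin 4))) ∧
    (Nat.card M = 48 → False) ∧ (Nat.card M = 120 → p = 5) := by
  obtain ⟨f, hf⟩ : ∃ f : X →* PG2 F, f = (ProjectiveSpecialLinearGroup.toPGL).comp
      ((Subgroup.subtype _).comp φ.symm.toMonoidHom) := ⟨_, rfl⟩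
  have hfinj : Function.Injective f := by
    rw [hf]
    exact ProjectiveSpecialLinearGroup.toPGL_injective.comp
      ((Subgroup.subtype_injective _).comp φ.symm.injective)
  have hfM : ∀ x, f x ∈ M := by
    intro x
    rw [hf]
    exact (φ.symm x).2
  apply pg_small p hodd M (f x₁) (f x₂) (hfM x₁) (hfM x₂)
  · intro h
    apply h1
    apply hfinj
    simp only [map_mul]
    exact h
  · intro h
    apply h2
    apply hfinj
    rw [map_one]
    simp only [map_mul, map_inv]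
    exact h
  · have := congrArg f h3
    simp only [map_mul, map_inv, map_one] at this
    exact this

omit [Fintype F] in
theorem pg_ord4 (γ : G2 F) (h2 : ProjGenLinGroup.mk γ * ProjGenLinGroup.mk γ ≠ 1)
    (h4 : ProjGenLinGroup.mk γ * ProjGenLinGroup.mk γ
      * (ProjGenLinGroup.mk γ * ProjGenLinGroup.mk γ) = 1) :
    ((γ : Matrix (Fin 2) (Fin 2) F) 0 0 + (γ : Matrix (Fin 2) (Fin 2) F) 1 1) ^ 2
      = 2 * (γ : Matrix (Fin 2) (Fin 2) F).det := by
  obtain ⟨A, hA⟩ : ∃ A : Matrix (Fin 2) (Fin 2) F, A = (γ : Matrix (Fin 2) (Fin 2) F) := ⟨_, rfl⟩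
  rw [← hA]
  have hB : ¬ ((A * A) 0 1 = 0 ∧ (A * A) 1 0 = 0 ∧ (A * A) 0 0 = (A * A) 1 1) := by
    rintro ⟨b01, b10, b00⟩
    apply h2
    rw [← map_mul, ProjGenLinGroup.mk_eq_one, Subgroup.mem_center_iff]
    intro g
    apply Units.ext
    simp only [Units.val_mul]
    rw [← hA]
    obtain ⟨B, hBdef⟩ : ∃ B : Matrix (Fin 2) (Fin 2) F, B = A * A := ⟨_, rfl⟩
    rw [← hBdef] at b01 b10 b00 ⊢
    ext i j
    fin_cases i <;> fin_cases j <;>
      simp [Matrix.mul_apply, Fin.sum_univ_two, b01, b10, b00] <;> ring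
  have hC : (A * A * (A * A)) 0 1 = 0 ∧ (A * A * (A * A)) 1 0 = 0 ∧
      (A * A * (A * A)) 0 0 = (A * A * (A * A)) 1 1 := by
    simp only [← map_mul] at h4
    rw [ProjGenLinGroup.mk_eq_one, GeneralLinearGroup.center_eq_range_scalar] at h4
    obtain ⟨u, hu⟩ := h4
    have hu' : (A * A * (A * A))
        = ((GeneralLinearGroup.scalar (Fin 2) u : G2 F) : Matrix (Fin 2) (Fin 2) F) := by
      rw [hu, hA]
      simp only [Units.val_mul]
    rw [hu']
    simp [GeneralLinearGroup.coe_scalar]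
  obtain ⟨c01, c10, c00⟩ := hC
  simp only [Matrix.mul_apply, Fin.sum_univ_two] at hB c01 c10 c00
  rw [Matrix.det_fin_two]
  by_contra hne
  apply hB
  have hne' : (A 0 0 + A 1 1) ^ 2 - 2 * (A 0 0 * A 1 1 - A 0 1 * A 1 0) ≠ 0 :=
    fun h => hne (by linear_combination h)
  refine ⟨?_, ?_, ?_⟩
  · have : (A 0 0 * A 0 1 + A 0 1 * A 1 1)
        * ((A 0 0 + A 1 1) ^ 2 - 2 * (A 0 0 * A 1 1 - A 0 1 * A 1 0)) = 0 := by
      linear_combination c01
    exact (mul_eq_zero.1 this).resolve_right hne'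
  · have : (A 1 0 * A 0 0 + A 1 1 * A 1 0)
        * ((A 0 0 + A 1 1) ^ 2 - 2 * (A 0 0 * A 1 1 - A 0 1 * A 1 0)) = 0 := by
      linear_combination c10
    exact (mul_eq_zero.1 this).resolve_right hne'
  · have : ((A 0 0 * A 0 0 + A 0 1 * A 1 0) - (A 1 0 * A 0 1 + A 1 1 * A 1 1))
        * ((A 0 0 + A 1 1) ^ 2 - 2 * (A 0 0 * A 1 1 - A 0 1 * A 1 0)) = 0 := by
      linear_combination c00
    linear_combination (mul_eq_zero.1 this).resolve_right hne'

omit [Fintype F] in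
theorem pg_mem_L_of_sq (γ : G2 F) (s : F)
    (hs : s * s = (γ : Matrix (Fin 2) (Fin 2) F).det) : ProjGenLinGroup.mk γ ∈ pgL F := by
  have hdet : (γ : Matrix (Fin 2) (Fin 2) F).det ≠ 0 := (GeneralLinearGroup.det γ).ne_zero
  have hs0 : s ≠ 0 := by
    rintro rfl
    rw [mul_zero] at hs
    exact hdet hs.symm
  have hS : (s⁻¹ • (γ : Matrix (Fin 2) (Fin 2) F)).det = 1 := by
    rw [Matrix.det_smul, Fintype.card_fin, ← hs]
    field_simp
  refine ⟨⟨s⁻¹ • (γ : Matrix (Fin 2) (Fin 2) F), hS⟩, ?_⟩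
  show ProjGenLinGroup.mk (SpecialLinearGroup.toGL
    (⟨s⁻¹ • (γ : Matrix (Fin 2) (Fin 2) F), hS⟩ : S2 F)) = ProjGenLinGroup.mk γ
  rw [ProjGenLinGroup.mk_eq_mk_iff]
  refine ⟨Units.mk0 s hs0, ?_⟩
  apply Units.ext
  ext i j
  simp [GeneralLinearGroup.coe_scalar, Matrix.mul_apply, Matrix.diagonal_apply]
  change (s⁻¹ • (γ : Matrix (Fin 2) (Fin 2) F)) i j * s = _
  simp [Matrix.smul_apply]
  field_simp

theorem pg_s4_mod8 (hodd : Odd (Fintype.card F))
    (M : Subgroup (PG2 F)) (hM : IsCoatom M) (hML : ¬ pgL F ≤ M)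
    (e : M ≃* Equiv.Perm (Fin 4)) : Fintype.card F % 8 = 3 ∨ Fintype.card F % 8 = 5 := by
  by_contra hcon
  push Not at hcon
  obtain ⟨w, hw⟩ := FiniteField.isSquare_two_iff.2 hcon
  haveI := Subgroup.normal_of_index_eq_two (pg_index_L (F := F) hodd)
  have hidx : ((pgL F).subgroupOf M).index = 2 := by
    have h1 : (pgL F).relIndex M = 2 := by
      rw [← Subgroup.relIndex_sup_right, pg_sup M hM hML, Subgroup.relIndex_top_right,
        pg_index_L hodd]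
    exact h1
  obtain ⟨f1, f2, -⟩ := s4_facts
  obtain ⟨g, hg⟩ : ∃ g : M, g = e.symm s4c := ⟨_, rfl⟩
  have heg : e g = s4c := by rw [hg, MulEquiv.apply_symm_apply]
  have hg2 : g * g ≠ 1 := by
    intro h
    apply f1
    have := congrArg e h
    rw [map_mul, map_one, heg] at this
    rw [pow_two]; exact this
  have hg4 : g * g * (g * g) = 1 := by
    apply e.injective
    rw [map_mul, map_mul, map_one, heg, ← pow_two, ← pow_two, ← pow_mul]
    exact f2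
  obtain ⟨γ, hγ⟩ := ProjGenLinGroup.mk_surjective (g : PG2 F)
  have h2' : ProjGenLinGroup.mk γ * ProjGenLinGroup.mk γ ≠ 1 := by
    rw [hγ]
    intro h
    apply hg2
    exact Subtype.ext h
  have h4' : ProjGenLinGroup.mk γ * ProjGenLinGroup.mk γ
      * (ProjGenLinGroup.mk γ * ProjGenLinGroup.mk γ) = 1 := by
    rw [hγ]
    exact congrArg Subtype.val hg4
  have htr := pg_ord4 γ h2' h4'
  have hw0 : w ≠ 0 := by
    rintro rfl
    exact pg_two_ne hodd (by simpa using hw)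
  have hgL : (g : PG2 F) ∈ pgL F := by
    rw [← hγ]
    apply pg_mem_L_of_sq γ
      (((γ : Matrix (Fin 2) (Fin 2) F) 0 0 + (γ : Matrix (Fin 2) (Fin 2) F) 1 1) / w)
    field_simp
    linear_combination htr + (γ : Matrix (Fin 2) (Fin 2) F).det * hw
  have hgK : g ∈ (pgL F).subgroupOf M := by
    rw [Subgroup.mem_subgroupOf]; exact hgL
  have htop : (pgL F).subgroupOf M = ⊤ := by
    rw [eq_top_iff]
    intro m _
    rcases pg_s4_sq_or (e m) with ⟨ρ, hρ⟩ | ⟨ρ, hρ⟩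
    · have : m = e.symm ρ * e.symm ρ := by
        apply e.injective
        rw [map_mul, MulEquiv.apply_symm_apply]
        exact hρ
      rw [this]
      exact Subgroup.mul_self_mem_of_index_two hidx _
    · have : m = g * (e.symm ρ * e.symm ρ) := by
        apply e.injective
        rw [map_mul, map_mul, heg, MulEquiv.apply_symm_apply]
        exact hρ
      rw [this]
      exact Subgroup.mul_mem _ hgK (Subgroup.mul_self_mem_of_index_two hidx _)
  rw [htop, Subgroup.index_top] at hidx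
  omega

omit [Fintype F] in
theorem pg_tr_sq (x : S2 F) : tr (x * x) = tr x ^ 2 - 2 := by
  unfold tr
  rw [mul00, mul11]
  linear_combination (-2 : F) * det2 x

/-- the two inputs supplied separately: the subfield outcome and primality in the `A₄` outcome -/
theorem pg_main (hodd : Odd (Fintype.card F)) (h3 : 3 < Fintype.card F)
    (M : Subgroup (PG2 F)) (hM : IsCoatom M) (hML : ¬ pgL F ≤ M)
    (hfield : ∀ (x₀ : S2 F), x₀ ∈ pgT M → ¬ IsSc x₀ → tr x₀ ^ 2 = 4 → ∀ (q' k : ℕ), 3 ≤ q' →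
      cA (pgT M) x₀ = Nat.card (Subgroup.center (S2 F)) * q' →
      cN (pgT M) x₀ = Nat.card (Subgroup.center (S2 F)) * k * q' →
      Nat.card (pgT M) = Nat.card (Subgroup.center (S2 F)) * k * q' * (1 + q') →
      (k = q' - 1 ∨ 2 * k = q' - 1) → PgConcl F M)
    (hprime : ∀ (p : ℕ) [Fact p.Prime] [CharP F p], p ≠ 3 → Nat.card (pgT M) = 24 →
      (↥(M.comap ProjectiveSpecialLinearGroup.toPGL) ≃* alternatingGroup (Fin 4)) →
      (M ≃* Equiv.Perm (Fin 4)) → Fintype.card F = p) :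
    PgConcl F M := by
  classical
  obtain ⟨p, hp⟩ := CharP.exists F
  haveI := hp
  haveI : Fact p.Prime := ⟨CharP.char_is_prime F p⟩
  have h2 := pg_two_ne hodd
  have hz := center_card_two h2
  have hMc := pg_card_M hodd M hM hML
  have hL := pgT_eq_Lof M
  rcases main_cases p (pgT M) (center_le_pgT M) with h | ⟨x, hx, hss, hall⟩ |
    ⟨x, hx, hss, hcard⟩ | ⟨g, hg⟩ | ⟨hcard, x, hx, hxs, hA, hN⟩ |
    ⟨hcard, ⟨x, hx, hxs, hA⟩, hall⟩ | ⟨hcard, hall⟩ |
    ⟨x₀, hx₀, hsc, h4, q', k, hq3, hcA, hcN, hcard, hk⟩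
  · exact (pg_case1 hodd h3 M hM hML h).elim
  · exact pg_case2 hodd h3 M hM hML x hx hss hall
  · exact pg_case3 hodd h3 M hM hML x hx hss hcard
  · exact pg_case4 hodd h3 M hM hML g hg
  · -- A₄ type
    have hM24 : Nat.card M = 24 := by rw [hMc, hcard, hz]
    by_cases hp3 : p = 3
    · have hxA : x ∈ cenL (pgT M) x := mem_cenL.2 ⟨hx, rfl⟩
      have hx6 : x ^ 6 = 1 := by
        have := pow_card_eq_one' (G := cenL (pgT M) x) (x := ⟨x, hxA⟩)
        rw [show Nat.card (cenL (pgT M) x) = 6 by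
          have : cA (pgT M) x = 3 * 2 := by rw [hA, hz]
          exact this] at this
        exact congrArg Subtype.val this
      have hx3 : (x * x) ^ p = 1 := by
        rw [hp3, ← pow_two, ← pow_mul]
        exact hx6
      have htr := tr_of_pow_char p (x * x) hx3
      rw [pg_tr_sq] at htr
      refine hfield x hx hxs (by linear_combination htr) 3 1 le_rfl ?_ ?_ ?_ (Or.inr rfl)
      · rw [hA, hz]
      · rw [hN, hz]
      · rw [hcard, hz]
    · rw [hL] at hcard hx hA hN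
      obtain ⟨φ⟩ := out_A4 (M.comap ProjectiveSpecialLinearGroup.toPGL) hcard x hx hA hN
      obtain ⟨a1, a2, a3⟩ := pgA4_facts
      obtain ⟨r1, -, -⟩ := pg_small' p hodd M φ pgA4a pgA4b a1 a2 a3
      obtain ⟨e⟩ := (r1 hM24).resolve_left hp3
      have hq : Fintype.card F = p := hprime p hp3 (by rw [← hMc]; exact hM24) φ e
      right; right; right; left
      exact ⟨by rw [hq]; exact Fact.out, pg_s4_mod8 hodd M hM hML e, ⟨e⟩⟩
  · -- S₄ type
    exfalso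
    have hM48 : Nat.card M = 48 := by rw [hMc, hcard, hz]
    rw [hL] at hcard hx hA hall
    obtain ⟨φ⟩ := out_S4 (M.comap ProjectiveSpecialLinearGroup.toPGL) hcard x hx hxs hA hall
    obtain ⟨a1, a2, a3⟩ := pgS4_facts
    obtain ⟨-, r2, -⟩ := pg_small' p hodd M φ pgS4a pgS4b a1 a2 a3
    exact r2 hM48
  · -- A₅ type
    have hM120 : Nat.card M = 120 := by rw [hMc, hcard, hz]
    have hp5 : p = 5 := by
      have hcard' := hcard
      have hall' := hall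
      rw [hL] at hcard' hall'
      obtain ⟨φ⟩ := out_A5 (M.comap ProjectiveSpecialLinearGroup.toPGL) hcard' hall'
      obtain ⟨a1, a2, a3⟩ := pgA5_facts
      obtain ⟨-, -, r3⟩ := pg_small' p hodd M φ pgA5a pgA5b a1 a2 a3
      exact r3 hM120
    haveI : Fact (Nat.Prime 5) := ⟨Nat.prime_five⟩
    obtain ⟨y, hy⟩ := exists_prime_orderOf_dvd_card' (G := pgT M) 5
      (by rw [hcard, hz]; norm_num)
    have hy5 : orderOf (y : S2 F) = 5 := by rw [Subgroup.orderOf_coe]; exact hy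
    have hyp : (y : S2 F) ^ p = 1 := by rw [hp5, ← hy5]; exact pow_orderOf_eq_one _
    have htr := tr_of_pow_char p (y : S2 F) hyp
    have hys : ¬ IsSc (y : S2 F) := by
      intro hs
      have h1 := isSc_mul_self _ hs
      have h2' : orderOf (y : S2 F) ∣ 2 := orderOf_dvd_of_pow_eq_one (by rw [pow_two]; exact h1)
      rw [hy5] at h2'
      omega
    obtain ⟨hc, hn⟩ := hall (y : S2 F) y.2 hys
    have hyA : (y : S2 F) ∈ cenL (pgT M) (y : S2 F) := mem_cenL.2 ⟨y.2, rfl⟩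
    have h5 : 5 ∣ cA (pgT M) (y : S2 F) := by
      have := orderOf_dvd_natCard (⟨(y : S2 F), hyA⟩ : cenL (pgT M) (y : S2 F))
      rw [Subgroup.orderOf_mk, hy5] at this
      exact this
    rw [hz] at hc hcard
    have hcA : cA (pgT M) (y : S2 F) = 10 := by omega
    refine hfield (y : S2 F) y.2 hys (by rw [htr]; norm_num) 5 2 (by norm_num) ?_ ?_ ?_
      (Or.inr rfl)
    · rw [hcA, hz]
    · rw [hn, hcA, hz]
    · rw [hcard, hz]
  · exact hfield x₀ hx₀ hsc h4 q' k hq3 hcA hcN hcard hk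

end PgG

end Cfsg.Agent.Lib.Helper54
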