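import Mathlib
import Cfsg.Agent.Lib.Helper54.PgG
import Cfsg.Agent.Lib.Helper19.DkW

set_option autoImplicit false

namespace Cfsg.Agent.Lib.Helper54

open Matrix Cfsg.Agent.S0809 Cfsg.Agent.Lib.Helper19.Dk

section PgH

variable {F : Type*} [Field F] [Fintype F]

theorem pg_a4_sq : ∀ σ : alternatingGroup (Fin 4), σ * σ = 1 →
    σ = 1 ∨ σ = a4a ∨ σ = a4b ∨ σ = a4a * a4b := by
  decide

theorem pg_a4_ab : a4a * a4b ≠ 1 ∧ (a4a * a4b) ^ 2 = 1 := by
  decide

theorem pg_q8_rel {G : Type*} [Group G] (n x y : G) (hn : ∀ g, n * g = g * n) (hnn : n * n = 1)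
    (hx : x * x = n) (hy : y * y = n) (hxy : x * y * (x * y) = n) : y * x = n * (x * y) := by
  have e0 : y * x = x⁻¹ * (x * y * (x * y)) * y⁻¹ := by group
  have e1 : x⁻¹ * n * y⁻¹ = x⁻¹ * (x * x) * n * (y * y) * y⁻¹ := by
    rw [hx, hy, mul_assoc x⁻¹ n n, hnn, mul_one]
  have e2 : x⁻¹ * (x * x) * n * (y * y) * y⁻¹ = x * n * y := by group
  have e3 : x * n * y = n * (x * y) := by rw [← hn x, mul_assoc]
  rw [e0, hxy, e1, e2, e3]

omit [Fintype F] in
theorem pg_prj_eq (w v : S2 F) (h : prj F w = prj F v) : w = v ∨ w = S0809.negOne * v := by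
  have h1 : prj F (w * v⁻¹) = 1 := by rw [map_mul, map_inv, h, mul_inv_cancel]
  rcases isSc_eq _ ((prj_eq_one_iff _).1 h1) with h' | h'
  · left
    exact mul_inv_eq_one.1 h'
  · right
    exact mul_inv_eq_iff_eq_mul.1 h'

omit [Fintype F] in
theorem pg_q8_pair (h2 : (2 : F) ≠ 0) (H : Subgroup (P2 F))
    (φ : H ≃* alternatingGroup (Fin 4)) :
    ∃ x y : S2 F, x ∈ Lof H ∧ y ∈ Lof H ∧ x * x = S0809.negOne ∧ y * y = S0809.negOne ∧
      y * x = S0809.negOne * (x * y) ∧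
      ∀ w ∈ Lof H, w * w = S0809.negOne →
        (w = x ∨ w = S0809.negOne * x ∨ w = y ∨ w = S0809.negOne * y ∨ w = x * y ∨
          w = S0809.negOne * (x * y)) := by
  obtain ⟨x, hx, ex⟩ := exists_lift_iso H φ a4a
  obtain ⟨y, hy, ey⟩ := exists_lift_iso H φ a4b
  obtain ⟨k1, k2, k3, k4, k5, k6⟩ := a4_klein
  obtain ⟨l1, l2⟩ := pg_a4_ab
  have hne1 : (S0809.negOne : S2 F) ≠ 1 := negOne_ne_one' h2
  have sq : ∀ g : S2 F, tr g = 0 → g * g = S0809.negOne := by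
    intro g hg
    apply sq_of_tr_zero
    unfold tr at hg
    linear_combination hg
  have hxx : x * x = S0809.negOne :=
    sq x (tr_of_iso2 H φ x hx (by rw [ex]; exact k4) (by rw [ex, pow_two]; exact k1))
  have hyy : y * y = S0809.negOne :=
    sq y (tr_of_iso2 H φ y hy (by rw [ey]; exact k5) (by rw [ey, pow_two]; exact k2))
  obtain ⟨hxy, exy⟩ := iso_mul H φ x y hx hy
  rw [ex, ey] at exy
  have hxyxy : x * y * (x * y) = S0809.negOne :=
    sq (x * y) (tr_of_iso2 H φ (x * y) hxy (by rw [exy]; exact l1) (by rw [exy]; exact l2))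
  refine ⟨x, y, hx, hy, hxx, hyy,
    pg_q8_rel _ x y (fun g => negOne_mul g) negOne_sq hxx hyy hxyxy, ?_⟩
  intro w hw hww
  have hw' : prj F w ∈ H := hw
  have hσ : φ ⟨prj F w, hw'⟩ * φ ⟨prj F w, hw'⟩ = 1 := by
    rw [← map_mul]
    have : (⟨prj F w, hw'⟩ * ⟨prj F w, hw'⟩ : H) = 1 := by
      apply Subtype.ext
      show prj F w * prj F w = 1
      rw [← map_mul, hww]
      exact (prj_eq_one_iff _).2 isSc_negOne
    rw [this, map_one]
  rcases pg_a4_sq _ hσ with h | h | h | h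
  · exfalso
    have h1 : (⟨prj F w, hw'⟩ : H) = 1 := by
      apply φ.injective
      rw [h, map_one]
    have h2' : prj F w = 1 := congrArg Subtype.val h1
    have h3 := isSc_mul_self w ((prj_eq_one_iff w).1 h2')
    rw [hww] at h3
    exact hne1 h3
  · have h1 : (⟨prj F w, hw'⟩ : H) = ⟨prj F x, hx⟩ := by
      apply φ.injective
      rw [h, ex]
    rcases pg_prj_eq w x (congrArg Subtype.val h1) with h' | h'
    · exact Or.inl h'
    · exact Or.inr (Or.inl h')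
  · have h1 : (⟨prj F w, hw'⟩ : H) = ⟨prj F y, hy⟩ := by
      apply φ.injective
      rw [h, ey]
    rcases pg_prj_eq w y (congrArg Subtype.val h1) with h' | h'
    · exact Or.inr (Or.inr (Or.inl h'))
    · exact Or.inr (Or.inr (Or.inr (Or.inl h')))
  · have h1 : (⟨prj F w, hw'⟩ : H) = ⟨prj F (x * y), hxy⟩ := by
      apply φ.injective
      rw [h, exy]
    rcases pg_prj_eq w (x * y) (congrArg Subtype.val h1) with h' | h'
    · exact Or.inr (Or.inr (Or.inr (Or.inr (Or.inl h'))))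
    · exact Or.inr (Or.inr (Or.inr (Or.inr (Or.inr h'))))

theorem pg_q8_std (p : ℕ) [Fact p.Prime] [CharP F p] (h2 : (2 : F) ≠ 0) (x y : S2 F)
    (hxx : x * x = S0809.negOne) (hyy : y * y = S0809.negOne)
    (hyx : y * x = S0809.negOne * (x * y)) :
    ∃ (g₀ : G2 F) (a₀ b₀ : F) (h : a₀ * (-a₀) - b₀ * b₀ = 1), a₀ ∈ (⊥ : Subfield F) ∧
      b₀ ∈ (⊥ : Subfield F) ∧ gconj g₀ y = Jm ∧ gconj g₀ x = mk2 a₀ b₀ b₀ (-a₀) h := by
  have hy11 := tr_zero_of_sq y hyy
  obtain ⟨P, hP⟩ := exists_conj_J h2 y hy11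
  obtain ⟨x', hx'⟩ : ∃ x' : S2 F, x' = P⁻¹ * x * P := ⟨_, rfl⟩
  have hJ : P⁻¹ * y * P = Jm := by rw [mul_assoc, hP, ← mul_assoc, inv_mul_cancel, one_mul]
  have hn : P⁻¹ * S0809.negOne * P = S0809.negOne := by
    rw [mul_assoc, negOne_mul, ← mul_assoc, inv_mul_cancel, one_mul]
  have hx'x' : x' * x' = S0809.negOne := by
    have := congrArg (MulAut.conj P⁻¹) hxx
    simp only [map_mul, MulAut.conj_apply, inv_inv] at this
    rw [hn, ← hx'] at this
    exact this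
  have hJx' : Jm * x' = S0809.negOne * (x' * Jm) := by
    have := congrArg (MulAut.conj P⁻¹) hyx
    simp only [map_mul, MulAut.conj_apply, inv_inv] at this
    rw [hn, hJ, ← hx'] at this
    exact this
  have h11 : x' 1 1 = - x' 0 0 := tr_zero_of_sq x' hx'x'
  have h10 : x' 1 0 = x' 0 1 := by
    have e := congrArg (fun g : S2 F => g 0 0) hJx'
    simp only [mul00, mul01, mul10, mul11, Jm, S0809.negOne, mk2_00, mk2_01, mk2_10, mk2_11] at e
    linear_combination -e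
  obtain ⟨α, hα⟩ : ∃ α : F, α = x' 0 0 := ⟨_, rfl⟩
  obtain ⟨β, hβ⟩ : ∃ β : F, β = x' 0 1 := ⟨_, rfl⟩
  have hdet : α * (-α) - β * β = 1 := by
    have := det2 x'
    rw [h11, h10, ← hα, ← hβ] at this
    exact this
  have hx'eq : x' = mk2 α β β (-α) hdet := by
    apply ext2
    · rw [mk2_00, hα]
    · rw [mk2_01, hβ]
    · rw [mk2_10, h10, hβ]
    · rw [mk2_11, h11, hα]
  obtain ⟨a, b, hab⟩ := ZMod.sq_add_sq p (-1 : ZMod p)
  obtain ⟨a₀, ha₀⟩ : ∃ a₀ : F, a₀ = ZMod.castHom (dvd_refl p) F a := ⟨_, rfl⟩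
  obtain ⟨b₀, hb₀⟩ : ∃ b₀ : F, b₀ = ZMod.castHom (dvd_refl p) F b := ⟨_, rfl⟩
  have ha₀K : a₀ ∈ (⊥ : Subfield F) := by
    rw [ha₀, ZMod.castHom_apply, ← ZMod.natCast_val]
    exact natCast_mem _ _
  have hb₀K : b₀ ∈ (⊥ : Subfield F) := by
    rw [hb₀, ZMod.castHom_apply, ← ZMod.natCast_val]
    exact natCast_mem _ _
  have h₀ : a₀ ^ 2 + b₀ ^ 2 = -1 := by
    have := congrArg (ZMod.castHom (dvd_refl p) F) hab
    simp only [map_add, map_pow, map_neg, map_one] at this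
    rw [ha₀, hb₀]
    exact this
  have h₀' : a₀ * (-a₀) - b₀ * b₀ = 1 := by linear_combination -h₀
  have hαβ : α ^ 2 + β ^ 2 = -1 := by linear_combination -hdet
  -- the intertwiner
  have key : ∃ γ : G2 F, gconj γ Jm = Jm ∧ gconj γ (mk2 α β β (-α) hdet) = mk2 a₀ b₀ b₀ (-a₀) h₀' := by
    have x00 : ((mk2 α β β (-α) hdet : S2 F) : Matrix (Fin 2) (Fin 2) F) 0 0 = α := rfl
    have x01 : ((mk2 α β β (-α) hdet : S2 F) : Matrix (Fin 2) (Fin 2) F) 0 1 = β := rfl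
    have x10 : ((mk2 α β β (-α) hdet : S2 F) : Matrix (Fin 2) (Fin 2) F) 1 0 = β := rfl
    have x11 : ((mk2 α β β (-α) hdet : S2 F) : Matrix (Fin 2) (Fin 2) F) 1 1 = -α := rfl
    have z00 : ((mk2 a₀ b₀ b₀ (-a₀) h₀' : S2 F) : Matrix (Fin 2) (Fin 2) F) 0 0 = a₀ := rfl
    have z01 : ((mk2 a₀ b₀ b₀ (-a₀) h₀' : S2 F) : Matrix (Fin 2) (Fin 2) F) 0 1 = b₀ := rfl
    have z10 : ((mk2 a₀ b₀ b₀ (-a₀) h₀' : S2 F) : Matrix (Fin 2) (Fin 2) F) 1 0 = b₀ := rfl
    have z11 : ((mk2 a₀ b₀ b₀ (-a₀) h₀' : S2 F) : Matrix (Fin 2) (Fin 2) F) 1 1 = -a₀ := rfl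
    have j00 : ((Jm : S2 F) : Matrix (Fin 2) (Fin 2) F) 0 0 = 0 := rfl
    have j01 : ((Jm : S2 F) : Matrix (Fin 2) (Fin 2) F) 0 1 = -1 := rfl
    have j10 : ((Jm : S2 F) : Matrix (Fin 2) (Fin 2) F) 1 0 = 1 := rfl
    have j11 : ((Jm : S2 F) : Matrix (Fin 2) (Fin 2) F) 1 1 = 0 := rfl
    obtain ⟨c, hc⟩ : ∃ c : F, c = -(a₀ * α + b₀ * β) := ⟨_, rfl⟩
    obtain ⟨d, hd⟩ : ∃ d : F, d = a₀ * β - b₀ * α := ⟨_, rfl⟩
    have hcd : c ^ 2 + d ^ 2 = 1 := by
      rw [hc, hd]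
      linear_combination (a₀ ^ 2 + b₀ ^ 2) * hαβ - h₀
    by_cases hc1 : c = -1
    · have hd0 : d = 0 := by
        have : d ^ 2 = 0 := by rw [hc1] at hcd; linear_combination hcd
        exact pow_eq_zero_iff (two_ne_zero) |>.1 this
      have e1 : a₀ * α + b₀ * β = 1 := by rw [hc] at hc1; linear_combination -hc1
      have e2 : a₀ * β = b₀ * α := by rw [hd] at hd0; linear_combination hd0
      have ea : a₀ = -α := by linear_combination a₀ * hαβ - α * e1 - β * e2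
      have eb : b₀ = -β := by linear_combination b₀ * hαβ - β * e1 + α * e2
      refine ⟨SpecialLinearGroup.toGL (Jm : S2 F), ?_, ?_⟩
      · rw [gconj_toGL, mul_inv_cancel_right]
      · rw [gconj_toGL, conj_eq_iff]
        apply ext2 <;> simp only [mul00, mul01, mul10, mul11, Jm, mk2_00, mk2_01, mk2_10, mk2_11,
          ea, eb] <;> ring
    · have hdetγ : (!![1 + c, -d; d, 1 + c] : Matrix (Fin 2) (Fin 2) F).det ≠ 0 := by
        rw [Matrix.det_fin_two_of]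
        have : (1 + c) * (1 + c) - -d * d = 2 * (1 + c) := by linear_combination hcd
        rw [this]
        refine mul_ne_zero h2 ?_
        intro h
        apply hc1
        linear_combination h
      obtain ⟨Γ, hΓ⟩ : ∃ Γ : Matrix (Fin 2) (Fin 2) F, Γ = !![1 + c, -d; d, 1 + c] := ⟨_, rfl⟩
      rw [← hΓ] at hdetγ
      have g00 : Γ 0 0 = 1 + c := by rw [hΓ]; rfl
      have g01 : Γ 0 1 = -d := by rw [hΓ]; rfl
      have g10 : Γ 1 0 = d := by rw [hΓ]; rfl
      have g11 : Γ 1 1 = 1 + c := by rw [hΓ]; rfl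
      refine ⟨GeneralLinearGroup.mkOfDetNeZero Γ hdetγ, ?_, ?_⟩
      · rw [gconj_eq_iff]
        show Γ * ((Jm : S2 F) : Matrix (Fin 2) (Fin 2) F)
          = ((Jm : S2 F) : Matrix (Fin 2) (Fin 2) F) * Γ
        ext i j
        fin_cases i <;> fin_cases j
        · show (Γ * ((Jm : S2 F) : Matrix (Fin 2) (Fin 2) F)) 0 0
            = (((Jm : S2 F) : Matrix (Fin 2) (Fin 2) F) * Γ) 0 0
          simp only [Matrix.mul_apply, Fin.sum_univ_two, j00, j01, j10, j11, g00, g01, g10, g11]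
          ring
        · show (Γ * ((Jm : S2 F) : Matrix (Fin 2) (Fin 2) F)) 0 1
            = (((Jm : S2 F) : Matrix (Fin 2) (Fin 2) F) * Γ) 0 1
          simp only [Matrix.mul_apply, Fin.sum_univ_two, j00, j01, j10, j11, g00, g01, g10, g11]
          ring
        · show (Γ * ((Jm : S2 F) : Matrix (Fin 2) (Fin 2) F)) 1 0
            = (((Jm : S2 F) : Matrix (Fin 2) (Fin 2) F) * Γ) 1 0
          simp only [Matrix.mul_apply, Fin.sum_univ_two, j00, j01, j10, j11, g00, g01, g10, g11]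
          ring
        · show (Γ * ((Jm : S2 F) : Matrix (Fin 2) (Fin 2) F)) 1 1
            = (((Jm : S2 F) : Matrix (Fin 2) (Fin 2) F) * Γ) 1 1
          simp only [Matrix.mul_apply, Fin.sum_univ_two, j00, j01, j10, j11, g00, g01, g10, g11]
          ring
      · rw [gconj_eq_iff]
        show Γ * ((mk2 α β β (-α) hdet : S2 F) : Matrix (Fin 2) (Fin 2) F)
          = ((mk2 a₀ b₀ b₀ (-a₀) h₀' : S2 F) : Matrix (Fin 2) (Fin 2) F) * Γ
        ext i j
        fin_cases i <;> fin_cases j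
        · show (Γ * ((mk2 α β β (-α) hdet : S2 F) : Matrix (Fin 2) (Fin 2) F)) 0 0
            = (((mk2 a₀ b₀ b₀ (-a₀) h₀' : S2 F) : Matrix (Fin 2) (Fin 2) F) * Γ) 0 0
          simp only [Matrix.mul_apply, Fin.sum_univ_two, x00, x01, x10, x11, z00, z01, z10, z11,
            g00, g01, g10, g11]
          rw [hc, hd]
          linear_combination (-a₀) * hαβ + α * h₀
        · show (Γ * ((mk2 α β β (-α) hdet : S2 F) : Matrix (Fin 2) (Fin 2) F)) 0 1
            = (((mk2 a₀ b₀ b₀ (-a₀) h₀' : S2 F) : Matrix (Fin 2) (Fin 2) F) * Γ) 0 1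
          simp only [Matrix.mul_apply, Fin.sum_univ_two, x00, x01, x10, x11, z00, z01, z10, z11,
            g00, g01, g10, g11]
          rw [hc, hd]
          linear_combination (-b₀) * hαβ + β * h₀
        · show (Γ * ((mk2 α β β (-α) hdet : S2 F) : Matrix (Fin 2) (Fin 2) F)) 1 0
            = (((mk2 a₀ b₀ b₀ (-a₀) h₀' : S2 F) : Matrix (Fin 2) (Fin 2) F) * Γ) 1 0
          simp only [Matrix.mul_apply, Fin.sum_univ_two, x00, x01, x10, x11, z00, z01, z10, z11,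
            g00, g01, g10, g11]
          rw [hc, hd]
          linear_combination (-b₀) * hαβ + β * h₀
        · show (Γ * ((mk2 α β β (-α) hdet : S2 F) : Matrix (Fin 2) (Fin 2) F)) 1 1
            = (((mk2 a₀ b₀ b₀ (-a₀) h₀' : S2 F) : Matrix (Fin 2) (Fin 2) F) * Γ) 1 1
          simp only [Matrix.mul_apply, Fin.sum_univ_two, x00, x01, x10, x11, z00, z01, z10, z11,
            g00, g01, g10, g11]
          rw [hc, hd]
          linear_combination a₀ * hαβ - α * h₀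
  obtain ⟨γ, hγJ, hγx⟩ := key
  refine ⟨γ * SpecialLinearGroup.toGL P⁻¹, a₀, b₀, h₀', ha₀K, hb₀K, ?_, ?_⟩
  · rw [gconj_mul_apply, gconj_toGL, inv_inv, hJ, hγJ]
  · rw [gconj_mul_apply, gconj_toGL, inv_inv, ← hx', hx'eq, hγx]

omit [Fintype F] in
theorem pg_gconj_negOne (γ : G2 F) : gconj γ (S0809.negOne : S2 F) = S0809.negOne := by
  rw [gconj_eq_iff, n13_coe_negOne]
  simp

/-- primality in the `A₄` outcome, modulo the two inputs `hN4` (the normaliser of the standard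
`Q₈` is defined over the prime field) and `hN5` (counting). -/
theorem pg_s4_prime_aux (p : ℕ) [Fact p.Prime] [CharP F p]
    (hodd : Odd (Fintype.card F))
    (M : Subgroup (PG2 F)) (hM : IsCoatom M) (hML : ¬ pgL F ≤ M)
    (h24 : Nat.card (pgT M) = 24)
    (φ : ↥(M.comap ProjectiveSpecialLinearGroup.toPGL) ≃* alternatingGroup (Fin 4))
    (hN4 : ∀ (a₀ b₀ : F) (h : a₀ * (-a₀) - b₀ * b₀ = 1), a₀ ∈ (⊥ : Subfield F) →
      b₀ ∈ (⊥ : Subfield F) → ∀ γ : G2 F,
      gconj γ (mk2 a₀ b₀ b₀ (-a₀) h) ∈ SLsub (⊥ : Subfield F) →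
      gconj γ Jm ∈ SLsub (⊥ : Subfield F) →
      ∃ lam : F, lam ≠ 0 ∧ ∀ i j, lam * (γ : Matrix (Fin 2) (Fin 2) F) i j ∈ (⊥ : Subfield F))
    (hN5 : ∀ M' : Subgroup (PG2 F), IsCoatom M' → Nat.card M' = 24 →
      M' ≤ (ProjGenLinGroup.map (n := Fin 2) (⊥ : Subfield F).subtype).range →
      Fintype.card F = p) :
    Fintype.card F = p := by
  have h2 := pg_two_ne hodd
  obtain ⟨x, y, hx, hy, hxx, hyy, hyx, hinv⟩ := pg_q8_pair h2 _ φ
  rw [← pgT_eq_Lof] at hx hy hinv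
  obtain ⟨g₀, a₀, b₀, h, ha, hb, hgy, hgx⟩ := pg_q8_std p h2 x y hxx hyy hyx
  obtain ⟨hM', hML', ⟨e⟩, hT'⟩ := pg_conj hodd M g₀ hM hML
  have hXK : gconj g₀ x ∈ SLsub (⊥ : Subfield F) := by
    rw [hgx, mem_SLsub]
    intro i j
    fin_cases i <;> fin_cases j
    · exact ha
    · exact hb
    · exact hb
    · exact neg_mem ha
  have hJK : gconj g₀ y ∈ SLsub (⊥ : Subfield F) := by
    rw [hgy, mem_SLsub]
    intro i j
    fin_cases i <;> fin_cases j
    · exact zero_mem _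
    · exact neg_mem (one_mem _)
    · exact one_mem _
    · exact zero_mem _
  have hnK : gconj g₀ (S0809.negOne : S2 F) ∈ SLsub (⊥ : Subfield F) := by
    rw [pg_gconj_negOne, mem_SLsub]
    intro i j
    fin_cases i <;> fin_cases j
    · exact neg_mem (one_mem _)
    · exact zero_mem _
    · exact zero_mem _
    · exact neg_mem (one_mem _)
  have hle : pgConj M g₀ ≤ (ProjGenLinGroup.map (n := Fin 2) (⊥ : Subfield F).subtype).range := by
    intro m hm
    obtain ⟨γ, rfl⟩ := ProjGenLinGroup.mk_surjective m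
    rw [mem_pgConj] at hm
    have key : ∀ v ∈ pgT M, v * v = S0809.negOne →
        gconj γ (gconj g₀ v) ∈ SLsub (⊥ : Subfield F) := by
      intro v hv hvv
      have h1 : gconj (g₀⁻¹ * γ * g₀) v ∈ pgT M := pgT_gconj M _ hm v hv
      have h2' : gconj (g₀⁻¹ * γ * g₀) v * gconj (g₀⁻¹ * γ * g₀) v = S0809.negOne := by
        rw [← map_mul, hvv]
        exact pg_gconj_negOne _
      have h3 := hinv _ h1 h2'
      have e1 : gconj γ (gconj g₀ v) = gconj g₀ (gconj (g₀⁻¹ * γ * g₀) v) := by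
        rw [← gconj_mul_apply, ← gconj_mul_apply]
        congr 1
        group
      rw [e1]
      rcases h3 with h | h | h | h | h | h
      · rw [h]; exact hXK
      · rw [h, map_mul]; exact Subgroup.mul_mem _ hnK hXK
      · rw [h]; exact hJK
      · rw [h, map_mul]; exact Subgroup.mul_mem _ hnK hJK
      · rw [h, map_mul]; exact Subgroup.mul_mem _ hXK hJK
      · rw [h, map_mul, map_mul]; exact Subgroup.mul_mem _ hnK (Subgroup.mul_mem _ hXK hJK)
    have hX := key x hx hxx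
    rw [hgx] at hX
    have hJ := key y hy hyy
    rw [hgy] at hJ
    obtain ⟨lam, hlam, hent⟩ := hN4 a₀ b₀ h ha hb γ hX hJ
    exact mk_mem_range_map (⊥ : Subfield F).subtype γ lam hlam
      (fun i j => ⟨⟨_, hent i j⟩, rfl⟩)
  have h24' : Nat.card (pgConj M g₀) = 24 := by
    rw [← Nat.card_congr e.toEquiv, pg_card_M hodd M hM hML, h24]
  exact hN5 _ hM' h24' hle

end PgH

end Cfsg.Agent.Lib.Helper54
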