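import Mathlib
import Cfsg.Agent.Lib.Helper54.PgH

set_option autoImplicit false

namespace Cfsg.Agent.Lib.Helper54

open Matrix Cfsg.Agent.S0809 Cfsg.Agent.Lib.Helper19.Dk

section PgI

variable {F : Type*} [Field F] [Fintype F]

theorem pg_prime_of_le_bot (p : ℕ) [Fact p.Prime] [CharP F p]
    (M : Subgroup (PG2 F)) (hM : IsCoatom M) (hp3 : p ≠ 3)
    (h24 : Nat.card M = 24)
    (hle : M ≤ (ProjGenLinGroup.map (n := Fin 2) (⊥ : Subfield F).subtype).range) :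
    Fintype.card F = p := by
  classical
  by_cases hbot : (⊥ : Subfield F) = ⊤
  · have h1 := Subfield.card_bot F p
    rw [hbot] at h1
    rw [← h1, ← Nat.card_eq_fintype_card]
    exact (Nat.card_congr (Subfield.topEquiv (K := F)).toEquiv).symm
  · exfalso
    obtain ⟨B, hB⟩ : ∃ B : Subgroup (PG2 F),
        B = (ProjGenLinGroup.map (n := Fin 2) (⊥ : Subfield F).subtype).range := ⟨_, rfl⟩
    rw [← hB] at hle
    have hBne : B ≠ ⊤ := by
      intro h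
      apply hbot
      rw [eq_top_iff]
      intro y _
      have hmem : ProjGenLinGroup.mk (SpecialLinearGroup.toGL (uu y)) ∈ B := by
        rw [h]; exact Subgroup.mem_top _
      rw [hB] at hmem
      obtain ⟨lam, hlam, hent⟩ := exists_scaled_of_mem_range _ _ hmem
      obtain ⟨a, ha⟩ := hent 0 0
      obtain ⟨b, hb⟩ := hent 0 1
      have e00 : ((SpecialLinearGroup.toGL (uu y) : G2 F) : Matrix (Fin 2) (Fin 2) F) 0 0 = 1 :=
        rfl
      have e01 : ((SpecialLinearGroup.toGL (uu y) : G2 F) : Matrix (Fin 2) (Fin 2) F) 0 1 = y :=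
        rfl
      rw [e00, mul_one] at ha
      rw [e01] at hb
      have ha' : ((a : (⊥ : Subfield F)) : F) = lam := ha
      have hb' : ((b : (⊥ : Subfield F)) : F) = lam * y := hb
      have hy : y = (b : F) / (a : F) := by
        rw [ha', hb']; field_simp
      rw [hy]
      exact div_mem b.2 a.2
    have hMB : B = M := (hM.le_iff.1 hle).resolve_left hBne
    haveI : Fintype (⊥ : Subfield F) := Fintype.ofFinite _
    have hBcard : Nat.card B = p * (p ^ 2 - 1) := by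
      rw [hB, ← Nat.card_congr (MonoidHom.ofInjective
        (Cfsg.Agent.S0805.pglmap_inj (⊥ : Subfield F).subtype)).toEquiv, pg_card,
        ← Nat.card_eq_fintype_card, Subfield.card_bot F p]
    rw [hMB, h24] at hBcard
    have hp2 : 2 ≤ p := (Fact.out : p.Prime).two_le
    apply hp3
    rcases Nat.lt_or_ge p 3 with h | h
    · have : p = 2 := by omega
      rw [this] at hBcard
      norm_num at hBcard
    · rcases Nat.lt_or_ge p 4 with h' | h'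
      · omega
      · exfalso
        have h16 : 16 ≤ p ^ 2 := by nlinarith
        have h15 : 15 ≤ p ^ 2 - 1 := by omega
        nlinarith

omit [Fintype F] in
theorem pg_lin (γ : G2 F) (U W X J : Matrix (Fin 2) (Fin 2) F)
    (hU : (γ : Matrix (Fin 2) (Fin 2) F) * X = U * (γ : Matrix (Fin 2) (Fin 2) F))
    (hW : (γ : Matrix (Fin 2) (Fin 2) F) * J = W * (γ : Matrix (Fin 2) (Fin 2) F))
    (c₁ c₂ c₃ : F) :
    (γ : Matrix (Fin 2) (Fin 2) F) * (1 + c₁ • (X * J) + c₂ • X + c₃ • J)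
        * ((γ⁻¹ : G2 F) : Matrix (Fin 2) (Fin 2) F)
      = 1 + c₁ • (U * W) + c₂ • U + c₃ • W := by
  have hinv : (γ : Matrix (Fin 2) (Fin 2) F) * ((γ⁻¹ : G2 F) : Matrix (Fin 2) (Fin 2) F) = 1 := by
    rw [← Units.val_mul, mul_inv_cancel]; rfl
  have e1 : (γ : Matrix (Fin 2) (Fin 2) F) * (X * J) = U * W * (γ : Matrix (Fin 2) (Fin 2) F) := by
    rw [← Matrix.mul_assoc, hU, Matrix.mul_assoc, hW, ← Matrix.mul_assoc]
  have e : (γ : Matrix (Fin 2) (Fin 2) F) * (1 + c₁ • (X * J) + c₂ • X + c₃ • J)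
      = (1 + c₁ • (U * W) + c₂ • U + c₃ • W) * (γ : Matrix (Fin 2) (Fin 2) F) := by
    rw [Matrix.mul_add, Matrix.mul_add, Matrix.mul_add, Matrix.add_mul, Matrix.add_mul,
      Matrix.add_mul, Matrix.mul_smul, Matrix.mul_smul, Matrix.mul_smul, Matrix.smul_mul,
      Matrix.smul_mul, Matrix.smul_mul, e1, hU, hW, Matrix.mul_one, Matrix.one_mul]
  rw [e, Matrix.mul_assoc, hinv, Matrix.mul_one]

omit [Fintype F] in
theorem pg_q8_scaled (h2 : (2 : F) ≠ 0) (K : Subfield F) (a₀ b₀ : F)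
    (h : a₀ * (-a₀) - b₀ * b₀ = 1) (ha : a₀ ∈ K) (hb : b₀ ∈ K) (γ : G2 F)
    (hX : gconj γ (mk2 a₀ b₀ b₀ (-a₀) h) ∈ SLsub K) (hJ : gconj γ Jm ∈ SLsub K) :
    ∃ lam : F, lam ≠ 0 ∧ ∀ i j, lam * (γ : Matrix (Fin 2) (Fin 2) F) i j ∈ K := by
  obtain ⟨U, hUd⟩ : ∃ U : S2 F, U = gconj γ (mk2 a₀ b₀ b₀ (-a₀) h) := ⟨_, rfl⟩
  obtain ⟨W, hWd⟩ : ∃ W : S2 F, W = gconj γ Jm := ⟨_, rfl⟩
  rw [← hUd] at hX
  rw [← hWd] at hJ
  have hUe := (gconj_eq_iff γ _ U).1 hUd.symm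
  have hWe := (gconj_eq_iff γ _ W).1 hWd.symm
  have hUW : U * W ∈ SLsub K := Subgroup.mul_mem _ hX hJ
  rw [mem_SLsub] at hX hJ hUW
  have h2K : (2 : F)⁻¹ ∈ K := by
    apply inv_mem
    have : (2 : F) = 1 + 1 := by norm_num
    rw [this]
    exact add_mem (one_mem _) (one_mem _)
  have z00 : ((mk2 a₀ b₀ b₀ (-a₀) h : S2 F) : Matrix (Fin 2) (Fin 2) F) 0 0 = a₀ := rfl
  have z01 : ((mk2 a₀ b₀ b₀ (-a₀) h : S2 F) : Matrix (Fin 2) (Fin 2) F) 0 1 = b₀ := rfl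
  have z10 : ((mk2 a₀ b₀ b₀ (-a₀) h : S2 F) : Matrix (Fin 2) (Fin 2) F) 1 0 = b₀ := rfl
  have z11 : ((mk2 a₀ b₀ b₀ (-a₀) h : S2 F) : Matrix (Fin 2) (Fin 2) F) 1 1 = -a₀ := rfl
  have j00 : ((Jm : S2 F) : Matrix (Fin 2) (Fin 2) F) 0 0 = 0 := rfl
  have j01 : ((Jm : S2 F) : Matrix (Fin 2) (Fin 2) F) 0 1 = -1 := rfl
  have j10 : ((Jm : S2 F) : Matrix (Fin 2) (Fin 2) F) 1 0 = 1 := rfl
  have j11 : ((Jm : S2 F) : Matrix (Fin 2) (Fin 2) F) 1 1 = 0 := rfl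
  have hmemT : ∀ (c₁ c₂ c₃ : F), c₁ ∈ K → c₂ ∈ K → c₃ ∈ K → ∀ i j,
      (1 + c₁ • ((U : Matrix (Fin 2) (Fin 2) F) * (W : Matrix (Fin 2) (Fin 2) F))
        + c₂ • (U : Matrix (Fin 2) (Fin 2) F) + c₃ • (W : Matrix (Fin 2) (Fin 2) F)) i j ∈ K := by
    intro c₁ c₂ c₃ h1 h2' h3 i j
    simp only [Matrix.add_apply, Matrix.smul_apply, smul_eq_mul]
    refine add_mem (add_mem (add_mem ?_ (mul_mem h1 (hUW i j))) (mul_mem h2' (hX i j)))
      (mul_mem h3 (hJ i j))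
    rw [Matrix.one_apply]
    split_ifs
    · exact one_mem _
    · exact zero_mem _
  have hsum : a₀ ^ 2 + b₀ ^ 2 = -1 := by linear_combination -h
  have h2i : (2 : F)⁻¹ * 2 = 1 := inv_mul_cancel₀ h2
  apply gconj_scaled K γ
  · rw [mem_SLsub]
    have hE : ((uu (1 : F) : S2 F) : Matrix (Fin 2) (Fin 2) F)
        = 1 + (2⁻¹ * a₀) • (((mk2 a₀ b₀ b₀ (-a₀) h : S2 F) : Matrix (Fin 2) (Fin 2) F)
            * ((Jm : S2 F) : Matrix (Fin 2) (Fin 2) F))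
          + (-(2⁻¹ * b₀)) • ((mk2 a₀ b₀ b₀ (-a₀) h : S2 F) : Matrix (Fin 2) (Fin 2) F)
          + (-2⁻¹ : F) • ((Jm : S2 F) : Matrix (Fin 2) (Fin 2) F) := by
      have u00 : ((uu (1 : F) : S2 F) : Matrix (Fin 2) (Fin 2) F) 0 0 = 1 := rfl
      have u01 : ((uu (1 : F) : S2 F) : Matrix (Fin 2) (Fin 2) F) 0 1 = 1 := rfl
      have u10 : ((uu (1 : F) : S2 F) : Matrix (Fin 2) (Fin 2) F) 1 0 = 0 := rfl
      have u11 : ((uu (1 : F) : S2 F) : Matrix (Fin 2) (Fin 2) F) 1 1 = 1 := rfl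
      ext i j
      fin_cases i <;> fin_cases j <;>
        simp [Matrix.add_apply, Matrix.smul_apply, Matrix.mul_apply, Fin.sum_univ_two,
          z00, z01, z10, z11, j00, j01, j10, j11, u00, u01, u10, u11]
      · ring
      · linear_combination (2⁻¹ : F) * hsum - h2i
      · linear_combination (2⁻¹ : F) * hsum
      · ring
    have hval : ((gconj γ (uu 1) : S2 F) : Matrix (Fin 2) (Fin 2) F)
        = 1 + (2⁻¹ * a₀) • ((U : Matrix (Fin 2) (Fin 2) F) * (W : Matrix (Fin 2) (Fin 2) F))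
          + (-(2⁻¹ * b₀)) • (U : Matrix (Fin 2) (Fin 2) F)
          + (-2⁻¹ : F) • (W : Matrix (Fin 2) (Fin 2) F) := by
      rw [gconj_coe, hE]
      exact pg_lin γ _ _ _ _ hUe hWe _ _ _
    intro i j
    show ((gconj γ (uu 1) : S2 F) : Matrix (Fin 2) (Fin 2) F) i j ∈ K
    rw [hval]
    exact hmemT _ _ _ (mul_mem h2K ha) (neg_mem (mul_mem h2K hb)) (neg_mem h2K) i j
  · rw [mem_SLsub]
    have hE : ((ll (1 : F) : S2 F) : Matrix (Fin 2) (Fin 2) F)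
        = 1 + (2⁻¹ * a₀) • (((mk2 a₀ b₀ b₀ (-a₀) h : S2 F) : Matrix (Fin 2) (Fin 2) F)
            * ((Jm : S2 F) : Matrix (Fin 2) (Fin 2) F))
          + (-(2⁻¹ * b₀)) • ((mk2 a₀ b₀ b₀ (-a₀) h : S2 F) : Matrix (Fin 2) (Fin 2) F)
          + (2⁻¹ : F) • ((Jm : S2 F) : Matrix (Fin 2) (Fin 2) F) := by
      have u00 : ((ll (1 : F) : S2 F) : Matrix (Fin 2) (Fin 2) F) 0 0 = 1 := rfl
      have u01 : ((ll (1 : F) : S2 F) : Matrix (Fin 2) (Fin 2) F) 0 1 = 0 := rfl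
      have u10 : ((ll (1 : F) : S2 F) : Matrix (Fin 2) (Fin 2) F) 1 0 = 1 := rfl
      have u11 : ((ll (1 : F) : S2 F) : Matrix (Fin 2) (Fin 2) F) 1 1 = 1 := rfl
      ext i j
      fin_cases i <;> fin_cases j <;>
        simp [Matrix.add_apply, Matrix.smul_apply, Matrix.mul_apply, Fin.sum_univ_two,
          z00, z01, z10, z11, j00, j01, j10, j11, u00, u01, u10, u11]
      · ring
      · linear_combination (2⁻¹ : F) * hsum
      · linear_combination (2⁻¹ : F) * hsum - h2i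
      · ring
    have hval : ((gconj γ (ll 1) : S2 F) : Matrix (Fin 2) (Fin 2) F)
        = 1 + (2⁻¹ * a₀) • ((U : Matrix (Fin 2) (Fin 2) F) * (W : Matrix (Fin 2) (Fin 2) F))
          + (-(2⁻¹ * b₀)) • (U : Matrix (Fin 2) (Fin 2) F)
          + (2⁻¹ : F) • (W : Matrix (Fin 2) (Fin 2) F) := by
      rw [gconj_coe, hE]
      exact pg_lin γ _ _ _ _ hUe hWe _ _ _
    intro i j
    show ((gconj γ (ll 1) : S2 F) : Matrix (Fin 2) (Fin 2) F) i j ∈ K
    rw [hval]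
    exact hmemT _ _ _ (mul_mem h2K ha) (neg_mem (mul_mem h2K hb)) h2K i j

end PgI

end Cfsg.Agent.Lib.Helper54
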