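import Mathlib
import Cfsg.Prelude.Def_GeometricClasses
import Cfsg.Prelude.Def_LieClassical
import Cfsg.Agent.Lib.Helper71.SPPMain
import Cfsg.Agent.Lib.Helper65.SP4CMain
import Cfsg.Agent.Lib.Helper65.SP12T2Sh
import Cfsg.Agent.Lib.Helper65.SP12T2Sa1
import Cfsg.Agent.Lib.Helper65.SP12T2Sa2
import Cfsg.Agent.Lib.Helper6.SMPARTS
import Cfsg.Agent.Lib.Helper85.SMFWD1
import Cfsg.Agent.Lib.Helper54.SP4OPERFD
import Cfsg.Agent.Lib.Helper54.SP4OPERFK
import Cfsg.Agent.Lib.Helper54.SP4OE1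
import Cfsg.Agent.Lib.Helper54.SP4OE2L
import Cfsg.Agent.Lib.Helper54.SP4OC6A
import Cfsg.Agent.Lib.Helper54.SP4OMINUS
import Cfsg.Agent.Lib.Helper54.SP4ODESC1
import Cfsg.Agent.Lib.Helper54.SP4ODESC2
import Cfsg.Agent.Lib.Helper54.SP4OPRIMEF
import Cfsg.Agent.Lib.Helper54.SP4OTS7

/-! Project SP4O (helper54): the maximal subgroups of `Sp_4(q)`, `q` odd (statement S5787):
assembly (variant using the lite route `E2L` for the exception `q = 3`) of the pieces `Cfsg.Agent.Lib.Helper54.SP4O*`, helper71's project SPP, helper65's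
projects SP4C / SP12 and the linear engine of project ASCH. -/

set_option autoImplicit false
set_option linter.unusedSectionVars false

namespace Cfsg.Agent.Lib.Helper54.SP4OL

open Cfsg.Agent.Lib.Helper54.SP4O (PERFD PERFK E1 C6A MINUS DESC1 DESC2 PRIMEF TS7 E2L)
open Cfsg.Agent.Lib.Helper92.SPPTS0 (TS0_key TS0_comp)

open Matrix Cfsg.Geo Cfsg.Agent.Lib.Helper71.Asch
open scoped Kronecker
open Cfsg.Agent.Lib.Helper82.ASCOREB (coreB)
open Cfsg.Agent.Lib.Helper21.ASCOREC (coreC)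
open Cfsg.Agent.Lib.Helper46.ASB3s (B3s B3a)
open Cfsg.Agent.Lib.Helper46.ASB4 (B4 not_le_scalars)
open Cfsg.Agent.Lib.Helper61.ASB6 (B6)
open Cfsg.Agent.Lib.Helper67.ASNL (NL_core exists_subfield_aut)
open Cfsg.Agent.Lib.Helper46.ASB7core (B7core)
open Cfsg.Agent.Lib.Helper73.SLPC2 (C2)
open Cfsg.Agent.Lib.Helper16.SLPC3 (C3)
open Cfsg.Agent.Lib.Helper77.OMPO7 (O7)
open Cfsg.Agent.Lib.Helper54.OMPO8a (O8a)
open Cfsg.Agent.Lib.Helper75.SPPEVEN (EVEN)
open Cfsg.Agent.Lib.Helper63.SPPS1 (S1)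
open Cfsg.Agent.Lib.Helper86.SPPCAP (CAP)
open Cfsg.Agent.Lib.Helper76.SPPPAIRa (PAIRa)
open Cfsg.Agent.Lib.Helper39.SPPPAIRb (PAIRb)
open Cfsg.Agent.Lib.Helper31.SPPPLN (PLN)
open Cfsg.Agent.Lib.Helper83.SPPHOMP (HOMP)
open Cfsg.Agent.Lib.Helper10.SPPUNIQ (UNIQ)
open Cfsg.Agent.Lib.Helper89.SPPADJ (ADJ)
open Cfsg.Agent.Lib.Helper40.SPPTF (TF)
open Cfsg.Agent.Lib.Helper40.SPPTFSW (TFSW)
open Cfsg.Agent.Lib.Helper68.SPPTFS (TFS)
open Cfsg.Agent.Lib.Helper39.SPPSQ (SQ)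
open Cfsg.Agent.Lib.Helper86.SPPNS2 (NS2)
open Cfsg.Agent.Lib.Helper10.SPPNS3 (NS3)
open Cfsg.Agent.Lib.Helper53.SPPNS5 (NS5)
open Cfsg.Agent.Lib.Helper65.SP4C (PLANE COMP)
open Cfsg.Agent.Lib.Helper65.SP12 (T2Sh T2Sa1 T2Sa2)
open Cfsg.Agent.Lib.Helper71.SPPMain (tf tW tK TS0a TS0b TS1 TS2 TS3 TS5 TRS eq_inf_of_max')

variable {F : Type*} [Field F] [Fintype F]

/-- odd characteristic from the parity of the order -/
theorem two_ne_zero_of_odd (hodd : Odd (Fintype.card F)) : (2 : F) ≠ 0 := by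
  intro h2
  obtain ⟨p, hp⟩ := CharP.exists F
  have := hp
  have hdvd : p ∣ 2 := by
    have h3 : ((2 : ℕ) : F) = 0 := by exact_mod_cast h2
    exact (CharP.cast_eq_zero_iff F p 2).mp h3
  have hpp : p.Prime := CharP.char_is_prime F p
  have hp2 : p = 2 := (Nat.prime_dvd_prime_iff_eq hpp Nat.prime_two).mp hdvd
  subst hp2
  have : Fact (Nat.Prime 2) := ⟨Nat.prime_two⟩
  obtain ⟨n, -, hn⟩ := FiniteField.card F 2
  rw [hn] at hodd
  have hev : Even (2 ^ (n : ℕ)) := (Nat.even_pow.mpr ⟨even_two, n.pos.ne'⟩)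
  exact (Nat.not_even_iff_odd.mpr hodd) hev

/-- `Sp_4(F)`, `F` of odd characteristic, normalises no group `2^(1+4)`. -/
theorem NS7 (h2 : (2 : F) ≠ 0) (R : Subgroup (GL (Fin 2 ⊕ Fin 2) F))
    (hRs : IsSymplecticTypeGroup 2 R) (hRi : ActsAbsolutelyIrreducibly (matrixSet R))
    (hR5 : Nat.card R = 32) (hRZ : Nat.card (Subgroup.center R) = 2) :
    ¬ Cfsg.spGL 2 F ≤ subgroupNormalizer R := by
  intro hle
  obtain ⟨p, hp⟩ := CharP.exists F
  have := hp
  have hpp : p.Prime := CharP.char_is_prime F p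
  have : Fact p.Prime := ⟨hpp⟩
  have hodd : Odd p := by
    rcases hpp.eq_two_or_odd' with h | h
    · exfalso
      subst h
      apply h2
      exact_mod_cast CharP.cast_eq_zero F 2
    · exact h
  have hG := Cfsg.Agent.Lib.Helper98.SM.goodM_of_parts h2 R hRs hRi (by rw [hR5]; norm_num) hRZ
  refine Cfsg.Agent.Lib.Helper98.SM.fwd_unip hG p hodd ?_
  intro x hx _ _
  refine ⟨1, Subgroup.one_mem _, ?_⟩
  have := hle hx
  simpa using this

/-- a normalised subgroup lies in the `subgroupNormalizer` -/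
theorem le_normalizer_of_nrm {n : ℕ} (H L : Subgroup (GL (Fin n) F)) (hN : Nrm H L) :
    H ≤ subgroupNormalizer L := by
  intro g hg
  unfold subgroupNormalizer
  rw [Subgroup.mem_normalizer_iff]
  intro x
  constructor
  · intro hx
    exact hN g hg x hx
  · intro hx
    have := hN g⁻¹ (H.inv_mem hg) _ hx
    have h2 : g⁻¹ * (g * x * g⁻¹) * g⁻¹⁻¹ = x := by group
    rw [h2] at this
    exact this

/-- self-adjoint elements are alternating for a symplectic form in odd characteristic -/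
theorem sak_odd {n : ℕ} (h2 : (2 : F) ≠ 0) (f : (Fin n → F) → (Fin n → F) → F)
    (hf : IsSymplecticForm f) (K : Subalgebra F (Matrix (Fin n) (Fin n) F))
    (hsa : IsSelfAdjointFor f K) : ∀ k ∈ K, ∀ v : Fin n → F, f (k *ᵥ v) v = 0 := by
  intro k hk v
  have h1 := hsa k hk v v
  have h3 := hf.skew v (k *ᵥ v)
  have h4 : (2 : F) * f (k *ᵥ v) v = 0 := by
    rw [two_mul]
    nth_rewrite 1 [h1]
    rw [h3]
    exact neg_add_cancel _
  exact (mul_eq_zero.mp h4).resolve_left h2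

/-- TEN22: a tensor decomposition `2 ⊗ 2` normalised by a group of isometries, `q` odd. -/
theorem TEN22 (h2 : (2 : F) ≠ 0) (f : (Fin 4 → F) → (Fin 4 → F) → F) (hf : IsSymplecticForm f)
    (G N : Subgroup (GL (Fin 4) F)) (hfix : FixesForm (matrixSet G) f)
    (hNG : N ≤ G) (hN : Nrm G N)
    (e : Fin 4 ≃ Fin 2 × Fin 2) (P : GL (Fin 4) F) (R : Subgroup (GL (Fin 2) F))
    (hRa : ActsAbsolutelyIrreducibly (matrixSet R))
    (h1 : ∀ x ∈ N, ∃ y ∈ R, x.1 = tmat e P y.1 1)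
    (h2' : ∀ y ∈ R, ∃ x ∈ N, x.1 = tmat e P y.1 1) :
    (∃ D : Fin 2 → Submodule F (Fin 4 → F), IsMDecomposition 2 D ∧
      (∀ i, IsTotallySingularFor f (D i)) ∧ G ≤ decompositionStabilizer D) ∨
    (∃ K : Subalgebra F (Matrix (Fin 4) (Fin 4) F), IsFieldSubalgebra 2 K ∧
      IsAdjointClosedFor f K ∧ ¬ IsSelfAdjointFor f K ∧ G ≤ subalgebraNormalizer K) := by
  classical
  have hGT : G ≤ tensorProductSubgroup 2 2 e P := fun g hg =>
    (coreC e P R N hRa h1 h2').2 g (fun x hx => hN g hg x hx)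
  have hfixN : FixesForm (matrixSet N) f := by
    rintro s ⟨g, hg, rfl⟩
    exact hfix _ ⟨g, hNG hg, rfl⟩
  obtain ⟨G₁, G₂, hd1, hd2, hcase, hid⟩ := TF f hf e P R N hRa h1 h2' hfixN
  have key : ∀ (e' : Fin 4 ≃ Fin 2 × Fin 2) (f₁ f₂ : (Fin 2 → F) → (Fin 2 → F) → F),
      IsSymplecticForm f₁ → IsSymmetricForm f₂ → IsTensorFormStructure id f f₁ f₂ e' P →
      G ≤ tensorProductSubgroup 2 2 e' P →
      (∃ D : Fin 2 → Submodule F (Fin 4 → F), IsMDecomposition 2 D ∧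
        (∀ i, IsTotallySingularFor f (D i)) ∧ G ≤ decompositionStabilizer D) ∨
      (∃ K : Subalgebra F (Matrix (Fin 4) (Fin 4) F), IsFieldSubalgebra 2 K ∧
        IsAdjointClosedFor f K ∧ ¬ IsSelfAdjointFor f K ∧ G ≤ subalgebraNormalizer K) := by
    intro e' f₁ f₂ hf₁ hf₂ ht hGT'
    by_cases hiso : ∃ u, u ≠ 0 ∧ f₂ u u = 0
    · exact Or.inl (T2Sh h2 f hf G hfix (by norm_num) e' P f₁ f₂ hf₁ hf₂ hiso ht hGT')
    · have hani : ∀ u, f₂ u u = 0 → u = 0 := by
        intro u hu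
        by_contra hu0
        exact hiso ⟨u, hu0, hu⟩
      obtain ⟨θ, δ, hθ, hδ, hskew, hnorm⟩ := T2Sa1 h2 f₂ hf₂ hani
      exact Or.inr (T2Sa2 h2 f hf G hfix (by norm_num) e' P f₁ f₂ hf₁ hf₂ ht hGT' θ δ hθ hδ
        hskew hnorm)
  rcases hcase with ⟨hs1, ha2, hz2⟩ | ⟨ha1, hz1, hs2⟩
  · obtain ⟨hid', heq⟩ := TFSW f e P G₁ G₂ hid
    obtain ⟨f₁, f₂, hf₁, hf₂, ht⟩ :=
      TFS f (e.trans (Equiv.prodComm (Fin 2) (Fin 2))) P G₂ G₁ hd2 hd1 ha2 hz2 hs1 hid'
    exact key _ f₁ f₂ hf₁ hf₂ ht (heq ▸ hGT)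
  · obtain ⟨f₁, f₂, hf₁, hf₂, ht⟩ := TFS f e P G₁ G₂ hd1 hd2 ha1 hz1 hs2 hid
    exact key e f₁ f₂ hf₁ hf₂ ht hGT

/-- Clifford step in dimension 4, odd characteristic. -/
theorem cliff4odd (h2 : (2 : F) ≠ 0) (f : (Fin 4 → F) → (Fin 4 → F) → F)
    (hf : IsSymplecticForm f)
    (H L : Subgroup (GL (Fin 4) F)) (hfix : FixesForm (matrixSet H) f)
    (hirr : ActsIrreducibly (matrixSet H)) (hLH : L ≤ H) (hN : Nrm H L)
    (hns : ¬ L ≤ scalars (Fin 4) F) :
    ActsAbsolutelyIrreducibly (matrixSet L) ∨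
    (∃ D : Fin 2 → Submodule F (Fin 4 → F), IsNondegenerateMDecomposition f 2 D ∧
      H ≤ decompositionStabilizer D) ∨
    (∃ D : Fin 2 → Submodule F (Fin 4 → F), IsMDecomposition 2 D ∧
      (∀ i, IsTotallySingularFor f (D i)) ∧ H ≤ decompositionStabilizer D) ∨
    (∃ K : Subalgebra F (Matrix (Fin 4) (Fin 4) F), IsFieldSubalgebra 2 K ∧
      IsSelfAdjointFor f K ∧ (∀ k ∈ K, ∀ v : Fin 4 → F, f (k *ᵥ v) v = 0) ∧
      H ≤ subalgebraNormalizer K) ∨
    (∃ K : Subalgebra F (Matrix (Fin 4) (Fin 4) F), IsFieldSubalgebra 2 K ∧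
      IsAdjointClosedFor f K ∧ ¬ IsSelfAdjointFor f K ∧ H ≤ subalgebraNormalizer K) := by
  classical
  have hfixL : FixesForm (matrixSet L) f := by
    rintro s ⟨g, hg, rfl⟩
    exact hfix _ ⟨g, hLH hg, rfl⟩
  rcases CAP (by norm_num) H L hirr hLH hN with
    ⟨t, m, D, hD, hHD, hiso, hinv, hfull⟩ | ⟨d, k, e, P, R, hR, hR1, hR2⟩
  · have htm := C2 D hD
    have ht2 := hD.two_le
    have hm := hD.pos
    have hcases : (t = 2 ∧ m = 2) ∨ (t = 4 ∧ m = 1) := by
      have h1 : t ∣ 4 := Dvd.intro m htm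
      have h3 : t ≤ 4 := Nat.le_of_dvd (by norm_num) h1
      clear hD hHD hiso hinv hfull D
      interval_cases t <;> omega
    obtain ⟨τ, hτ, horth, hno⟩ := PAIRa f hf L hfixL D hD hiso hinv hfull
    rcases PAIRb f hf H hfix hirr D hD hHD τ hτ horth hno with hnd | ⟨hfp, hcompat⟩
    · rcases hcases with ⟨rfl, rfl⟩ | ⟨rfl, rfl⟩
      · exact Or.inr (Or.inl ⟨D, hnd, hHD⟩)
      · exfalso
        have hev := EVEN f hf.bilinear hf.alternating (D 0) (hnd.nondegenerate 0)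
        rw [hD.finrank_eq 0] at hev
        exact absurd hev (by decide)
    · rcases hcases with ⟨rfl, rfl⟩ | ⟨rfl, rfl⟩
      · have hts : ∀ i, IsTotallySingularFor f (D i) :=
          fun i => horth i i (fun h => hfp i h.symm)
        exact Or.inr (Or.inr (Or.inl ⟨D, hD, hts, hHD⟩))
      · obtain ⟨s, E, hE, hHE⟩ := PLN (by norm_num) f hf H D hD hHD τ hfp hτ horth hcompat
        have hs : s = 2 := by
          have h5 := C2 E hE.decomp
          omega
        subst hs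
        exact Or.inr (Or.inl ⟨E, hE, hHE⟩)
  · have hcard : 4 = d * k := by
      have := Fintype.card_congr e
      simpa using this
    -- the field alternative
    have fld : ∀ K : Subalgebra F (Matrix (Fin 4) (Fin 4) F), IsFieldSubalgebra 2 K →
        IsAdjointClosedFor f K → H ≤ subalgebraNormalizer K →
        (∃ K : Subalgebra F (Matrix (Fin 4) (Fin 4) F), IsFieldSubalgebra 2 K ∧
          IsSelfAdjointFor f K ∧ (∀ k ∈ K, ∀ v : Fin 4 → F, f (k *ᵥ v) v = 0) ∧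
          H ≤ subalgebraNormalizer K) ∨
        (∃ K : Subalgebra F (Matrix (Fin 4) (Fin 4) F), IsFieldSubalgebra 2 K ∧
          IsAdjointClosedFor f K ∧ ¬ IsSelfAdjointFor f K ∧ H ≤ subalgebraNormalizer K) := by
      intro K hK hadj hHK
      by_cases hsa : IsSelfAdjointFor f K
      · exact Or.inl ⟨K, hK, hsa, sak_odd h2 f hf K hsa, hHK⟩
      · exact Or.inr ⟨K, hK, hadj, hsa, hHK⟩
    by_cases hRa : ActsAbsolutelyIrreducibly (matrixSet R)
    · have hcases : (d = 1 ∧ k = 4) ∨ (d = 2 ∧ k = 2) ∨ (d = 4 ∧ k = 1) := by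
        have h1 : d ∣ 4 := Dvd.intro k hcard.symm
        have h3 : d ≤ 4 := Nat.le_of_dvd (by norm_num) h1
        clear hR hR1 hR2 hRa R e
        interval_cases d <;> omega
      rcases hcases with ⟨rfl, rfl⟩ | ⟨rfl, rfl⟩ | ⟨rfl, rfl⟩
      · exact absurd (B3s e P R L hR1) hns
      · rcases TEN22 h2 f hf H L hfix hLH hN e P R hRa hR1 hR2 with hD | ⟨K, hK, hadj, hsa, hHK⟩
        · exact Or.inr (Or.inr (Or.inl hD))
        · exact Or.inr (Or.inr (Or.inr (Or.inr ⟨K, hK, hadj, hsa, hHK⟩)))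
      · exact Or.inl (B3a e P R L hRa hR2)
    · obtain ⟨r, K, hr, hK, hHK, hKc⟩ := coreB (by norm_num) H L hLH hN e P R hR hR1 hR2 hRa
      have hr2 : r = 2 := by
        have hdvd : r ∣ 4 := C3 (by norm_num) r K hK
        have h3 : r ∣ 2 ^ 2 := by simpa using hdvd
        exact (Nat.prime_dvd_prime_iff_eq hr Nat.prime_two).mp (hr.dvd_of_dvd_pow h3)
      subst hr2
      have hadj : IsAdjointClosedFor f K :=
        ADJ (by norm_num) f hf L hfixL (HOMP e P R L hR hR1 hR2)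
          (fun Z hc hi r K₁ K₂ hK₁ hK₂ h1 h2 => UNIQ (by norm_num) Z hc hi r K₁ K₂ hK₁ hK₂ h1 h2)
          2 K hK hKc
      exact Or.inr (Or.inr (Or.inr (fld K hK hadj hHK)))

/-- the conclusion of `genS4odd` -/
def GenO (f : (Fin 4 → F) → (Fin 4 → F) → F) (H : Subgroup (GL (Fin 4) F)) : Prop :=
    (∃ W : Submodule F (Fin 4 → F), W ≠ ⊥ ∧ IsTotallySingularFor f W ∧
      H ≤ subspaceStabilizer W) ∨
    (∃ D : Fin 2 → Submodule F (Fin 4 → F), IsNondegenerateMDecomposition f 2 D ∧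
      H ≤ decompositionStabilizer D) ∨
    (5 ≤ Fintype.card F ∧ ∃ D : Fin 2 → Submodule F (Fin 4 → F), IsMDecomposition 2 D ∧
      (∀ i, IsTotallySingularFor f (D i)) ∧ H ≤ decompositionStabilizer D) ∨
    (∃ K : Subalgebra F (Matrix (Fin 4) (Fin 4) F), IsFieldSubalgebra 2 K ∧
      IsSelfAdjointFor f K ∧ (∀ k ∈ K, ∀ v : Fin 4 → F, f (k *ᵥ v) v = 0) ∧
      H ≤ subalgebraNormalizer K) ∨
    (∃ K : Subalgebra F (Matrix (Fin 4) (Fin 4) F), IsFieldSubalgebra 2 K ∧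
      IsAdjointClosedFor f K ∧ ¬ IsSelfAdjointFor f K ∧ H ≤ subalgebraNormalizer K) ∨
    (∃ (F₀ : Subfield F) (r : ℕ) (P : GL (Fin 4) F) (ζ : F), r.Prime ∧
      Fintype.card F = Nat.card F₀ ^ r ∧ ζ ≠ 0 ∧ IsFormRationalStructure f F₀ ζ P ∧
      H ≤ subfieldSubgroup F₀ P) ∨
    (∃ R : Subgroup (GL (Fin 4) F), (Fintype.card F).Prime ∧ IsSymplecticTypeGroup 2 R ∧
      ActsAbsolutelyIrreducibly (matrixSet R) ∧ FixesForm (matrixSet R) f ∧ Nat.card R = 32 ∧
      Nat.card (Subgroup.center R) = 2 ∧ IsOfMinusType 2 R ∧ H ≤ subgroupNormalizer R) ∨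
    InSymplecticResidualClass H

/-- GENS4ODD: the structure of a group of isometries of a symplectic form in dimension 4 over a
finite field of odd characteristic. -/
theorem genS4odd (hodd : Odd (Fintype.card F)) (f : (Fin 4 → F) → (Fin 4 → F) → F)
    (hf : IsSymplecticForm f)
    (H : Subgroup (GL (Fin 4) F)) (hfix : FixesForm (matrixSet H) f) : GenO f H := by
  classical
  have h2 : (2 : F) ≠ 0 := two_ne_zero_of_odd hodd
  have hq3 : ¬ 5 ≤ Fintype.card F → Fintype.card F = 3 := by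
    intro h5
    have h1 : 1 < Fintype.card F := Fintype.one_lt_card
    rcases hodd with ⟨a, ha⟩
    omega
  -- the four outcomes of the Clifford step
  have nd : (∃ D : Fin 2 → Submodule F (Fin 4 → F), IsNondegenerateMDecomposition f 2 D ∧
      H ≤ decompositionStabilizer D) → GenO f H := fun h => Or.inr (Or.inl h)
  have ti : (∃ D : Fin 2 → Submodule F (Fin 4 → F), IsMDecomposition 2 D ∧
      (∀ i, IsTotallySingularFor f (D i)) ∧ H ≤ decompositionStabilizer D) → GenO f H := by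
    rintro ⟨D, hD, hts, hHD⟩
    by_cases h5 : 5 ≤ Fintype.card F
    · exact Or.inr (Or.inr (Or.inl ⟨h5, D, hD, hts, hHD⟩))
    · exact nd (E1 (hq3 h5) f hf H hfix D hD hts hHD)
  have sa : (∃ K : Subalgebra F (Matrix (Fin 4) (Fin 4) F), IsFieldSubalgebra 2 K ∧
      IsSelfAdjointFor f K ∧ (∀ k ∈ K, ∀ v : Fin 4 → F, f (k *ᵥ v) v = 0) ∧
      H ≤ subalgebraNormalizer K) → GenO f H := fun h => Or.inr (Or.inr (Or.inr (Or.inl h)))
  have un : (∃ K : Subalgebra F (Matrix (Fin 4) (Fin 4) F), IsFieldSubalgebra 2 K ∧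
      IsAdjointClosedFor f K ∧ ¬ IsSelfAdjointFor f K ∧ H ≤ subalgebraNormalizer K) →
      GenO f H := fun h => Or.inr (Or.inr (Or.inr (Or.inr (Or.inl h))))
  by_cases h1 : ActsIrreducibly (matrixSet H)
  · by_cases habs : ActsAbsolutelyIrreducibly (matrixSet H)
    · obtain ⟨L, hL⟩ := B4 (by norm_num) H habs
      have hfixL : FixesForm (matrixSet L) f := by
        rintro s ⟨g, hg, rfl⟩
        exact hfix _ ⟨g, hL.le hg, rfl⟩
      rcases cliff4odd h2 f hf H L hfix h1 hL.le hL.nrm hL.ns with hLa | hD | hD | hK | hK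
      · -- the subfield alternative
        have subf : (∃ F₀ : Subfield F, F₀ ≠ ⊤ ∧ RealisableOver F₀ (matrixSet L)) →
            GenO f H := by
          rintro ⟨F₀, hF₀, hreal⟩
          obtain ⟨F₁, r, τ, hr, hcard, hle, hfixτ⟩ := exists_subfield_aut F₀ hF₀
          obtain ⟨B, hB⟩ := hreal
          have hB₁ : ∀ s ∈ matrixSet L, ∀ i j,
              (B.1 * s * (B⁻¹ : GL (Fin 4) F).1) i j ∈ F₁ :=
            fun s hs i j => hle (hB s hs i j)
          have hHle : H ≤ subfieldSubgroup F₁ B⁻¹ := by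
            intro h hh
            have key := NL_core L hLa F₁ τ hfixτ B hB₁ h (fun x hx => hL.nrm h hh x hx)
            unfold subfieldSubgroup
            refine ⟨B * h * B⁻¹, key, ?_⟩
            show B⁻¹ * (B * h * B⁻¹) * B⁻¹⁻¹ = h
            group
          obtain ⟨ζ, hζ, hrat⟩ := O8a (by norm_num) L hLa f hf.bilinear hf.nondegenerate
            hfixL F₁ τ hfixτ B hB₁
          exact Or.inr (Or.inr (Or.inr (Or.inr (Or.inr (Or.inl
            ⟨F₁, r, B⁻¹, ζ, hr, hcard, hζ, hrat, hHle⟩)))))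
        rcases hL.min ⁅L, L⁆ (commutator_le_self L) hL.nrm.commutator with hc | hc
        · have hsym : SymT H L := ⟨hL, hLa, hc⟩
          obtain ⟨hst, hc32, hcen, hz⟩ := C6A h2 f hf H L hsym hfixL
          by_cases hnp : (Fintype.card F).Prime
          · exact Or.inr (Or.inr (Or.inr (Or.inr (Or.inr (Or.inr (Or.inl
              ⟨L, hnp, hst, hLa, hfixL, hc32, hcen, MINUS h2 f hf L hfixL,
                le_normalizer_of_nrm H L hL.nrm⟩))))))
          · obtain ⟨σ, hσ⟩ := PRIMEF hnp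
            obtain ⟨M, hM, hint⟩ := DESC1 h2 f hf H L hsym hfixL hz σ
            exact subf (DESC2 (by norm_num) L hLa σ hσ M hM hint)
        · rcases B6 H L hL hc with ⟨hs, hna⟩ | ⟨k, Ps, hk, hnsP, hcomm, hsup, -, -⟩
          · by_cases hsubf : ∃ F₀ : Subfield F, F₀ ≠ ⊤ ∧ RealisableOver F₀ (matrixSet L)
            · exact subf hsubf
            · by_cases hQ : ∃ Q₀ : (Fin 4 → F) → F, IsNondegenerateQuadraticForm Q₀ ∧
                  FixesQuadForm (matrixSet L) Q₀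
              · obtain ⟨Q₀, hQ₀, hLQ₀⟩ := hQ
                exact absurd hodd
                  (SQ f hf (by norm_num) H L hL.le hL.nrm hLa hfix Q₀ hQ₀ hLQ₀).1
              · by_cases hU : ∃ (σ : F ≃+* F) (fu : (Fin 4 → F) → (Fin 4 → F) → F),
                    IsUnitaryForm σ fu ∧ FixesForm (matrixSet L) fu
                · obtain ⟨σ, fu, hfu, hfixu⟩ := hU
                  exact absurd (O7 (by norm_num) L hLa f hf.bilinear hf.nondegenerate hfixL σ fu
                    hfu hfixu) hsubf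
                · exact Or.inr (Or.inr (Or.inr (Or.inr (Or.inr (Or.inr (Or.inr
                    ⟨L, B7core H L hL.le hL.nrm hLa hc hs hna
                      (fun F₀ hF₀ hreal => hsubf ⟨F₀, hF₀, hreal⟩), hQ, hU⟩))))))
          · exfalso
            obtain ⟨N, e, P, R, hNL, hNN, hRa, hR1, hR2⟩ := COMP L hLa k Ps hk hnsP hcomm hsup
            rcases TEN22 h2 f hf L N hfixL hNL hNN e P R hRa hR1 hR2 with
              ⟨D, hD, -, hLD⟩ | ⟨K, hK, -, -, hLK⟩
            · exact PERFD L hc D hD hLD hLa.1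
            · exact PERFK h2 L hc K hK hLK hLa
      · exact nd hD
      · exact ti hD
      · exact sa hK
      · exact un hK
    · have hHns := not_le_scalars (by norm_num) H h1
      have hNH : Nrm H H := fun h hh x hx => H.mul_mem (H.mul_mem hh hx) (H.inv_mem hh)
      rcases cliff4odd h2 f hf H H hfix h1 le_rfl hNH hHns with hLa | hD | hD | hK | hK
      · exact absurd hLa habs
      · exact nd hD
      · exact ti hD
      · exact sa hK
      · exact un hK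
  · rcases S1 f hf H hfix h1 with ⟨W, h0, hts, hle⟩ | ⟨W, h0, hnd, hdim, hle⟩
    · exact Or.inl ⟨W, h0, hts, hle⟩
    · exact nd (PLANE f hf H hfix W h0 hnd hdim hle)

/-- The maximal subgroups of `Sp_4(F)`, `F` of odd characteristic. -/
theorem sp4odd_cases (hodd : Odd (Fintype.card F))
    (H : Subgroup (GL (Fin 2 ⊕ Fin 2) F)) (hH : IsMaximalIn (Cfsg.spGL 2 F) H) :
    (∃ W : Submodule F (Fin 2 ⊕ Fin 2 → F), W ≠ ⊥ ∧ IsTotallySingularFor (Cfsg.sympForm 2 F) W ∧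
      H = subspaceStabilizer W ⊓ Cfsg.spGL 2 F) ∨
    (∃ D : Fin 2 → Submodule F (Fin 2 ⊕ Fin 2 → F),
      IsNondegenerateMDecomposition (Cfsg.sympForm 2 F) 2 D ∧
      H = decompositionStabilizer D ⊓ Cfsg.spGL 2 F) ∨
    (5 ≤ Fintype.card F ∧ ∃ D : Fin 2 → Submodule F (Fin 2 ⊕ Fin 2 → F), IsMDecomposition 2 D ∧
      (∀ i, IsTotallySingularFor (Cfsg.sympForm 2 F) (D i)) ∧
      H = decompositionStabilizer D ⊓ Cfsg.spGL 2 F) ∨
    (∃ K : Subalgebra F (Matrix (Fin 2 ⊕ Fin 2) (Fin 2 ⊕ Fin 2) F), IsFieldSubalgebra 2 K ∧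
      IsSelfAdjointFor (Cfsg.sympForm 2 F) K ∧
      (∀ k ∈ K, ∀ v : (Fin 2 ⊕ Fin 2 → F), (Cfsg.sympForm 2 F) (Matrix.mulVec k v) v = 0) ∧
      H = subalgebraNormalizer K ⊓ Cfsg.spGL 2 F) ∨
    (5 ≤ Fintype.card F ∧ ∃ K : Subalgebra F (Matrix (Fin 2 ⊕ Fin 2) (Fin 2 ⊕ Fin 2) F),
      IsFieldSubalgebra 2 K ∧ IsAdjointClosedFor (Cfsg.sympForm 2 F) K ∧
      ¬ IsSelfAdjointFor (Cfsg.sympForm 2 F) K ∧
      H = subalgebraNormalizer K ⊓ Cfsg.spGL 2 F) ∨
    (∃ (F₀ : Subfield F) (r : ℕ) (P : GL (Fin 2 ⊕ Fin 2) F) (ζ : F), r.Prime ∧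
      Fintype.card F = Nat.card F₀ ^ r ∧ ζ ≠ 0 ∧
      IsFormRationalStructure (Cfsg.sympForm 2 F) F₀ ζ P ∧
      H = subfieldSubgroup F₀ P ⊓ Cfsg.spGL 2 F) ∨
    (∃ (p : ℕ) (R : Subgroup (GL (Fin 2 ⊕ Fin 2) F)), p.Prime ∧ Fintype.card F = p ∧
      IsSymplecticTypeGroup 2 R ∧ ActsAbsolutelyIrreducibly (matrixSet R) ∧
      R ≤ similarityGroup (Cfsg.sympForm 2 F) ∧ Nat.card R = 32 ∧
      Nat.card (Subgroup.center R) = 2 ∧ IsOfMinusType 2 R ∧
      H = subgroupNormalizer R ⊓ Cfsg.spGL 2 F) ∨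
    InSymplecticResidualClass H := by
  classical
  have h2 : (2 : F) ≠ 0 := two_ne_zero_of_odd hodd
  have hf : IsSymplecticForm (Cfsg.sympForm 2 F) := Cfsg.Agent.Lib.Helper97.sympForm_symp 2
  let e : Fin 2 ⊕ Fin 2 ≃ Fin 4 := finSumFinEquiv
  have hf' := TS0a e (Cfsg.sympForm 2 F) hf
  have hHsp : FixesForm (matrixSet H) (Cfsg.sympForm 2 F) := by
    rintro s ⟨g, hg, rfl⟩ u v
    exact hH.1.le hg u v
  have hfix' := TS0b e (Cfsg.sympForm 2 F) H hHsp
  have hg := genS4odd hodd (tf e (Cfsg.sympForm 2 F)) hf' (H.map (glReindex e).toMonoidHom) hfix'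
  unfold GenO at hg
  rcases hg with
    ⟨W', h0, hts, hle⟩ | ⟨D', hD', hle⟩ | ⟨h5, D', hD', hts, hle⟩ | ⟨K', hK', hsa, hkv, hle⟩ |
    ⟨K', hK', hadj, hnsa, hle⟩ | ⟨F₀, r, P', ζ, hr, hcard, hζ, hrat, hle⟩ |
    ⟨R', hp, hRs, hRa, hRf, hR32, hRZ, hRm, hle⟩ | hres
  · left
    obtain ⟨t1, t2, -, t4, -⟩ := TS1 e (Cfsg.sympForm 2 F) H W'
    have hW0 : tW e W' ≠ ⊥ := t2 h0
    have hWts := t4 hts
    refine ⟨tW e W', hW0, hWts, eq_inf_of_max' hH (t1 hle) ?_⟩
    intro hcon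
    obtain ⟨t, ht1, ht2⟩ :=
      Cfsg.Agent.Lib.Helper97.exists_isometry_not_stab_ts hf (tW e W') hWts hW0
    exact ht2 (hcon ht1)
  · right; left
    obtain ⟨s1, s2, s3⟩ := TS2 (m := 2) e (Cfsg.sympForm 2 F) H D'
    exact ⟨_, s3 hD', eq_inf_of_max' hH (s1 hle) (NS2 2 (by norm_num) _ (s3 hD').decomp)⟩
  · right; right; left
    obtain ⟨s1, s2, s3⟩ := TS2 (m := 2) e (Cfsg.sympForm 2 F) H D'
    exact ⟨h5, _, s2 hD', fun i => (TS1 e (Cfsg.sympForm 2 F) H (D' i)).2.2.2.1 (hts i),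
      eq_inf_of_max' hH (s1 hle) (NS2 2 (by norm_num) _ (s2 hD'))⟩
  · right; right; right; left
    obtain ⟨t1, t2, t3, -, t5⟩ := TS3 e (Cfsg.sympForm 2 F) H 2 K'
    exact ⟨tK e K', t2 hK', t3.mp hsa, t5 hkv,
      eq_inf_of_max' hH (t1 hle) (NS3 2 (by norm_num) 2 (by norm_num) (tK e K') (t2 hK'))⟩
  · by_cases h5 : 5 ≤ Fintype.card F
    · right; right; right; right; left
      obtain ⟨k1, k2, k3, k4, k5⟩ := TS3 e (Cfsg.sympForm 2 F) H 2 K'
      exact ⟨h5, tK e K', k2 hK', k4 hadj, fun h => hnsa (k3.2 h),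
        eq_inf_of_max' hH (k1 hle) (NS3 2 (by norm_num) 2 le_rfl _ (k2 hK'))⟩
    · -- `q = 3`: the normaliser of `K` is not maximal
      exfalso
      have hq : Fintype.card F = 3 := by
        have h1 : 1 < Fintype.card F := Fintype.one_lt_card
        rcases hodd with ⟨a, ha⟩
        omega
      obtain ⟨M', m', t', hM', hm'f, hm'M, hm'K, ht'f, ht'M⟩ :=
        E2L hq h2 (tf e (Cfsg.sympForm 2 F)) hf' K' hK' hadj hnsa
      -- isometries of the transported form come from `Sp`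
      have hsp : ∀ g' : GL (Fin 4) F,
          (∀ u v : Fin 4 → F, tf e (Cfsg.sympForm 2 F) (g'.1 *ᵥ u) (g'.1 *ᵥ v) =
            tf e (Cfsg.sympForm 2 F) u v) → (glReindex e).symm g' ∈ Cfsg.spGL 2 F := by
        intro g' hg'
        rw [Cfsg.Agent.Lib.Helper97.mem_spGL_iff]
        intro u v
        have key : ∀ w : Fin 2 ⊕ Fin 2 → F,
            (((glReindex e).symm g' : GL (Fin 2 ⊕ Fin 2) F) : Matrix _ _ F) *ᵥ w =
              (g'.1 *ᵥ (w ∘ e.symm)) ∘ e := by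
          intro w
          have h3 := TS0_key e ((glReindex e).symm g') (w ∘ e.symm)
          rw [MulEquiv.apply_symm_apply, TS0_comp] at h3
          exact h3.symm
        rw [key, key]
        have h4 := hg' (u ∘ e.symm) (v ∘ e.symm)
        have h5' : ∀ a b : Fin 4 → F, tf e (Cfsg.sympForm 2 F) a b =
            Cfsg.sympForm 2 F (a ∘ e) (b ∘ e) := fun a b => rfl
        rw [h5', h5', TS0_comp, TS0_comp] at h4
        exact h4
      have hHM : H ≤ M'.comap (glReindex e).toMonoidHom ⊓ Cfsg.spGL 2 F := by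
        intro g hg
        refine ⟨?_, hH.1.le hg⟩
        show glReindex e g ∈ M'
        exact hM' _ (fun u v => hfix' _ ⟨glReindex e g, ⟨g, hg, rfl⟩, rfl⟩ u v)
          (hle ⟨g, hg, rfl⟩)
      have hmem : ∀ x' : GL (Fin 4) F, (glReindex e).symm x' ∈
          M'.comap (glReindex e).toMonoidHom ↔ x' ∈ M' := by
        intro x'
        show glReindex e ((glReindex e).symm x') ∈ M' ↔ x' ∈ M'
        rw [MulEquiv.apply_symm_apply]
      rcases hH.2 (M'.comap (glReindex e).toMonoidHom ⊓ Cfsg.spGL 2 F) hHM inf_le_right with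
        h | h
      · have hm : (glReindex e).symm m' ∈
            M'.comap (glReindex e).toMonoidHom ⊓ Cfsg.spGL 2 F :=
          ⟨(hmem m').2 hm'M, hsp m' hm'f⟩
        rw [h] at hm
        apply hm'K
        have h6 : glReindex e ((glReindex e).symm m') ∈ subalgebraNormalizer K' :=
          hle ⟨_, hm, rfl⟩
        rw [MulEquiv.apply_symm_apply] at h6
        exact h6
      · have ht : (glReindex e).symm t' ∈
            M'.comap (glReindex e).toMonoidHom ⊓ Cfsg.spGL 2 F := by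
          rw [h]
          exact hsp t' ht'f
        exact ht'M ((hmem t').1 ht.1)
  · right; right; right; right; right; left
    obtain ⟨t1, t2⟩ := TS5 e (Cfsg.sympForm 2 F) H F₀ ζ P'
    have hF₀ : F₀ ≠ ⊤ := by
      rintro rfl
      have h3 : Nat.card (⊤ : Subfield F) = Fintype.card F := by
        rw [← Nat.card_eq_fintype_card]
        exact Nat.card_congr Subfield.topEquiv.toEquiv
      rw [h3] at hcard
      have h4 : 1 < Fintype.card F := Fintype.one_lt_card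
      have h5 : Fintype.card F ^ 1 < Fintype.card F ^ r := Nat.pow_lt_pow_right h4 hr.one_lt
      rw [pow_one] at h5
      omega
    exact ⟨F₀, r, (glReindex e).symm P', ζ, hr, hcard, hζ, t2 hrat,
      eq_inf_of_max' hH (t1 hle) (NS5 2 (by norm_num) F₀ hF₀ _)⟩
  · right; right; right; right; right; right; left
    obtain ⟨R, hs, ha, hsim, hc, hz, hm, hHR⟩ :=
      TS7 e (Cfsg.sympForm 2 F) H R' hRs hRa hRf hR32 hRZ hRm hle
    exact ⟨Fintype.card F, R, hp, rfl, hs, ha, hsim, hc, hz, hm,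
      eq_inf_of_max' hH hHR (NS7 h2 R hs ha hc hz)⟩
  · right; right; right; right; right; right; right
    exact TRS e H hres

end Cfsg.Agent.Lib.Helper54.SP4OL
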