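import Mathlib
import Cfsg.Agent.Lib.Helper88.SSolDefs
import Cfsg.Agent.Lib.Helper31.SSolJ14

/-!
S5287 piece J7: the quasidihedral model (a quasidihedral group as a Sylow 2-subgroup of
`GL₂(q)` with the fusion property `StarModel`).
-/

set_option autoImplicit false

namespace Cfsg.Agent.Lib.Helper54.SSolJ7

open Cfsg.Agent.Lib.Helper88.SSol
open Cfsg.Agent.Lib.Helper31.SSol (rel_conj_pow exists_hom_of_rel)

/-- Non-commutation facts in a quasidihedral group. -/
theorem qd_facts {S : Type*} [Group S] (k : ℕ) {x y : S} (hx : orderOf x = 2 ^ (k + 3))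
    (hy : y * y = 1) (hrel : y * x * y⁻¹ = x ^ (2 ^ (k + 2) - 1)) :
    x * y ≠ y * x ∧ y * (x * y * x⁻¹) ≠ x * y * x⁻¹ * y ∧
      x * y * x ^ 2 ^ (k + 1) ≠ x ^ 2 ^ (k + 1) * (x * y) := by
  obtain ⟨K, hK⟩ : ∃ K, K = 2 ^ k := ⟨_, rfl⟩
  have hK1 : 1 ≤ K := by rw [hK]; exact Nat.one_le_two_pow
  have p1 : 2 ^ (k + 1) = 2 * K := by rw [hK, pow_succ]; ring
  have p2 : 2 ^ (k + 2) = 4 * K := by rw [hK, pow_succ, pow_succ]; ring
  have p3 : 2 ^ (k + 3) = 8 * K := by rw [hK, pow_succ, pow_succ, pow_succ]; ring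
  rw [p3] at hx
  rw [p2] at hrel
  rw [p1]
  obtain ⟨e, he⟩ : ∃ e, e = 4 * K - 1 := ⟨_, rfl⟩
  rw [← he] at hrel
  have hinv : y⁻¹ = y := inv_eq_of_mul_eq_one_left hy
  have h1 : y * x = x ^ e * y := by rw [← hrel]; group
  refine ⟨?_, ?_, ?_⟩
  · intro hc
    rw [h1] at hc
    have h2 : x ^ 1 = x ^ e := by rw [pow_one]; exact mul_right_cancel hc
    rw [pow_eq_pow_iff_modEq, hx] at h2
    unfold Nat.ModEq at h2
    rw [Nat.mod_eq_of_lt (by omega), Nat.mod_eq_of_lt (by omega)] at h2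
    omega
  · intro hc
    have h3 : y * x * y = x ^ e := by rw [h1, mul_assoc, hy, mul_one]
    have h4 : y * x⁻¹ * y = (x ^ e)⁻¹ := by
      rw [← h3, mul_inv_rev, mul_inv_rev, hinv, mul_assoc]
    have h5 : x ^ e * x⁻¹ = x * (x ^ e)⁻¹ := by
      calc x ^ e * x⁻¹ = y * (x * y * x⁻¹) := by rw [← h3]; group
        _ = x * y * x⁻¹ * y := hc
        _ = x * (y * x⁻¹ * y) := by group
        _ = x * (x ^ e)⁻¹ := by rw [h4]
    have h6 : x ^ (e + e) = x ^ 2 := by
      calc x ^ (e + e) = (x ^ e * x⁻¹) * x * x ^ e := by rw [pow_add]; group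
        _ = (x * (x ^ e)⁻¹) * x * x ^ e := by rw [h5]
        _ = x ^ 2 := by group
    rw [pow_eq_pow_iff_modEq, hx] at h6
    unfold Nat.ModEq at h6
    rw [Nat.mod_eq_of_lt (by omega), Nat.mod_eq_of_lt (by omega)] at h6
    omega
  · intro hc
    have h2 : y * x ^ (2 * K) = x ^ (2 * K * e) * y := by
      have := rel_conj_pow hrel 1 (2 * K)
      rwa [pow_one, pow_one] at this
    have h3 : x ^ (2 * K * e) = x ^ (2 * K) := by
      have : x * x ^ (2 * K * e) * y = x * x ^ (2 * K) * y := by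
        calc x * x ^ (2 * K * e) * y = x * (y * x ^ (2 * K)) := by rw [h2]; group
          _ = x * y * x ^ (2 * K) := by group
          _ = x ^ (2 * K) * (x * y) := hc
          _ = x * x ^ (2 * K) * y := by group
      exact mul_left_cancel (mul_right_cancel this)
    have h4 : x ^ (4 * K) = 1 := by
      calc x ^ (4 * K) = x ^ (2 * K) * x ^ (2 * K) := by rw [← pow_add]; congr 1; ring
        _ = x ^ (2 * K * e) * x ^ (2 * K) := by rw [h3]
        _ = x ^ (8 * K * K) := by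
          rw [← pow_add]
          congr 1
          have : e + 1 = 4 * K := by omega
          calc 2 * K * e + 2 * K = 2 * K * (e + 1) := by ring
            _ = 8 * K * K := by rw [this]; ring
        _ = 1 := by rw [pow_mul, ← hx, pow_orderOf_eq_one, one_pow]
    have h5 := orderOf_dvd_of_pow_eq_one h4
    rw [hx] at h5
    have := Nat.le_of_dvd (by omega) h5
    omega

/-- **J7**: the quasidihedral model. -/
theorem sd_model {S : Type*} [Group S] [Finite S] (hQD : Cfsg.IsQuasiDihedral S)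
    (hdata : ∀ n : ℕ, 3 ≤ n → ∃ (q : ℕ) (t : ZMod q),
      PrimeT n q t ∧ SDData n q t ∧ C1Stmt q ∧ C2Stmt q) : StarModel S := by
  obtain ⟨n, hn, hcard, x, y, hx, hyo, hrel⟩ := hQD
  obtain ⟨q, t, ⟨hq, hqmod, hpow⟩, d, C1, C2⟩ := hdata n hn
  obtain ⟨k, rfl⟩ : ∃ k, n = k + 3 := ⟨n - 3, by omega⟩
  have e1 : k + 3 - 1 = k + 2 := rfl
  rw [e1] at hrel hpow
  have hconj := d.conj
  rw [e1] at hconj
  have hy : y * y = 1 := by rw [← pow_two, ← hyo]; exact pow_orderOf_eq_one y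
  obtain ⟨hxy, hb, hc⟩ := qd_facts k hx hy hrel
  have hyx : y ∉ Subgroup.zpowers x := by
    intro hmem
    obtain ⟨i, rfl⟩ := Subgroup.mem_zpowers_iff.mp hmem
    apply hxy
    exact (Commute.zpow_right (Commute.refl x) i).eq
  have : Fact q.Prime := ⟨hq⟩
  have hX : xU q t ^ 2 ^ (k + 3) = 1 := by rw [← d.orderOf_x]; exact pow_orderOf_eq_one _
  have hY : yU q t * yU q t = 1 := yU_mul_self q t
  obtain ⟨f, hfx, hfy, hrange, hinj'⟩ := exists_hom_of_rel x y (xU q t) (yU q t)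
    (by rw [hcard, pow_succ]; ring) hx hy hyx hrel hX hY hconj
  have hinj := hinj' d.orderOf_x d.y_notMem
  have hneg : xU q t ^ 2 ^ (k + 2) = -1 := by
    apply Units.ext
    rw [Units.val_pow_eq_pow_val, coe_xU, hpow]
    simp
  have hsyl : ∃ T : Sylow 2 (GL2 q), (T : Subgroup (GL2 q)) = f.range := by
    obtain ⟨c, hc1, hc2⟩ := d.card_GL
    have hc0 : c ≠ 0 := by
      rintro rfl
      simp at hc2
    have hfact : (Nat.card (GL2 q)).factorization 2 = k + 3 + 1 := by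
      rw [hc1, Nat.factorization_mul (by positivity) hc0,
        Nat.Prime.factorization_pow Nat.prime_two]
      simp [Nat.factorization_eq_zero_of_not_dvd hc2]
    have hcr : Nat.card f.range = 2 ^ (Nat.card (GL2 q)).factorization 2 := by
      rw [hfact, hrange, d.card_closure]
    exact ⟨Sylow.ofCard f.range hcr, Sylow.coe_ofCard _ _⟩
  refine ⟨GL2 q, inferInstance, inferInstance, f, hinj, hsyl, ⟨x, y, hxy⟩, ?_⟩
  intro s hs
  have hcen : ∀ g : GL2 q, (-1 : GL2 q) * g = g * (-1) := fun g => by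
    rw [neg_one_mul, mul_neg_one]
  have hu1 : f s ≠ 1 := by
    intro h
    apply hs
    have : s = 1 := hinj (by rw [h, map_one])
    rw [this]
    exact one_mem _
  have hu2 : f s ≠ -1 := by
    intro h
    apply hs
    rw [Subgroup.mem_center_iff]
    intro g
    apply hinj
    rw [map_mul, map_mul, h, hcen]
  obtain ⟨a, ha, hsa⟩ := (Nat.dvd_prime_pow Nat.prime_two).mp
    (by rw [← hcard]; exact orderOf_dvd_natCard s : orderOf s ∣ 2 ^ (k + 3 + 1))
  have hua : orderOf (f s) = 2 ^ a := by rw [orderOf_injective f hinj s, hsa]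
  have ha1 : 1 ≤ a := by
    by_contra h0
    have : a = 0 := by omega
    rw [this, pow_zero, orderOf_eq_one_iff] at hua
    exact hu1 hua
  obtain ⟨b, rfl⟩ : ∃ b, a = b + 1 := ⟨a - 1, by omega⟩
  have hww : (f s) ^ 2 ^ b * (f s) ^ 2 ^ b = 1 := by
    rw [← pow_add, ← two_mul, ← pow_succ', ← hua]
    exact pow_orderOf_eq_one _
  have hw1 : (f s) ^ 2 ^ b ≠ 1 := by
    apply pow_ne_one_of_lt_orderOf (by positivity)
    rw [hua]
    exact Nat.pow_lt_pow_right (by norm_num) (by omega)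
  by_cases hw : (f s) ^ 2 ^ b = -1
  · have hb1 : 1 ≤ b := by
      by_contra h0
      have : b = 0 := by omega
      rw [this, pow_zero, pow_one] at hw
      exact hu2 hw
    obtain ⟨c, rfl⟩ : ∃ c, b = c + 1 := ⟨b - 1, by omega⟩
    have hvv : (f s) ^ 2 ^ c * (f s) ^ 2 ^ c = -1 := by
      rw [← pow_add, ← two_mul, ← pow_succ']
      exact hw
    have hXY : (xU q t * yU q t) * (xU q t * yU q t) = -1 := by
      have h := yx_mul_self q t
      calc (xU q t * yU q t) * (xU q t * yU q t)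
          = xU q t * ((yU q t * xU q t) * (yU q t * xU q t)) * (xU q t)⁻¹ := by group
        _ = -1 := by rw [h, mul_neg_one, neg_mul, mul_inv_cancel]
    have hXM : xU q t ^ 2 ^ (k + 1) * xU q t ^ 2 ^ (k + 1) = -1 := by
      rw [← pow_add, ← two_mul, ← pow_succ']
      exact hneg
    obtain ⟨g₁, -, hg₁⟩ := C2 _ _ hvv hXY
    obtain ⟨g₂, -, hg₂⟩ := C2 _ _ hvv hXM
    refine ⟨2 ^ c, x * y, x ^ 2 ^ (k + 1), g₁, g₂, ?_, ?_, hc⟩
    · rw [map_mul, hfx, hfy, map_pow, hg₁]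
    · rw [map_pow, hfx, map_pow, hg₂]
  · have hY1 : yU q t ≠ 1 := fun h => d.y_notMem (h ▸ one_mem _)
    have hYm : yU q t ≠ -1 := fun h => d.y_notMem (by
      rw [h, ← hneg]
      exact Subgroup.npow_mem_zpowers _ _)
    have hY' : (xU q t * yU q t * (xU q t)⁻¹) * (xU q t * yU q t * (xU q t)⁻¹) = 1 := by
      calc (xU q t * yU q t * (xU q t)⁻¹) * (xU q t * yU q t * (xU q t)⁻¹)
          = xU q t * (yU q t * yU q t) * (xU q t)⁻¹ := by group
        _ = 1 := by rw [hY, mul_one, mul_inv_cancel]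
    have hY'1 : xU q t * yU q t * (xU q t)⁻¹ ≠ 1 := by
      intro h
      apply hY1
      calc yU q t = (xU q t)⁻¹ * (xU q t * yU q t * (xU q t)⁻¹) * xU q t := by group
        _ = 1 := by rw [h]; group
    have hY'm : xU q t * yU q t * (xU q t)⁻¹ ≠ -1 := by
      intro h
      apply hYm
      calc yU q t = (xU q t)⁻¹ * (xU q t * yU q t * (xU q t)⁻¹) * xU q t := by group
        _ = -1 := by rw [h, mul_neg_one, neg_mul, inv_mul_cancel]
    obtain ⟨g₁, hg₁⟩ := C1 _ _ hww hw1 hw hY hY1 hYm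
    obtain ⟨g₂, hg₂⟩ := C1 _ _ hww hw1 hw hY' hY'1 hY'm
    refine ⟨2 ^ b, y, x * y * x⁻¹, g₁, g₂, ?_, ?_, hb⟩
    · rw [hfy, map_pow, hg₁]
    · rw [map_mul, map_mul, map_inv, hfx, hfy, map_pow, hg₂]

end Cfsg.Agent.Lib.Helper54.SSolJ7
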